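/-
Project HK (S5175): minimal 2-fusion systems with a proper subsystem containing the full parabolics.
The top interface: the data of the two endgames and the statements of the cases.
-/
import Cfsg.Agent.Even.NatSL2b
import Cfsg.Agent.Fus.Realized
import Cfsg.Agent.Fus.Alperin
import Cfsg.Statements.S5175

set_option autoImplicit false

open Cfsg Subgroup
open scoped commutatorElement

namespace CL.HK

open CL.Fus CL.Loc CL.Grp CL.Even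

universe u u'

/-- a level function: the sublevel sets are subgroups with abelian steps -/
structure Lv {X : Type*} [Group X] (C : Subgroup X) (l : X → ℕ) : Prop where
  zero : ∀ a ∈ C, l a = 0 → a = 1
  mul : ∀ a ∈ C, ∀ b ∈ C, l (a * b) ≤ max (l a) (l b)
  inv : ∀ a ∈ C, l a⁻¹ = l a
  com : ∀ a ∈ C, ∀ b ∈ C, ⁅a, b⁆ ≠ 1 → l ⁅a, b⁆ < max (l a) (l b)

section
variable {Ω : Type u} [Group Ω] {S : Subgroup Ω}

/-- minimality in the form in which it is used -/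
def Chain (F : FusionSystem S) : Prop :=
  ∀ x ∈ S, x ≠ 1 → ∃ l : Ω → ℕ, Lv (S ⊓ centralizer {x}) l ∧
    ∀ P f, Mor F P f → x ∈ P → f x = x → ∀ a ∈ P, a ∈ centralizer ({x} : Set Ω) → l (f a) = l a

/-- the conclusion of the theorem -/
def Concl (F : FusionSystem S) : Prop :=
    ∃ (G : Type u) (_ : Group G) (_ : Finite G) (ι : ↥S →* G),
      F.IsRealizedBy ι ∧ (∃ T : Sylow 2 G, (T : Subgroup G) = ι.range) ∧
      (((∃ m : ℕ, 8 ≤ m ∧ Nonempty (↥S ≃* DihedralGroup m)) ∧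
          ∃ (K : Type) (_ : Field K) (_ : Fintype K), Odd (Fintype.card K) ∧
            (Nonempty (G ≃* Matrix.ProjectiveSpecialLinearGroup (Fin 2) K) ∨
              Nonempty (G ≃* GL (Fin 2) K ⧸ Subgroup.center (GL (Fin 2) K)))) ∨
        (Cfsg.IsQuasiDihedral ↥S ∧
          ∃ (K : Type) (_ : Field K) (_ : Fintype K) (r : ℕ), Odd r ∧ Fintype.card K = r ^ 2 ∧
            ∃ L : Subgroup G, L.Normal ∧ L.index = 2 ∧ Subgroup.centralizer (L : Set G) = ⊥ ∧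
              Nonempty (↥L ≃* Matrix.ProjectiveSpecialLinearGroup (Fin 2) K)) ∨
        (Cfsg.IsQuasiDihedral ↥S ∧ Nat.card S = 16 ∧
          Nonempty (G ≃* Matrix.ProjectiveSpecialLinearGroup (Fin 3) (ZMod 3))) ∨
        (Nat.card S = 32 ∧ (Nonempty (G ≃* MulAut ↥(alternatingGroup (Fin 6))) ∨
          Nonempty (G ≃* MulAut (Matrix.ProjectiveSpecialLinearGroup (Fin 3) (ZMod 3))))) ∨
        (Nat.card S = 2 ^ 7 ∧ Cfsg.Spor.IsoJ3 G) ∨
        (∃ (K : Type) (_ : Field K) (_ : Fintype K),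
          (Nonempty (↥(Cfsg.generalizedFittingSubgroup G) ≃* Matrix.ProjectiveSpecialLinearGroup (Fin 3) K) ∨
            (Nonempty (↥(Cfsg.generalizedFittingSubgroup G) ≃* Cfsg.PSp 2 K) ∧
              ∃ e : ℕ, Odd e ∧ Fintype.card K = 2 ^ e)) ∧
          Cfsg.generalizedFittingSubgroup G ≤ Cfsg.pResidual 2 G ∧
          Odd ((Cfsg.generalizedFittingSubgroup G).subgroupOf (Cfsg.pResidual 2 G)).index ∧
          (Cfsg.pResidual 2 G).index = 2))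

/-- the endgame over the field with two elements: `T = D₈ × D`, `V = ⟨v, z⟩`, `W = ⟨w, z⟩` -/
structure E2 (F : FusionSystem S) (T D : Subgroup Ω) (v w z s : Ω) : Prop where
  le : T ≤ S
  gen : T = closure {v, w} ⊔ D
  v2 : v * v = 1
  w2 : w * w = 1
  com : ⁅v, w⁆ = z
  z1 : z ≠ 1
  zc : ∀ t ∈ T, z * t = t * z
  Dc : ∀ d ∈ D, ∀ t ∈ T, d * t = t * d
  cardD : Nat.card D ≤ 2
  disj : D ⊓ closure {v, w} = ⊥
  sS : s ∈ S
  sT : s ∉ T
  sN : s ∈ 𝒩(T)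
  ss : s * s ∈ T
  sv : s * v * s⁻¹ = w
  sD : ∀ d ∈ D, d ≠ 1 → s * d * s⁻¹ = d * z
  nV : S ⊓ 𝒩(closure {v, z} ⊔ D) = T
  rho : ∃ f, Mor F (closure {v, z} ⊔ D) f ∧ f v = z ∧ f z = v * z ∧ ∀ d ∈ D, f d = d

/-- the endgame over a field with at least four elements: `M` is a model of `N_F(V)`, `T = V W`, `Z = C_V(L)` -/
structure EQ (F : FusionSystem S) (T V Z : Subgroup Ω) (s : Ω) (K : Type) [Field K] [Fintype K] {M : Type u}
    [Group M] (ι : T →* M) (L : Subgroup M) (N : NatSec K L (pCore 2 M) (pCore 2 M ⊓ 𝒞(L))) : Prop where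
  chr : CharP K 2
  four : 4 ≤ Fintype.card K
  le : T ≤ S
  leV : V ≤ T
  sS : s ∈ S
  sT : s ∉ T
  sN : s ∈ 𝒩(T)
  ss : s * s ∈ T
  sup : V ⊔ cj s V = T
  nV : S ⊓ 𝒩(V) = T
  inj : Function.Injective ι
  syl : IsSylowIn 2 ι.range ⊤
  mor : ∀ P f, V ≤ P → P ≤ T → (∀ x ∈ P, f x ∈ T) → (∀ x ∈ V, f x ∈ V) →
    (Mor F P f ↔ ∃ g : M, ∀ x ∈ P, ext ι (f x) = g * ext ι x * g⁻¹)
  normal : L.Normal
  imV : ∀ x ∈ T, x ∈ V ↔ ext ι x ∈ pCore 2 M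
  coreT : pCore 2 M ≤ ι.range
  ea : IsElementaryAbelian 2 V
  comm : ⁅pCore 2 M, L⁆ = pCore 2 M
  ker : N.ker = pCore 2 M
  up : N.up = ι.range
  Y : V ⊓ cj s V = ⁅V, cj s V⁆
  line : ∀ x ∈ V, x ∈ cj s V ↔ ext ι x ∈ N.line
  imZ : ∀ x, x ∈ Z ↔ x ∈ V ∧ ext ι x ∈ 𝒞(L)
  cardZ : Z = ⊥ ∨ Nat.card Z = Fintype.card K
  disj : Z ⊓ cj s Z = ⊥
  tor : ∀ k ∈ L, k ∈ 𝒩(ι.range) → ∀ x ∈ cj s Z, ∃ x' ∈ cj s Z, ext ι x' = k * ext ι x * k⁻¹

variable {K : Type} [Field K]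

/-- coordinates on a Sylow 2-subgroup of `L₃(q)` (`ε = false`) or `Sp₄(q)` (`ε = true`) -/
structure Co (ε : Bool) (T : Subgroup Ω) (v w y z : K → Ω) : Prop where
  vT : ∀ a, v a ∈ T
  wT : ∀ a, w a ∈ T
  yT : ∀ a, y a ∈ T
  zT : ∀ a, z a ∈ T
  v_add : ∀ a b, v (a + b) = v a * v b
  w_add : ∀ a b, w (a + b) = w a * w b
  y_add : ∀ a b, y (a + b) = y a * y b
  z_add : ∀ a b, z (a + b) = z a * z b
  yc : ∀ b, ∀ t ∈ T, y b * t = t * y b
  zc : ∀ c, ∀ t ∈ T, z c * t = t * z c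
  com : ∀ a u, ⁅v a, w u⁆ = y (a * u) * z (a ^ 2 * u)
  z1 : ε = false → ∀ c, z c = 1
  nf : ∀ t ∈ T, ∃ a u b c, t = v a * w u * y b * z c
  uniq : ∀ a u b c, v a * w u * y b * z c = 1 → a = 0 ∧ u = 0 ∧ b = 0 ∧ (ε = true → c = 0)

/-- the line of the second module -/
def hz (ε : Bool) (y z : K → Ω) (c : K) : Ω := bif ε then z c else y c

def ex (ε : Bool) : ℕ := bif ε then 2 else 1

/-- `V` for `(v, y, z)`, `W` for `(w, y, z)` -/
def sp (v y z : K → Ω) : Subgroup Ω := closure (Set.range v ∪ Set.range y ∪ Set.range z)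

/-- `f` is the monomial map with parameters `p, r, τ` -/
structure Mon (v w y z : K → Ω) (p r : Kˣ) (τ : K ≃+* K) (f : Ω → Ω) : Prop where
  v : ∀ a, f (v a) = v (p * τ a)
  w : ∀ a, f (w a) = w (r * τ a)
  y : ∀ a, f (y a) = y (p * r * τ a)
  z : ∀ a, f (z a) = z (p ^ 2 * r * τ a)

/-- the parameters of the monomial maps of the system -/
def Par (F : FusionSystem S) (T : Subgroup Ω) (v w y z : K → Ω) : Set (Kˣ × Kˣ × (K ≃+* K)) :=
  {c | ∃ g, Mor F T g ∧ Mon v w y z c.1 c.2.1 c.2.2 g}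

/-- the standard form of the system in the endgame `q ≥ 4` -/
structure QD [Fintype K] (F : FusionSystem S) (ε : Bool) (θ : K ≃+* K) (T : Subgroup Ω) (v w y z : K → Ω) (s : Ω) :
    Prop extends Co ε T v w y z where
  chr : CharP K 2
  four : 4 ≤ Fintype.card K
  le : T ≤ S
  sS : s ∈ S
  sT : s ∉ T
  s2 : s * s = 1
  gen : ∀ x ∈ S, x ∈ T ∨ x * s ∈ T
  θθ : ∀ a, θ (θ a) ^ ex ε = a
  sv : ∀ a, s * v a * s⁻¹ = w (θ a ^ ex ε)
  sw : ∀ a, s * w a * s⁻¹ = v (θ a)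
  sy : ∀ a, s * y a * s⁻¹ = hz ε y z (θ a ^ ex ε)
  sh : ∀ a, s * hz ε y z a * s⁻¹ = y (θ a)
  nV : ∃ n, Mor F (sp v y z) n ∧ (∀ a, n (v a) = y a) ∧ (∀ a, n (y a) = v a) ∧ (∀ a, n (z a) = z a) ∧
    ∀ f, Mor F (sp v y z) f → (∀ x ∈ sp v y z, f x ∈ sp v y z) → ∃ g u, Mor F T g ∧ (∀ x ∈ T, g x ∈ T) ∧
      ((∀ x ∈ sp v y z, f x = g x) ∨ ∀ x ∈ sp v y z, f x = g (n (w u * x * (w u)⁻¹)))
  mon : ∀ g, Mor F T g → (∀ x ∈ T, g x ∈ T) → (∀ x ∈ sp v y z, g x ∈ sp v y z) →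
    ∃ t ∈ T, ∃ p r τ, Mon v w y z p r τ fun x => t * g x * t⁻¹
  tor : ∀ c : Kˣ, (c⁻¹, c ^ 2, RingEquiv.refl K) ∈ Par F T v w y z
  sx : ∀ p r τ g, Mor F T g → Mon v w y z p r τ g → (∀ t ∈ T, g (s * t * s⁻¹) = s * g t * s⁻¹) →
    ∃ g', Mor F S g' ∧ (∀ t ∈ T, g' t = g t) ∧ g' s = s

end

/-- (a) the endgame `q = 2` -/
def CaseA : Prop := ∀ (Ω : Type u) [Group Ω] (S : Subgroup Ω) [Finite S] (F : FusionSystem S) (T D : Subgroup Ω)
  (v w z s : Ω), IsPGroup 2 S → F.IsSaturated 2 → Chain F → E2 F T D v w z s → Concl F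

/-- (b) coordinates -/
def CO : Prop := ∀ (Ω : Type u) [Group Ω] (S : Subgroup Ω) [Finite S] (F : FusionSystem S) (T V Z : Subgroup Ω) (s : Ω)
  (K : Type) [Field K] [Fintype K] (M : Type u) [Group M] [Finite M] (ι : T →* M) (L : Subgroup M)
  (N : NatSec K L (pCore 2 M) (pCore 2 M ⊓ 𝒞(L))), IsPGroup 2 S → F.IsSaturated 2 → EQ F T V Z s K ι L N →
  ∃ (ε : Bool) (θ : K ≃+* K) (v w y z : K → Ω) (s' : Ω), QD F ε θ T v w y z s'

/-- (b) `T` strongly closed: extensions of `L₃(q)` and `Sp₄(q)` -/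
def CaseB : Prop := ∀ (Ω : Type u) [Group Ω] (S : Subgroup Ω) [Finite S] (F : FusionSystem S) (K : Type) [Field K]
  [Fintype K] (ε : Bool) (θ : K ≃+* K) (T : Subgroup Ω) (v w y z : K → Ω) (s : Ω), IsPGroup 2 S → F.IsSaturated 2 →
  QD F ε θ T v w y z s → F.StronglyClosed T → Concl F

/-- (c) `T` not strongly closed: `J₃` -/
def CaseC : Prop := ∀ (Ω : Type u) [Group Ω] (S : Subgroup Ω) [Finite S] (F : FusionSystem S) (K : Type) [Field K]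
  [Fintype K] (ε : Bool) (θ : K ≃+* K) (T : Subgroup Ω) (v w y z : K → Ω) (s : Ω), IsPGroup 2 S → F.IsSaturated 2 →
  QD F ε θ T v w y z s → ¬ F.StronglyClosed T → Concl F

/-- shared by (b), (c): essential subgroups -/
def ESSa : Prop := ∀ (Ω : Type u) [Group Ω] (S : Subgroup Ω) [Finite S] (F : FusionSystem S) (K : Type) [Field K]
  [Fintype K] (ε : Bool) (θ : K ≃+* K) (T : Subgroup Ω) (v w y z : K → Ω) (s : Ω) (E : Subgroup Ω), IsPGroup 2 S →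
  F.IsSaturated 2 → QD F ε θ T v w y z s → F.IsEssential 2 E →
  (∀ f, Mor F E f → (∀ x ∈ E, f x ∈ E) → ∀ x ∈ E, x ∈ T → f x ∈ T) → E = sp v y z ∨ E = sp w y z ∨ E = T

/-- shared by (b), (c): equal parameters give equal automizers of `S, T, V, W` -/
def UQ : Prop := ∀ (Ω : Type u) [Group Ω] (S : Subgroup Ω) [Finite S] (F : FusionSystem S)
  (Ω' : Type u') [Group Ω'] (S' : Subgroup Ω') [Finite S'] (F' : FusionSystem S') (K : Type) [Field K]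
  [Fintype K] (ε : Bool) (θ : K ≃+* K) (T : Subgroup Ω) (v w y z : K → Ω) (s : Ω)
  (T' : Subgroup Ω') (v' w' y' z' : K → Ω') (s' : Ω'), IsPGroup 2 S → F.IsSaturated 2 → F'.IsSaturated 2 →
  QD F ε θ T v w y z s → QD F' ε θ T' v' w' y' z' s' → Par F T v w y z = Par F' T' v' w' y' z' →
  ∃ Θ η, GIso S S' Θ η ∧ (∀ a, Θ (v a) = v' a) ∧ (∀ a, Θ (w a) = w' a) ∧ (∀ a, Θ (y a) = y' a) ∧
    (∀ a, Θ (z a) = z' a) ∧ Θ s = s' ∧
    (∀ A, (A = S ∨ A = T ∨ A = sp v y z ∨ A = sp w y z) → ∀ f, Mor F A f → img f A = A →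
      Mor F' (img Θ A) fun x => Θ (f (η x))) ∧
    ∀ A, (A = S' ∨ A = T' ∨ A = sp v' y' z' ∨ A = sp w' y' z') → ∀ f, Mor F' A f → img f A = A →
      Mor F (img η A) fun x => η (f (Θ x))

end CL.HK
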