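/-
Project HK (S5175): the setup, the blocks and the analysis of a pair of blocks.  Definitions and statements.
-/
import Cfsg.Agent.HK.Top
import Cfsg.Agent.Even.Bau

set_option autoImplicit false

open Cfsg Subgroup
open scoped commutatorElement

namespace CL.HK

open CL.Fus CL.Loc CL.Grp CL.Even Matrix

universe u

/-! ### Blocks in one group -/

section
variable {M : Type u} [Group M]

/-- `L` is a block with respect to the Sylow subgroup `T` -/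
structure Bk (T L : Subgroup M) : Prop where
  syl : IsSylowIn 2 T ⊤
  res : pResidualOf 2 L = L
  ea : IsElementaryAbelian 2 (pCoreOf 2 L)
  ne : pCoreOf 2 L ≠ ⊥
  comm : ⁅pCoreOf 2 L, L⁆ = pCoreOf 2 L
  bau : ⁅L, 𝐁[2] T⁆ = L
  core : pCoreOf 2 L ≤ pCore 2 M
  sylL : IsSylowIn 2 (T ⊓ L) L
  cent : L ⊓ 𝒞(pCoreOf 2 L) = pCoreOf 2 L

abbrev NS (K : Type) [Field K] (L : Subgroup M) := NatSec K L (pCoreOf 2 L) (pCoreOf 2 L ⊓ 𝒞(L))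

def Lin (K : Type) [Field K] [Fintype K] (L : Subgroup M) : Prop :=
  CharP K 2 ∧ 4 ≤ Fintype.card K ∧ ∃ N : NS K L, N.ker = pCoreOf 2 L

def A3 (L : Subgroup M) : Prop := Nat.card (pCoreOf 2 L) = 4 ∧ Nat.card L = 12

def Alt (n : ℕ) (L : Subgroup M) : Prop :=
  ActsAsOddPermModuleOnSection n (alternatingGroup (Fin n)) L (pCoreOf 2 L) (pCoreOf 2 L ⊓ 𝒞(L)) ∧
    Nonempty (L ⧸ pCore 2 L ≃* alternatingGroup (Fin n))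

/-- a linear block in coordinates adapted to `T` -/
structure LN {K : Type} [Field K] [Fintype K] (T L : Subgroup M) (N : NS K L) : Prop extends Bk T L where
  chr : CharP K 2
  four : 4 ≤ Fintype.card K
  ker : N.ker = pCoreOf 2 L
  up : N.up = T ⊓ L

/-- `x` acts on `O₂(L)` like an element of `T ∩ L` -/
def In (T L : Subgroup M) (x : M) : Prop := ∃ t ∈ T ⊓ L, x * t⁻¹ ∈ 𝒞(pCoreOf 2 L)

/-- `x` acts on `O₂(L) / C(L)` as a properly semilinear triangular map -/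
def Fd {K : Type} [Field K] {L : Subgroup M} (N : NS K L) (x : M) : Prop :=
  ∃ (σ : K ≃+* K) (a b d : K), σ ≠ RingEquiv.refl K ∧ a ≠ 0 ∧ d ≠ 0 ∧ ∀ v ∈ pCoreOf 2 L,
    N.ψ (x * v * x⁻¹) = ![a * σ (N.ψ v 0) + b * σ (N.ψ v 1), d * σ (N.ψ v 1)]

/-- the normalizer of an `A₅`-block acts through `S₅` -/
structure P5 (L : Subgroup M) (π : M → Equiv.Perm (Fin 5)) (ψ : M → Fin 5 → ZMod 2) : Prop where
  π_mul : ∀ a ∈ 𝒩(L), ∀ b ∈ 𝒩(L), π (a * b) = π a * π b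
  π_alt : ∀ a ∈ L, π a ∈ alternatingGroup (Fin 5)
  π_surj : ∀ c ∈ alternatingGroup (Fin 5), ∃ a ∈ L, π a = c
  ψ_mul : ∀ a ∈ pCoreOf 2 L, ∀ b ∈ pCoreOf 2 L, ψ (a * b) = ψ a + ψ b
  ψ_even : ∀ a ∈ pCoreOf 2 L, ∑ k, ψ a k = 0
  ψ_surj : ∀ x : Fin 5 → ZMod 2, ∑ k, x k = 0 → ∃ a ∈ pCoreOf 2 L, ψ a = x
  ψ_inj : ∀ a ∈ pCoreOf 2 L, ψ a = 0 → a = 1
  ψ_conj : ∀ m ∈ 𝒩(L), ∀ a ∈ pCoreOf 2 L, ∀ k, ψ (m * a * m⁻¹) k = ψ a ((π m)⁻¹ k)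

/-- what is used about an `A₃`-block -/
structure F3 (T L : Subgroup M) : Prop where
  J : pCoreOf 2 L ≤ 𝐉[2] T
  z : pCoreOf 2 L ⊓ 𝒞(L) = ⊥
  g : ∀ x ∈ T, x ∈ 𝒩(L) → x ∈ 𝒞(pCoreOf 2 L) → ∃ v ∈ pCoreOf 2 L, x * v⁻¹ ∈ 𝒞(L)
  tr : ∀ a ∈ pCoreOf 2 L, ∀ b ∈ pCoreOf 2 L, a ≠ 1 → b ≠ 1 → a ≠ b → ∃ g ∈ L, g * a * g⁻¹ = b ∧ g * b * g⁻¹ = a * b
  two : ∀ x ∈ T, ∀ y ∈ T, x ∈ 𝒩(L) → y ∈ 𝒩(L) → x ∉ 𝒞(pCoreOf 2 L) → y ∉ 𝒞(pCoreOf 2 L) →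
    x * y⁻¹ ∈ 𝒞(pCoreOf 2 L)
  core : ∀ x ∈ pCore 2 M, x ∈ 𝒩(L) → x ∈ 𝒞(pCoreOf 2 L)

/-- what is used about an `A₅`-block -/
def F5 (T L : Subgroup M) (π : M → Equiv.Perm (Fin 5)) : Prop :=
  pCoreOf 2 L ≤ 𝐉[2] T ∧ ∃ a b c d : Fin 5, [a, b, c, d].Nodup ∧
    (∀ x ∈ 𝐉[2] T, π x = 1 ∨ π x = Equiv.swap a b ∨ π x = Equiv.swap c d ∨ π x = Equiv.swap a b * Equiv.swap c d) ∧
    ∃ t ∈ T ⊓ L, π t = Equiv.swap a c * Equiv.swap b d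

end

def BLK : Prop := ∀ (M : Type u) [Group M] [Finite M] (T H : Subgroup M), IsSylowIn 2 T ⊤ →
  𝒞(pCore 2 M) ≤ pCore 2 M → H ≠ ⊤ →
  (∀ C ≤ T, C ≠ ⊥ → (C.subgroupOf T).Characteristic → 𝒩(C) ≤ H) → T ≠ ⊥ →
  ∃ L : Subgroup M, ¬ L ≤ H ∧ (∀ g, Bk T (cj g L)) ∧ (∀ g, cj g L = L ∨ ⁅cj g L, L⁆ = ⊥) ∧
    ((∃ (K : Type) (_ : Field K) (_ : Fintype K), Lin K L) ∨ A3 L ∨ Alt 5 L ∨ ∃ n, 7 ≤ n ∧ Alt n L)

def SEMI : Prop := ∀ (M : Type u) [Group M] (K : Type) [Field K] (L U U₀ : Subgroup M) (N : NatSec K L U U₀) (m : M),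
  m ∈ 𝒩(L) → m ∈ 𝒩(U) → m ∈ 𝒩(U₀) → ∃ (σ : K ≃+* K) (A : Matrix (Fin 2) (Fin 2) K), A.det ≠ 0 ∧
    ∀ v ∈ U, N.ψ (m * v * m⁻¹) = A *ᵥ fun k => σ (N.ψ v k)

/-- adapted coordinates; conjugate blocks have the same type -/
def LC : Prop := ∀ (M : Type u) [Group M] [Finite M] (K : Type) [Field K] [Fintype K] (T L : Subgroup M),
  (Bk T L → Lin K L → ∃ N : NS K L, LN T L N) ∧ (∀ g, Lin K L → Lin K (cj g L)) ∧ (∀ g, A3 L → A3 (cj g L)) ∧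
    (Bk T L → 𝐉[2] T ≤ 𝒩(L))

def LA : Prop := ∀ (M : Type u) [Group M] [Finite M] (K : Type) [Field K] [Fintype K] (T L : Subgroup M) (N : NS K L),
  LN T L N → (∀ x ∈ T, x ∈ 𝒩(L) → In T L x ∨ Fd N x) ∧ (∀ x ∈ pCore 2 M, x ∈ 𝒩(L) → x ∈ 𝒞(pCoreOf 2 L)) ∧
    ∀ x ∈ 𝒩(L), Fd N x → ∃ t ∈ T ⊓ L, ∃ v ∈ pCoreOf 2 L,
      N.ψ (x * t * x⁻¹ * v * (x * t * x⁻¹)⁻¹) ≠ N.ψ (t * v * t⁻¹)

def JL : Prop := ∀ (M : Type u) [Group M] [Finite M] (K : Type) [Field K] [Fintype K] (T L : Subgroup M) (N : NS K L),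
  LN T L N → pCoreOf 2 L ≤ 𝐉[2] T ∧ ∀ x ∈ 𝐉[2] T, In T L x

def GLm : Prop := ∀ (M : Type u) [Group M] [Finite M] (K : Type) [Field K] [Fintype K] (T L : Subgroup M) (N : NS K L)
  (x : M), LN T L N → x ∈ 𝒩(L) → x ∈ 𝒞(pCoreOf 2 L) → (∀ t ∈ T ⊓ L, ⁅x, t⁆ ∈ 𝒞(L)) →
  ∃ y ∈ N.line, x * y⁻¹ ∈ 𝒞(L)

def A3L : Prop := ∀ (M : Type u) [Group M] [Finite M] (T L : Subgroup M), Bk T L → A3 L → F3 T L

def Z05 : Prop := ∀ (M : Type u) [Group M] [Finite M] (T L : Subgroup M), Bk T L → Alt 5 L →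
  pCoreOf 2 L ⊓ 𝒞(L) = ⊥

def S5L : Prop := ∀ (M : Type u) [Group M] [Finite M] (T L : Subgroup M), Bk T L → Alt 5 L →
  pCoreOf 2 L ⊓ 𝒞(L) = ⊥ → ∃ π ψ, P5 L π ψ

def J5 : Prop := ∀ (M : Type u) [Group M] [Finite M] (T L : Subgroup M) (π : M → Equiv.Perm (Fin 5))
  (ψ : M → Fin 5 → ZMod 2), Bk T L → P5 L π ψ → F5 T L π

def AM : Prop := ∀ (M : Type u) [Group M] [Finite M] (T L : Subgroup M) (n : ℕ) (l : M → ℕ), Bk T L → 7 ≤ n →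
  Alt n L → Lv T l → (∀ g, ∀ a ∈ T, g * a * g⁻¹ ∈ T → l (g * a * g⁻¹) = l a) → False

/-! ### Pairs of embeddings -/

section
variable {T M : Type u} [Group T] [Group M]

def em (i : T →* M) (γ : MulAut T) : T →* M := i.comp γ.toMonoidHom

abbrev Vv (i : T →* M) (L : Subgroup M) : Subgroup T := (pCoreOf 2 L).comap i

abbrev Dd (i : T →* M) (L : Subgroup M) : Subgroup T := (𝒞(L)).comap i

abbrev Uu (i : T →* M) : Subgroup T := (pCore 2 M).comap i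

structure Core (i : T →* M) (Γ : Subgroup (MulAut T)) (L : Subgroup M) : Prop where
  inj : Function.Injective i
  bk : ∀ g, Bk i.range (cj g L)
  dis : ∀ g, cj g L = L ∨ ⁅cj g L, L⁆ = ⊥
  inn : ∀ t : T, MulAut.conj t ∈ Γ
  nc : ∀ R : Subgroup T, R ≠ ⊥ → (∀ γ ∈ Γ, ∀ x ∈ R, γ x ∈ R) → ¬ L ≤ 𝒩(R.map i)
  mx : ∀ R : Subgroup T, R ≠ ⊥ → R.Normal → L ≤ 𝒩(R.map i) → Nat.card R ≤ Nat.card (pCore 2 M)
  ext : ∀ γ ∈ Γ, ∀ δ ∈ Γ, ∀ (R : Subgroup T) (g : M) (f : T → T), Uu (em i δ) ≤ R →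
    (∀ a ∈ R, em i γ (f a) = g * em i γ a * g⁻¹) → (∀ a ∈ Uu (em i δ), f a ∈ Uu (em i δ)) →
    ∃ m : M, ∀ a ∈ R, em i δ (f a) = m * em i δ a * m⁻¹
  chain : ∀ x : T, x ≠ 1 → ∃ l : T → ℕ, Lv (centralizer {x}) l ∧ ∀ γ ∈ Γ, ∀ g : M, g * em i γ x = em i γ x * g →
    ∀ a ∈ centralizer ({x} : Set T), ∀ b, em i γ b = g * em i γ a * g⁻¹ → l b = l a

/-- the outcome for `A₃`-blocks -/
structure Out2 (i j : T →* M) (L : Subgroup M) : Prop where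
  U : Uu i = Vv i L ⊔ Dd i L
  U' : Uu j = Vv j L ⊔ Dd i L
  top : Vv i L ⊔ Vv j L ⊔ Dd i L = ⊤
  cardD : Nat.card (Dd i L) ≤ 2
  Dc : Dd i L ≤ center T
  disj : Dd i L ⊓ Dd j L = ⊥
  disj' : Dd i L ⊓ (Vv i L ⊔ Vv j L) = ⊥
  le : Dd j L ≤ (Vv i L ⊓ Vv j L) ⊔ Dd i L
  Y : ⁅Vv i L, Vv j L⁆ = Vv i L ⊓ Vv j L
  cardY : Nat.card (Vv i L ⊓ Vv j L : Subgroup T) = 2

/-- a pair of linear blocks -/
structure Lp {K : Type} [Field K] [Fintype K] (i j : T →* M) (L : Subgroup M) (N : NS K L) : Prop where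
  inj : Function.Injective i
  inj' : Function.Injective j
  rng : j.range = i.range
  ln : LN i.range L N
  Y : Vv i L ⊓ Vv j L = ⁅Vv i L, Vv j L⁆
  line : ∀ x ∈ Vv i L, x ∈ Vv j L ↔ i x ∈ N.line
  line' : ∀ x ∈ Vv j L, x ∈ Vv i L ↔ j x ∈ N.line
  act : ∀ w ∈ Vv j L, i w ∈ 𝒩(L) ∧ In i.range L (i w)
  act' : ∀ v ∈ Vv i L, j v ∈ 𝒩(L) ∧ In i.range L (j v)
  surj : ∀ t ∈ i.range ⊓ L, ∃ w ∈ Vv j L, i w * t⁻¹ ∈ 𝒞(pCoreOf 2 L)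
  surj' : ∀ t ∈ i.range ⊓ L, ∃ v ∈ Vv i L, j v * t⁻¹ ∈ 𝒞(pCoreOf 2 L)
  nd : ∀ v ∈ Vv i L, ∀ w ∈ Vv j L, ⁅v, w⁆ ∈ Dd i L → v ∈ Vv j L ∨ w ∈ Vv i L
  nd' : ∀ v ∈ Vv i L, ∀ w ∈ Vv j L, ⁅v, w⁆ ∈ Dd j L → v ∈ Vv j L ∨ w ∈ Vv i L

/-- the centralizers of a pair of normal linear blocks -/
structure Lq (i j : T →* M) (L : Subgroup M) : Prop where
  normal : L.Normal
  disj : Dd i L ⊓ Dd j L = ⊥
  le : Dd i L ≤ (Vv i L ⊓ Vv j L) ⊔ Dd j L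
  le' : Dd j L ≤ (Vv i L ⊓ Vv j L) ⊔ Dd i L
  c : Dd i L ≤ 𝒞(Vv j L)
  c' : Dd j L ≤ 𝒞(Vv i L)
  cV : 𝒞(Vv i L) = Vv i L ⊔ Dd i L
  cW : 𝒞(Vv j L) = Vv j L ⊔ Dd j L
  U : Uu i = Vv i L ⊔ Dd i L
  U' : Uu j = Vv j L ⊔ Dd j L

/-- the torus of the `j`-block normalizes the centralizer of the `i`-block -/
def Tor (i j : T →* M) (L : Subgroup M) : Prop :=
  ∀ k ∈ L, k ∈ 𝒩(i.range ⊓ L) → ∀ x ∈ Dd i L, ∃ x' ∈ Dd i L, j x' = k * j x * k⁻¹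

/-- two elementary abelian normal subgroups that contain all involutions -/
structure Two (A B : Subgroup T) : Prop where
  ea : IsElementaryAbelian 2 A
  ea' : IsElementaryAbelian 2 B
  n : A.Normal
  n' : B.Normal
  card : Nat.card A = Nat.card B
  ne : A ≠ B
  inv : ∀ x : T, x * x = 1 → x ∈ A ∨ x ∈ B

end

def SH : Prop := ∀ (T M : Type u) [Group T] [Group M] [Finite M] (i : T →* M) (Γ : Subgroup (MulAut T))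
  (L : Subgroup M) (γ : MulAut T), Core i Γ L → γ ∈ Γ →
  Core (em i γ) Γ L ∧ (em i γ).range = i.range ∧ (𝐉[2] i.range).comap (em i γ) = (𝐉[2] i.range).comap i ∧
    em (em i γ) γ⁻¹ = i

def PE : Prop := ∀ (T M : Type u) [Group T] [Group M] [Finite M] (i : T →* M) (Γ : Subgroup (MulAut T))
  (L : Subgroup M), Core i Γ L → pCoreOf 2 L ≤ 𝐉[2] i.range → ∃ γ ∈ Γ, ⁅Vv i L, Vv (em i γ) L⁆ ≠ ⊥

def K5 : Prop := ∀ (T M : Type u) [Group T] [Group M] [Finite M] (i : T →* M) (Γ : Subgroup (MulAut T))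
  (L : Subgroup M) (γ : MulAut T) (π : M → Equiv.Perm (Fin 5)) (ψ : M → Fin 5 → ZMod 2), Core i Γ L → γ ∈ Γ →
  P5 L π ψ → F5 i.range L π → ⁅Vv i L, Vv (em i γ) L⁆ ≠ ⊥ → False

/-- `A₃`: the centralizers meet trivially and `T` normalizes the block -/
def K3a : Prop := ∀ (T M : Type u) [Group T] [Group M] [Finite M] (i : T →* M) (Γ : Subgroup (MulAut T))
  (L : Subgroup M) (γ : MulAut T), Core i Γ L → γ ∈ Γ → A3 L → (∀ g, F3 i.range (cj g L)) →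
  ⁅Vv i L, Vv (em i γ) L⁆ ≠ ⊥ → Dd i L ⊓ Dd (em i γ) L = ⊥ ∧ i.range ≤ 𝒩(L) ∧
    ⁅Vv i L, Vv (em i γ) L⁆ = Vv i L ⊓ Vv (em i γ) L ∧ Nat.card (Vv i L ⊓ Vv (em i γ) L : Subgroup T) = 2

def K3b : Prop := ∀ (T M : Type u) [Group T] [Group M] [Finite M] (i : T →* M) (Γ : Subgroup (MulAut T))
  (L : Subgroup M) (γ : MulAut T), Core i Γ L → γ ∈ Γ → A3 L → F3 i.range L →
  Dd i L ⊓ Dd (em i γ) L = ⊥ → i.range ≤ 𝒩(L) → ⁅Vv i L, Vv (em i γ) L⁆ = Vv i L ⊓ Vv (em i γ) L →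
  Nat.card (Vv i L ⊓ Vv (em i γ) L : Subgroup T) = 2 →
  Out2 i (em i γ) L ∧ Two (Uu i) (Uu (em i γ))

def KL1 : Prop := ∀ (T M : Type u) [Group T] [Group M] [Finite M] (K : Type) [Field K] [Fintype K] (i j : T →* M)
  (L : Subgroup M) (N : NS K L), Function.Injective i → Function.Injective j → j.range = i.range →
  LN i.range L N → (∀ w ∈ Vv j L, i w ∈ 𝒩(L) ∧ In i.range L (i w)) →
  (∀ v ∈ Vv i L, j v ∈ 𝒩(L) ∧ In i.range L (j v)) → ⁅Vv i L, Vv j L⁆ ≠ ⊥ → Lp i j L N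

def KL2 : Prop := ∀ (T M : Type u) [Group T] [Group M] [Finite M] (K : Type) [Field K] [Fintype K] (i : T →* M)
  (Γ : Subgroup (MulAut T)) (L : Subgroup M) (γ : MulAut T) (N : NS K L), Core i Γ L → γ ∈ Γ →
  Lp i (em i γ) L N → Dd i L ⊓ Dd (em i γ) L = ⊥

def GL2m : Prop := ∀ (T M : Type u) [Group T] [Group M] [Finite M] (K : Type) [Field K] [Fintype K] (i j : T →* M)
  (L : Subgroup M) (N : NS K L), Lp i j L N → Lp j i L N ∧ ∀ x : T, j x ∈ 𝒩(L) → x ∈ 𝒞(Vv i L) → x ∈ 𝒞(Vv j L) →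
    ∃ y ∈ Vv i L ⊓ Vv j L, x * y⁻¹ ∈ Dd j L

def KL3 : Prop := ∀ (T M : Type u) [Group T] [Group M] [Finite M] (K : Type) [Field K] [Fintype K] (i j : T →* M)
  (L : Subgroup M) (N : NS K L), Lp i j L N → Dd i L ⊓ Dd j L = ⊥ → (∀ g, Bk i.range (cj g L)) →
  (∀ g, cj g L = L ∨ ⁅cj g L, L⁆ = ⊥) → (∀ g, pCoreOf 2 (cj g L) ≤ 𝐉[2] i.range) →
  (∀ x ∈ 𝐉[2] i.range, In i.range L x) → (𝐉[2] i.range).comap j = (𝐉[2] i.range).comap i → L.Normal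

def KL4 : Prop := ∀ (T M : Type u) [Group T] [Group M] [Finite M] (K : Type) [Field K] [Fintype K] (i : T →* M)
  (Γ : Subgroup (MulAut T)) (L : Subgroup M) (γ : MulAut T) (N : NS K L), Core i Γ L → γ ∈ Γ →
  Lp i (em i γ) L N → Dd i L ⊓ Dd (em i γ) L = ⊥ → L.Normal → Lq i (em i γ) L

def KL5a : Prop := ∀ (T M : Type u) [Group T] [Group M] [Finite M] (K : Type) [Field K] [Fintype K] (i : T →* M)
  (Γ : Subgroup (MulAut T)) (L : Subgroup M) (γ : MulAut T) (N : NS K L), Core i Γ L → γ ∈ Γ →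
  Lp i (em i γ) L N → Lq i (em i γ) L → Tor i (em i γ) L

def KL5b : Prop := ∀ (T M : Type u) [Group T] [Group M] [Finite M] (K : Type) [Field K] [Fintype K] (i j : T →* M)
  (L : Subgroup M) (N : NS K L), Lp i j L N → Lq i j L → Tor i j L →
  Dd i L ≤ Vv i L ∧ (Dd i L = ⊥ ∨ Nat.card (Dd i L) = Fintype.card K)

/-- free modules for a group of order two, inside a group -/
def Fr {X : Type*} [Group X] (t : X) (A B : Subgroup X) : Prop :=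
  ∀ a ∈ A, ⁅t, a⁆ ∈ B → ∃ c ∈ A, a * ⁅t, c⁆⁻¹ ∈ B

/-- outside `V W` there is an involution for which `V` and `W` are free -/
def FI1 : Prop := ∀ (T M : Type u) [Group T] [Group M] [Finite M] (K : Type) [Field K] [Fintype K] (i j : T →* M)
  (L : Subgroup M) (N : NS K L), Lp i j L N → Lq i j L → Dd i L ≤ Vv i L → Dd j L ≤ Vv j L →
  (Dd i L = ⊥ ∨ Nat.card (Dd i L) = Fintype.card K) → Nat.card (Dd j L) = Nat.card (Dd i L) →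
  Vv i L ⊔ Vv j L ≠ ⊤ → ∃ f : T, f * f = 1 ∧ Fd N (i f) ∧ Fd N (j f) ∧ Fr f (Vv i L) ⊥ ∧ Fr f (Vv j L) ⊥ ∧
    (∃ v ∈ Vv i L, v ∉ Vv j L ∧ f * v = v * f) ∧ ∃ w ∈ Vv j L, w ∉ Vv i L ∧ f * w = w * f

def FI2 : Prop := ∀ (T M : Type u) [Group T] [Group M] [Finite M] (K : Type) [Field K] [Fintype K] (i : T →* M)
  (Γ : Subgroup (MulAut T)) (L : Subgroup M) (γ : MulAut T) (N : NS K L) (f v w : T), Core i Γ L → γ ∈ Γ →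
  Lp i (em i γ) L N → L.Normal → f * f = 1 → Fd N (i f) → Fd N (em i γ f) → Fr f (Vv i L) ⊥ →
  Fr f (Vv (em i γ) L) ⊥ → v ∈ Vv i L → v ∉ Vv (em i γ) L → f * v = v * f → w ∈ Vv (em i γ) L → w ∉ Vv i L →
  f * w = w * f → False

/-! ### The setup in the fusion system -/

section
variable {Ω : Type u} [Group Ω] {S : Subgroup Ω}

/-- some map of `N_F(R)` is not in `N` -/
def Bad (F N : FusionSystem S) (R : Subgroup Ω) : Prop :=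
  ∃ P f, R ≤ P ∧ P ≤ 𝒩(R) ∧ Mor F P f ∧ (∀ x ∈ R, f x ∈ R) ∧ ¬ Mor N P f

/-- the choice of `U` -/
structure Mx (F N : FusionSystem S) (U : Subgroup Ω) : Prop where
  ne : U ≠ ⊥
  fn : F.IsFullyNormalized U
  bad : Bad F N U
  inv : ∀ R ≤ S ⊓ 𝒩(U), R ≠ ⊥ →
    (∀ f, Mor F (S ⊓ 𝒩(U)) f → (∀ x ∈ S ⊓ 𝒩(U), f x ∈ S ⊓ 𝒩(U)) → ∀ x ∈ R, f x ∈ R) → ¬ Bad F N R
  mx : ∀ R ≤ S, R ≠ ⊥ → S ⊓ 𝒩(U) ≤ 𝒩(R) → Bad F N R → Nat.card R ≤ Nat.card U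

structure Su (F : FusionSystem S) (T U : Subgroup Ω) {M : Type u} [Group M] (ι : T →* M) (H : Subgroup M) : Prop where
  le : T ≤ S
  leU : U ≤ T
  ne : U ≠ ⊥
  nU : S ⊓ 𝒩(U) = T
  inj : Function.Injective ι
  syl : IsSylowIn 2 ι.range ⊤
  chr : 𝒞(pCore 2 M) ≤ pCore 2 M
  imU : ∀ x ∈ T, x ∈ U ↔ ext ι x ∈ pCore 2 M
  mor : ∀ P f, U ≤ P → P ≤ T → Mor F P f → (∀ x ∈ P, f x ∈ T) → (∀ x ∈ U, f x ∈ U) →
    ∃ g : M, ∀ x ∈ P, ext ι (f x) = g * ext ι x * g⁻¹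
  mor0 : ∀ P f (g : M), P ≤ T → (∀ x ∈ P, f x ∈ T) → (∀ x ∈ P, ext ι (f x) = g * ext ι x * g⁻¹) → Mor F P f
  neH : H ≠ ⊤
  nc : ∀ R ≤ T, R ≠ ⊥ → (∀ f, Mor F T f → (∀ x ∈ T, f x ∈ T) → ∀ x ∈ R, f x ∈ R) → 𝒩(img (ext ι) R) ≤ H
  mx : ∀ R ≤ T, R ≠ ⊥ → T ≤ 𝒩(R) → ¬ 𝒩(img (ext ι) R) ≤ H → Nat.card R ≤ Nat.card U
  lv : ∃ l : M → ℕ, Lv ι.range l ∧ ∀ g, ∀ a ∈ ι.range, g * a * g⁻¹ ∈ ι.range → l (g * a * g⁻¹) = l a

def Min (F : FusionSystem S) : Prop := ∀ U : Subgroup Ω, U ≠ ⊥ → F.IsFullyNormalized U →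
  ∀ E : FusionSystem (FusionSystem.normalizerIn S U), F.IsNormalizerSystem U E → E.IsSolvableSystem

def Par0 (F N : FusionSystem S) : Prop := ∀ R : Subgroup Ω, R ≠ ⊥ → R ≤ S → S ≤ Subgroup.normalizer (R : Set Ω) →
  (∀ P : Subgroup Ω, F.normalizerHom S P ⊆ F.normalizerHom R P) → ∀ P : Subgroup Ω, F.normalizerHom R P ⊆ N.Hom P

end

def LVS : Prop := ∀ (Ω : Type u) [Group Ω] (S : Subgroup Ω) [Finite S] (E : FusionSystem S), IsPGroup 2 S →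
  E.IsSaturated 2 → E.IsSolvableSystem → ∃ l : Ω → ℕ, Lv S l ∧ ∀ P f, Mor E P f → ∀ a ∈ P, l (f a) = l a

def CH : Prop := ∀ (Ω : Type u) [Group Ω] (S : Subgroup Ω) [Finite S] (F : FusionSystem S), IsPGroup 2 S →
  F.IsSaturated 2 → Min F → Chain F

def SET1 : Prop := ∀ (Ω : Type u) [Group Ω] (S : Subgroup Ω) [Finite S] (F N : FusionSystem S), IsPGroup 2 S →
  F.IsSaturated 2 → N ≤ F → N ≠ F → Par0 F N → ∃ U, Mx F N U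

def SET2 : Prop := ∀ (Ω : Type u) [Group Ω] (S : Subgroup Ω) [Finite S] (F N : FusionSystem S) (U : Subgroup Ω),
  IsPGroup 2 S → F.IsSaturated 2 → N.IsSaturated 2 → N ≤ F → Min F → Mx F N U →
  ∃ (M : Type u) (_ : Group M) (_ : Finite M) (ι : ↥(S ⊓ 𝒩(U)) →* M) (H : Subgroup M), Su F (S ⊓ 𝒩(U)) U ι H

def SC : Prop := ∀ (Ω : Type u) [Group Ω] (S : Subgroup Ω) [Finite S] (F : FusionSystem S) (T U : Subgroup Ω)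
  (M : Type u) [Group M] [Finite M] (ι : T →* M) (H : Subgroup M), Su F T U ι H → Chain F →
  (∀ C ≤ ι.range, C ≠ ⊥ → (C.subgroupOf ι.range).Characteristic → 𝒩(C) ≤ H) ∧ ι.range ≠ ⊥ ∧
    ∀ L : Subgroup M, ¬ L ≤ H → (∀ g, Bk ι.range (cj g L)) → (∀ g, cj g L = L ∨ ⁅cj g L, L⁆ = ⊥) →
      Core ι (F.autGroup T) L

/-- an element of `S` interchanges the two subgroups -/
def TS : Prop := ∀ (Ω : Type u) [Group Ω] (S : Subgroup Ω) [Finite S] (F : FusionSystem S) (T U : Subgroup Ω)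
  (M : Type u) [Group M] [Finite M] (ι : T →* M) (H : Subgroup M) (γ : MulAut T), IsPGroup 2 S → F.IsSaturated 2 →
  Su F T U ι H → γ ∈ F.autGroup T → Two (Uu ι) (Uu (em ι γ)) →
  ∃ s ∈ S, s ∉ T ∧ s ∈ 𝒩(T) ∧ s * s ∈ T ∧ ∃ δ ∈ F.autGroup T, (∀ x : T, (δ x : Ω) = s⁻¹ * x * s) ∧
    Uu (em ι δ) = Uu (em ι γ)

def TR2 : Prop := ∀ (Ω : Type u) [Group Ω] (S : Subgroup Ω) [Finite S] (F : FusionSystem S) (T U : Subgroup Ω)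
  (M : Type u) [Group M] [Finite M] (ι : T →* M) (H L : Subgroup M) (δ : MulAut T) (s : Ω), Su F T U ι H →
  s ∈ S → s ∉ T → s ∈ 𝒩(T) → s * s ∈ T → (∀ x : T, (δ x : Ω) = s⁻¹ * x * s) → Bk ι.range L → A3 L →
  F3 ι.range L → Out2 ι (em ι δ) L → ∃ D v w z, E2 F T D v w z s

def TRQ : Prop := ∀ (Ω : Type u) [Group Ω] (S : Subgroup Ω) [Finite S] (F : FusionSystem S) (T U : Subgroup Ω)
  (M : Type u) [Group M] [Finite M] (ι : T →* M) (H L : Subgroup M) (δ : MulAut T) (s : Ω) (K : Type) [Field K]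
  [Fintype K] (N : NS K L), Su F T U ι H → s ∈ S → s ∉ T → s ∈ 𝒩(T) → s * s ∈ T →
  (∀ x : T, (δ x : Ω) = s⁻¹ * x * s) → Lp ι (em ι δ) L N → Lq ι (em ι δ) L → Tor (em ι δ) ι L →
  Dd ι L ≤ Vv ι L → (Dd ι L = ⊥ ∨ Nat.card (Dd ι L) = Fintype.card K) → Vv ι L ⊔ Vv (em ι δ) L = ⊤ →
  ∃ (Z : Subgroup Ω) (N' : NatSec K L (pCore 2 M) (pCore 2 M ⊓ 𝒞(L))), EQ F T U Z s K ι L N'

/-- the two subgroups in the linear case, and a partner for the interchanging element -/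
def TW : Prop := ∀ (T M : Type u) [Group T] [Group M] [Finite M] (K : Type) [Field K] [Fintype K] (i j : T →* M)
  (L : Subgroup M) (N : NS K L), Lp i j L N → Lq i j L → Dd i L ≤ Vv i L → Dd j L ≤ Vv j L →
  Vv i L ⊔ Vv j L = ⊤ → Two (Uu i) (Uu j) ∧ Uu i = Vv i L ∧ Uu j = Vv j L

/-- a partner for the interchanging element, `q = 2` -/
def TW2 : Prop := ∀ (T M : Type u) [Group T] [Group M] [Finite M] (i : T →* M) (L : Subgroup M) (γ δ : MulAut T),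
  Function.Injective i → Bk i.range L → A3 L → Out2 i (em i γ) L → Uu (em i δ) = Uu (em i γ) →
  ⁅Vv i L, Vv (em i δ) L⁆ ≠ ⊥

end CL.HK
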