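/-
Project HK (S5175): the facts on `A₃`-blocks.
-/
import Cfsg.Agent.HK.Core

set_option autoImplicit false

open Cfsg Subgroup
open scoped commutatorElement

namespace CL.HK

open CL.Fus CL.Loc CL.Grp CL.Even

universe u

namespace A3Lx

variable {M : Type u} [Group M] [Finite M] {V : Subgroup M} {a b x : M}

omit [Finite M] in
theorem cj_inj (x : M) {a b : M} (e : x * a * x⁻¹ = x * b * x⁻¹) : a = b := mul_left_cancel (mul_right_cancel e)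

omit [Finite M] in
theorem cj_ne_one (x : M) (a1 : a ≠ 1) : x * a * x⁻¹ ≠ 1 := fun e => a1 (cj_inj x (by rw [e]; simp))

variable (hV : IsElementaryAbelian 2 V) (h4 : Nat.card V = 4)
include hV

omit [Finite M] in
theorem sq (ha : a ∈ V) : a * a = 1 := by rw [← pow_two]; exact ea_pow hV ha

omit [Finite M] in
theorem mul_ne_one (hb : b ∈ V) (ab : a ≠ b) : a * b ≠ 1 := fun e => ab (mul_right_cancel (e.trans (sq hV hb).symm))

include h4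

theorem four (ha : a ∈ V) (hb : b ∈ V) (a1 : a ≠ 1) (b1 : b ≠ 1) (ab : a ≠ b) {v : M} (hv : v ∈ V) :
    v = 1 ∨ v = a ∨ v = b ∨ v = a * b := by
  classical
  have e : ({1, a, b, a * b} : Set M) = V := by
    refine Set.eq_of_subset_of_ncard_le ?_ ?_
    · rintro _ (rfl | rfl | rfl | rfl)
      exacts [V.one_mem, ha, hb, V.mul_mem ha hb]
    · have : (V : Set M).ncard = 4 := h4
      rw [this, Set.ncard_insert_of_notMem, Set.ncard_insert_of_notMem, Set.ncard_pair]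
      · exact fun e => a1 (by simpa using e.symm)
      · rintro (e | e)
        exacts [ab e, b1 (by simpa using e.symm)]
      · rintro (e | e | e)
        exacts [a1 e.symm, b1 e.symm, mul_ne_one hV hb ab e.symm]
  have : v ∈ ({1, a, b, a * b} : Set M) := e ▸ hv
  simpa using this

omit hV in
theorem exists_other (a : M) : ∃ b ∈ V, b ≠ 1 ∧ a ≠ b := by
  by_contra hn
  push Not at hn
  have h1 : (V : Set M) ⊆ {1, a} := fun v hv => by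
    by_cases e : v = 1
    · exact .inl e
    · exact .inr (hn v hv e).symm
  have h2 := (Set.ncard_le_ncard h1).trans (Set.ncard_insert_le _ _)
  have : (V : Set M).ncard = 4 := h4
  rw [this, Set.ncard_singleton] at h2
  omega

theorem cent_of_fix (ha : a ∈ V) (hb : b ∈ V) (a1 : a ≠ 1) (b1 : b ≠ 1) (ab : a ≠ b) (e1 : x * a * x⁻¹ = a)
    (e2 : x * b * x⁻¹ = b) : x ∈ 𝒞(V) := fun v hv => by
  refine (mul_inv_eq_iff_eq_mul.1 ?_).symm
  rcases four hV h4 ha hb a1 b1 ab hv with rfl | rfl | rfl | rfl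
  · simp
  · exact e1
  · exact e2
  · rw [← conj_mul, e1, e2]

theorem conj_of_fix (ha : a ∈ V) (hb : b ∈ V) (a1 : a ≠ 1) (b1 : b ≠ 1) (ab : a ≠ b) (hx : x ∈ 𝒩(V))
    (hc : x ∉ 𝒞(V)) (e1 : x * a * x⁻¹ = a) : x * b * x⁻¹ = a * b := by
  rcases four hV h4 ha hb a1 b1 ab (conj_mem hx hb) with e | e | e | e
  · exact (cj_ne_one x b1 e).elim
  · exact (ab (cj_inj x (e1.trans e.symm))).elim
  · exact (hc (cent_of_fix hV h4 ha hb a1 b1 ab e1 e)).elim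
  · exact e

/-- an element of order three that acts non-trivially has no fixed points -/
theorem fpf (hx : x ∈ 𝒩(V)) (hc : x ∉ 𝒞(V)) (h3 : x ^ 3 = 1) (ha : a ∈ V) (a1 : a ≠ 1) : x * a * x⁻¹ ≠ a := fun e1 => by
  obtain ⟨b, hb, b1, ab⟩ := exists_other h4 a
  have e2 := conj_of_fix hV h4 ha hb a1 b1 ab hx hc e1
  have e3 : x * x ∈ 𝒞(V) := cent_of_fix hV h4 ha hb a1 b1 ab
    (by rw [show x * x * a * (x * x)⁻¹ = x * (x * a * x⁻¹) * x⁻¹ by group, e1, e1])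
    (by rw [show x * x * b * (x * x)⁻¹ = x * (x * b * x⁻¹) * x⁻¹ by group, e2, ← conj_mul, e1, e2, ← mul_assoc,
      sq hV ha, one_mul])
  refine hc ?_
  have := Subgroup.mul_mem _ e3 e3
  rwa [show x * x * (x * x) = x ^ 3 * x by simp only [pow_succ, pow_zero, one_mul, mul_assoc], h3, one_mul] at this

theorem cyc (hx : x ∈ 𝒩(V)) (hf : ∀ a ∈ V, a ≠ 1 → x * a * x⁻¹ ≠ a) (ha : a ∈ V) (hb : b ∈ V) (a1 : a ≠ 1)
    (b1 : b ≠ 1) (ab : a ≠ b) : (x * a * x⁻¹ = b ∧ x * b * x⁻¹ = a * b) ∨ (x⁻¹ * a * x⁻¹⁻¹ = b ∧ x⁻¹ * b * x⁻¹⁻¹ = a * b) := by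
  rcases four hV h4 ha hb a1 b1 ab (conj_mem hx ha) with e | e | e | e
  · exact (cj_ne_one x a1 e).elim
  · exact (hf a ha a1 e).elim
  · rcases four hV h4 ha hb a1 b1 ab (conj_mem hx hb) with e' | e' | e' | e'
    · exact (cj_ne_one x b1 e').elim
    · exact (hf _ (V.mul_mem ha hb) (mul_ne_one hV hb ab) (by rw [← conj_mul, e, e', ea_mul_comm hV ha hb])).elim
    · exact (hf b hb b1 e').elim
    · exact .inl ⟨e, e'⟩
  · rcases four hV h4 ha hb a1 b1 ab (conj_mem hx hb) with e' | e' | e' | e'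
    · exact (cj_ne_one x b1 e').elim
    · have e2 : x * (a * b) * x⁻¹ = b := by
        rw [← conj_mul, e, e', ea_mul_comm hV ha hb, mul_assoc, sq hV ha, mul_one]
      exact .inr ⟨cj_inj x (by rw [e']; group), cj_inj x (by rw [e2]; group)⟩
    · exact (hf b hb b1 e').elim
    · exact (ab (cj_inj x (e.trans e'.symm))).elim

end A3Lx

open A3Lx in
theorem a3l (h : LC.{u}) : A3L.{u} := by
  intro M _ _ T L k h3
  obtain ⟨h4, h12⟩ := h3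
  haveI : Fact (Nat.Prime 2) := ⟨Nat.prime_two⟩
  haveI : Fact (Nat.Prime 3) := ⟨Nat.prime_three⟩
  have hV := k.ea
  have hJ := (h M (ZMod 2) T L).2.2.2 k
  have cT : pCore 2 M ≤ T := core_top (p := 2) (G := M) ▸ core_le_syl k.syl
  have VT : pCoreOf 2 L ≤ T := k.core.trans cT
  have nV := norm_le_norm_core (p := 2) L
  obtain ⟨⟨ρ, hρ⟩, o3⟩ := exists_prime_orderOf_dvd_card' (G := L) 3 (by rw [h12]; norm_num)
  rw [Subgroup.orderOf_mk] at o3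
  have r3 : ρ ^ 3 = 1 := o3 ▸ pow_orderOf_eq_one ρ
  have rn : ρ ∈ 𝒩(pCoreOf 2 L) := self_le_norm_core L hρ
  have rc : ρ ∉ 𝒞(pCoreOf 2 L) := fun e => by
    have := orderOf_dvd_of_pow_eq_one (ea_pow hV (k.cent.le ⟨hρ, e⟩))
    rw [o3] at this
    norm_num at this
  have hf : ∀ a ∈ pCoreOf 2 L, a ≠ 1 → ρ * a * ρ⁻¹ ≠ a := fun a ha a1 => fpf hV h4 rn rc r3 ha a1
  have gen : pCoreOf 2 L ⊔ zpowers ρ = L := by
    refine eq_of_le_of_card_ge (sup_le (core_le L) (zpowers_le.2 hρ)) (Nat.le_of_dvd Nat.card_pos ?_)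
    have d1 := card_dvd_of_le (le_sup_left : pCoreOf 2 L ≤ pCoreOf 2 L ⊔ zpowers ρ)
    have d2 := card_dvd_of_le (le_sup_right : zpowers ρ ≤ pCoreOf 2 L ⊔ zpowers ρ)
    rw [Nat.card_zpowers, o3] at d2
    rw [h4] at d1
    rw [h12]
    omega
  obtain ⟨a, ha, a1⟩ := (Subgroup.ne_bot_iff_exists_ne_one.1 (inf_cent_ne_bot (core_isP L)
    (k.syl.isPGroup.to_inf_left (K := 𝒩(pCoreOf 2 L))) inf_le_right k.ne)).imp'
      (p := fun a => a ≠ 1) (q := fun a => a ∈ pCoreOf 2 L ⊓ 𝒞(T ⊓ 𝒩(pCoreOf 2 L)) ∧ a ≠ 1) Subtype.val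
      fun a e => ⟨a.2, fun e' => e (Subtype.ext e')⟩
  have fa : ∀ x ∈ T, x ∈ 𝒩(L) → x * a * x⁻¹ = a := fun x hx hn =>
    mul_inv_eq_iff_eq_mul.2 (comm_of_mem ha.2 ⟨hx, nV hn⟩)
  have two : ∀ x ∈ T, ∀ y ∈ T, x ∈ 𝒩(L) → y ∈ 𝒩(L) → x ∉ 𝒞(pCoreOf 2 L) → y ∉ 𝒞(pCoreOf 2 L) →
      x * y⁻¹ ∈ 𝒞(pCoreOf 2 L) := fun x hx y hy xn yn xc yc => by
    obtain ⟨b, hb, b1, ab⟩ := exists_other h4 a
    have e1 := conj_of_fix hV h4 ha.1 hb a1 b1 ab (nV xn) xc (fa x hx xn)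
    have e2 := conj_of_fix hV h4 ha.1 hb a1 b1 ab (nV yn) yc (fa y hy yn)
    refine cent_of_fix hV h4 ha.1 (Subgroup.mul_mem _ ha.1 hb) a1 (mul_ne_one hV hb ab)
      (fun e => b1 (by simpa using e.symm)) (fa _ (T.mul_mem hx (T.inv_mem hy))
        (Subgroup.mul_mem _ xn (Subgroup.inv_mem _ yn))) ?_
    calc _ = x * y⁻¹ * (y * b * y⁻¹) * (x * y⁻¹)⁻¹ := by rw [e2]
      _ = x * b * x⁻¹ := by group
      _ = _ := e1
  refine ⟨?_, ?_, fun x hx xn xc => ?_, fun a ha b hb a1 b1 ab => ?_, two, fun x hx xn => ?_⟩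
  · obtain ⟨A, hA⟩ := exists_mem_meaIn 2 T
    have AJ := le_thompsonSubgroupOf hA
    by_cases hc : A ≤ 𝒞(pCoreOf 2 L)
    · exact (le_of_mem_meaIn_of_centralizer hA VT hV (le_centralizer_iff.1 hc)).trans AJ
    obtain ⟨x, hx, xc⟩ := SetLike.not_le_iff_exists.1 hc
    have i2 : (A ⊓ 𝒞(pCoreOf 2 L)).relIndex A = 2 := by
      refine relIndex_eq_two_iff.2 ⟨x⁻¹, A.inv_mem hx, fun y hy => ?_⟩
      by_cases yc : y ∈ 𝒞(pCoreOf 2 L)
      · exact .inr ⟨⟨hy, yc⟩, fun e => xc (inv_mem_iff.1 ((Subgroup.mul_mem_cancel_left _ yc).1 e.2))⟩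
      · exact .inl ⟨⟨A.mul_mem hy (A.inv_mem hx), two y (meaIn_le hA hy) x (meaIn_le hA hx) (hJ (AJ hy)) (hJ (AJ hx))
          yc xc⟩, fun e => yc e.2⟩
    have c1 := card_eq_relIndex_mul_card (inf_le_left : A ⊓ 𝒞(pCoreOf 2 L) ≤ A)
    have c2 := card_sup_mul_card_inf (H := A ⊓ 𝒞(pCoreOf 2 L)) (K := pCoreOf 2 L)
      (inf_le_right.trans (cent_le_norm _))
    have c3 : Nat.card (A ⊓ 𝒞(pCoreOf 2 L) ⊓ pCoreOf 2 L : Subgroup M) ≤ 2 := by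
      have d := card_dvd_of_le (inf_le_right : A ⊓ 𝒞(pCoreOf 2 L) ⊓ pCoreOf 2 L ≤ _)
      have n : ¬ 4 ≤ Nat.card (A ⊓ 𝒞(pCoreOf 2 L) ⊓ pCoreOf 2 L : Subgroup M) := fun e => hc
        (ea_le_centralizer_of_le (meaIn_ea hA) le_rfl
          ((eq_of_le_of_card_ge inf_le_right (h4.le.trans e)).ge.trans (inf_le_left.trans inf_le_left)))
      rw [h4] at d
      generalize Nat.card (A ⊓ 𝒞(pCoreOf 2 L) ⊓ pCoreOf 2 L : Subgroup M) = n' at d n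
      obtain rfl | rfl | rfl | rfl : n' = 0 ∨ n' = 1 ∨ n' = 2 ∨ n' = 3 := by omega
      all_goals first | omega | norm_num at d
    rw [i2] at c1
    rw [h4] at c2
    exact le_sup_right.trans (le_thompsonSubgroupOf (mem_meaIn_of_card_le hA
      (sup_le (inf_le_left.trans (meaIn_le hA)) VT)
      (ea_sup (ea_mono (meaIn_ea hA) inf_le_left) hV inf_le_right) (by nlinarith)))
  · refine le_bot_iff.1 fun v hv => mem_bot.2 (by_contra fun v1 => hf v hv.1 v1 ?_)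
    exact mul_inv_eq_iff_eq_mul.2 (comm_of_mem hv.2 hρ)
  · have hδ : x⁻¹ * ρ * x * ρ⁻¹ ∈ pCoreOf 2 L := k.cent.le ⟨L.mul_mem (conj_mem' xn hρ) (L.inv_mem hρ), by
      rw [show x⁻¹ * ρ * x * ρ⁻¹ = x⁻¹ * (ρ * x * ρ⁻¹) by group]
      exact Subgroup.mul_mem _ (Subgroup.inv_mem _ xc) (conj_mem (norm_le_norm_cent _ rn) xc)⟩
    let φ : pCoreOf 2 L → pCoreOf 2 L := fun v =>
      ⟨(v : M)⁻¹ * (ρ * v * ρ⁻¹), Subgroup.mul_mem _ (Subgroup.inv_mem _ v.2) (conj_mem rn v.2)⟩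
    have inj : Function.Injective φ := fun v w e => by
      have e' : (v : M)⁻¹ * (ρ * v * ρ⁻¹) = (w : M)⁻¹ * (ρ * w * ρ⁻¹) := congrArg Subtype.val e
      refine Subtype.ext (mul_inv_eq_one.1 (by_contra fun n =>
        hf _ (Subgroup.mul_mem _ v.2 (Subgroup.inv_mem _ w.2)) n ?_))
      calc ρ * ((v : M) * (w : M)⁻¹) * ρ⁻¹ = v * ((v : M)⁻¹ * (ρ * v * ρ⁻¹)) * (ρ * w * ρ⁻¹)⁻¹ := by group
        _ = _ := by rw [e']; group
    obtain ⟨v, hv⟩ := Finite.injective_iff_surjective.1 inj ⟨_, hδ⟩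
    have e : (v : M)⁻¹ * (ρ * v * ρ⁻¹) = x⁻¹ * ρ * x * ρ⁻¹ := congrArg Subtype.val hv
    refine ⟨v, v.2, ?_⟩
    have m : x * (v : M)⁻¹ ∈ 𝒞(pCoreOf 2 L ⊔ zpowers ρ) := by
      rw [cent_sup]
      refine ⟨Subgroup.mul_mem _ xc (Subgroup.inv_mem _ (ea_le_centralizer hV v.2)), ?_⟩
      have c : Commute ρ (x * (v : M)⁻¹) := by
        show ρ * (x * (v : M)⁻¹) = x * (v : M)⁻¹ * ρ
        calc ρ * (x * (v : M)⁻¹) = x * (x⁻¹ * ρ * x * ρ⁻¹) * ρ * (v : M)⁻¹ := by group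
          _ = _ := by rw [← e]; group
      rintro _ ⟨n, rfl⟩
      exact (c.zpow_left n).eq
    rwa [gen] at m
  · exact (cyc hV h4 rn hf ha hb a1 b1 ab).elim (fun e => ⟨ρ, hρ, e⟩) fun e => ⟨ρ⁻¹, L.inv_mem hρ, e⟩
  · have hδ : x * ρ * x⁻¹ * ρ⁻¹ ∈ pCoreOf 2 L := pCore_inf_le_pCoreOf L ⟨by
      rw [show x * ρ * x⁻¹ * ρ⁻¹ = x * (ρ * x⁻¹ * ρ⁻¹) by group]
      exact Subgroup.mul_mem _ hx ((inferInstance : (pCore 2 M).Normal).conj_mem _ (Subgroup.inv_mem _ hx) ρ),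
      L.mul_mem (conj_mem xn hρ) (L.inv_mem hρ)⟩
    refine cent_of_fix hV h4 ha.1 (conj_mem rn ha.1) a1 (cj_ne_one ρ a1) (hf a ha.1 a1).symm (fa x (cT hx) xn) ?_
    calc x * (ρ * a * ρ⁻¹) * x⁻¹
        = x * ρ * x⁻¹ * ρ⁻¹ * (ρ * (x * a * x⁻¹) * ρ⁻¹) * (x * ρ * x⁻¹ * ρ⁻¹)⁻¹ := by group
      _ = _ := by rw [fa x (cT hx) xn, ea_mul_comm hV hδ (conj_mem rn ha.1), mul_inv_cancel_right]

end CL.HK
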