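/-
Project HK: blocks of type `A_n`, `n ≥ 7`, do not occur.
-/
import Cfsg.Agent.HK.Core

set_option autoImplicit false

open Cfsg Subgroup
open scoped commutatorElement

namespace CL.HK

open CL.Grp Equiv

universe u

theorem am_core {X A : Type*} [Group X] [Finite X] [Group A] (φ : X →* A) (hk : IsPGroup 2 φ.ker) {S : Subgroup X}
    (hS : IsSylowIn 2 S ⊤) (l : X → ℕ)
    (com : ∀ a ∈ S, ∀ b ∈ S, ⁅a, b⁆ ≠ 1 → l ⁅a, b⁆ < max (l a) (l b))
    (inv : ∀ g, ∀ a ∈ S, g * a * g⁻¹ ∈ S → l (g * a * g⁻¹) = l a) {D : Subgroup A} (hD : IsPGroup 2 D) {v w : A}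
    (hv : v ∈ D) (hw : w ∈ D) (hz : ⁅v, w⁆ ≠ 1) (ev : ∃ a, φ a = v) (ew : ∃ b, φ b = w) {x y : X}
    (hx : φ x * ⁅v, w⁆ * (φ x)⁻¹ = v) (hy : φ y * ⁅v, w⁆ * (φ y)⁻¹ = w) : False := by
  classical
  obtain ⟨g, -, hg⟩ := hS.exists_conj_le (hD.comap_of_ker_isPGroup φ hk) le_top
  have hP : ∀ a, φ a ∈ D → g * a * g⁻¹ ∈ S := fun a ha => (conj_smul_le_iff _ _ _).1 hg a ha
  have mn : ∀ {t : A}, (∃ a, φ a = t) → ∃ a, φ a = t ∧ ∀ b, φ b = t → l (g * a * g⁻¹) ≤ l (g * b * g⁻¹) := by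
    intro t ht
    have ex : ∃ k, ∃ a, φ a = t ∧ l (g * a * g⁻¹) = k := let ⟨a, ha⟩ := ht; ⟨_, a, ha, rfl⟩
    obtain ⟨a, ha, e⟩ := Nat.find_spec ex
    exact ⟨a, ha, fun b hb => e ▸ Nat.find_min' ex ⟨b, hb, rfl⟩⟩
  obtain ⟨a, ha, ma⟩ := mn ev
  obtain ⟨b, hb, mb⟩ := mn ew
  have hc : φ ⁅a, b⁆ = ⁅v, w⁆ := by rw [map_commutatorElement, ha, hb]
  have hcD : φ ⁅a, b⁆ ∈ D := by
    rw [hc, commutatorElement_def]
    exact mul_mem (mul_mem (mul_mem hv hw) (inv_mem hv)) (inv_mem hw)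
  have e1 : ⁅g * a * g⁻¹, g * b * g⁻¹⁆ = g * ⁅a, b⁆ * g⁻¹ := by
    simp only [commutatorElement_def]; group
  have h1 := com _ (hP a (ha ▸ hv)) _ (hP b (hb ▸ hw)) (fun e => hz (by
    rw [e1] at e
    have : ⁅a, b⁆ = 1 := by
      calc ⁅a, b⁆ = g⁻¹ * (g * ⁅a, b⁆ * g⁻¹) * g := by group
        _ = 1 := by rw [e]; group
    rw [← hc, this, map_one]))
  rw [e1] at h1
  have key : ∀ h : X, φ (h * ⁅a, b⁆ * h⁻¹) ∈ D → l (g * (h * ⁅a, b⁆ * h⁻¹) * g⁻¹) = l (g * ⁅a, b⁆ * g⁻¹) := by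
    intro h hh
    have e2 : g * (h * ⁅a, b⁆ * h⁻¹) * g⁻¹ = g * h * g⁻¹ * (g * ⁅a, b⁆ * g⁻¹) * (g * h * g⁻¹)⁻¹ := by group
    rw [e2]
    exact inv _ _ (hP _ hcD) (e2 ▸ hP _ hh)
  have fx : φ (x * ⁅a, b⁆ * x⁻¹) = v := by rw [map_mul, map_mul, map_inv, hc, hx]
  have fy : φ (y * ⁅a, b⁆ * y⁻¹) = w := by rw [map_mul, map_mul, map_inv, hc, hy]
  have h2 := ma _ fx
  have h3 := mb _ fy
  rw [key x (fx ▸ hv)] at h2
  rw [key y (fy ▸ hw)] at h3
  omega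

def amV : Perm (Fin 6) := swap 0 2 * swap 1 3
def amW : Perm (Fin 6) := swap 0 1 * swap 4 5
def amZ : Perm (Fin 6) := swap 0 1 * swap 2 3
def amL : List (Perm (Fin 6)) := [1, amZ, amV, amV * amZ, amW, amW * amZ, amV * amW, amW * amV]

def amD : Subgroup (Perm (Fin 6)) where
  carrier := {x | x ∈ amL}
  one_mem' := List.mem_cons_self
  mul_mem' := fun {a b} ha hb => (by decide +kernel : ∀ a ∈ amL, ∀ b ∈ amL, a * b ∈ amL) a ha b hb
  inv_mem' := fun {a} ha => (by decide +kernel : ∀ a ∈ amL, a⁻¹ ∈ amL) a ha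

theorem amD_pg : IsPGroup 2 amD := fun x =>
  ⟨2, Subtype.ext ((by decide +kernel : ∀ a ∈ amL, a ^ 2 ^ 2 = 1) x.1 x.2)⟩

theorem am : AM.{u} := by
  classical
  intro M _ _ T L n l hB hn hA hl hinv
  obtain ⟨e⟩ := hA.2
  have h6 : 6 ≤ n := by omega
  let j : Perm (Fin 6) →* Perm (Fin n) := Perm.extendDomainHom (Equiv.ofInjective _ (Fin.castLE_injective h6))
  have ji : Function.Injective j := Perm.extendDomainHom_injective _
  let φ : L →* Perm (Fin n) := ((alternatingGroup (Fin n)).subtype.comp e.toMonoidHom).comp (QuotientGroup.mk' _)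
  have sur : ∀ s : Perm (Fin 6), Perm.sign s = 1 → ∃ a, φ a = j s := fun s hs => by
    have hm : j s ∈ alternatingGroup (Fin n) := Perm.mem_alternatingGroup.2 ((Perm.sign_extendDomain s _).trans hs)
    obtain ⟨a, ha⟩ := QuotientGroup.mk_surjective (e.symm ⟨j s, hm⟩)
    refine ⟨a, ?_⟩
    change ((e (QuotientGroup.mk a) : alternatingGroup (Fin n)) : Perm (Fin n)) = j s
    rw [ha, e.apply_symm_apply]
  have hk : IsPGroup 2 φ.ker := by
    refine (pCore_isPGroup 2 L).to_le fun a ha => ?_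
    have h1 : e (QuotientGroup.mk a) = 1 := Subtype.ext ha
    exact (QuotientGroup.eq_one_iff a).1 (e.map_eq_one_iff.1 h1)
  have hS : IsSylowIn 2 ((T ⊓ L).subgroupOf L) ⊤ :=
    ⟨le_top, hB.sylL.isPGroup.comap_subtype, by rw [relIndex_top_right]; exact hB.sylL.not_dvd⟩
  obtain ⟨x, hx⟩ := sur (swap 1 2 * swap 4 5) (by decide +kernel)
  obtain ⟨y, hy⟩ := sur (swap 2 4 * swap 3 5) (by decide +kernel)
  refine am_core φ hk hS (fun a => l a) (fun a ha b hb h => hl.com a ha.1 b hb.1 fun e => h (Subtype.ext e))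
    (fun g a ha h => hinv g a ha.1 h.1) (amD_pg.map j) (v := j amV) (w := j amW)
    (mem_map_of_mem j (by decide +kernel : amV ∈ amL)) (mem_map_of_mem j (by decide +kernel : amW ∈ amL))
    ?_ (sur _ (by decide +kernel)) (sur _ (by decide +kernel)) (x := x) (y := y) ?_ ?_
  · rw [← map_commutatorElement]
    exact fun h => absurd (ji (h.trans j.map_one.symm)) (by decide +kernel)
  · rw [hx, ← map_commutatorElement, ← map_inv, ← map_mul, ← map_mul]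
    exact congrArg j (by decide +kernel)
  · rw [hy, ← map_commutatorElement, ← map_inv, ← map_mul, ← map_mul]
    exact congrArg j (by decide +kernel)

end CL.HK
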