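/-
Project HK (S5175): assembly of the steps.
-/
import Cfsg.Agent.HK.Core

set_option autoImplicit false

open Cfsg Subgroup
open scoped commutatorElement

namespace CL.HK

open CL.Fus CL.Loc CL.Grp CL.Even

universe u

/-- all steps about blocks and pairs of blocks -/
structure Steps : Prop where
  blk : BLK.{u}
  lc : LC.{u}
  jl : JL.{u}
  a3l : A3L.{u}
  z05 : Z05.{u}
  s5l : S5L.{u}
  j5 : J5.{u}
  am : AM.{u}
  sh : SH.{u}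
  pe : PE.{u}
  k5 : K5.{u}
  k3a : K3a.{u}
  k3b : K3b.{u}
  kl1 : KL1.{u}
  kl2 : KL2.{u}
  gl2m : GL2m.{u}
  kl3 : KL3.{u}
  kl4 : KL4.{u}
  kl5a : KL5a.{u}
  kl5b : KL5b.{u}
  fi1 : FI1.{u}
  fi2 : FI2.{u}
  ch : CH.{u}
  set1 : SET1.{u}
  set2 : SET2.{u}
  sc : SC.{u}
  ts : TS.{u}
  tr2 : TR2.{u}
  trq : TRQ.{u}
  tw : TW.{u}
  tw2 : TW2.{u}

section
variable {T M : Type u} [Group T] [Group M]

theorem Lq.symm {i j : T →* M} {L : Subgroup M} (h : Lq i j L) : Lq j i L :=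
  ⟨h.normal, by rw [inf_comm]; exact h.disj, by rw [inf_comm]; exact h.le', by rw [inf_comm]; exact h.le,
    h.c', h.c, h.cW, h.cV, h.U', h.U⟩

theorem asm_card_comap (i : T →* M) (γ : MulAut T) (X : Subgroup M) :
    Nat.card (X.comap (em i γ)) = Nat.card (X.comap i) :=
  Nat.card_congr (γ.toEquiv.subtypeEquiv fun _ => Iff.rfl)

theorem Core.bk1 {i : T →* M} {Γ : Subgroup (MulAut T)} {L : Subgroup M} (c : Core i Γ L) : Bk i.range L := by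
  have e : cj (1 : M) L = L := by ext x; simp
  exact e ▸ c.bk 1

variable [Finite M]

/-- the linear case: everything about a partner -/
theorem Steps.lin (h : Steps.{u}) {K : Type} [Field K] [Fintype K] {i : T →* M} {Γ : Subgroup (MulAut T)}
    {L : Subgroup M} {N : NS K L} (c : Core i Γ L) (ln : LN i.range L N) (hl : Lin K L) {γ : MulAut T} (hγ : γ ∈ Γ)
    (hp : ⁅Vv i L, Vv (em i γ) L⁆ ≠ ⊥) :
    Lp i (em i γ) L N ∧ Lq i (em i γ) L ∧ Tor (em i γ) i L ∧ Dd i L ≤ Vv i L ∧ Dd (em i γ) L ≤ Vv (em i γ) L ∧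
      (Dd i L = ⊥ ∨ Nat.card (Dd i L) = Fintype.card K) ∧ Vv i L ⊔ Vv (em i γ) L = ⊤ := by
  obtain ⟨c', hr, hJ, he⟩ := h.sh T M i Γ L γ c hγ
  obtain ⟨j1, j2⟩ := h.jl M K _ L N ln
  have j3 : 𝐉[2] i.range ≤ 𝒩(L) := (h.lc M K i.range L).2.2.2 c.bk1
  have j4 : ∀ g, pCoreOf 2 (cj g L) ≤ 𝐉[2] i.range := fun g => by
    obtain ⟨N', l'⟩ := (h.lc M K i.range (cj g L)).1 (c.bk g) ((h.lc M K i.range L).2.1 g hl)
    exact (h.jl M K _ _ N' l').1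
  have a1 : ∀ w ∈ Vv (em i γ) L, i w ∈ 𝐉[2] i.range := fun w hw => by
    have : w ∈ (𝐉[2] i.range).comap (em i γ) := j1 hw
    rwa [hJ] at this
  have a2 : ∀ v ∈ Vv i L, em i γ v ∈ 𝐉[2] i.range := fun v hv => by
    have : v ∈ (𝐉[2] i.range).comap i := j1 hv
    rwa [← hJ] at this
  have lp := h.kl1 T M K i (em i γ) L N c.inj c'.inj hr ln (fun w hw => ⟨j3 (a1 w hw), j2 _ (a1 w hw)⟩)
    (fun v hv => ⟨j3 (a2 v hv), j2 _ (a2 v hv)⟩) hp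
  have d := h.kl2 T M K i Γ L γ N c hγ lp
  have nl := h.kl3 T M K i (em i γ) L N lp d c.bk c.dis j4 j2 hJ
  have lq := h.kl4 T M K i Γ L γ N c hγ lp d nl
  have lp' := (h.gl2m T M K i (em i γ) L N lp).1
  have t1 := h.kl5a T M K i Γ L γ N c hγ lp lq
  have t2 : Tor (em i γ) i L := by
    have := h.kl5a T M K (em i γ) Γ L γ⁻¹ N c' (Γ.inv_mem hγ) (by rw [he]; exact lp') (by rw [he]; exact lq.symm)
    rwa [he] at this
  obtain ⟨b1, b2⟩ := h.kl5b T M K i (em i γ) L N lp lq t1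
  obtain ⟨b3, -⟩ := h.kl5b T M K (em i γ) i L N lp' lq.symm t2
  refine ⟨lp, lq, t2, b1, b3, b2, ?_⟩
  by_contra hne
  obtain ⟨f, f1, f2, f3, f4, f5, ⟨v, v1, v2, v3⟩, w, w1, w2, w3⟩ :=
    h.fi1 T M K i (em i γ) L N lp lq b1 b3 b2 (asm_card_comap i γ _) hne
  exact h.fi2 T M K i Γ L γ N f v w c hγ lp nl f1 f2 f3 f4 f5 v1 v2 v3 w1 w2 w3

theorem Steps.three (h : Steps.{u}) {i : T →* M} {Γ : Subgroup (MulAut T)} {L : Subgroup M} (c : Core i Γ L)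
    (h3 : A3 L) {γ : MulAut T} (hγ : γ ∈ Γ) (hp : ⁅Vv i L, Vv (em i γ) L⁆ ≠ ⊥) :
    Out2 i (em i γ) L ∧ Two (Uu i) (Uu (em i γ)) := by
  have f3 : ∀ g, F3 i.range (cj g L) := fun g =>
    h.a3l M _ _ (c.bk g) ((h.lc M (ZMod 2) i.range L).2.2.1 g h3)
  obtain ⟨a, b, d, e⟩ := h.k3a T M i Γ L γ c hγ h3 f3 hp
  exact h.k3b T M i Γ L γ c hγ h3 (h.a3l M _ _ c.bk1 h3) a b d e

end

theorem Steps.main (h : Steps.{u}) (hA : CaseA.{u}) (hco : CO.{u}) (hB : CaseB.{u}) (hC : CaseC.{u})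
    {Ω : Type u} [Group Ω] {S : Subgroup Ω} [Finite S] (hS : IsPGroup 2 S) (F : FusionSystem S)
    (hF : F.IsSaturated 2) (hmin : Min F) (N : FusionSystem S) (hNsat : N.IsSaturated 2) (hNle : N ≤ F)
    (hNne : N ≠ F) (hpar : Par0 F N) : Concl F := by
  have hch := h.ch Ω S F hS hF hmin
  obtain ⟨U, mx⟩ := h.set1 Ω S F N hS hF hNle hNne hpar
  obtain ⟨M, _, _, ι, H, su⟩ := h.set2 Ω S F N U hS hF hNsat hNle hmin mx
  obtain ⟨s1, s2, s3⟩ := h.sc Ω S F _ U M ι H su hch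
  obtain ⟨L, l1, l2, l3, l4⟩ := h.blk M ι.range H su.syl su.chr su.neH s1 s2
  have c := s3 L l1 l2 l3
  rcases l4 with ⟨K, _, _, hl⟩ | h3 | h5 | ⟨n, hn, ha⟩
  · obtain ⟨N₀, ln⟩ := (h.lc M K ι.range L).1 c.bk1 hl
    obtain ⟨γ, hγ, hp⟩ := h.pe _ M ι _ L c (h.jl M K _ L N₀ ln).1
    obtain ⟨lp, lq, -, b1, b2, -, b4⟩ := h.lin c ln hl hγ hp
    obtain ⟨two, u1, u2⟩ := h.tw _ M K ι _ L N₀ lp lq b1 b2 b4
    obtain ⟨s, sS, sT, sN, ss, δ, hδ, hs, hU⟩ := h.ts Ω S F _ U M ι H γ hS hF su hγ two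
    have hle : pCore 2 M ≤ ι.range := su.syl.le_of_normalized (pCore_isPGroup 2 M) le_top le_normalizer_of_normal
    have e : pCoreOf 2 L = pCore 2 M := le_antisymm c.bk1.core fun x hx => by
      obtain ⟨y, rfl⟩ := hle hx
      have : y ∈ Uu ι := hx
      rwa [u1] at this
    have hp' : ⁅Vv ι L, Vv (em ι δ) L⁆ ≠ ⊥ := by
      have : Vv (em ι δ) L = Vv (em ι γ) L := by
        rw [← u2, ← hU]; unfold Vv Uu; rw [e]
      rwa [this]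
    obtain ⟨lp, lq, t, b1, -, b3, b4⟩ := h.lin c ln hl hδ hp'
    obtain ⟨Z, N', eq⟩ := h.trq Ω S F _ U M ι H L δ s K N₀ su sS sT sN ss hs lp lq t b1 b3 b4
    obtain ⟨ε, θ, v, w, y, z, s', qd⟩ := hco Ω S F _ U Z s K M ι L N' hS hF eq
    by_cases hsc : F.StronglyClosed (S ⊓ 𝒩(U))
    · exact hB Ω S F K ε θ _ v w y z s' hS hF qd hsc
    · exact hC Ω S F K ε θ _ v w y z s' hS hF qd hsc
  · have f3 := h.a3l M _ _ c.bk1 h3
    obtain ⟨γ, hγ, hp⟩ := h.pe _ M ι _ L c f3.J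
    obtain ⟨o, two⟩ := h.three c h3 hγ hp
    obtain ⟨s, sS, sT, sN, ss, δ, hδ, hs, hU⟩ := h.ts Ω S F _ U M ι H γ hS hF su hγ two
    obtain ⟨o', -⟩ := h.three c h3 hδ (h.tw2 _ M ι L γ δ c.inj c.bk1 h3 o hU)
    obtain ⟨D, v, w, z, e2⟩ := h.tr2 Ω S F _ U M ι H L δ s su sS sT sN ss hs c.bk1 h3 f3 o'
    exact hA Ω S F _ D v w z s hS hF hch e2
  · obtain ⟨π, ψ, p5⟩ := h.s5l M _ L c.bk1 h5 (h.z05 M _ L c.bk1 h5)
    have f5 := h.j5 M _ L π ψ c.bk1 p5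
    obtain ⟨γ, hγ, hp⟩ := h.pe _ M ι _ L c f5.1
    exact (h.k5 _ M ι _ L γ π ψ c hγ p5 f5 hp).elim
  · obtain ⟨l, hl, hi⟩ := su.lv
    exact (h.am M _ L n l c.bk1 hn ha hl hi).elim

end CL.HK
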