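/-
Project HK (S5175), case (b): the interface. Parameter groups, models (`SL₃(q)`, `Sp₄(q)` and their central
quotients), the extended groups, and the statements of the steps.
-/
import Cfsg.Agent.HK.Top
import Cfsg.Agent.Known.SpAut2
import Cfsg.Agent.Cls.SLnBasic

set_option autoImplicit false

open Cfsg Subgroup
open scoped commutatorElement

namespace CL.HK

open CL.Fus CL.Loc CL.Grp CL.Even

universe u u'

section
variable {K : Type} [Field K]

/-- the properties of the set of parameters -/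
structure PG (ε : Bool) (θ : K ≃+* K) (A : Set (Kˣ × Kˣ × (K ≃+* K))) : Prop where
  θθ : ∀ a, θ (θ a) ^ ex ε = a
  one : (1, 1, RingEquiv.refl K) ∈ A
  mul : ∀ c ∈ A, ∀ c' ∈ A, ∃ d ∈ A, d.2.2 = c'.2.2.trans c.2.2 ∧ (d.1 : K) = c.1 * c.2.2 c'.1 ∧
    (d.2.1 : K) = c.2.1 * c.2.2 c'.2.1
  inv : ∀ c ∈ A, ∃ d ∈ A, d.2.2 = c.2.2.symm ∧ (c.1 : K) * c.2.2 d.1 = 1 ∧ (c.2.1 : K) * c.2.2 d.2.1 = 1
  swp : ∀ c ∈ A, ∃ d ∈ A, d.2.2 = c.2.2 ∧ (d.1 : K) = θ c.2.1 ∧ (d.2.1 : K) = θ c.1 ^ ex ε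
  tor : ∀ c : Kˣ, (c⁻¹, c ^ 2, RingEquiv.refl K) ∈ A
  odd : ∀ c ∈ A, (∀ a, (c.1 : K) * c.2.2 (c.1 * c.2.2 a) = a) → (∀ a, (c.2.1 : K) * c.2.2 (c.2.1 * c.2.2 a) = a) →
    c.1 = 1 ∧ c.2.1 = 1 ∧ c.2.2 = RingEquiv.refl K

variable {G : Type*} [Group G]

/-- a monomial map together with its action on the two opposite root groups -/
structure Act (v w y z v' w' : K → G) (p r : Kˣ) (τ : K ≃+* K) (f : G → G) : Prop where
  mon : Mon v w y z p r τ f
  av : ∀ a, f (v' a) = v' ((p : K)⁻¹ * τ a)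
  aw : ∀ a, f (w' a) = w' ((r : K)⁻¹ * τ a)

/-- `σ` interchanges the two parabolics -/
structure Swp (ε : Bool) (θ : K ≃+* K) (v w y z v' w' : K → G) (σ : G → G) : Prop where
  sv : ∀ a, σ (v a) = w (θ a ^ ex ε)
  sw : ∀ a, σ (w a) = v (θ a)
  sy : ∀ a, σ (y a) = hz ε y z (θ a ^ ex ε)
  sh : ∀ a, σ (hz ε y z a) = y (θ a)
  sv' : ∀ a, σ (v' a) = w' (θ a ^ ex ε)
  sw' : ∀ a, σ (w' a) = v' (θ a)

/-- model, part (a): coordinates, generation, centre, the Weyl element -/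
structure MDa (ε : Bool) (P : Subgroup G) (v w y z v' w' : K → G) (n : G) : Prop where
  co : Co ε P v w y z
  gen : closure (Set.range v ∪ Set.range w ∪ Set.range v' ∪ Set.range w') = ⊤
  cen : ∀ g : G, (∀ x, g * x = x * g) → g * g = 1 → g = 1
  nv : ∀ a, n * v a * n⁻¹ = y a
  ny : ∀ a, n * y a * n⁻¹ = v a
  nz : ∀ a, n * z a * n⁻¹ = z a

/-- model, part (b): the normalizers of `P` and of `V` -/
structure MDb (ε : Bool) (P : Subgroup G) (v w y z v' w' : K → G) (n : G) : Prop where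
  b1 : ∀ g ∈ 𝒩(P), ∃ t ∈ P, ∃ c d : Kˣ, Act v w y z v' w' (c⁻¹ * d ^ 2) (c ^ 2 * (d ^ ex ε)⁻¹) (RingEquiv.refl K)
    fun x => t * g * x * (t * g)⁻¹
  b2 : ∀ g ∈ 𝒩(sp v y z), g ∈ 𝒩(P) ∨ ∃ u, g * (w u)⁻¹ * n⁻¹ ∈ 𝒩(P)

/-- model, part (c): diagonal, field and graph automorphisms -/
structure MDc (ε : Bool) (v w y z v' w' : K → G) : Prop where
  R : ∀ p r τ, ∃ α : MulAut G, Act v w y z v' w' p r τ α
  Sw : ∀ θ : K ≃+* K, ∃ σ : MulAut G, Swp ε θ v w y z v' w' σ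

/-- the model -/
structure MD (ε : Bool) (P : Subgroup G) (v w y z v' w' : K → G) (n : G) : Prop where
  a : MDa ε P v w y z v' w' n
  b : MDb ε P v w y z v' w' n
  c : MDc ε v w y z v' w'

/-- a simple normal subgroup `G0` with Sylow subgroup `P`, a group `MM` of odd order acting monomially, and an
involution `s` interchanging the parabolics -/
structure MG0 (ε : Bool) (θ : K ≃+* K) (A : Set (Kˣ × Kˣ × (K ≃+* K))) (G0 P MM : Subgroup G) (v w y z : K → G)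
    (n s : G) : Prop where
  co : Co ε P v w y z
  normal : G0.Normal
  simple : IsSimpleGroup G0
  cent : ∀ g : G, (∀ x ∈ G0, g * x = x * g) → g = 1
  syl : IsSylowIn 2 P G0
  nG : n ∈ G0
  nv : ∀ a, n * v a * n⁻¹ = y a
  ny : ∀ a, n * y a * n⁻¹ = v a
  nz : ∀ a, n * z a * n⁻¹ = z a
  s2 : s * s = 1
  sv : ∀ a, s * v a * s⁻¹ = w (θ a ^ ex ε)
  sw : ∀ a, s * w a * s⁻¹ = v (θ a)
  sy : ∀ a, s * y a * s⁻¹ = hz ε y z (θ a ^ ex ε)
  sh : ∀ a, s * hz ε y z a * s⁻¹ = y (θ a)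
  mon : ∀ m ∈ MM, ∃ c ∈ A, Mon v w y z c.1 c.2.1 c.2.2 fun x => m * x * m⁻¹
  real : ∀ c ∈ A, ∃ m ∈ MM, Mon v w y z c.1 c.2.1 c.2.2 fun x => m * x * m⁻¹
  faith : ∀ m ∈ MM, (∀ t ∈ P, m * t = t * m) → m = 1
  odd : ∀ m ∈ MM, m * m = 1 → m = 1
  sM : ∀ m ∈ MM, s * m * s⁻¹ ∈ MM
  b1 : ∀ g ∈ G0, g ∈ 𝒩(P) → ∃ t ∈ P, t * g ∈ MM
  b2 : ∀ g ∈ G0, g ∈ 𝒩(sp v y z) → g ∈ 𝒩(P) ∨ ∃ u, g * (w u)⁻¹ * n⁻¹ ∈ 𝒩(P)

/-- the same, the whole group being `G0 MM ⟨s⟩` -/
structure MG (ε : Bool) (θ : K ≃+* K) (A : Set (Kˣ × Kˣ × (K ≃+* K))) (G0 P MM : Subgroup G) (v w y z : K → G)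
    (n s : G) : Prop extends MG0 ε θ A G0 P MM v w y z n s where
  dec : ∀ g : G, ∃ m ∈ MM, ∃ g0 ∈ G0, g = m * g0 ∨ g = s * m * g0

/-- no element of `G0` conjugates `V` into `W` -/
def NoCj (G0 : Subgroup G) (v w y z : K → G) : Prop := ∀ g ∈ G0, ¬ ∀ x ∈ sp v y z, g * x * g⁻¹ ∈ sp w y z

end

/-! ### The matrices -/

section
variable (K : Type) [Field K]
open Matrix

abbrev L3 := SpecialLinearGroup (Fin 3) K
abbrev S4 := symplecticGroup (Fin 2) K

variable {K}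

def lv (a : K) : L3 K := SpecialLinearGroup.transvection (i := 1) (j := 2) (by decide) a
def lw (a : K) : L3 K := SpecialLinearGroup.transvection (i := 0) (j := 1) (by decide) a
def ly (a : K) : L3 K := SpecialLinearGroup.transvection (i := 0) (j := 2) (by decide) a
def lz (_ : K) : L3 K := 1
def lv' (a : K) : L3 K := SpecialLinearGroup.transvection (i := 2) (j := 1) (by decide) a
def lw' (a : K) : L3 K := SpecialLinearGroup.transvection (i := 1) (j := 0) (by decide) a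
def ln : L3 K := ⟨!![0, -1, 0; 1, 0, 0; 0, 0, 1], by simp [det_fin_three]⟩
/-- upper unitriangular matrices -/
def lP : Subgroup (L3 K) := closure (Set.range lv ∪ Set.range lw ∪ Set.range ly)

theorem memS4 (A B C D : Matrix (Fin 2) (Fin 2) K)
    (h : fromBlocks A B C D * J (Fin 2) K * (fromBlocks A B C D)ᵀ = J (Fin 2) K) :
    fromBlocks A B C D ∈ symplecticGroup (Fin 2) K := SymplecticGroup.mem_iff.2 h

def pv (a : K) : S4 K := ⟨_, memS4 !![1, a; 0, 1] 0 0 !![1, 0; -a, 1] (by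
  ext i j; rcases i with i | i <;> rcases j with j | j <;> fin_cases i <;> fin_cases j <;>
    simp [Matrix.mul_apply, Fintype.sum_sum_type, Fin.sum_univ_two, J])⟩
def pw (a : K) : S4 K := ⟨_, memS4 1 !![0, 0; 0, a] 0 1 (by
  ext i j; rcases i with i | i <;> rcases j with j | j <;> fin_cases i <;> fin_cases j <;>
    simp [Matrix.mul_apply, Fintype.sum_sum_type, Fin.sum_univ_two, J])⟩
def py (a : K) : S4 K := ⟨_, memS4 1 !![0, a; a, 0] 0 1 (by
  ext i j; rcases i with i | i <;> rcases j with j | j <;> fin_cases i <;> fin_cases j <;>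
    simp [Matrix.mul_apply, Fintype.sum_sum_type, Fin.sum_univ_two, J])⟩
def pz (a : K) : S4 K := ⟨_, memS4 1 !![a, 0; 0, 0] 0 1 (by
  ext i j; rcases i with i | i <;> rcases j with j | j <;> fin_cases i <;> fin_cases j <;>
    simp [Matrix.mul_apply, Fintype.sum_sum_type, Fin.sum_univ_two, J])⟩
def pv' (a : K) : S4 K := ⟨_, memS4 !![1, 0; a, 1] 0 0 !![1, -a; 0, 1] (by
  ext i j; rcases i with i | i <;> rcases j with j | j <;> fin_cases i <;> fin_cases j <;>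
    simp [Matrix.mul_apply, Fintype.sum_sum_type, Fin.sum_univ_two, J])⟩
def pw' (a : K) : S4 K := ⟨_, memS4 1 0 !![0, 0; 0, a] 1 (by
  ext i j; rcases i with i | i <;> rcases j with j | j <;> fin_cases i <;> fin_cases j <;>
    simp [Matrix.mul_apply, Fintype.sum_sum_type, Fin.sum_univ_two, J])⟩
def pn : S4 K := ⟨_, memS4 !![1, 0; 0, 0] !![0, 0; 0, -1] !![0, 0; 0, 1] !![1, 0; 0, 0] (by
  ext i j; rcases i with i | i <;> rcases j with j | j <;> fin_cases i <;> fin_cases j <;>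
    simp [Matrix.mul_apply, Fintype.sum_sum_type, Fin.sum_univ_two, J])⟩
/-- the stabilizer of the flag, acting trivially on its factors -/
def pP : Subgroup (S4 K) := closure (Set.range pv ∪ Set.range pw ∪ Set.range py ∪ Set.range pz)

end

/-! ### The steps -/

def L3a : Prop := ∀ (K : Type) [Field K] [Fintype K] [CharP K 2], MDa false (lP (K := K)) lv lw ly lz lv' lw' ln
def L3b : Prop := ∀ (K : Type) [Field K] [Fintype K] [CharP K 2], MDb false (lP (K := K)) lv lw ly lz lv' lw' ln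
def L3c : Prop := ∀ (K : Type) [Field K] [Fintype K] [CharP K 2], MDc false (lv (K := K)) lw ly lz lv' lw'
def S4a : Prop := ∀ (K : Type) [Field K] [Fintype K] [CharP K 2], MDa true (pP (K := K)) pv pw py pz pv' pw' pn
def S4b : Prop := ∀ (K : Type) [Field K] [Fintype K] [CharP K 2], MDb true (pP (K := K)) pv pw py pz pv' pw' pn
def S4c : Prop := ∀ (K : Type) [Field K] [Fintype K] [CharP K 2], MDc true (pv (K := K)) pw py pz pv' pw'

/-- descent to the central quotient -/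
def DESC : Prop := ∀ (K : Type) [Field K] [CharP K 2] (G : Type) [Group G] (ε : Bool) (P : Subgroup G)
  (v w y z v' w' : K → G) (n : G), MD ε P v w y z v' w' n →
  MD ε (P.map (QuotientGroup.mk' (center G))) (fun a => (v a : G ⧸ center G)) (fun a => w a) (fun a => y a)
    (fun a => z a) (fun a => v' a) (fun a => w' a) (n : G ⧸ center G)

/-- `P` is a Sylow subgroup of the model -/
def SYL : Prop := ∀ (K : Type) [Field K] [CharP K 2] (G : Type) [Group G] [Finite G] (ε : Bool) (P : Subgroup G)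
  (v w y z v' w' : K → G) (n : G), MD ε P v w y z v' w' n → IsSylowIn 2 P ⊤

/-- the data inside the automorphism group of a simple model -/
def BUILD : Prop := ∀ (K : Type) [Field K] [Fintype K] [CharP K 2] (G : Type) [Group G] [Finite G] (ε : Bool)
  (θ : K ≃+* K) (A : Set (Kˣ × Kˣ × (K ≃+* K))) (P : Subgroup G) (v w y z v' w' : K → G) (n : G),
  MD ε P v w y z v' w' n → IsSylowIn 2 P ⊤ → IsSimpleGroup G → PG ε θ A →
  ∃ (G0 P' MM : Subgroup (MulAut G)) (v1 w1 y1 z1 : K → MulAut G) (n1 s : MulAut G),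
    MG0 ε θ A G0 P' MM v1 w1 y1 z1 n1 s ∧ Nonempty (G0 ≃* G)

/-- restriction to the subgroup `G0 MM ⟨s⟩` -/
def SUB : Prop := ∀ (K : Type) [Field K] (G : Type) [Group G] [Finite G] (ε : Bool)
  (θ : K ≃+* K) (A : Set (Kˣ × Kˣ × (K ≃+* K))) (G0 P MM : Subgroup G) (v w y z : K → G) (n s : G),
  MG0 ε θ A G0 P MM v w y z n s →
  ∃ (H : Type) (_ : Group H) (_ : Finite H) (G1 P1 MM1 : Subgroup H) (v1 w1 y1 z1 : K → H) (n1 s1 : H),
    MG ε θ A G1 P1 MM1 v1 w1 y1 z1 n1 s1 ∧ Nonempty (G1 ≃* G0)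

def NC : Prop := ∀ (K : Type) [Field K] [CharP K 2] (G : Type) [Group G] [Finite G] (ε : Bool)
  (θ : K ≃+* K) (A : Set (Kˣ × Kˣ × (K ≃+* K))) (G0 P MM : Subgroup G) (v w y z : K → G) (n s : G),
  PG ε θ A → MG ε θ A G0 P MM v w y z n s → NoCj G0 v w y z

/-- the fusion system of the extended group is in standard form -/
def QDG : Prop := ∀ (K : Type) [Field K] [Fintype K] [CharP K 2] (G : Type) [Group G] [Finite G] (ε : Bool)
  (θ : K ≃+* K) (A : Set (Kˣ × Kˣ × (K ≃+* K))) (G0 P MM : Subgroup G) (v w y z : K → G) (n s : G),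
  4 ≤ Fintype.card K → PG ε θ A → MG ε θ A G0 P MM v w y z n s → NoCj G0 v w y z →
  QD (groupFusionSystem (P ⊔ zpowers s)) ε θ P v w y z s ∧
    Par (groupFusionSystem (P ⊔ zpowers s)) P v w y z = A ∧
    (groupFusionSystem (P ⊔ zpowers s)).StronglyClosed P

/-- the group theory of the extended group -/
def FIN : Prop := ∀ (K : Type) [Field K] [CharP K 2] (G : Type) [Group G] [Finite G] (ε : Bool)
  (θ : K ≃+* K) (A : Set (Kˣ × Kˣ × (K ≃+* K))) (G0 P MM : Subgroup G) (v w y z : K → G) (n s : G),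
  PG ε θ A → MG ε θ A G0 P MM v w y z n s → NoCj G0 v w y z →
  IsSylowIn 2 (P ⊔ zpowers s) ⊤ ∧ generalizedFittingSubgroup G = G0 ∧ G0 ≤ pResidual 2 G ∧
    Odd (G0.subgroupOf (pResidual 2 G)).index ∧ (pResidual 2 G).index = 2

/-- the parameters of a saturated system in standard form -/
def PGQ : Prop := ∀ (Ω : Type u) [Group Ω] (S : Subgroup Ω) [Finite S] (F : FusionSystem S) (K : Type) [Field K]
  [Fintype K] (ε : Bool) (θ : K ≃+* K) (T : Subgroup Ω) (v w y z : K → Ω) (s : Ω), IsPGroup 2 S →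
  F.IsSaturated 2 → QD F ε θ T v w y z s → PG ε θ (Par F T v w y z)

def ESS1 : Prop := ∀ (Ω : Type u) [Group Ω] (S : Subgroup Ω) [Finite S] (F : FusionSystem S) (K : Type) [Field K]
  [Fintype K] (ε : Bool) (θ : K ≃+* K) (T : Subgroup Ω) (v w y z : K → Ω) (s : Ω) (E : Subgroup Ω), IsPGroup 2 S →
  F.IsSaturated 2 → QD F ε θ T v w y z s → F.IsEssential 2 E → E ≤ T → E = sp v y z ∨ E = sp w y z ∨ E = T

def ESS2 : Prop := ∀ (Ω : Type u) [Group Ω] (S : Subgroup Ω) [Finite S] (F : FusionSystem S) (K : Type) [Field K]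
  [Fintype K] (ε : Bool) (θ : K ≃+* K) (T : Subgroup Ω) (v w y z : K → Ω) (s : Ω) (E : Subgroup Ω), IsPGroup 2 S →
  F.IsSaturated 2 → QD F ε θ T v w y z s → F.IsEssential 2 E →
  (∀ f, Mor F E f → (∀ x ∈ E, f x ∈ E) → ∀ x ∈ E, x ∈ T → f x ∈ T) → E ≤ T

/-- an isomorphism of the Sylow subgroups respecting the coordinates -/
structure GI {Ω : Type u} [Group Ω] {Ω' : Type u'} [Group Ω'] {K : Type} (S : Subgroup Ω) (S' : Subgroup Ω')
    (v w y z : K → Ω) (s : Ω) (v' w' y' z' : K → Ω') (s' : Ω') (Θ : Ω → Ω') (η : Ω' → Ω) : Prop where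
  iso : GIso S S' Θ η
  hv : ∀ a, Θ (v a) = v' a
  hw : ∀ a, Θ (w a) = w' a
  hy : ∀ a, Θ (y a) = y' a
  hz : ∀ a, Θ (z a) = z' a
  hs : Θ s = s'

def UQ1 : Prop := ∀ (Ω : Type u) [Group Ω] (S : Subgroup Ω) (F : FusionSystem S)
  (Ω' : Type u') [Group Ω'] (S' : Subgroup Ω') (F' : FusionSystem S') (K : Type) [Field K]
  [Fintype K] (ε : Bool) (θ : K ≃+* K) (T : Subgroup Ω) (v w y z : K → Ω) (s : Ω)
  (T' : Subgroup Ω') (v' w' y' z' : K → Ω') (s' : Ω'),
  QD F ε θ T v w y z s → QD F' ε θ T' v' w' y' z' s' → ∃ Θ η, GI S S' v w y z s v' w' y' z' s' Θ η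

def UQ2a : Prop := ∀ (Ω : Type u) [Group Ω] (S : Subgroup Ω) [Finite S] (F : FusionSystem S)
  (Ω' : Type u') [Group Ω'] (S' : Subgroup Ω') [Finite S'] (F' : FusionSystem S') (K : Type) [Field K]
  [Fintype K] (ε : Bool) (θ : K ≃+* K) (T : Subgroup Ω) (v w y z : K → Ω) (s : Ω)
  (T' : Subgroup Ω') (v' w' y' z' : K → Ω') (s' : Ω') (Θ : Ω → Ω') (η : Ω' → Ω),
  QD F ε θ T v w y z s → QD F' ε θ T' v' w' y' z' s' → Par F T v w y z ⊆ Par F' T' v' w' y' z' →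
  GI S S' v w y z s v' w' y' z' s' Θ η →
  ∀ A, (A = T ∨ A = sp v y z ∨ A = sp w y z) → ∀ f, Mor F A f → img f A = A →
    Mor F' (img Θ A) fun x => Θ (f (η x))

def UQ2b : Prop := ∀ (Ω : Type u) [Group Ω] (S : Subgroup Ω) [Finite S] (F : FusionSystem S)
  (Ω' : Type u') [Group Ω'] (S' : Subgroup Ω') [Finite S'] (F' : FusionSystem S') (K : Type) [Field K]
  [Fintype K] (ε : Bool) (θ : K ≃+* K) (T : Subgroup Ω) (v w y z : K → Ω) (s : Ω)
  (T' : Subgroup Ω') (v' w' y' z' : K → Ω') (s' : Ω') (Θ : Ω → Ω') (η : Ω' → Ω), IsPGroup 2 S → F.IsSaturated 2 →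
  QD F ε θ T v w y z s → QD F' ε θ T' v' w' y' z' s' → Par F T v w y z ⊆ Par F' T' v' w' y' z' →
  GI S S' v w y z s v' w' y' z' s' Θ η → ∀ f, Mor F S f → Mor F' S' fun x => Θ (f (η x))

/-- two strongly closed systems with the same parameters are isomorphic -/
def ISO : Prop := ∀ (Ω : Type u) [Group Ω] (S : Subgroup Ω) [Finite S] (F : FusionSystem S)
  (Ω' : Type u') [Group Ω'] (S' : Subgroup Ω') [Finite S'] (F' : FusionSystem S') (K : Type) [Field K]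
  [Fintype K] (ε : Bool) (θ : K ≃+* K) (T : Subgroup Ω) (v w y z : K → Ω) (s : Ω)
  (T' : Subgroup Ω') (v' w' y' z' : K → Ω') (s' : Ω'), IsPGroup 2 S → F.IsSaturated 2 → F'.IsSaturated 2 →
  QD F ε θ T v w y z s → QD F' ε θ T' v' w' y' z' s' → Par F T v w y z = Par F' T' v' w' y' z' →
  F.StronglyClosed T → F'.StronglyClosed T' → ∃ Θ η, FIso F F' Θ η

end CL.HK
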