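/-
Project HK (S5175), case (b): calculus in the coordinates `Co`.
-/
import Cfsg.Agent.HK.BDefs

set_option autoImplicit false
set_option linter.unusedSectionVars false

open Cfsg Subgroup
open scoped commutatorElement

namespace CL.HK

open CL.Fus CL.Loc CL.Grp CL.Even

variable {Ω Ω' : Type*} [Group Ω] [Group Ω'] {K : Type} [Field K]

/-- the centre `Y` of `T` -/
def Yg (y z : K → Ω) : Subgroup Ω := closure (Set.range y ∪ Set.range z)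

theorem y_mem_Yg (y z : K → Ω) (a : K) : y a ∈ Yg y z := subset_closure (Or.inl ⟨a, rfl⟩)
theorem z_mem_Yg (y z : K → Ω) (a : K) : z a ∈ Yg y z := subset_closure (Or.inr ⟨a, rfl⟩)
theorem hz_mem_Yg (ε : Bool) (y z : K → Ω) (a : K) : hz ε y z a ∈ Yg y z := by
  cases ε
  · exact y_mem_Yg y z a
  · exact z_mem_Yg y z a
theorem v_mem_sp (v y z : K → Ω) (a : K) : v a ∈ sp v y z := subset_closure (Or.inl (Or.inl ⟨a, rfl⟩))
theorem Yg_le_sp (v y z : K → Ω) : Yg y z ≤ sp v y z :=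
  closure_mono fun _ h => h.elim (fun h => Or.inl (Or.inr h)) Or.inr
theorem y_mem_sp (v y z : K → Ω) (a : K) : y a ∈ sp v y z := Yg_le_sp v y z (y_mem_Yg y z a)
theorem z_mem_sp (v y z : K → Ω) (a : K) : z a ∈ sp v y z := Yg_le_sp v y z (z_mem_Yg y z a)

theorem sp_le_iff {v y z : K → Ω} {H : Subgroup Ω} :
    sp v y z ≤ H ↔ (∀ a, v a ∈ H) ∧ (∀ a, y a ∈ H) ∧ ∀ a, z a ∈ H := by
  refine ⟨fun h => ⟨fun a => h (v_mem_sp v y z a), fun a => h (y_mem_sp v y z a), fun a => h (z_mem_sp v y z a)⟩,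
    fun h => (closure_le _).2 ?_⟩
  rintro _ ((⟨a, rfl⟩ | ⟨a, rfl⟩) | ⟨a, rfl⟩)
  exacts [h.1 a, h.2.1 a, h.2.2 a]

theorem Yg_le_iff {y z : K → Ω} {H : Subgroup Ω} : Yg y z ≤ H ↔ (∀ a, y a ∈ H) ∧ ∀ a, z a ∈ H := by
  refine ⟨fun h => ⟨fun a => h (y_mem_Yg y z a), fun a => h (z_mem_Yg y z a)⟩, fun h => (closure_le _).2 ?_⟩
  rintro _ (⟨a, rfl⟩ | ⟨a, rfl⟩)
  exacts [h.1 a, h.2 a]

theorem sp_map (φ : Ω →* Ω') (v y z : K → Ω) :
    (sp v y z).map φ = sp (fun a => φ (v a)) (fun a => φ (y a)) fun a => φ (z a) := by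
  simp only [sp, MonoidHom.map_closure, Set.image_union, ← Set.range_comp]; rfl

theorem hz_map (φ : Ω → Ω') (ε : Bool) (y z : K → Ω) (a : K) :
    hz ε (fun a => φ (y a)) (fun a => φ (z a)) a = φ (hz ε y z a) := by cases ε <;> rfl

theorem add_zero_one {f : K → Ω} (h : ∀ a b, f (a + b) = f a * f b) : f 0 = 1 := by
  have := h 0 0
  rw [add_zero] at this
  exact mul_left_cancel (this.symm.trans (mul_one _).symm)

theorem add_sq [CharP K 2] {f : K → Ω} (h : ∀ a b, f (a + b) = f a * f b) (a : K) : f a * f a = 1 := by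
  rw [← h, CharTwo.add_self_eq_zero, add_zero_one h]

theorem add_inv {f : K → Ω} (h : ∀ a b, f (a + b) = f a * f b) (a : K) : (f a)⁻¹ = f (-a) :=
  inv_eq_of_mul_eq_one_right (by rw [← h, add_neg_cancel, add_zero_one h])

/-- the automorphisms of a finite field of characteristic two commute -/
theorem aut_comm [Finite K] [CharP K 2] (τ θ : K ≃+* K) (a : K) : τ (θ a) = θ (τ a) := by
  obtain ⟨φ, -, hφ⟩ := CL.SpAut.exists_frob_gen (F := K) 2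
  obtain ⟨m, rfl⟩ := mem_zpowers_iff.1 (hφ τ)
  obtain ⟨n, rfl⟩ := mem_zpowers_iff.1 (hφ θ)
  change (φ ^ m * φ ^ n) a = (φ ^ n * φ ^ m) a
  rw [zpow_mul_comm]

theorem ex_pos (ε : Bool) : ex ε ≠ 0 := by cases ε <;> simp [ex]

namespace Co

variable {ε : Bool} {T : Subgroup Ω} {v w y z : K → Ω} (h : Co ε T v w y z)
include h

theorem v_zero : v 0 = 1 := add_zero_one h.v_add
theorem w_zero : w 0 = 1 := add_zero_one h.w_add
theorem y_zero : y 0 = 1 := add_zero_one h.y_add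
theorem z_zero : z 0 = 1 := add_zero_one h.z_add

theorem Y_le : Yg y z ≤ T := Yg_le_iff.2 ⟨h.yT, h.zT⟩
theorem V_le : sp v y z ≤ T := sp_le_iff.2 ⟨h.vT, h.yT, h.zT⟩
theorem W_le : sp w y z ≤ T := sp_le_iff.2 ⟨h.wT, h.yT, h.zT⟩

theorem Yc {k t : Ω} (hk : k ∈ Yg y z) (ht : t ∈ T) : k * t = t * k := by
  have : Yg y z ≤ 𝒞(T) := Yg_le_iff.2 ⟨fun a => mem_centralizer_iff.2 fun t ht => (h.yc a t ht).symm,
    fun a => mem_centralizer_iff.2 fun t ht => (h.zc a t ht).symm⟩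
  exact (mem_centralizer_iff.1 (this hk) t ht).symm

theorem mem_Y {k : Ω} : k ∈ Yg y z ↔ ∃ b c, k = y b * z c := by
  refine ⟨fun hk => ?_, by rintro ⟨b, c, rfl⟩; exact mul_mem (y_mem_Yg y z b) (z_mem_Yg y z c)⟩
  induction hk using closure_induction with
  | mem x hx =>
    rcases hx with ⟨a, rfl⟩ | ⟨a, rfl⟩
    · exact ⟨a, 0, by rw [h.z_zero, mul_one]⟩
    · exact ⟨0, a, by rw [h.y_zero, one_mul]⟩
  | one => exact ⟨0, 0, by rw [h.z_zero, h.y_zero, one_mul]⟩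
  | mul x x' _ _ hx hx' =>
    obtain ⟨b, c, rfl⟩ := hx
    obtain ⟨b', c', rfl⟩ := hx'
    refine ⟨b + b', c + c', ?_⟩
    rw [h.y_add, h.z_add, mul_assoc, ← mul_assoc (z c), h.zc c _ (h.yT b')]; simp only [mul_assoc]
  | inv x _ hx =>
    obtain ⟨b, c, rfl⟩ := hx
    exact ⟨-b, -c, by rw [mul_inv_rev, add_inv h.y_add, add_inv h.z_add, h.zc _ _ (h.yT _)]⟩

theorem mem_sp_aux {f : K → Ω} (hf : ∀ a b, f (a + b) = f a * f b) (hT : ∀ a, f a ∈ T) {x : Ω} :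
    x ∈ sp f y z ↔ ∃ a, ∃ k ∈ Yg y z, x = f a * k := by
  refine ⟨fun hk => ?_, by rintro ⟨a, k, hk, rfl⟩; exact mul_mem (v_mem_sp f y z a) (Yg_le_sp f y z hk)⟩
  induction hk using closure_induction with
  | mem x hx =>
    rcases hx with (⟨a, rfl⟩ | ⟨a, rfl⟩) | ⟨a, rfl⟩
    · exact ⟨a, 1, one_mem _, (mul_one _).symm⟩
    · exact ⟨0, _, y_mem_Yg y z a, by rw [add_zero_one hf, one_mul]⟩
    · exact ⟨0, _, z_mem_Yg y z a, by rw [add_zero_one hf, one_mul]⟩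
  | one => exact ⟨0, 1, one_mem _, by rw [add_zero_one hf, one_mul]⟩
  | mul x x' _ _ hx hx' =>
    obtain ⟨a, k, hk, rfl⟩ := hx
    obtain ⟨a', k', hk', rfl⟩ := hx'
    refine ⟨a + a', k * k', mul_mem hk hk', ?_⟩
    rw [hf, mul_assoc, ← mul_assoc k, h.Yc hk (hT a')]; simp only [mul_assoc]
  | inv x _ hx =>
    obtain ⟨a, k, hk, rfl⟩ := hx
    exact ⟨-a, k⁻¹, inv_mem hk, by rw [mul_inv_rev, add_inv hf, h.Yc (inv_mem hk) (hT _)]⟩

theorem mem_V {x : Ω} : x ∈ sp v y z ↔ ∃ a, ∃ k ∈ Yg y z, x = v a * k := h.mem_sp_aux h.v_add h.vT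
theorem mem_W {x : Ω} : x ∈ sp w y z ↔ ∃ a, ∃ k ∈ Yg y z, x = w a * k := h.mem_sp_aux h.w_add h.wT

theorem mem_T {t : Ω} : t ∈ T ↔ ∃ a u, ∃ k ∈ Yg y z, t = v a * w u * k := by
  refine ⟨fun ht => ?_, by rintro ⟨a, u, k, hk, rfl⟩; exact mul_mem (mul_mem (h.vT a) (h.wT u)) (h.Y_le hk)⟩
  obtain ⟨a, u, b, c, rfl⟩ := h.nf t ht
  exact ⟨a, u, _, h.mem_Y.2 ⟨b, c, rfl⟩, mul_assoc _ _ _⟩

theorem T_le_iff {H : Subgroup Ω} : T ≤ H ↔ (∀ a, v a ∈ H) ∧ (∀ a, w a ∈ H) ∧ (∀ a, y a ∈ H) ∧ ∀ a, z a ∈ H := by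
  refine ⟨fun e => ⟨fun a => e (h.vT a), fun a => e (h.wT a), fun a => e (h.yT a), fun a => e (h.zT a)⟩,
    fun e t ht => ?_⟩
  obtain ⟨a, u, b, c, rfl⟩ := h.nf t ht
  exact mul_mem (mul_mem (mul_mem (e.1 a) (e.2.1 u)) (e.2.2.1 b)) (e.2.2.2 c)

theorem vw (a u : K) : v a * w u = y (a * u) * z (a ^ 2 * u) * (w u * v a) := by
  rw [← h.com, commutatorElement_def]; group

theorem wv (a u : K) : w u * v a = v a * w u * (y (a * u) * z (a ^ 2 * u))⁻¹ := by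
  rw [h.vw, h.Yc (h.mem_Y.2 ⟨_, _, rfl⟩) (mul_mem (h.wT u) (h.vT a)), mul_inv_cancel_right]

/-- the multiplication rule -/
theorem mul_nf (a u a' u' : K) {k : Ω} (hk : k ∈ Yg y z) (k' : Ω) :
    v a * w u * k * (v a' * w u' * k') = v (a + a') * w (u + u') * ((y (a' * u) * z (a' ^ 2 * u))⁻¹ * k * k') := by
  have h1 := h.Yc hk (mul_mem (h.vT a') (h.wT u'))
  have h2 := h.Yc (inv_mem (h.mem_Y.2 ⟨a' * u, a' ^ 2 * u, rfl⟩)) (h.wT u')
  calc _ = v a * (w u * v a') * w u' * k * k' := by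
        rw [mul_assoc (v a * w u), ← mul_assoc k, h1]; simp only [mul_assoc]
    _ = v a * v a' * w u * ((y (a' * u) * z (a' ^ 2 * u))⁻¹ * w u') * k * k' := by
        rw [h.wv]; simp only [mul_assoc]
    _ = _ := by rw [h2, h.v_add, h.w_add]; simp only [mul_assoc]

theorem uniq0 {a u : K} {k : Ω} (hk : k ∈ Yg y z) (e : v a * w u * k = 1) : a = 0 ∧ u = 0 := by
  obtain ⟨b, c, rfl⟩ := h.mem_Y.1 hk
  have := h.uniq a u b c (by rw [← e, mul_assoc (v a * w u)])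
  exact ⟨this.1, this.2.1⟩

/-- uniqueness of the normal form -/
theorem uniq' {a u a' u' : K} {k k' : Ω} (hk : k ∈ Yg y z) (hk' : k' ∈ Yg y z) (e : v a * w u * k = v a' * w u' * k') :
    a = a' ∧ u = u' ∧ k = k' := by
  have h1 := h.mul_nf a u (-a') (-u') hk 1
  have h2 := h.mul_nf a' u' (-a') (-u') hk' 1
  rw [← e, h1, add_neg_cancel, add_neg_cancel, h.v_zero, h.w_zero, one_mul, one_mul, ← mul_inv_eq_one, mul_assoc] at h2
  have hY : ∀ b c, y b * z c ∈ Yg y z := fun b c => h.mem_Y.2 ⟨b, c, rfl⟩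
  obtain ⟨h3, h4⟩ := h.uniq0 (mul_mem (mul_mem (mul_mem (inv_mem (hY _ _)) hk) (one_mem _))
    (inv_mem (mul_mem (mul_mem (inv_mem (hY _ _)) hk') (one_mem _)))) h2
  rw [add_neg_eq_zero] at h3 h4
  subst h3 h4
  exact ⟨rfl, rfl, mul_left_cancel e⟩

theorem yz_eq_one {b c : K} (e : y b * z c = 1) : b = 0 :=
  (h.uniq 0 0 b c (by rw [h.v_zero, h.w_zero, one_mul, one_mul, e])).2.2.1

theorem yz_inj {b c b' c' : K} (e : y b * z c = y b' * z c') : b = b' ∧ z c = z c' := by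
  have : y (b - b') * z (c - c') = 1 := by
    rw [sub_eq_neg_add, h.y_add, sub_eq_add_neg, h.z_add, ← add_inv h.y_add, ← add_inv h.z_add, mul_assoc,
      ← mul_assoc (y b), e]; group
  have hb := sub_eq_zero.1 (h.yz_eq_one this)
  subst hb
  exact ⟨rfl, mul_left_cancel e⟩

theorem z_inj (hε : ε = true) {c c' : K} (e : z c = z c') : c = c' := by
  have := (h.uniq 0 0 0 (c - c') (by
    rw [h.v_zero, h.w_zero, h.y_zero, sub_eq_add_neg, h.z_add, ← add_inv h.z_add, e]; group)).2.2.2 hε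
  exact sub_eq_zero.1 this

theorem v_inj {a a' : K} (e : v a = v a') : a = a' :=
  (h.uniq' (u := 0) (u' := 0) (one_mem _) (one_mem _) (by rw [e])).1

theorem w_inj {a a' : K} (e : w a = w a') : a = a' :=
  (h.uniq' (a := 0) (a' := 0) (one_mem _) (one_mem _) (by rw [e])).2.1

theorem nf_mem_V {a u : K} {k : Ω} (hk : k ∈ Yg y z) : v a * w u * k ∈ sp v y z ↔ u = 0 := by
  refine ⟨fun e => ?_, fun e => by rw [e, h.w_zero, mul_one]; exact h.mem_V.2 ⟨a, k, hk, rfl⟩⟩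
  obtain ⟨a', k', hk', e⟩ := h.mem_V.1 e
  exact (h.uniq' (u' := 0) hk hk' (by rw [e, h.w_zero, mul_one])).2.1

theorem nf_mem_W {a u : K} {k : Ω} (hk : k ∈ Yg y z) : v a * w u * k ∈ sp w y z ↔ a = 0 := by
  refine ⟨fun e => ?_, fun e => by rw [e, h.v_zero, one_mul]; exact h.mem_W.2 ⟨u, k, hk, rfl⟩⟩
  obtain ⟨a', k', hk', e⟩ := h.mem_W.1 e
  exact (h.uniq' (a' := 0) hk hk' (by rw [e, h.v_zero, one_mul])).1

theorem mem_Y_of {x : Ω} (h1 : x ∈ sp v y z) (h2 : x ∈ sp w y z) : x ∈ Yg y z := by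
  obtain ⟨a, k, hk, rfl⟩ := h.mem_V.1 h1
  have : a = 0 := (h.nf_mem_W (u := 0) hk).1 (by rwa [h.w_zero, mul_one])
  rwa [this, h.v_zero, one_mul]

theorem v_mem_W {a : K} (e : v a ∈ sp w y z) : a = 0 :=
  (h.nf_mem_W (u := 0) (one_mem _)).1 (by rwa [h.w_zero, mul_one, mul_one])

theorem w_mem_V {a : K} (e : w a ∈ sp v y z) : a = 0 :=
  (h.nf_mem_V (a := 0) (one_mem _)).1 (by rwa [h.v_zero, mul_one, one_mul])

theorem v_mem_Y {a : K} (e : v a ∈ Yg y z) : a = 0 := h.v_mem_W (Yg_le_sp _ _ _ e)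
theorem w_mem_Y {a : K} (e : w a ∈ Yg y z) : a = 0 := h.w_mem_V (Yg_le_sp _ _ _ e)

/-- commuting elements -/
theorem comm_nf {a u a' u' : K} {k k' : Ω} (hk : k ∈ Yg y z) (hk' : k' ∈ Yg y z)
    (e : v a * w u * k * (v a' * w u' * k') = v a' * w u' * k' * (v a * w u * k)) : a' * u = a * u' := by
  rw [h.mul_nf _ _ _ _ hk, h.mul_nf _ _ _ _ hk', add_comm a' a, add_comm u' u, mul_assoc _ k', h.Yc hk' (h.Y_le hk),
    ← mul_assoc _ k] at e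
  exact (h.yz_inj (inv_injective (mul_right_cancel (mul_right_cancel (mul_left_cancel e))))).1

theorem comm_vw {a u : K} (e : v a * w u = w u * v a) : a = 0 ∨ u = 0 := by
  rw [h.vw, mul_eq_right] at e
  exact mul_eq_zero.1 (h.yz_eq_one e)

theorem V_comm {x x' : Ω} (hx : x ∈ sp v y z) (hx' : x' ∈ sp v y z) : x * x' = x' * x := by
  obtain ⟨a, k, hk, rfl⟩ := h.mem_V.1 hx
  obtain ⟨a', k', hk', rfl⟩ := h.mem_V.1 hx'
  rw [mul_assoc, ← mul_assoc k, h.Yc hk (h.vT a'), mul_assoc (v a') k' , ← mul_assoc k', h.Yc hk' (h.vT a), mul_assoc,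
    mul_assoc, h.Yc hk (h.Y_le hk'), ← mul_assoc, ← mul_assoc (v a'), ← h.v_add, ← h.v_add, add_comm]

theorem W_comm {x x' : Ω} (hx : x ∈ sp w y z) (hx' : x' ∈ sp w y z) : x * x' = x' * x := by
  obtain ⟨a, k, hk, rfl⟩ := h.mem_W.1 hx
  obtain ⟨a', k', hk', rfl⟩ := h.mem_W.1 hx'
  rw [mul_assoc, ← mul_assoc k, h.Yc hk (h.wT a'), mul_assoc (w a') k' , ← mul_assoc k', h.Yc hk' (h.wT a), mul_assoc,
    mul_assoc, h.Yc hk (h.Y_le hk'), ← mul_assoc, ← mul_assoc (w a'), ← h.w_add, ← h.w_add, add_comm]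

/-- `C_T(x) = V` for `x ∈ V \ Y` -/
theorem cent_V {x t : Ω} (hx : x ∈ sp v y z) (hxY : x ∉ Yg y z) (ht : t ∈ T) (e : x * t = t * x) : t ∈ sp v y z := by
  obtain ⟨a, k, hk, rfl⟩ := h.mem_V.1 hx
  obtain ⟨a', u', k', hk', rfl⟩ := h.mem_T.1 ht
  have := h.comm_nf (a := a) (u := 0) (a' := a') (u' := u') hk hk' (by rwa [h.w_zero, mul_one])
  rw [mul_zero, eq_comm, mul_eq_zero] at this
  rcases this with rfl | rfl
  · exact absurd (by rwa [h.v_zero, one_mul]) hxY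
  · exact (h.nf_mem_V hk').2 rfl

theorem cent_W {x t : Ω} (hx : x ∈ sp w y z) (hxY : x ∉ Yg y z) (ht : t ∈ T) (e : x * t = t * x) : t ∈ sp w y z := by
  obtain ⟨u, k, hk, rfl⟩ := h.mem_W.1 hx
  obtain ⟨a', u', k', hk', rfl⟩ := h.mem_T.1 ht
  have := h.comm_nf (a := 0) (u := u) (a' := a') (u' := u') hk hk' (by rwa [h.v_zero, one_mul])
  rw [zero_mul, mul_eq_zero] at this
  rcases this with rfl | rfl
  · exact (h.nf_mem_W hk').2 rfl
  · exact absurd (by rwa [h.w_zero, one_mul]) hxY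

/-- an element of `V` and an element of `W` commute only if one of them lies in `Y` -/
theorem comm_VW {x x' : Ω} (hx : x ∈ sp v y z) (hx' : x' ∈ sp w y z) (e : x * x' = x' * x) :
    x ∈ Yg y z ∨ x' ∈ Yg y z := by
  by_cases hY : x ∈ Yg y z
  · exact Or.inl hY
  · exact Or.inr (h.mem_Y_of (h.cent_V hx hY (h.W_le hx') e) hx')

/-- `Z(T) = Y` -/
theorem mem_Y_of_comm {t : Ω} (ht : t ∈ T) {a u : K} (ha : a ≠ 0) (hu : u ≠ 0) (e1 : v a * t = t * v a)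
    (e2 : w u * t = t * w u) : t ∈ Yg y z :=
  h.mem_Y_of (h.cent_V (v_mem_sp _ _ _ a) (fun e => ha (h.v_mem_Y e)) ht e1)
    (h.cent_W (v_mem_sp _ _ _ u) (fun e => hu (h.w_mem_Y e)) ht e2)

/-- involutions lie in `V ∪ W` -/
theorem invol {t : Ω} (ht : t ∈ T) (e : t * t = 1) : t ∈ sp v y z ∨ t ∈ sp w y z := by
  obtain ⟨a, u, k, hk, rfl⟩ := h.mem_T.1 ht
  have hY : ∀ b c, y b * z c ∈ Yg y z := fun b c => h.mem_Y.2 ⟨b, c, rfl⟩
  by_cases h2 : (2 : K) = 0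
  · have : CharP K 2 := CharTwo.of_one_ne_zero_of_two_eq_zero one_ne_zero h2
    obtain ⟨b, c, rfl⟩ := h.mem_Y.1 hk
    have h3 : y b * z c * (y b * z c) = 1 := by
      rw [mul_assoc, ← mul_assoc (z c), h.zc c _ (h.yT b), mul_assoc, add_sq h.z_add, mul_one, add_sq h.y_add]
    rw [h.mul_nf _ _ _ _ hk, CharTwo.add_self_eq_zero, CharTwo.add_self_eq_zero, h.v_zero, h.w_zero, mul_assoc _ _ (y b * z c),
      h3, one_mul, one_mul, mul_one, inv_eq_one] at e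
    rcases mul_eq_zero.1 (h.yz_eq_one e) with e | e
    · exact Or.inr ((h.nf_mem_W hk).2 e)
    · exact Or.inl ((h.nf_mem_V hk).2 e)
  · rw [h.mul_nf _ _ _ _ hk] at e
    have := (h.uniq0 (mul_mem (mul_mem (inv_mem (hY _ _)) hk) hk) e).1
    rw [← two_mul, mul_eq_zero] at this
    exact Or.inr ((h.nf_mem_W hk).2 (this.resolve_left h2))

theorem conj_eq {t x : Ω} (ht : t ∈ T) (hx : x ∈ T) : ∃ k ∈ Yg y z, t * x * t⁻¹ = x * k := by
  obtain ⟨a, u, k, hk, rfl⟩ := h.mem_T.1 ht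
  obtain ⟨a', u', k', hk', rfl⟩ := h.mem_T.1 hx
  have hY : ∀ b c, y b * z c ∈ Yg y z := fun b c => h.mem_Y.2 ⟨b, c, rfl⟩
  have h1 := h.mul_nf a u a' u' hk k'
  have h2 := h.mul_nf a' u' a u hk' k
  rw [add_comm a', add_comm u', ← mul_inv_eq_iff_eq_mul] at h2
  rw [← h2, mul_assoc _ _⁻¹] at h1
  have hm := mul_mem (inv_mem (mul_mem (mul_mem (inv_mem (hY (a * u') (a ^ 2 * u'))) hk') hk))
    (mul_mem (mul_mem (inv_mem (hY (a' * u) (a' ^ 2 * u))) hk) hk')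
  refine ⟨_, hm, ?_⟩
  rw [h1, mul_assoc (v a' * w u' * k') (v a * w u * k), ← h.Yc hm ht, ← mul_assoc, mul_inv_cancel_right]

theorem comm_mem {t x : Ω} (ht : t ∈ T) (hx : x ∈ T) : ⁅t, x⁆ ∈ Yg y z := by
  obtain ⟨k, hk, e⟩ := h.conj_eq ht hx
  rwa [commutatorElement_def, e, ← h.Yc hk hx, mul_inv_cancel_right]

/-- every subgroup between `Y` and `T` is normal in `T` -/
theorem conj_mem_of {E : Subgroup Ω} (h1 : Yg y z ≤ E) (h2 : E ≤ T) {t x : Ω} (ht : t ∈ T) (hx : x ∈ E) :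
    t * x * t⁻¹ ∈ E := by
  obtain ⟨k, hk, e⟩ := h.conj_eq ht (h2 hx)
  exact e ▸ mul_mem hx (h1 hk)

theorem le_normalizer_of {E : Subgroup Ω} (h1 : Yg y z ≤ E) (h2 : E ≤ T) : T ≤ 𝒩(E) := fun t ht =>
  mem_normalizer_iff.2 fun x => ⟨h.conj_mem_of h1 h2 ht, fun e => by
    simpa [mul_assoc] using h.conj_mem_of h1 h2 (inv_mem ht) e⟩

theorem conj_V {t x : Ω} (ht : t ∈ T) (hx : x ∈ sp v y z) : t * x * t⁻¹ ∈ sp v y z :=
  h.conj_mem_of (Yg_le_sp _ _ _) h.V_le ht hx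

theorem conj_W {t x : Ω} (ht : t ∈ T) (hx : x ∈ sp w y z) : t * x * t⁻¹ ∈ sp w y z :=
  h.conj_mem_of (Yg_le_sp _ _ _) h.W_le ht hx

theorem conj_v_eq {t : Ω} (ht : t ∈ T) {a a' : K} (e : t * v a * t⁻¹ = v a') : a = a' := by
  obtain ⟨k, hk, e'⟩ := h.conj_eq ht (h.vT a)
  exact (h.uniq' (u := 0) (u' := 0) hk (one_mem _) (by rw [h.w_zero, mul_one, mul_one, mul_one, ← e', e])).1

theorem conj_w_eq {t : Ω} (ht : t ∈ T) {a a' : K} (e : t * w a * t⁻¹ = w a') : a = a' := by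
  obtain ⟨k, hk, e'⟩ := h.conj_eq ht (h.wT a)
  exact (h.uniq' (a := 0) (a' := 0) hk (one_mem _) (by rw [h.v_zero, one_mul, one_mul, mul_one, ← e', e])).2.1

theorem Y_sq [CharP K 2] {k : Ω} (hk : k ∈ Yg y z) : k * k = 1 := by
  obtain ⟨b, c, rfl⟩ := h.mem_Y.1 hk
  rw [mul_assoc, ← mul_assoc (z c), h.zc c _ (h.yT b), mul_assoc, add_sq h.z_add, mul_one, add_sq h.y_add]

theorem V_sq [CharP K 2] {x : Ω} (hx : x ∈ sp v y z) : x * x = 1 := by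
  obtain ⟨a, k, hk, rfl⟩ := h.mem_V.1 hx
  rw [mul_assoc, ← mul_assoc k, h.Yc hk (h.vT a), mul_assoc, h.Y_sq hk, mul_one, add_sq h.v_add]

theorem W_sq [CharP K 2] {x : Ω} (hx : x ∈ sp w y z) : x * x = 1 := by
  obtain ⟨a, k, hk, rfl⟩ := h.mem_W.1 hx
  rw [mul_assoc, ← mul_assoc k, h.Yc hk (h.wT a), mul_assoc, h.Y_sq hk, mul_one, add_sq h.w_add]

theorem sq_mem [CharP K 2] {t : Ω} (ht : t ∈ T) : t * t ∈ Yg y z := by
  obtain ⟨a, u, k, hk, rfl⟩ := h.mem_T.1 ht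
  rw [h.mul_nf _ _ _ _ hk, CharTwo.add_self_eq_zero, CharTwo.add_self_eq_zero, h.v_zero, h.w_zero, one_mul, one_mul]
  exact mul_mem (mul_mem (inv_mem (h.mem_Y.2 ⟨_, _, rfl⟩)) hk) hk

theorem pow_four [CharP K 2] {t : Ω} (ht : t ∈ T) : t ^ 4 = 1 := by
  rw [← h.Y_sq (h.sq_mem ht)]; simp only [pow_succ, pow_zero, one_mul, mul_assoc]

theorem isPGroup [CharP K 2] : IsPGroup 2 T := fun t => ⟨2, Subtype.ext (h.pow_four t.2)⟩

theorem hom_ext {f g : Ω → Ω'} (hf : HomOn T f) (hg : HomOn T g) (h1 : ∀ a, f (v a) = g (v a))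
    (h2 : ∀ a, f (w a) = g (w a)) (h3 : ∀ a, f (y a) = g (y a)) (h4 : ∀ a, f (z a) = g (z a)) : ∀ t ∈ T, f t = g t := by
  intro t ht
  obtain ⟨a, u, b, c, rfl⟩ := h.nf t ht
  have e1 := mul_mem (h.vT a) (h.wT u)
  have e2 := mul_mem e1 (h.yT b)
  rw [hf.map_mul e2 (h.zT c), hf.map_mul e1 (h.yT b), hf.map_mul (h.vT a) (h.wT u), hg.map_mul e2 (h.zT c),
    hg.map_mul e1 (h.yT b), hg.map_mul (h.vT a) (h.wT u), h1, h2, h3, h4]

theorem hom_mem {f : Ω → Ω'} (hf : HomOn T f) {H : Subgroup Ω'} (h1 : ∀ a, f (v a) ∈ H) (h2 : ∀ a, f (w a) ∈ H)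
    (h3 : ∀ a, f (y a) ∈ H) (h4 : ∀ a, f (z a) ∈ H) : ∀ t ∈ T, f t ∈ H := by
  intro t ht
  obtain ⟨a, u, b, c, rfl⟩ := h.nf t ht
  have e1 := mul_mem (h.vT a) (h.wT u)
  have e2 := mul_mem e1 (h.yT b)
  rw [hf.map_mul e2 (h.zT c), hf.map_mul e1 (h.yT b), hf.map_mul (h.vT a) (h.wT u)]
  exact mul_mem (mul_mem (mul_mem (h1 a) (h2 u)) (h3 b)) (h4 c)

theorem hom_mem_Y {f : Ω → Ω'} (hf : HomOn (Yg y z) f) {H : Subgroup Ω'} (h3 : ∀ a, f (y a) ∈ H)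
    (h4 : ∀ a, f (z a) ∈ H) : ∀ t ∈ Yg y z, f t ∈ H := by
  intro t ht
  obtain ⟨b, c, rfl⟩ := h.mem_Y.1 ht
  rw [hf.map_mul (y_mem_Yg _ _ _) (z_mem_Yg _ _ _)]
  exact mul_mem (h3 b) (h4 c)

theorem hom_mem_V {f : Ω → Ω'} (hf : HomOn (sp v y z) f) {H : Subgroup Ω'} (h1 : ∀ a, f (v a) ∈ H)
    (h3 : ∀ a, f (y a) ∈ H) (h4 : ∀ a, f (z a) ∈ H) : ∀ t ∈ sp v y z, f t ∈ H := by
  intro t ht
  obtain ⟨a, k, hk, rfl⟩ := h.mem_V.1 ht
  rw [hf.map_mul (v_mem_sp _ _ _ _) (Yg_le_sp _ _ _ hk)]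
  exact mul_mem (h1 a) (h.hom_mem_Y (hf.mono (Yg_le_sp _ _ _)) h3 h4 k hk)

theorem hom_mem_W {f : Ω → Ω'} (hf : HomOn (sp w y z) f) {H : Subgroup Ω'} (h1 : ∀ a, f (w a) ∈ H)
    (h3 : ∀ a, f (y a) ∈ H) (h4 : ∀ a, f (z a) ∈ H) : ∀ t ∈ sp w y z, f t ∈ H := by
  intro t ht
  obtain ⟨a, k, hk, rfl⟩ := h.mem_W.1 ht
  rw [hf.map_mul (v_mem_sp _ _ _ _) (Yg_le_sp _ _ _ hk)]
  exact mul_mem (h1 a) (h.hom_mem_Y (hf.mono (Yg_le_sp _ _ _)) h3 h4 k hk)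

/-- transport along a homomorphism that is injective on `T` -/
theorem map (φ : Ω →* Ω') (hi : ∀ t ∈ T, φ t = 1 → t = 1) :
    Co ε (T.map φ) (fun a => φ (v a)) (fun a => φ (w a)) (fun a => φ (y a)) fun a => φ (z a) where
  vT a := mem_map_of_mem φ (h.vT a)
  wT a := mem_map_of_mem φ (h.wT a)
  yT a := mem_map_of_mem φ (h.yT a)
  zT a := mem_map_of_mem φ (h.zT a)
  v_add a b := by rw [h.v_add, map_mul]
  w_add a b := by rw [h.w_add, map_mul]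
  y_add a b := by rw [h.y_add, map_mul]
  z_add a b := by rw [h.z_add, map_mul]
  yc b := by rintro _ ⟨t, ht, rfl⟩; rw [← map_mul, h.yc b t ht, map_mul]
  zc b := by rintro _ ⟨t, ht, rfl⟩; rw [← map_mul, h.zc b t ht, map_mul]
  com a u := by rw [← map_commutatorElement, h.com, map_mul]
  z1 e c := by rw [h.z1 e, map_one]
  nf := by
    rintro _ ⟨t, ht, rfl⟩
    obtain ⟨a, u, b, c, rfl⟩ := h.nf t ht
    exact ⟨a, u, b, c, by simp only [map_mul]⟩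
  uniq a u b c e := h.uniq a u b c (hi _ (mul_mem (mul_mem (mul_mem (h.vT a) (h.wT u)) (h.yT b)) (h.zT c))
    (by simpa only [map_mul] using e))

variable {p r p' r' : Kˣ} {τ τ' : K ≃+* K} {f g : Ω → Ω}

theorem mon_T (hf : HomOn T f) (m : Mon v w y z p r τ f) : ∀ t ∈ T, f t ∈ T :=
  h.hom_mem hf (fun _ => m.v _ ▸ h.vT _) (fun _ => m.w _ ▸ h.wT _) (fun _ => m.y _ ▸ h.yT _) fun _ => m.z _ ▸ h.zT _

theorem mon_Y (hf : HomOn T f) (m : Mon v w y z p r τ f) : ∀ t ∈ Yg y z, f t ∈ Yg y z :=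
  h.hom_mem_Y (hf.mono h.Y_le) (fun _ => m.y _ ▸ y_mem_Yg _ _ _) fun _ => m.z _ ▸ z_mem_Yg _ _ _

theorem mon_V (hf : HomOn T f) (m : Mon v w y z p r τ f) : ∀ t ∈ sp v y z, f t ∈ sp v y z :=
  h.hom_mem_V (hf.mono h.V_le) (fun _ => m.v _ ▸ v_mem_sp _ _ _ _) (fun _ => m.y _ ▸ y_mem_sp _ _ _ _)
    fun _ => m.z _ ▸ z_mem_sp _ _ _ _

theorem mon_W (hf : HomOn T f) (m : Mon v w y z p r τ f) : ∀ t ∈ sp w y z, f t ∈ sp w y z :=
  h.hom_mem_W (hf.mono h.W_le) (fun _ => m.w _ ▸ v_mem_sp _ _ _ _) (fun _ => m.y _ ▸ y_mem_sp _ _ _ _)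
    fun _ => m.z _ ▸ z_mem_sp _ _ _ _

theorem mon_congr (m : Mon v w y z p r τ f) (e : ∀ t ∈ T, f t = g t) : Mon v w y z p r τ g :=
  ⟨fun a => e _ (h.vT a) ▸ m.v a, fun a => e _ (h.wT a) ▸ m.w a, fun a => e _ (h.yT a) ▸ m.y a,
    fun a => e _ (h.zT a) ▸ m.z a⟩

theorem mon_eq (hf : HomOn T f) (hg : HomOn T g) (m : Mon v w y z p r τ f) (m' : Mon v w y z p r τ g) :
    ∀ t ∈ T, f t = g t :=
  h.hom_ext hf hg (fun a => (m.v a).trans (m'.v a).symm) (fun a => (m.w a).trans (m'.w a).symm)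
    (fun a => (m.y a).trans (m'.y a).symm) fun a => (m.z a).trans (m'.z a).symm

/-- monomial maps that differ by an inner automorphism have the same parameters -/
theorem par_eq (m : Mon v w y z p r τ f) {t : Ω} (ht : t ∈ T) (m' : Mon v w y z p' r' τ' fun x => t * f x * t⁻¹) :
    p = p' ∧ r = r' ∧ τ = τ' := by
  have h1 : ∀ a, (p : K) * τ a = p' * τ' a := fun a => h.conj_v_eq ht (by rw [← m.v]; exact m'.v a)
  have h2 : ∀ a, (r : K) * τ a = r' * τ' a := fun a => h.conj_w_eq ht (by rw [← m.w]; exact m'.w a)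
  have e1 : p = p' := Units.ext (by simpa using h1 1)
  refine ⟨e1, Units.ext (by simpa using h2 1), RingEquiv.ext fun a => mul_left_cancel₀ p.ne_zero ?_⟩
  rw [h1, e1]

end Co

theorem mon_id (v w y z : K → Ω) : Mon v w y z 1 1 (RingEquiv.refl K) fun x => x :=
  ⟨by simp, by simp, by simp, by simp⟩

/-- an element `s` interchanging the root groups as in `QD` and `MG0` -/
structure SW (ε : Bool) (θ : K ≃+* K) (v w y z : K → Ω) (s : Ω) : Prop where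
  s2 : s * s = 1
  sv : ∀ a, s * v a * s⁻¹ = w (θ a ^ ex ε)
  sw : ∀ a, s * w a * s⁻¹ = v (θ a)
  sy : ∀ a, s * y a * s⁻¹ = hz ε y z (θ a ^ ex ε)
  sh : ∀ a, s * hz ε y z a * s⁻¹ = y (θ a)

namespace SW

variable {ε : Bool} {θ : K ≃+* K} {T : Subgroup Ω} {v w y z : K → Ω} {s : Ω} (k : SW ε θ v w y z s)
  (h : Co ε T v w y z)
include k

theorem inv : s⁻¹ = s := inv_eq_of_mul_eq_one_right k.s2

include h

theorem sz (a : K) : s * z a * s⁻¹ ∈ Yg y z := by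
  cases ε
  · rw [h.z1 rfl, mul_one, mul_inv_cancel]; exact one_mem _
  · exact k.sh a ▸ y_mem_Yg _ _ _

theorem cY : ∀ t ∈ Yg y z, s * t * s⁻¹ ∈ Yg y z :=
  h.hom_mem_Y (homOn_conj _ s) (fun a => k.sy a ▸ hz_mem_Yg _ _ _ _) (k.sz h)

theorem cV : ∀ t ∈ sp v y z, s * t * s⁻¹ ∈ sp w y z :=
  h.hom_mem_V (homOn_conj _ s) (fun a => k.sv a ▸ v_mem_sp _ _ _ _)
    (fun a => Yg_le_sp _ _ _ (k.cY h _ (y_mem_Yg _ _ a))) fun a => Yg_le_sp _ _ _ (k.sz h a)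

theorem cW : ∀ t ∈ sp w y z, s * t * s⁻¹ ∈ sp v y z :=
  h.hom_mem_W (homOn_conj _ s) (fun a => k.sw a ▸ v_mem_sp _ _ _ _)
    (fun a => Yg_le_sp _ _ _ (k.cY h _ (y_mem_Yg _ _ a))) fun a => Yg_le_sp _ _ _ (k.sz h a)

theorem cT : ∀ t ∈ T, s * t * s⁻¹ ∈ T :=
  h.hom_mem (homOn_conj _ s) (fun a => k.sv a ▸ h.wT _) (fun a => k.sw a ▸ h.vT _)
    (fun a => h.Y_le (k.cY h _ (y_mem_Yg _ _ a))) fun a => h.Y_le (k.sz h a)

theorem mem_normalizer : s ∈ 𝒩(T) := mem_normalizer_iff.2 fun x => ⟨k.cT h x, fun e => by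
  have := k.cT h _ e
  rw [k.inv] at this
  rwa [show s * (s * x * s) * s = (s * s) * x * (s * s) by simp only [mul_assoc], k.s2, one_mul, mul_one] at this⟩

theorem notMem : s ∉ T := fun e => by
  have := h.conj_V e (v_mem_sp v y z 1)
  rw [k.sv, map_one, one_pow] at this
  exact one_ne_zero (h.w_mem_V this)

end SW

theorem MG0.toSW {G : Type*} [Group G] {ε : Bool} {θ : K ≃+* K} {A : Set (Kˣ × Kˣ × (K ≃+* K))} {G0 P MM : Subgroup G}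
    {v w y z : K → G} {n s : G} (h : MG0 ε θ A G0 P MM v w y z n s) : SW ε θ v w y z s :=
  ⟨h.s2, h.sv, h.sw, h.sy, h.sh⟩

namespace QD

universe u
variable {Ω : Type u} [Group Ω] {S : Subgroup Ω} [Fintype K] {F : FusionSystem S} {ε : Bool} {θ : K ≃+* K}
  {T : Subgroup Ω} {v w y z : K → Ω} {s : Ω} (h : QD F ε θ T v w y z s)
include h

theorem toSW : SW ε θ v w y z s := ⟨h.s2, h.sv, h.sw, h.sy, h.sh⟩

theorem exists_eq {x : Ω} (hx : x ∈ S) (hT : x ∉ T) : ∃ t ∈ T, x = t * s :=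
  ⟨_, (h.gen x hx).resolve_left hT, by rw [mul_assoc, h.s2, mul_one]⟩

theorem le_normalizer : S ≤ 𝒩(T) := fun x hx => by
  by_cases hT : x ∈ T
  · exact Subgroup.le_normalizer hT
  · obtain ⟨t, ht, rfl⟩ := h.exists_eq hx hT
    exact mul_mem (Subgroup.le_normalizer ht) (h.toSW.mem_normalizer h.toCo)

theorem mul_mem_of {x x' : Ω} (hx : x ∈ S) (hT : x ∉ T) (hx' : x' ∈ S) (hT' : x' ∉ T) : x * x' ∈ T := by
  obtain ⟨t, ht, rfl⟩ := h.exists_eq hx hT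
  obtain ⟨t', ht', rfl⟩ := h.exists_eq hx' hT'
  have := mul_mem ht (h.toSW.cT h.toCo t' ht')
  rwa [h.toSW.inv, ← mul_assoc, ← mul_assoc, mul_assoc (t * s)] at this

theorem out_V {x t : Ω} (hx : x ∈ S) (hT : x ∉ T) (ht : t ∈ sp v y z) : x * t * x⁻¹ ∈ sp w y z := by
  obtain ⟨t', ht', rfl⟩ := h.exists_eq hx hT
  simpa only [mul_assoc, mul_inv_rev] using h.toCo.conj_W ht' (h.toSW.cV h.toCo t ht)

theorem out_W {x t : Ω} (hx : x ∈ S) (hT : x ∉ T) (ht : t ∈ sp w y z) : x * t * x⁻¹ ∈ sp v y z := by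
  obtain ⟨t', ht', rfl⟩ := h.exists_eq hx hT
  simpa only [mul_assoc, mul_inv_rev] using h.toCo.conj_V ht' (h.toSW.cW h.toCo t ht)

theorem conj_Y {x t : Ω} (hx : x ∈ S) (ht : t ∈ Yg y z) : x * t * x⁻¹ ∈ Yg y z := by
  by_cases hT : x ∈ T
  · exact h.toCo.conj_mem_of le_rfl h.toCo.Y_le hT ht
  · exact h.toCo.mem_Y_of (h.out_W hx hT (Yg_le_sp _ _ _ ht)) (h.out_V hx hT (Yg_le_sp _ _ _ ht))

/-- an involution of `T` commuting with an element of `S \ T` lies in `Y` -/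
theorem mem_Y_of_out {x t : Ω} (hx : x ∈ S) (hT : x ∉ T) (ht : t ∈ T) (h2 : t * t = 1) (e : x * t = t * x) :
    t ∈ Yg y z := by
  have e' : x * t * x⁻¹ = t := by rw [e, mul_inv_cancel_right]
  rcases h.toCo.invol ht h2 with h3 | h3
  · exact h.toCo.mem_Y_of h3 (e' ▸ h.out_V hx hT h3)
  · exact h.toCo.mem_Y_of (e' ▸ h.out_W hx hT h3) h3

end QD

end CL.HK
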