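/-
Project HK (S5175), case (b): the assembly of the steps.
-/
import Cfsg.Agent.HK.B0
import Cfsg.Agent.Cls.SpSimple
import Cfsg.Agent.Loc.FStar

set_option autoImplicit false

open Cfsg Subgroup
open scoped commutatorElement

namespace CL.HK

open CL.Fus CL.Loc CL.Grp CL.Even

universe u u'

theorem essa_of (h1 : ESS1.{u}) (h2 : ESS2.{u}) : ESSa.{u} := fun Ω _ S _ F K _ _ ε θ T v w y z s E hS hF h hE hi =>
  h1 Ω S F K ε θ T v w y z s E hS hF h hE (h2 Ω S F K ε θ T v w y z s E hS hF h hE hi)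

theorem GI.symm' {Ω : Type u} [Group Ω] {Ω' : Type u'} [Group Ω'] {K : Type} [Field K] [Fintype K] {S : Subgroup Ω}
    {S' : Subgroup Ω'} {F : FusionSystem S} {ε : Bool} {θ : K ≃+* K} {T : Subgroup Ω} {v w y z : K → Ω} {s : Ω}
    {v' w' y' z' : K → Ω'} {s' : Ω'} {Θ : Ω → Ω'} {η : Ω' → Ω} (g : GI S S' v w y z s v' w' y' z' s' Θ η)
    (h : QD F ε θ T v w y z s) : GI S' S v' w' y' z' s' v w y z s η Θ where
  iso := g.iso.symm
  hv a := by rw [← g.hv, g.iso.left _ (h.le (h.vT a))]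
  hw a := by rw [← g.hw, g.iso.left _ (h.le (h.wT a))]
  hy a := by rw [← g.hy, g.iso.left _ (h.le (h.yT a))]
  hz a := by rw [← g.hz, g.iso.left _ (h.le (h.zT a))]
  hs := by rw [← g.hs, g.iso.left _ h.sS]

theorem uq_of (h1 : UQ1.{u, u'}) (a : UQ2a.{u, u'}) (a' : UQ2a.{u', u}) (b : UQ2b.{u, u'}) (b' : UQ2b.{u', u}) :
    UQ.{u, u'} := by
  intro Ω _ S _ F Ω' _ S' _ F' K _ _ ε θ T v w y z s T' v' w' y' z' s' hS hF hF' h h' e
  obtain ⟨Θ, η, g⟩ := h1 Ω S F Ω' S' F' K ε θ T v w y z s T' v' w' y' z' s' h h'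
  refine ⟨Θ, η, g.iso, g.hv, g.hw, g.hy, g.hz, g.hs, fun A hA f hf hi => ?_, fun A hA f hf hi => ?_⟩
  · rcases hA with rfl | hA
    · rw [g.iso.img_top]
      exact b Ω A F Ω' S' F' K ε θ T v w y z s T' v' w' y' z' s' Θ η hS hF h h' e.subset g f hf
    · exact a Ω S F Ω' S' F' K ε θ T v w y z s T' v' w' y' z' s' Θ η h h' e.subset g A hA f hf hi
  · rcases hA with rfl | hA
    · rw [g.iso.symm.img_top]
      exact b' Ω' A F' Ω S F K ε θ T' v' w' y' z' s' T v w y z s η Θ (g.iso.isPGroup hS) hF' h' h e.symm.subset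
        (g.symm' h) f hf
    · exact a' Ω' S' F' Ω S F K ε θ T' v' w' y' z' s' T v w y z s η Θ h' h e.symm.subset (g.symm' h) A hA f hf hi

theorem iso_aux (hE : ESSa.{u}) {Ω : Type u} [Group Ω] {Ω' : Type u'} [Group Ω'] {K : Type} [Field K] [Fintype K]
    {S : Subgroup Ω} [Finite S] {S' : Subgroup Ω'} {F : FusionSystem S} {F' : FusionSystem S'} {ε : Bool} {θ : K ≃+* K}
    {T : Subgroup Ω} {v w y z : K → Ω} {s : Ω} {Θ : Ω → Ω'} {η : Ω' → Ω} (hS : IsPGroup 2 S) (hF : F.IsSaturated 2)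
    (h : QD F ε θ T v w y z s) (hT : F.StronglyClosed T) (g : GIso S S' Θ η)
    (k : ∀ A, (A = S ∨ A = T ∨ A = sp v y z ∨ A = sp w y z) → ∀ f, Mor F A f → img f A = A →
      Mor F' (img Θ A) fun x => Θ (f (η x))) : ∀ P f, Mor F P f → Mor F' (img Θ P) fun x => Θ (f (η x)) := by
  have : F.IsSubsystemOf (g.symm.transport F') := alperin_subsystem hS hF fun A a hA ha hi => by
    refine g.symm.mor_transport.2 ⟨ha.le, fun x hx => ha.mem hx, k A ?_ a ha hi⟩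
    rcases hA with hA | hA
    · exact Or.inl hA
    · rcases hE Ω S F K ε θ T v w y z s A hS hF h hA (fun f hf _ x hx hxT => hf.mem_of_stronglyClosed hT hx hxT) with
        e | e | e
      exacts [Or.inr (Or.inr (Or.inl e)), Or.inr (Or.inr (Or.inr e)), Or.inr (Or.inl e)]
  exact fun P f hf => (g.symm.mor_transport.1 (hf.of_subsystem this)).2.2

theorem iso_of (hE : ESSa.{u}) (hE' : ESSa.{u'}) (hU : UQ.{u, u'}) : ISO.{u, u'} := by
  intro Ω _ S _ F Ω' _ S' _ F' K _ _ ε θ T v w y z s T' v' w' y' z' s' hS hF hF' h h' e hT hT'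
  obtain ⟨Θ, η, g, -, -, -, -, -, k, k'⟩ := hU Ω S F Ω' S' F' K ε θ T v w y z s T' v' w' y' z' s' hS hF hF' h h' e
  exact ⟨Θ, η, g, iso_aux hE hS hF h hT g k, iso_aux hE' (g.isPGroup hS) hF' h' hT' g.symm k'⟩

/-- if the Frobenius map has a square root of its inverse, the degree is odd -/
theorem odd_degree {K : Type} [Field K] [Fintype K] [CharP K 2] {θ : K ≃+* K} (h : ∀ a, θ (θ a) ^ 2 = a) :
    ∃ e : ℕ, Odd e ∧ Fintype.card K = 2 ^ e := by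
  obtain ⟨e, -, he⟩ := FiniteField.card K 2
  refine ⟨e, ?_, he⟩
  obtain ⟨φ, hφ, hg⟩ := CL.SpAut.exists_frob_gen (F := K) 2
  obtain ⟨m, rfl⟩ := mem_zpowers_iff.1 (hg θ)
  have h1 : φ ^ (2 * m + 1) = 1 := by
    rw [add_comm, zpow_add, zpow_one, two_mul, zpow_add]
    exact RingEquiv.ext fun a => (hφ _).trans (h a)
  have hp : ∀ (n : ℕ) a, (φ ^ n) a = a ^ 2 ^ n := fun n => by
    induction n with
    | zero => simp
    | succ n ih => intro a; rw [pow_succ', RingAut.mul_apply, hφ, ih, ← pow_mul, ← pow_succ]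
  have ho : orderOf φ = e := by
    refine (orderOf_eq_iff e.pos).2 ⟨RingEquiv.ext fun a => by rw [hp, ← he, FiniteField.pow_card]; rfl,
      fun n hn hn0 e1 => ?_⟩
    have := FiniteField.forall_pow_eq_one_iff K (2 ^ n - 1)
    have h2 : Fintype.card K - 1 ∣ 2 ^ n - 1 := this.1 fun x => by
      have h3 : (x : K) ^ 2 ^ n = x := by rw [← hp, e1]; rfl
      have h4 : x ^ 2 ^ n = x := Units.ext (by simpa using h3)
      rw [← mul_left_inj x, ← pow_succ, Nat.sub_add_cancel Nat.one_le_two_pow, h4, one_mul]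
    have h5 : 2 ^ n < 2 ^ (e : ℕ) := Nat.pow_lt_pow_right one_lt_two hn
    have h6 : 1 < 2 ^ n := Nat.one_lt_two_pow hn0.ne'
    have := Nat.le_of_dvd (by omega) h2
    omega
  have h7 := orderOf_dvd_iff_zpow_eq_one.2 h1
  rw [ho] at h7
  obtain ⟨c, hc⟩ := h7
  exact (Int.odd_coe_nat _).1 (Int.odd_mul.1 (hc ▸ odd_two_mul_add_one m)).1

/-- from a simple model to the conclusion -/
theorem concl_of_model (hI : ISO.{u, 0}) (hP : PGQ.{u}) (h1 : SYL) (h2 : BUILD) (h3 : SUB) (h4 : NC) (h5 : QDG)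
    (h6 : FIN) {Ω : Type u} [Group Ω] {S : Subgroup Ω} [Finite S] {F : FusionSystem S} {K : Type} [Field K] [Fintype K]
    {ε : Bool} {θ : K ≃+* K} {T : Subgroup Ω} {v w y z : K → Ω} {s : Ω} (hS : IsPGroup 2 S) (hF : F.IsSaturated 2)
    (h : QD F ε θ T v w y z s) (hT : F.StronglyClosed T) {L : Type} [Group L] [Finite L] (hL : IsSimpleGroup L)
    {P : Subgroup L} {v1 w1 y1 z1 v1' w1' : K → L} {n : L} (m : MD ε P v1 w1 y1 z1 v1' w1' n) :
    ∃ (G : Type u) (_ : Group G) (_ : Finite G) (ι : ↥S →* G),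
      F.IsRealizedBy ι ∧ (∃ T : Sylow 2 G, (T : Subgroup G) = ι.range) ∧
      Nonempty (↥(generalizedFittingSubgroup G) ≃* L) ∧ generalizedFittingSubgroup G ≤ pResidual 2 G ∧
      Odd ((generalizedFittingSubgroup G).subgroupOf (pResidual 2 G)).index ∧ (pResidual 2 G).index = 2 := by
  have := h.chr
  have pg := hP Ω S F K ε θ T v w y z s hS hF h
  obtain ⟨G0, P', MM, v2, w2, y2, z2, n2, s2, m0, ⟨e0⟩⟩ := h2 K L ε θ _ P v1 w1 y1 z1 v1' w1' n m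
    (h1 K L ε P v1 w1 y1 z1 v1' w1' n m) hL pg
  obtain ⟨H, _, _, G1, P1, MM1, v3, w3, y3, z3, n3, s3, m1, ⟨e1⟩⟩ := h3 K (MulAut L) ε θ _ G0 P' MM v2 w2 y2 z2 n2 s2 m0
  have nc := h4 K H ε θ _ G1 P1 MM1 v3 w3 y3 z3 n3 s3 pg m1
  obtain ⟨q1, q2, q3⟩ := h5 K H ε θ _ G1 P1 MM1 v3 w3 y3 z3 n3 s3 h.four pg m1 nc
  obtain ⟨f1, f2, f3, f4, f5⟩ := h6 K H ε θ _ G1 P1 MM1 v3 w3 y3 z3 n3 s3 pg m1 nc
  have sy : SylIn 2 (P1 ⊔ zpowers s3) ⊤ := sylIn_of_not_dvd f1.le f1.isPGroup f1.not_dvd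
  obtain ⟨Θ, η, k⟩ := hI Ω S F H _ _ K ε θ T v w y z s P1 v3 w3 y3 z3 s3 hS hF (GS.isSaturated_group sy) h q1 q2.symm
    hT q3
  obtain ⟨G, _, ⟨e⟩⟩ := exists_equiv_universe.{u} H
  have : Finite G := Finite.of_equiv H e.toEquiv
  have a1 := map_fstar_equiv e
  have a2 := map_pResidual_equiv e 2
  refine ⟨G, inferInstance, this, e.toMonoidHom.comp k.homOn.toHom, IsRealizedBy.comp_equiv k.isRealizedBy_toHom e,
    sylIn_top_iff.1 (sylIn_range_comp_equiv (k.toGIso.range_toHom.symm ▸ sy) e), ?_, ?_, ?_, ?_⟩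
  · rw [← a1, f2]
    exact ⟨((G1.equivMapOfInjective e.toMonoidHom e.injective).symm.trans e1).trans e0⟩
  · rw [← a1, ← a2, f2]
    exact map_mono f3
  · rw [← a1, ← a2, f2]
    change Odd (relIndex _ _)
    rwa [relIndex_map_map_of_injective _ _ e.injective]
  · rw [← a2, index_map_of_bijective e.bijective, f5]

theorem caseB_of (hI : ISO.{u, 0}) (hP : PGQ.{u}) (h1 : SYL) (h2 : BUILD) (h3 : SUB) (h4 : NC) (h5 : QDG) (h6 : FIN)
    (hD : DESC) (a1 : L3a) (a2 : L3b) (a3 : L3c) (b1 : S4a) (b2 : S4b) (b3 : S4c) : CaseB.{u} := by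
  intro Ω _ S _ F K _ _ ε θ T v w y z s hS hF h hT
  have := h.chr
  cases ε
  · obtain ⟨G, _, _, ι, c1, c2, c3, c4⟩ := concl_of_model hI hP h1 h2 h3 h4 h5 h6 hS hF h hT
      (CL.SLn.isSimpleGroup_PSL_fin (F := K) 3 (by omega) (by omega))
      (hD K (L3 K) false _ _ _ _ _ _ _ _ ⟨a1 K, a2 K, a3 K⟩)
    exact ⟨G, _, inferInstance, ι, c1, c2, Or.inr (Or.inr (Or.inr (Or.inr (Or.inr ⟨K, _, inferInstance, Or.inl c3, c4⟩))))⟩
  · obtain ⟨G, _, _, ι, c1, c2, c3, c4⟩ := concl_of_model hI hP h1 h2 h3 h4 h5 h6 hS hF h hT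
      (CL.Sp.isSimpleGroup_PSp (F := K) 2 (by omega) (Or.inr (Or.inr (by rw [Nat.card_eq_fintype_card]; exact h.four))))
      (hD K (S4 K) true _ _ _ _ _ _ _ _ ⟨b1 K, b2 K, b3 K⟩)
    exact ⟨G, _, inferInstance, ι, c1, c2,
      Or.inr (Or.inr (Or.inr (Or.inr (Or.inr ⟨K, _, _, Or.inr ⟨c3, odd_degree h.θθ⟩, c4⟩))))⟩

end CL.HK
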