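/-
Project HK (S5175), case (b): the data inside the automorphism group of a simple model.
-/
import Cfsg.Agent.HK.B0

set_option autoImplicit false

open Cfsg Subgroup
open scoped commutatorElement

namespace CL.HK

open CL.Fus CL.Loc CL.Grp CL.Even

namespace BBuild

variable {K : Type} [Field K] {G : Type} [Group G] {ε : Bool} {θ τ τ' : K ≃+* K} {v w y z v' w' : K → G}
  {p r p' r' d e : Kˣ} {α β σ : MulAut G}

theorem basic (α : MulAut G) (x : G) : α * MulAut.conj x * α⁻¹ = MulAut.conj (α x) := by ext; simp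

theorem nz {H : Type} [Group H] {j : G →* H} (hj : Function.Injective j) {Q : Subgroup G} {g : G} :
    j g ∈ 𝒩(Q.map j) ↔ g ∈ 𝒩(Q) :=
  ⟨fun h => mem_normalizer_iff.2 fun x => by
    rw [← mem_map_iff_mem hj, ← mem_map_iff_mem hj (x := g * x * g⁻¹), map_mul, map_mul, map_inv]
    exact mem_normalizer_iff.1 h _, fun h => le_normalizer_map j (mem_map_of_mem j h)⟩

theorem congr {f : G → G} (h : Act v w y z v' w' p r τ f) (e1 : (p' : K) = p) (e2 : (r' : K) = r) (e3 : τ' = τ) :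
    Act v w y z v' w' p' r' τ' f := by rwa [Units.ext e1, Units.ext e2, e3]

theorem mul (h : Act v w y z v' w' p r τ α) (k : Act v w y z v' w' p' r' τ' β) (e1 : (d : K) = p * τ p')
    (e2 : (e : K) = r * τ r') : Act v w y z v' w' d e (τ'.trans τ) ⇑(α * β) := by
  refine ⟨⟨fun a => ?_, fun a => ?_, fun a => ?_, fun a => ?_⟩, fun a => ?_, fun a => ?_⟩ <;>
    simp only [MulAut.mul_apply, k.mon.v, k.mon.w, k.mon.y, k.mon.z, k.av, k.aw, h.mon.v, h.mon.w, h.mon.y, h.mon.z, h.av,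
      h.aw, e1, e2, map_mul, map_pow, map_inv₀, RingEquiv.trans_apply] <;> congr 1 <;> ring

theorem inv1 {f : K → G} {c c' : K} (h : ∀ a, α (f a) = f (c * τ a)) (k : c * τ c' = 1) (a : K) :
    α⁻¹ (f a) = f (c' * τ.symm a) := α.injective (by
  rw [MulAut.apply_inv_self, h, map_mul, RingEquiv.apply_symm_apply, ← mul_assoc, k, one_mul])

theorem inv (h : Act v w y z v' w' p r τ α) (e1 : (p : K) * τ d = 1) (e2 : (r : K) * τ e = 1) :
    Act v w y z v' w' d e τ.symm ⇑α⁻¹ :=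
  ⟨⟨inv1 h.mon.v e1, inv1 h.mon.w e2, inv1 h.mon.y (by rw [map_mul, mul_mul_mul_comm, e1, e2, mul_one]),
    inv1 h.mon.z (by rw [map_mul, map_pow, mul_mul_mul_comm, ← mul_pow, e1, e2, one_pow, mul_one])⟩,
    inv1 h.av (by rw [map_inv₀, ← mul_inv, e1, inv_one]), inv1 h.aw (by rw [map_inv₀, ← mul_inv, e2, inv_one])⟩

theorem ext (g : closure (Set.range v ∪ Set.range w ∪ Set.range v' ∪ Set.range w') = ⊤) (h1 : ∀ a, α (v a) = v a)
    (h2 : ∀ a, α (w a) = w a) (h3 : ∀ a, α (v' a) = v' a) (h4 : ∀ a, α (w' a) = w' a) : α = 1 :=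
  MulEquiv.toMonoidHom_injective (MonoidHom.eq_of_eqOn_dense g (by
    rintro _ (((⟨a, rfl⟩ | ⟨a, rfl⟩) | ⟨a, rfl⟩) | ⟨a, rfl⟩)
    exacts [h1 a, h2 a, h3 a, h4 a]))

theorem one (g : closure (Set.range v ∪ Set.range w ∪ Set.range v' ∪ Set.range w') = ⊤)
    (h : Act v w y z v' w' p r τ α) (k : p = 1 ∧ r = 1 ∧ τ = RingEquiv.refl K) : α = 1 := by
  obtain ⟨rfl, rfl, rfl⟩ := k
  exact ext g (by simpa using h.mon.v) (by simpa using h.mon.w) (by simpa using h.av) (by simpa using h.aw)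

theorem mon (h : Act v w y z v' w' p r τ α) : Mon (fun a => MulAut.conj (v a)) (fun a => MulAut.conj (w a))
    (fun a => MulAut.conj (y a)) (fun a => MulAut.conj (z a)) p r τ fun x => α * x * α⁻¹ :=
  ⟨fun a => by rw [basic, h.mon.v], fun a => by rw [basic, h.mon.w], fun a => by rw [basic, h.mon.y],
    fun a => by rw [basic, h.mon.z]⟩

theorem swp [Finite K] [CharP K 2] (t : ∀ a, θ (θ a) ^ ex ε = a) (z1 : ε = false → ∀ c, z c = 1)
    (s : Swp ε θ v w y z v' w' σ) (h : Act v w y z v' w' p r τ α) (e1 : (d : K) = θ r) (e2 : (e : K) = θ p ^ ex ε) :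
    Act v w y z v' w' d e τ ⇑(σ * α * σ) := by
  have k1 : ∀ a, θ (τ (θ a ^ ex ε)) = τ a := fun a => by rw [← aut_comm τ θ, map_pow θ, t]
  have k2 : ∀ a, θ (τ (θ a)) ^ ex ε = τ a := fun a => by rw [← aut_comm τ θ, ← map_pow, t]
  refine ⟨⟨fun a => ?_, fun a => ?_, fun a => ?_, fun a => ?_⟩, fun a => ?_, fun a => ?_⟩ <;>
    rw [MulAut.mul_apply, MulAut.mul_apply]
  · rw [s.sv, h.mon.w, s.sw, map_mul, k1, e1]
  · rw [s.sw, h.mon.v, s.sv, map_mul, mul_pow, k2, e2]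
  · rw [s.sy, e1, e2]
    cases ε
    · exact (congrArg σ (h.mon.y _)).trans ((s.sh _).trans (congrArg y (by
        rw [map_mul, map_mul, k1, ex, cond_false, pow_one, mul_comm (θ p)])))
    · exact (congrArg σ (h.mon.z _)).trans ((s.sh _).trans (congrArg y (by
        rw [map_mul, map_mul, map_pow, k1, ex, cond_true, mul_comm (θ r)])))
  · cases ε
    · rw [z1 rfl, z1 rfl, map_one, map_one, map_one]
    · rw [show σ (z a) = y (θ a) from s.sh a, h.mon.y, s.sy, map_mul, map_mul, mul_pow, mul_pow, k2, e1, e2,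
        mul_comm (θ p ^ _)]
      rfl
  · rw [s.sv', h.aw, s.sw', map_mul, k1, e1, map_inv₀]
  · rw [s.sw', h.av, s.sv', map_mul, mul_pow, k2, e2, map_inv₀, inv_pow]

variable (v w y z v' w') in
/-- the automorphisms acting monomially with parameters in `A` -/
def MM {A : Set (Kˣ × Kˣ × (K ≃+* K))} (h : PG ε θ A) : Subgroup (MulAut G) where
  carrier := {α | ∃ c ∈ A, Act v w y z v' w' c.1 c.2.1 c.2.2 α}
  one_mem' := ⟨_, h.one, mon_id v w y z, by simp, by simp⟩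
  mul_mem' := fun ⟨c, hc, k⟩ ⟨c', hc', k'⟩ =>
    let ⟨d, hd, e1, e2, e3⟩ := h.mul c hc c' hc'; ⟨d, hd, e1 ▸ mul k k' e2 e3⟩
  inv_mem' := fun ⟨c, hc, k⟩ => let ⟨d, hd, e1, e2, e3⟩ := h.inv c hc; ⟨d, hd, e1 ▸ inv k e2 e3⟩

end BBuild

open BBuild

theorem build : BUILD := by
  intro K _ _ _ G _ _ ε θ A P v w y z v' w' n h hP hG q
  have co := h.a.co
  have g := h.a.gen
  have hj : Function.Injective (MulAut.conj : G →* MulAut G) :=
    (MonoidHom.ker_eq_bot_iff _).1 ((MonoidHom.normal_ker _).eq_bot_or_eq_top.resolve_right fun k => by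
      have : MulAut.conj (v 1) = 1 := k.ge (mem_top _)
      simpa using co.comm_vw (mul_inv_eq_iff_eq_mul.1 (DFunLike.congr_fun this (w 1))))
  obtain ⟨σ, s⟩ := h.c.Sw θ
  have t : ∀ a, θ (θ a ^ ex ε) = a := fun a => by rw [map_pow, q.θθ]
  have s2 : σ * σ = 1 := ext g (fun a => by rw [MulAut.mul_apply, s.sv, s.sw, t])
    (fun a => by rw [MulAut.mul_apply, s.sw, s.sv, q.θθ]) (fun a => by rw [MulAut.mul_apply, s.sv', s.sw', t])
    fun a => by rw [MulAut.mul_apply, s.sw', s.sv', q.θθ]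
  have c : ∀ a b : G, MulAut.conj a * MulAut.conj b * (MulAut.conj a)⁻¹ = MulAut.conj (a * b * a⁻¹) := fun a b => basic _ _
  refine ⟨(MulAut.conj : G →* MulAut G).range, P.map MulAut.conj, MM v w y z v' w' q, fun a => MulAut.conj (v a),
    fun a => MulAut.conj (w a), fun a => MulAut.conj (y a), fun a => MulAut.conj (z a), MulAut.conj n, σ,
    ⟨co.map _ fun t _ => (injective_iff_map_eq_one _).1 hj t, ⟨?_⟩, (MonoidHom.ofInjective hj).symm.isSimpleGroup,
      fun α k => MulEquiv.ext fun x => hj ?_, ⟨map_le_range _ _, hP.isPGroup.map _, ?_⟩, ⟨n, rfl⟩,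
      fun a => by rw [c, h.a.nv], fun a => by rw [c, h.a.ny], fun a => by rw [c, h.a.nz], s2,
      fun a => by rw [basic, s.sv], fun a => by rw [basic, s.sw], fun a => by rw [basic, s.sy, hz_map],
      fun a => by rw [hz_map, basic, s.sh], fun _ ⟨d, hd, k⟩ => ⟨d, hd, mon k⟩,
      fun d hd => let ⟨α, k⟩ := h.c.R d.1 d.2.1 d.2.2; ⟨α, ⟨d, hd, k⟩, mon k⟩, fun α ⟨d, _, k⟩ f => ?_,
      fun α ⟨d, hd, k⟩ f => one g k (q.odd d hd (fun a => co.v_inj ?_) fun a => co.w_inj ?_), fun α ⟨d, hd, k⟩ => ?_,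
      ?_, ?_⟩, ⟨(MonoidHom.ofInjective hj).symm⟩⟩
  · rintro _ ⟨x, rfl⟩ α
    exact ⟨α x, (basic α x).symm⟩
  · rw [← basic, k _ ⟨x, rfl⟩, mul_inv_cancel_right]; rfl
  · rw [MonoidHom.range_eq_map, relIndex_map_map_of_injective _ _ hj]; exact hP.not_dvd
  · have f' : ∀ x ∈ P, α x = x := fun x hx => hj (by rw [← basic, f _ (mem_map_of_mem _ hx), mul_inv_cancel_right])
    have h1 : ∀ a, (d.1 : K) * d.2.2 a = a := fun a => co.v_inj (by rw [← k.mon.v, f' _ (co.vT a)])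
    have h2 : (d.2.1 : K) * d.2.2 1 = 1 := co.w_inj (by rw [← k.mon.w, f' _ (co.wT 1)])
    have h3 : d.1 = 1 := Units.ext (by simpa using h1 1)
    exact one g k ⟨h3, Units.ext (by simpa using h2), RingEquiv.ext fun a => by simpa [h3] using h1 a⟩
  · rw [← k.mon.v, ← k.mon.v, ← MulAut.mul_apply, f, MulAut.one_apply]
  · rw [← k.mon.w, ← k.mon.w, ← MulAut.mul_apply, f, MulAut.one_apply]
  · obtain ⟨e, he, e1, e2, e3⟩ := q.swp d hd
    rw [inv_eq_of_mul_eq_one_right s2]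
    exact ⟨e, he, e1 ▸ swp q.θθ co.z1 s k e2 e3⟩
  · rintro _ ⟨x, rfl⟩ hx
    obtain ⟨t, ht, a, b, k⟩ := h.b.b1 x ((nz hj).1 hx)
    obtain ⟨d, hd, d1, d2, d3⟩ := q.swp _ (q.tor (Units.map (θ.symm : K →* K) b))
    obtain ⟨e, he, e1, e2, e3⟩ := q.mul _ (q.tor a) d hd
    refine ⟨_, mem_map_of_mem _ ht, e, he, ?_⟩
    rw [← map_mul]
    exact congr k (by simp [e2, d2]) (by simp [e3, d3]) (by rw [e1, d1]; rfl)
  · rintro _ ⟨x, rfl⟩ hx
    rw [← sp_map] at hx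
    refine (h.b.b2 x ((nz hj).1 hx)).imp (nz hj).2 fun ⟨u, k⟩ => ⟨u, ?_⟩
    rw [← map_inv, ← map_inv, ← map_mul, ← map_mul]
    exact (nz hj).2 k

end CL.HK
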