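/-
Project HK (S5175), case (b): descent of the model to the central quotient.
-/
import Cfsg.Agent.HK.B0

set_option autoImplicit false

open Cfsg Subgroup
open scoped commutatorElement

namespace CL.HK

open CL.Fus CL.Loc CL.Grp CL.Even

namespace BDesc

variable {K : Type} [Field K] {G H : Type} [Group G] [Group H] {ε : Bool} {P : Subgroup G}
  {v w y z v' w' : K → G} {n : G}

theorem k1 (h : MDa ε P v w y z v' w' n) {ζ : G} (hζ : ζ ∈ center G) (e : ζ ^ 4 = 1) : ζ = 1 := by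
  have c : ∀ g ∈ center G, ∀ x, g * x = x * g := fun g hg x => (mem_center_iff.1 hg x).symm
  refine h.cen ζ (c ζ hζ) (h.cen _ (c _ (mul_mem hζ hζ)) ?_)
  rw [← e]
  simp only [pow_succ, pow_zero, one_mul, mul_assoc]

theorem k2 [CharP K 2] (h : MDa ε P v w y z v' w' n) (π : G →* H) (hk : ∀ g, π g = 1 ↔ g ∈ center G) {x t : G}
    (hx : x ^ 4 = 1) (ht : t ∈ P) (e : π x = π t) : x = t := by
  have h1 : t⁻¹ * x ∈ center G := (hk _).1 (by rw [map_mul, map_inv, e, inv_mul_cancel])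
  have h2 : Commute t (t⁻¹ * x) := mem_center_iff.1 h1 t
  have h3 := h2.mul_pow 4
  rw [mul_inv_cancel_left, hx, h.co.pow_four ht, one_mul] at h3
  exact (inv_mul_eq_one.1 (k1 h h1 h3.symm)).symm

theorem conj_mem [CharP K 2] (h : MDa ε P v w y z v' w' n) (π : G →* H) (hk : ∀ g, π g = 1 ↔ g ∈ center G)
    {Q : Subgroup G} (hQ : Q ≤ P) {g : G} (hg : π g ∈ normalizer ((Q.map π : Subgroup H) : Set H)) {x : G}
    (hx : x ∈ Q) : g * x * g⁻¹ ∈ Q := by
  obtain ⟨t, ht, e⟩ := (mem_normalizer_iff.1 hg (π x)).1 (mem_map_of_mem π hx)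
  have h1 : (g * x * g⁻¹) ^ 4 = 1 := by rw [conj_pow, h.co.pow_four (hQ hx), mul_one, mul_inv_cancel]
  rw [k2 h π hk h1 (hQ ht) (by rw [e, map_mul, map_mul, map_inv])]
  exact ht

theorem norm_iff [CharP K 2] (h : MDa ε P v w y z v' w' n) (π : G →* H) (hk : ∀ g, π g = 1 ↔ g ∈ center G)
    {Q : Subgroup G} (hQ : Q ≤ P) (g : G) :
    π g ∈ normalizer ((Q.map π : Subgroup H) : Set H) ↔ g ∈ normalizer (Q : Set G) := by
  refine ⟨fun hg => mem_normalizer_iff.2 fun x => ⟨conj_mem h π hk hQ hg, fun hx => ?_⟩,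
    fun hg => le_normalizer_map π (mem_map_of_mem π hg)⟩
  have h1 := conj_mem h π hk hQ (g := g⁻¹) (by rw [map_inv]; exact inv_mem hg) hx
  simpa [mul_assoc] using h1

theorem act_map (π : G →* H) {p r : Kˣ} {τ : K ≃+* K} {f : G → G} {f' : H → H} (e : ∀ x, f' (π x) = π (f x))
    (h : Act v w y z v' w' p r τ f) :
    Act (fun a => π (v a)) (fun a => π (w a)) (fun a => π (y a)) (fun a => π (z a)) (fun a => π (v' a))
      (fun a => π (w' a)) p r τ f' :=
  ⟨⟨fun a => (e _).trans (congrArg π (h.mon.v a)), fun a => (e _).trans (congrArg π (h.mon.w a)),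
    fun a => (e _).trans (congrArg π (h.mon.y a)), fun a => (e _).trans (congrArg π (h.mon.z a))⟩,
    fun a => (e _).trans (congrArg π (h.av a)), fun a => (e _).trans (congrArg π (h.aw a))⟩

theorem swp_map (π : G →* H) {θ : K ≃+* K} {f : G → G} {f' : H → H} (e : ∀ x, f' (π x) = π (f x))
    (h : Swp ε θ v w y z v' w' f) :
    Swp ε θ (fun a => π (v a)) (fun a => π (w a)) (fun a => π (y a)) (fun a => π (z a)) (fun a => π (v' a))
      (fun a => π (w' a)) f' where
  sv a := (e _).trans (congrArg π (h.sv a))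
  sw a := (e _).trans (congrArg π (h.sw a))
  sy a := by rw [hz_map π]; exact (e _).trans (congrArg π (h.sy a))
  sh a := by rw [hz_map π]; exact (e _).trans (congrArg π (h.sh a))
  sv' a := (e _).trans (congrArg π (h.sv' a))
  sw' a := (e _).trans (congrArg π (h.sw' a))

theorem gen_desc [CharP K 2] (h : MD ε P v w y z v' w' n) (π : G →* H) (hs : Function.Surjective π)
    (hk : ∀ g, π g = 1 ↔ g ∈ center G) (hα : ∀ α : MulAut G, ∃ β : MulAut H, ∀ x, β (π x) = π (α x)) :
    MD ε (P.map π) (fun a => π (v a)) (fun a => π (w a)) (fun a => π (y a)) (fun a => π (z a)) (fun a => π (v' a))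
      (fun a => π (w' a)) (π n) := by
  have ha := h.a
  refine ⟨⟨?_, ?_, ?_, ?_, ?_, ?_⟩, ⟨?_, ?_⟩, ⟨?_, ?_⟩⟩
  · exact ha.co.map π fun t ht e => k1 ha ((hk t).1 e) (ha.co.pow_four ht)
  · have h1 := congrArg (Subgroup.map π) ha.gen
    rw [MonoidHom.map_closure, map_top_of_surjective π hs] at h1
    simp only [Set.image_union, ← Set.range_comp] at h1
    exact h1
  · intro g hc hg
    obtain ⟨g, rfl⟩ := hs g
    rw [hk, mem_center_iff]
    intro x
    have h1 : g * g ∈ center G := (hk _).1 (by rw [map_mul, hg])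
    have h2 : g * x * g⁻¹ * x⁻¹ ∈ center G := (hk _).1 (by
      rw [map_mul, map_mul, map_mul, map_inv, map_inv, hc (π x)]
      group)
    have h3 : g * x * g⁻¹ * x⁻¹ = 1 := by
      refine ha.cen _ (fun t => (mem_center_iff.1 h2 t).symm) ?_
      have h4 := mem_center_iff.1 h2 g
      have h5 := mem_center_iff.1 h1 x
      calc g * x * g⁻¹ * x⁻¹ * (g * x * g⁻¹ * x⁻¹) = (g * x * g⁻¹ * x⁻¹ * g) * (x * g⁻¹ * x⁻¹) := by group
        _ = g * (g * x * g⁻¹ * x⁻¹) * (x * g⁻¹ * x⁻¹) := by rw [h4]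
        _ = (g * g * x) * (g⁻¹ * g⁻¹ * x⁻¹) := by group
        _ = 1 := by rw [← h5]; group
    calc x * g = (g * x * g⁻¹ * x⁻¹) * (x * g) := by rw [h3, one_mul]
      _ = g * x := by group
  · intro a
    rw [← ha.nv, map_mul, map_mul, map_inv]
  · intro a
    rw [← ha.ny a, map_mul, map_mul, map_inv]
  · intro a
    rw [← map_inv, ← map_mul, ← map_mul, ha.nz]
  · intro g hg
    obtain ⟨g, rfl⟩ := hs g
    obtain ⟨t, ht, c, d, h1⟩ := h.b.b1 g ((norm_iff ha π hk le_rfl g).1 hg)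
    refine ⟨π t, mem_map_of_mem π ht, c, d, act_map π (fun x => ?_) h1⟩
    simp only [map_mul, map_inv]
  · intro g hg
    obtain ⟨g, rfl⟩ := hs g
    rw [← sp_map] at hg
    rcases h.b.b2 g ((norm_iff ha π hk ha.co.V_le g).1 hg) with h1 | ⟨u, h1⟩
    · exact Or.inl ((norm_iff ha π hk le_rfl g).2 h1)
    · refine Or.inr ⟨u, ?_⟩
      have h2 := (norm_iff ha π hk le_rfl _).2 h1
      rwa [map_mul, map_mul, map_inv, map_inv] at h2
  · intro p r τ
    obtain ⟨α, h1⟩ := h.c.R p r τ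
    obtain ⟨β, h2⟩ := hα α
    exact ⟨β, act_map π h2 h1⟩
  · intro θ
    obtain ⟨α, h1⟩ := h.c.Sw θ
    obtain ⟨β, h2⟩ := hα α
    exact ⟨β, swp_map π h2 h1⟩

end BDesc

theorem desc : DESC := by
  intro K _ _ G _ ε P v w y z v' w' n h
  refine BDesc.gen_desc h (QuotientGroup.mk' (center G)) (QuotientGroup.mk'_surjective _)
    (fun g => QuotientGroup.eq_one_iff g) fun α => ?_
  have h1 : (center G).map (α : G →* G) = center G := (characteristic_iff_map_eq.1 inferInstance) α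
  exact ⟨QuotientGroup.congr (center G) (center G) α h1, fun _ => rfl⟩

end CL.HK
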