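/-
Project HK (S5175), case (b): the group theory of the extended group.
-/
import Cfsg.Agent.HK.B0
import Cfsg.Agent.Loc.Bal2
import Cfsg.Agent.Grp.PNilp

set_option autoImplicit false

open Cfsg Subgroup
open scoped commutatorElement

namespace CL.HK

open CL.Fus CL.Loc CL.Grp CL.Even

theorem finG : FIN := by
  intro K _ _ G _ _ ε θ A G0 P MM v w y z n s _ h nc
  have := Fact.mk Nat.prime_two
  have := h.normal
  have := h.simple
  have k := h.toMG0.toSW
  have sH : s ∉ MM ⊔ G0 := fun e => by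
    obtain ⟨m, hm, g, hg, e⟩ := mem_sup_of_normal_right.1 e
    obtain ⟨c, -, mc⟩ := h.mon _ (inv_mem hm)
    refine nc g hg fun x hx => ?_
    have := h.co.mon_W (homOn_conj _ _) mc _ (k.cV h.co x hx)
    rwa [← e, show m⁻¹ * (m * g * x * (m * g)⁻¹) * m⁻¹⁻¹ = g * x * g⁻¹ by group] at this
  have i2 : (MM ⊔ G0).index = 2 := index_eq_two_iff_exists_notMem_and'.2 ⟨s, sH, fun b => by
    obtain ⟨m, hm, g, hg, rfl | rfl⟩ := h.dec b
    · exact .inr (mul_mem_sup hm hg)
    · exact .inl (by rw [mul_assoc s m, ← mul_assoc, h.s2, one_mul]; exact mul_mem_sup hm hg)⟩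
  have oM : ¬ 2 ∣ Nat.card MM := fun e => by
    obtain ⟨x, hx⟩ := exists_prime_orderOf_dvd_card' 2 e
    have := h.odd x x.2 (congrArg Subtype.val (show x * x = 1 by rw [← pow_two, ← hx, pow_orderOf_eq_one]))
    rw [show x = 1 from Subtype.ext this, orderOf_one] at hx
    exact absurd hx (by decide)
  have o1 : ¬ 2 ∣ G0.relIndex (MM ⊔ G0) := fun e => oM (e.trans (relIndex_sup_right MM G0 ▸ relIndex_dvd_card G0 MM))
  have q : IsQuasisimple G0 := isQuasisimple_of_isSimpleGroup fun e => by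
    have := congrArg Subtype.val (e.1.1 ⟨_, h.syl.le (h.co.vT 1)⟩ ⟨_, h.syl.le (h.co.wT 1)⟩)
    exact (h.co.comm_vw this).elim one_ne_zero one_ne_zero
  have G0R : G0 ≤ pResidual 2 G := by
    refine subgroupOf_eq_top.1 ((Normal.eq_bot_or_eq_top inferInstance).resolve_left fun e => ?_)
    have := ((isPGroup_quotient_pResidual 2 G).of_injective ((QuotientGroup.mk' _).comp G0.subtype)
      ((injective_iff_map_eq_one _).2 fun x hx => e.le ((QuotientGroup.eq_one_iff x.1).1 hx))).isNilpotent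
    exact IsQuasisimple.not_isSolvable q inferInstance
  have eR : pResidual 2 G = MM ⊔ G0 :=
    have := normal_of_index_eq_two i2
    le_antisymm (pResidual_le_of_index_eq_pow (k := 1) i2)
      (sup_le (le_pResidual_of_coprime ((Nat.prime_two.coprime_iff_not_dvd.2 oM).symm)) G0R)
  have pS : IsPGroup 2 (P ⊔ zpowers s : Subgroup G) := isPGroup_sup' h.syl.isPGroup
    (isPGroup_zpowers (k := 1) (by rw [pow_one, pow_two, h.s2])) (zpowers_le.2 (k.mem_normalizer h.co))
  refine ⟨⟨le_top, pS, fun e => ?_⟩, fstar_eq_of_cent_eq_bot ⟨h.normal.isSubnormal, q⟩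
    ((eq_bot_iff_forall _).2 fun g hg => h.cent g fun x hx => (hg x hx).symm), G0R,
    eR ▸ Nat.odd_iff.2 (Nat.two_dvd_ne_zero.1 o1), eR ▸ i2⟩
  obtain ⟨j, hj⟩ := pS.index (P.subgroupOf (P ⊔ zpowers s))
  have e2 : 2 ∣ P.relIndex (P ⊔ zpowers s) := by
    rw [relIndex, hj]
    refine dvd_pow_self 2 fun e => k.notMem h.co ((relIndex_eq_one (K := P ⊔ zpowers s)).1 ?_ (mem_sup_right (mem_zpowers s)))
    rw [relIndex, hj, e, pow_zero]
  have e3 := Nat.mul_dvd_mul e2 e
  rw [relIndex_top_right, relIndex_mul_index le_sup_left, ← relIndex_mul_index (h.syl.le.trans le_sup_right : P ≤ MM ⊔ G0),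
    i2, ← relIndex_mul_relIndex P G0 _ h.syl.le le_sup_right] at e3
  exact (Nat.prime_two.dvd_mul.1 (Nat.dvd_of_mul_dvd_mul_right two_pos e3)).elim h.syl.not_dvd o1

end CL.HK
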