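/-
Project HK (S5175), case (b): the model `SL₃(q)`, part (a).
-/
import Cfsg.Agent.HK.BDefs

set_option autoImplicit false

open Cfsg Subgroup
open scoped commutatorElement

namespace CL.HK

open CL.Fus CL.Loc CL.Grp CL.Even Matrix

namespace BL3a

variable {K : Type} [Field K]

/-- the underlying matrix -/
def mt (g : L3 K) : Matrix (Fin 3) (Fin 3) K := g.1

theorem mt_mul (g h : L3 K) : mt (g * h) = mt g * mt h := rfl
theorem mt_one : mt (1 : L3 K) = 1 := rfl
theorem mt_ext {g h : L3 K} (e : mt g = mt h) : g = h := Subtype.ext e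

theorem lv_coe (a : K) : mt (lv a) = !![1, 0, 0; 0, 1, a; 0, 0, 1] := by
  ext i j; fin_cases i <;> fin_cases j <;> simp [mt, lv, SpecialLinearGroup.transvection_coe]

theorem lw_coe (a : K) : mt (lw a) = !![1, a, 0; 0, 1, 0; 0, 0, 1] := by
  ext i j; fin_cases i <;> fin_cases j <;> simp [mt, lw, SpecialLinearGroup.transvection_coe]

theorem ly_coe (a : K) : mt (ly a) = !![1, 0, a; 0, 1, 0; 0, 0, 1] := by
  ext i j; fin_cases i <;> fin_cases j <;> simp [mt, ly, SpecialLinearGroup.transvection_coe]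

theorem lv'_coe (a : K) : mt (lv' a) = !![1, 0, 0; 0, 1, 0; 0, a, 1] := by
  ext i j; fin_cases i <;> fin_cases j <;> simp [mt, lv', SpecialLinearGroup.transvection_coe]

theorem lw'_coe (a : K) : mt (lw' a) = !![1, 0, 0; a, 1, 0; 0, 0, 1] := by
  ext i j; fin_cases i <;> fin_cases j <;> simp [mt, lw', SpecialLinearGroup.transvection_coe]

theorem ln_coe : mt (ln : L3 K) = !![0, -1, 0; 1, 0, 0; 0, 0, 1] := rfl

theorem nf_coe (a u b : K) : mt (lv a * lw u * ly b) = !![1, u, b; 0, 1, a; 0, 0, 1] := by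
  rw [mt_mul, mt_mul, lv_coe, lw_coe, ly_coe]
  ext i j; fin_cases i <;> fin_cases j <;> simp [Matrix.mul_apply, Fin.sum_univ_three]

theorem lv_mem (a : K) : lv a ∈ lP := subset_closure (Or.inl (Or.inl ⟨a, rfl⟩))
theorem lw_mem (a : K) : lw a ∈ lP := subset_closure (Or.inl (Or.inr ⟨a, rfl⟩))
theorem ly_mem (a : K) : ly a ∈ lP := subset_closure (Or.inr ⟨a, rfl⟩)

theorem nf_mul (a u b a' u' b' : K) :
    lv a * lw u * ly b * (lv a' * lw u' * ly b') = lv (a + a') * lw (u + u') * ly (b + b' + u * a') := by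
  refine mt_ext ?_
  rw [mt_mul, nf_coe, nf_coe, nf_coe]
  ext i j; fin_cases i <;> fin_cases j <;> simp [Matrix.mul_apply, Fin.sum_univ_three] <;> ring

theorem nf_zero : lv (0 : K) * lw 0 * ly 0 = 1 := by
  refine mt_ext ?_
  rw [nf_coe, mt_one]
  ext i j; fin_cases i <;> fin_cases j <;> simp

theorem lv_zero : lv (0 : K) = 1 := SpecialLinearGroup.transvection_coeff_zero _
theorem lw_zero : lw (0 : K) = 1 := SpecialLinearGroup.transvection_coeff_zero _
theorem ly_zero : ly (0 : K) = 1 := SpecialLinearGroup.transvection_coeff_zero _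

theorem nf {g : L3 K} (hg : g ∈ lP) : ∃ a u b, g = lv a * lw u * ly b := by
  induction hg using closure_induction with
  | mem x hx =>
    rcases hx with (⟨a, rfl⟩ | ⟨a, rfl⟩) | ⟨a, rfl⟩
    · exact ⟨a, 0, 0, by rw [lw_zero, ly_zero, mul_one, mul_one]⟩
    · exact ⟨0, a, 0, by rw [lv_zero, ly_zero, mul_one, one_mul]⟩
    · exact ⟨0, 0, a, by rw [lv_zero, lw_zero, mul_one, one_mul]⟩
  | one => exact ⟨0, 0, 0, nf_zero.symm⟩
  | mul x y _ _ hx hy =>
    obtain ⟨a, u, b, rfl⟩ := hx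
    obtain ⟨a', u', b', rfl⟩ := hy
    exact ⟨_, _, _, nf_mul a u b a' u' b'⟩
  | inv x _ hx =>
    obtain ⟨a, u, b, rfl⟩ := hx
    refine ⟨-a, -u, u * a - b, inv_eq_of_mul_eq_one_right ?_⟩
    rw [nf_mul, show a + -a = 0 by ring, show u + -u = 0 by ring, show b + (u * a - b) + u * -a = 0 by ring,
      nf_zero]

theorem ly_comm (b : K) {t : L3 K} (ht : t ∈ lP) : ly b * t = t * ly b := by
  obtain ⟨a, u, c, rfl⟩ := nf ht
  refine mt_ext ?_
  rw [mt_mul, mt_mul _ (ly b), nf_coe, ly_coe]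
  ext i j; fin_cases i <;> fin_cases j <;> simp [Matrix.mul_apply, Fin.sum_univ_three, add_comm]

theorem co [CharP K 2] : Co false (lP (K := K)) lv lw ly lz where
  vT := lv_mem
  wT := lw_mem
  yT := ly_mem
  zT := fun _ => Subgroup.one_mem _
  v_add := fun a b => SpecialLinearGroup.transvection_add _ a b
  w_add := fun a b => SpecialLinearGroup.transvection_add _ a b
  y_add := fun a b => SpecialLinearGroup.transvection_add _ a b
  z_add := fun _ _ => (mul_one _).symm
  yc := fun b _ ht => ly_comm b ht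
  zc := fun _ t _ => by rw [lz, one_mul, mul_one]
  com := fun a u => by
    have h : ⁅lw u, lv a⁆ = ly (u * a) := CL.SLn.commutator_transvection _ _ _ u a
    rw [lz, mul_one, ← commutatorElement_inv, h, ly, SpecialLinearGroup.transvection_inv, CharTwo.neg_eq,
      mul_comm u a, ly]
  z1 := fun _ _ => rfl
  nf := fun t ht => by
    obtain ⟨a, u, b, rfl⟩ := nf ht
    exact ⟨a, u, b, 0, by rw [lz, mul_one]⟩
  uniq := fun a u b c h => by
    rw [lz, mul_one] at h
    have h1 := congrArg mt h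
    rw [nf_coe, mt_one] at h1
    refine ⟨?_, ?_, ?_, fun h => absurd h (by decide)⟩
    · simpa using congrFun (congrFun h1 1) 2
    · simpa using congrFun (congrFun h1 0) 1
    · simpa using congrFun (congrFun h1 0) 2

theorem gen : closure (Set.range (lv (K := K)) ∪ Set.range lw ∪ Set.range lv' ∪ Set.range lw') = ⊤ := by
  set H := closure (Set.range (lv (K := K)) ∪ Set.range lw ∪ Set.range lv' ∪ Set.range lw')
  have h1 : ∀ a, lv a ∈ H := fun a => subset_closure (Or.inl (Or.inl (Or.inl ⟨a, rfl⟩)))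
  have h2 : ∀ a, lw a ∈ H := fun a => subset_closure (Or.inl (Or.inl (Or.inr ⟨a, rfl⟩)))
  have h3 : ∀ a, lv' a ∈ H := fun a => subset_closure (Or.inl (Or.inr ⟨a, rfl⟩))
  have h4 : ∀ a, lw' a ∈ H := fun a => subset_closure (Or.inr ⟨a, rfl⟩)
  have hc : ∀ x y : L3 K, x ∈ H → y ∈ H → ⁅x, y⁆ ∈ H := fun x y hx hy =>
    H.mul_mem (H.mul_mem (H.mul_mem hx hy) (H.inv_mem hx)) (H.inv_mem hy)
  refine CL.SLn.eq_top_of_transvection_mem H fun i j hij c => ?_
  fin_cases i <;> fin_cases j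
  · exact absurd rfl hij
  · exact h2 c
  · have := hc _ _ (h2 c) (h1 1)
    rw [lw, lv, CL.SLn.commutator_transvection _ _ (by decide), mul_one] at this
    exact this
  · exact h4 c
  · exact absurd rfl hij
  · exact h1 c
  · have := hc _ _ (h3 c) (h4 1)
    rw [lv', lw', CL.SLn.commutator_transvection _ _ (by decide), mul_one] at this
    exact this
  · exact h3 c
  · exact absurd rfl hij

theorem cen [CharP K 2] (g : L3 K) (hg : ∀ x, g * x = x * g) (h2 : g * g = 1) : g = 1 := by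
  have hc : g ∈ center (L3 K) := Subgroup.mem_center_iff.2 fun x => (hg x).symm
  obtain ⟨r, -, hr⟩ := Matrix.SpecialLinearGroup.mem_center_iff.1 hc
  replace hr : scalar (Fin 3) r = mt g := hr
  have h1 := congrArg mt h2
  rw [mt_mul, ← hr, ← map_mul, mt_one] at h1
  have h3 : r * r = 1 := by simpa using congrFun (congrFun h1 0) 0
  have h4 : r = 1 := by
    rcases mul_self_eq_one_iff.1 h3 with h | h
    · exact h
    · rw [h, CharTwo.neg_eq]
  refine mt_ext ?_
  rw [← hr, h4, map_one, mt_one]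

end BL3a

open BL3a

theorem mem_lP {K : Type} [Field K] {g : L3 K} :
    g ∈ lP ↔ g 0 0 = 1 ∧ g 1 1 = 1 ∧ g 2 2 = 1 ∧ g 1 0 = 0 ∧ g 2 0 = 0 ∧ g 2 1 = 0 := by
  constructor
  · intro hg
    obtain ⟨a, u, b, rfl⟩ := nf hg
    have h := nf_coe a u b
    exact ⟨congrFun (congrFun h 0) 0, congrFun (congrFun h 1) 1, congrFun (congrFun h 2) 2,
      congrFun (congrFun h 1) 0, congrFun (congrFun h 2) 0, congrFun (congrFun h 2) 1⟩
  · rintro ⟨h1, h2, h3, h4, h5, h6⟩
    have : g = lv (g 1 2) * lw (g 0 1) * ly (g 0 2) := by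
      refine mt_ext ?_
      rw [nf_coe]
      ext i j; fin_cases i <;> fin_cases j <;> first | rfl | assumption
    rw [this]
    exact Subgroup.mul_mem _ (Subgroup.mul_mem _ (lv_mem _) (lw_mem _)) (ly_mem _)

theorem l3a : L3a := by
  intro K _ _ _
  refine ⟨co, gen, cen, fun a => ?_, fun a => ?_, fun a => ?_⟩
  · rw [mul_inv_eq_iff_eq_mul]
    refine mt_ext ?_
    rw [mt_mul, mt_mul, lv_coe, ly_coe, ln_coe]
    ext i j; fin_cases i <;> fin_cases j <;> simp [Matrix.mul_apply, Fin.sum_univ_three, CharTwo.neg_eq]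
  · rw [mul_inv_eq_iff_eq_mul]
    refine mt_ext ?_
    rw [mt_mul, mt_mul, lv_coe, ly_coe, ln_coe]
    ext i j; fin_cases i <;> fin_cases j <;> simp [Matrix.mul_apply, Fin.sum_univ_three, CharTwo.neg_eq]
  · rw [lz, mul_one, mul_inv_cancel]

end CL.HK
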