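/-
Project HK (S5175), case (b): the normalizers of `P` and `V` in `SL₃(q)`.
-/
import Cfsg.Agent.HK.BDefs

set_option autoImplicit false

open Cfsg Subgroup
open scoped commutatorElement

namespace CL.HK

open CL.Fus CL.Loc CL.Grp CL.Even

namespace BL3b

open Matrix

variable {K : Type} [Field K]

theorem ext3 {g h : L3 K} (H : ∀ i j, g.1 i j = h.1 i j) : g = h := Subtype.ext (Matrix.ext H)

theorem mul_ap (g h : L3 K) (i j : Fin 3) :
    (g * h).1 i j = g.1 i 0 * h.1 0 j + g.1 i 1 * h.1 1 j + g.1 i 2 * h.1 2 j := by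
  simp [Matrix.mul_apply, Fin.sum_univ_three]

theorem lv_val (a : K) : (lv a).1 = !![1, 0, 0; 0, 1, a; 0, 0, 1] := by
  ext i j; fin_cases i <;> fin_cases j <;> simp [lv, SpecialLinearGroup.transvection, Matrix.transvection]
theorem lw_val (a : K) : (lw a).1 = !![1, a, 0; 0, 1, 0; 0, 0, 1] := by
  ext i j; fin_cases i <;> fin_cases j <;> simp [lw, SpecialLinearGroup.transvection, Matrix.transvection]
theorem ly_val (a : K) : (ly a).1 = !![1, 0, a; 0, 1, 0; 0, 0, 1] := by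
  ext i j; fin_cases i <;> fin_cases j <;> simp [ly, SpecialLinearGroup.transvection, Matrix.transvection]
theorem lv'_val (a : K) : (lv' a).1 = !![1, 0, 0; 0, 1, 0; 0, a, 1] := by
  ext i j; fin_cases i <;> fin_cases j <;> simp [lv', SpecialLinearGroup.transvection, Matrix.transvection]
theorem lw'_val (a : K) : (lw' a).1 = !![1, 0, 0; a, 1, 0; 0, 0, 1] := by
  ext i j; fin_cases i <;> fin_cases j <;> simp [lw', SpecialLinearGroup.transvection, Matrix.transvection]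

theorem lv_inv (a : K) : (lv a)⁻¹ = lv (-a) := SpecialLinearGroup.transvection_inv _ _
theorem lw_inv (a : K) : (lw a)⁻¹ = lw (-a) := SpecialLinearGroup.transvection_inv _ _
theorem ly_inv (a : K) : (ly a)⁻¹ = ly (-a) := SpecialLinearGroup.transvection_inv _ _

theorem inv_val (g : L3 K) : (g⁻¹).1 = adjugate g.1 := rfl

theorem ln_inv : ((ln : L3 K)⁻¹).1 = !![0, 1, 0; -1, 0, 0; 0, 0, 1] := by
  rw [inv_val, adjugate_fin_three]
  ext i j; fin_cases i <;> fin_cases j <;> simp [ln]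

/-- upper triangular -/
def Up (g : L3 K) : Prop := g.1 1 0 = 0 ∧ g.1 2 0 = 0 ∧ g.1 2 1 = 0

/-- upper unitriangular -/
def Un (g : L3 K) : Prop := Up g ∧ ∀ i, g.1 i i = 1

theorem Up.mul {g h : L3 K} (hg : Up g) (hh : Up h) : Up (g * h) := by
  obtain ⟨a, b, c⟩ := hg
  obtain ⟨d, e, f⟩ := hh
  refine ⟨?_, ?_, ?_⟩ <;> rw [mul_ap] <;> simp [a, b, c, d, e, f]

theorem Up.diag {g h : L3 K} (hg : Up g) (hh : Up h) (i : Fin 3) : (g * h).1 i i = g.1 i i * h.1 i i := by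
  obtain ⟨a, b, c⟩ := hg
  obtain ⟨d, e, f⟩ := hh
  rw [mul_ap]
  fin_cases i <;> simp [a, b, c, d, e, f]

theorem Up.inv {g : L3 K} (hg : Up g) : Up g⁻¹ := by
  obtain ⟨a, b, c⟩ := hg
  refine ⟨?_, ?_, ?_⟩ <;> rw [inv_val, adjugate_fin_three] <;> simp [a, b, c]

theorem Up.diag_inv {g : L3 K} (hg : Up g) (i : Fin 3) : g.1 i i * (g⁻¹).1 i i = 1 := by
  rw [← hg.diag hg.inv, mul_inv_cancel]; simp

theorem Up.det {g : L3 K} (hg : Up g) : g.1 0 0 * g.1 1 1 * g.1 2 2 = 1 := by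
  obtain ⟨a, b, c⟩ := hg
  have := g.2
  rw [det_fin_three, a, b, c] at this
  linear_combination this

theorem Un.mul {g h : L3 K} (hg : Un g) (hh : Un h) : Un (g * h) :=
  ⟨hg.1.mul hh.1, fun i => by rw [hg.1.diag hh.1, hg.2, hh.2, one_mul]⟩

theorem un_lv (a : K) : Un (lv a) := ⟨by simp [Up, lv_val], fun i => by fin_cases i <;> simp [lv_val]⟩
theorem un_lw (a : K) : Un (lw a) := ⟨by simp [Up, lw_val], fun i => by fin_cases i <;> simp [lw_val]⟩
theorem un_ly (a : K) : Un (ly a) := ⟨by simp [Up, ly_val], fun i => by fin_cases i <;> simp [ly_val]⟩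

theorem lv_mem (a : K) : lv a ∈ lP := subset_closure (.inl (.inl ⟨a, rfl⟩))
theorem lw_mem (a : K) : lw a ∈ lP := subset_closure (.inl (.inr ⟨a, rfl⟩))
theorem ly_mem (a : K) : ly a ∈ lP := subset_closure (.inr ⟨a, rfl⟩)

theorem mem_lP {g : L3 K} : g ∈ lP ↔ Un g := by
  constructor
  · intro hg
    induction hg using closure_induction'' with
    | mem x hx => rcases hx with (⟨a, rfl⟩ | ⟨a, rfl⟩) | ⟨a, rfl⟩ <;> simp only [un_lv, un_lw, un_ly]
    | inv_mem x hx =>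
      rcases hx with (⟨a, rfl⟩ | ⟨a, rfl⟩) | ⟨a, rfl⟩ <;> simp only [lv_inv, lw_inv, ly_inv, un_lv, un_lw, un_ly]
    | one => exact ⟨by simp [Up], by simp⟩
    | mul x y _ _ hx hy => exact hx.mul hy
  · rintro ⟨⟨a, b, c⟩, d⟩
    have e : g = lv (g.1 1 2) * lw (g.1 0 1) * ly (g.1 0 2) := ext3 fun i j => by
      rw [mul_ap, mul_ap, mul_ap, mul_ap, lv_val, lw_val, ly_val]
      fin_cases i <;> fin_cases j <;> simp [a, b, c, d]
    rw [e]
    exact mul_mem (mul_mem (lv_mem _) (lw_mem _)) (ly_mem _)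

theorem Up.conj {g x : L3 K} (hg : Up g) (hx : Un x) : Un (g * x * g⁻¹) :=
  ⟨(hg.mul hx.1).mul hg.inv, fun i => by rw [(hg.mul hx.1).diag hg.inv, hg.diag hx.1, hx.2, mul_one, hg.diag_inv]⟩

theorem mem_N {g : L3 K} : g ∈ 𝒩(lP (K := K)) ↔ Up g := by
  constructor
  · intro hg
    have k : ∀ x ∈ lP, ∃ y, Un y ∧ x * g = g * y := fun x hx =>
      ⟨g⁻¹ * x * g⁻¹⁻¹, mem_lP.1 ((mem_normalizer_iff.1 (inv_mem hg) x).1 hx), by group⟩
    have k' : ∀ x ∈ lP, ∃ y, Un y ∧ g * x = y * g := fun x hx =>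
      ⟨g * x * g⁻¹, mem_lP.1 ((mem_normalizer_iff.1 hg x).1 hx), by group⟩
    refine ⟨?_, ?_, ?_⟩
    · obtain ⟨y, ⟨⟨a, b, c⟩, d⟩, e⟩ := k _ (lw_mem 1)
      have := congrArg (fun m : L3 K => m.1 0 0) e
      simpa [mul_ap, lw_val, a, b, c, d] using this
    · obtain ⟨y, ⟨⟨a, b, c⟩, d⟩, e⟩ := k _ (lv_mem 1)
      have := congrArg (fun m : L3 K => m.1 1 0) e
      simpa [mul_ap, lv_val, a, b, c, d] using this
    · obtain ⟨y, ⟨⟨a, b, c⟩, d⟩, e⟩ := k' _ (lv_mem 1)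
      have := congrArg (fun m : L3 K => m.1 2 2) e
      simpa [mul_ap, lv_val, a, b, c, d] using this
  · intro hg
    refine mem_normalizer_iff.2 fun x => ⟨fun hx => mem_lP.2 (hg.conj (mem_lP.1 hx)), fun hx => ?_⟩
    have := mem_lP.2 (hg.inv.conj (mem_lP.1 hx))
    rwa [show g⁻¹ * (g * x * g⁻¹) * g⁻¹⁻¹ = x by group] at this

/-- a diagonal matrix -/
def dg (a b c : K) (h : a * b * c = 1) : L3 K := ⟨!![a, 0, 0; 0, b, 0; 0, 0, c], by simp [det_fin_three, h]⟩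

theorem dg_val (a b c : K) (h : a * b * c = 1) : (dg a b c h).1 = !![a, 0, 0; 0, b, 0; 0, 0, c] := rfl

theorem act (a b c : K) (h : a * b * c = 1) : ∃ u d : Kˣ,
    Act lv lw ly lz lv' lw' (u⁻¹ * d ^ 2) (u ^ 2 * (d ^ ex false)⁻¹) (RingEquiv.refl K)
      fun x => dg a b c h * x * (dg a b c h)⁻¹ := by
  have ha : a ≠ 0 := by rintro rfl; simp at h
  have hc : c ≠ 0 := by rintro rfl; simp at h
  obtain rfl : b = (a * c)⁻¹ := eq_inv_of_mul_eq_one_left (by linear_combination h)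
  refine ⟨Units.mk0 a ha, (Units.mk0 c hc)⁻¹, ⟨fun x => ?_, fun x => ?_, fun x => ?_, fun x => by simp [lz]⟩,
    fun x => ?_, fun x => ?_⟩ <;> refine mul_inv_eq_iff_eq_mul.2 (ext3 fun i j => ?_) <;>
    rw [mul_ap, mul_ap, dg_val] <;> simp only [lv_val, lw_val, ly_val, lv'_val, lw'_val] <;>
    fin_cases i <;> fin_cases j <;> simp [ex] <;> field_simp

theorem cols {x : L3 K} (hx : x ∈ sp lv ly lz) (i : Fin 3) : x.1 i 0 = (1 : L3 K).1 i 0 ∧ x.1 i 1 = (1 : L3 K).1 i 1 := by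
  induction hx using closure_induction'' generalizing i with
  | mem x hx =>
    rcases hx with (⟨a, rfl⟩ | ⟨a, rfl⟩) | ⟨a, rfl⟩ <;> fin_cases i <;> simp [lv_val, ly_val, lz]
  | inv_mem x hx =>
    rcases hx with (⟨a, rfl⟩ | ⟨a, rfl⟩) | ⟨a, rfl⟩ <;> fin_cases i <;>
      simp [lv_inv, ly_inv, lv_val, ly_val, lz, -SpecialLinearGroup.coe_inv]
  | one => exact ⟨rfl, rfl⟩
  | mul x y _ _ hx hy =>
    rw [mul_ap, mul_ap, (hy 0).1, (hy 1).1, (hy 2).1, (hy 0).2, (hy 1).2, (hy 2).2, (hx i).1, (hx i).2]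
    simp

end BL3b

open BL3b in
theorem l3b : L3b := by
  intro K _ _ _
  refine ⟨fun g hg => ?_, fun g hg => ?_⟩
  · have hu := mem_N.1 hg
    have hD : Up (dg _ _ _ hu.det) := by simp [Up, dg_val]
    refine ⟨dg _ _ _ hu.det * g⁻¹, mem_lP.2 ⟨hD.mul hu.inv, fun i => ?_⟩, ?_⟩
    · have e : (dg _ _ _ hu.det).1 i i = g.1 i i := by fin_cases i <;> rfl
      rw [hD.diag hu.inv, e, hu.diag_inv i]
    · rw [inv_mul_cancel_right]
      exact act _ _ _ _
  · have hv : lv (1 : K) ∈ sp lv ly lz := subset_closure (.inl (.inl ⟨1, rfl⟩))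
    obtain ⟨y, hy, e⟩ : ∃ y ∈ sp lv ly lz, lv 1 * g = g * y :=
      ⟨g⁻¹ * lv 1 * g⁻¹⁻¹, (mem_normalizer_iff.1 (inv_mem hg) _).1 hv, by group⟩
    have h20 : g.1 2 0 = 0 := by
      have := congrArg (fun m : L3 K => m.1 1 0) e
      simpa [mul_ap, lv_val, (cols hy _).1] using this
    have h21 : g.1 2 1 = 0 := by
      have := congrArg (fun m : L3 K => m.1 1 1) e
      simpa [mul_ap, lv_val, (cols hy _).2] using this
    by_cases h10 : g.1 1 0 = 0
    · exact .inl (mem_N.2 ⟨h10, h20, h21⟩)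
    refine .inr ⟨g.1 1 1 / g.1 1 0, mem_N.2 ⟨?_, ?_, ?_⟩⟩ <;>
      rw [mul_ap, mul_ap, mul_ap, mul_ap, lw_inv, lw_val, ln_inv] <;> simp [h20, h21]
    field_simp
    ring

end CL.HK
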