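/-
Project HK (S5175), case (b): diagonal, field and graph automorphisms of `SL₃(q)` (job HK-L3c, helper27).
-/
import Cfsg.Agent.HK.BDefs

set_option autoImplicit false

open Cfsg Subgroup

namespace CL.HK

open Matrix

namespace BL3c

variable {K : Type} [Field K]

local notation "tv" => SpecialLinearGroup.transvection

def mp (τ : K ≃+* K) : MulAut (L3 K) where
  toFun g := SpecialLinearGroup.map (τ : K →+* K) g
  invFun g := SpecialLinearGroup.map (τ.symm : K →+* K) g
  left_inv g := by ext i j; simp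
  right_inv g := by ext i j; simp
  map_mul' := map_mul _

def cf (D E : Matrix (Fin 3) (Fin 3) K) (h : E * D = 1) (g : L3 K) : L3 K :=
  ⟨D * g.1 * E, by rw [det_mul, det_mul, g.2, mul_one, mul_comm, ← det_mul, h, det_one]⟩

theorem cf_cf (D E : Matrix (Fin 3) (Fin 3) K) (h : E * D = 1) (h' : D * E = 1) (g : L3 K) :
    cf E D h' (cf D E h g) = g := Subtype.ext (by
  change E * (D * g.1 * E) * D = g.1
  rw [← Matrix.mul_assoc, ← Matrix.mul_assoc, h, Matrix.one_mul, Matrix.mul_assoc, h, Matrix.mul_one])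

def cjm (D E : Matrix (Fin 3) (Fin 3) K) (h : E * D = 1) : MulAut (L3 K) where
  toFun := cf D E h
  invFun := cf E D (mul_eq_one_comm.1 h)
  left_inv := cf_cf D E h _
  right_inv := cf_cf E D _ h
  map_mul' g k := Subtype.ext (by
    change D * (g.1 * k.1) * E = D * g.1 * E * (D * k.1 * E)
    simp only [Matrix.mul_assoc]
    rw [← Matrix.mul_assoc E, h, Matrix.one_mul])

theorem tr_mul (g k : L3 K) : (g * k).transpose = k.transpose * g.transpose := Subtype.ext (transpose_mul _ _)

theorem tr_inv (g : L3 K) : g.transpose⁻¹ = g⁻¹.transpose :=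
  inv_eq_of_mul_eq_one_right (by rw [← tr_mul, inv_mul_cancel]; exact Subtype.ext transpose_one)

def tr : MulAut (L3 K) where
  toFun g := g⁻¹.transpose
  invFun g := g⁻¹.transpose
  left_inv g := by simp only [tr_inv, inv_inv]; rfl
  right_inv g := by simp only [tr_inv, inv_inv]; rfl
  map_mul' g k := by rw [_root_.mul_inv_rev, tr_mul]

theorem mp_tv (τ : K ≃+* K) {i j : Fin 3} (h : i ≠ j) (a : K) : mp τ (tv h a) = tv h (τ a) := by
  ext k l
  simp [mp, SpecialLinearGroup.transvection_coe, one_apply, single_apply, apply_ite τ]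

theorem tr_tv [CharP K 2] {i j : Fin 3} (h : i ≠ j) (a : K) : tr (tv h a) = tv h.symm a := by
  change (tv h a)⁻¹.transpose = _
  rw [SpecialLinearGroup.transvection_inv, CharTwo.neg_eq]
  refine Subtype.ext ?_
  change (tv h a).1ᵀ = _
  rw [SpecialLinearGroup.transvection_coe, SpecialLinearGroup.transvection_coe, transpose_add, transpose_one,
    transpose_single]

def dg (d : Fin 3 → Kˣ) : MulAut (L3 K) :=
  cjm (diagonal fun i => (d i : K)) (diagonal fun i => (d i : K)⁻¹) (by simp [diagonal_mul_diagonal])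

theorem dg_tv (d : Fin 3 → Kˣ) {i j : Fin 3} (h : i ≠ j) (a : K) : dg d (tv h a) = tv h (d i * (d j : K)⁻¹ * a) := by
  ext k l
  change (diagonal _ * (tv h a).1 * diagonal _ : Matrix (Fin 3) (Fin 3) K) k l = _
  rw [mul_diagonal, diagonal_mul, SpecialLinearGroup.transvection_coe, SpecialLinearGroup.transvection_coe]
  simp only [Matrix.add_apply, one_apply, single_apply]
  split_ifs with h1 h2 h2
  · exact absurd (h2.1.trans (h1.trans h2.2.symm)) h
  · simp [h1]
  · rw [← h2.1, ← h2.2]; ring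
  · simp

def jm : MulAut (L3 K) := cjm !![0, 0, 1; 0, 1, 0; 1, 0, 0] !![0, 0, 1; 0, 1, 0; 1, 0, 0] (by
  rw [one_fin_three]; simp)

theorem jm_tv {i j : Fin 3} (h : i ≠ j) (a : K) : jm (tv h a) = tv (Fin.rev_injective.ne h) a := by
  ext k l
  change (!![0, 0, 1; 0, 1, 0; 1, 0, 0] * (tv h a).1 * !![0, 0, 1; 0, 1, 0; 1, 0, 0] : Matrix (Fin 3) (Fin 3) K) k l = _
  rw [SpecialLinearGroup.transvection_coe, SpecialLinearGroup.transvection_coe]
  fin_cases i <;> fin_cases j <;> fin_cases k <;> fin_cases l <;>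
    simp [Matrix.mul_apply, Fin.sum_univ_three, Matrix.vecMul, dotProduct, single_apply, one_apply] at h ⊢

end BL3c

open BL3c in
theorem l3c : L3c := fun K _ _ _ =>
  { R := fun p r τ => ⟨dg ![p * r, p, 1] * mp τ, by
      refine ⟨⟨fun a => ?_, fun a => ?_, fun a => ?_, fun a => map_one _⟩, fun a => ?_, fun a => ?_⟩ <;>
        simp only [lv, lw, ly, lv', lw', MulAut.mul_apply, mp_tv, dg_tv] <;> congr 1 <;>
        simp [mul_right_comm _ (r : K), mul_left_comm (p : K) (r : K)⁻¹]⟩
    Sw := fun θ => ⟨jm * tr * mp θ, by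
      refine ⟨fun a => ?_, fun a => ?_, fun a => ?_, fun a => ?_, fun a => ?_, fun a => ?_⟩ <;>
        simp only [lv, lw, ly, lv', lw', hz, ex, cond_false, pow_one, MulAut.mul_apply, mp_tv, tr_tv, jm_tv] <;> rfl⟩ }

end CL.HK
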