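/-
Project HK (S5175), case (b): the parameters of a saturated system in standard form.
-/
import Cfsg.Agent.HK.B0

set_option autoImplicit false
set_option linter.unusedSectionVars false

open Cfsg Subgroup
open scoped commutatorElement

namespace CL.HK

open CL.Fus CL.Loc CL.Grp CL.Even

universe u

namespace BPgq

variable {K : Type} [Field K]

/-- the image of a unit under a field automorphism -/
def um (τ : K ≃+* K) (p : Kˣ) : Kˣ := Units.mk0 (τ p) ((map_ne_zero τ).2 p.ne_zero)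

theorem um_val (τ : K ≃+* K) (p : Kˣ) : (um τ p : K) = τ p := rfl

variable {Ω : Type u} [Group Ω] {S : Subgroup Ω} [Finite S] [Fintype K] {F : FusionSystem S} {ε : Bool}
  {θ : K ≃+* K} {T : Subgroup Ω} {v w y z : K → Ω} {s : Ω} (h : QD F ε θ T v w y z s)
include h

theorem pmul : ∀ c ∈ Par F T v w y z, ∀ c' ∈ Par F T v w y z, ∃ d ∈ Par F T v w y z,
    d.2.2 = c'.2.2.trans c.2.2 ∧ (d.1 : K) = c.1 * c.2.2 c'.1 ∧ (d.2.1 : K) = c.2.1 * c.2.2 c'.2.1 := by
  rintro ⟨p, r, τ⟩ ⟨g, hg, m⟩ ⟨p', r', τ'⟩ ⟨g', hg', m'⟩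
  dsimp only at m m'
  refine ⟨(p * um τ p', r * um τ r', τ'.trans τ),
    ⟨fun x => g (g' x), hg'.comp hg (h.toCo.mon_T hg'.homOn m'), ?_, ?_, ?_, ?_⟩, rfl, rfl, rfl⟩
  · intro a
    rw [m'.v, m.v]; congr 1
    simp only [Units.val_mul, um_val, map_mul, RingEquiv.trans_apply]; ring
  · intro a
    rw [m'.w, m.w]; congr 1
    simp only [Units.val_mul, um_val, map_mul, RingEquiv.trans_apply]; ring
  · intro a
    rw [m'.y, m.y]; congr 1
    simp only [Units.val_mul, um_val, map_mul, RingEquiv.trans_apply]; ring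
  · intro a
    rw [m'.z, m.z]; congr 1
    simp only [Units.val_mul, um_val, map_mul, map_pow, RingEquiv.trans_apply]; ring

theorem pinv : ∀ c ∈ Par F T v w y z, ∃ d ∈ Par F T v w y z,
    d.2.2 = c.2.2.symm ∧ (c.1 : K) * c.2.2 d.1 = 1 ∧ (c.2.1 : K) * c.2.2 d.2.1 = 1 := by
  rintro ⟨p, r, τ⟩ ⟨g, hg, m⟩
  dsimp only at m
  obtain ⟨k, hk, e, -, -⟩ := hg.exists_inv' (hg.img_eq_self le_rfl (h.toCo.mon_T hg.homOn m))
  have hp : (p : K) * τ (um τ.symm p⁻¹) = 1 := by rw [um_val, RingEquiv.apply_symm_apply, Units.mul_inv]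
  have hr : (r : K) * τ (um τ.symm r⁻¹) = 1 := by rw [um_val, RingEquiv.apply_symm_apply, Units.mul_inv]
  refine ⟨(um τ.symm p⁻¹, um τ.symm r⁻¹, τ.symm), ⟨k, hk, ?_, ?_, ?_, ?_⟩, rfl, hp, hr⟩
  · intro a
    rw [← e _ (h.vT (_ * _)), m.v]; congr 2
    dsimp only
    rw [map_mul, RingEquiv.apply_symm_apply]; linear_combination (-a) * hp
  · intro a
    rw [← e _ (h.wT (_ * _)), m.w]; congr 2
    dsimp only
    rw [map_mul, RingEquiv.apply_symm_apply]; linear_combination (-a) * hr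
  · intro a
    rw [← e _ (h.yT (_ * _)), m.y]; congr 2
    dsimp only
    rw [map_mul, map_mul, RingEquiv.apply_symm_apply]
    linear_combination (-a * ((r : K) * τ (um τ.symm r⁻¹))) * hp - a * hr
  · intro a
    rw [← e _ (h.zT (_ * _)), m.z]; congr 2
    dsimp only
    rw [map_mul, map_mul, map_pow, RingEquiv.apply_symm_apply]
    linear_combination (-a * ((r : K) * τ (um τ.symm r⁻¹)) * ((p : K) * τ (um τ.symm p⁻¹) + 1)) * hp - a * hr

theorem pswp : ∀ c ∈ Par F T v w y z, ∃ d ∈ Par F T v w y z,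
    d.2.2 = c.2.2 ∧ (d.1 : K) = θ c.2.1 ∧ (d.2.1 : K) = θ c.1 ^ ex ε := by
  rintro ⟨p, r, τ⟩ ⟨g, hg, m⟩
  dsimp only at m
  have := h.chr
  have key : ∀ a, θ (τ (θ a)) ^ ex ε = τ a := fun a => by rw [aut_comm τ θ a]; exact h.θθ _
  have cT := h.toSW.cT h.toCo
  refine ⟨(um θ r, um θ p ^ ex ε, τ), ⟨fun x => s * g (s * x * s⁻¹) * s⁻¹,
    ((mor_conj F h.le h.sS).comp hg cT).comp (mor_conj F h.le h.sS)
      fun x hx => h.toCo.mon_T hg.homOn m _ (cT x hx), ?_, ?_, ?_, ?_⟩, rfl, rfl, Units.val_pow_eq_pow_val _ _⟩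
  · intro a
    rw [h.sv, m.w, h.sw]; congr 1
    simp only [um_val, map_mul, map_pow, key]
  · intro a
    rw [h.sw, m.v, h.sv]; congr 1
    simp only [Units.val_pow_eq_pow_val, um_val, map_mul, mul_pow, key]
  · intro a
    have k1 := key a
    cases ε
    · have h1 : ∀ a, s * y a * s⁻¹ = y (θ a) := h.sh
      rw [h1, m.y, h1]; congr 1
      simp only [ex, cond_false, pow_one, um_val, map_mul] at k1 ⊢
      rw [k1]; ring
    · have h1 : ∀ a, s * y a * s⁻¹ = z (θ a ^ 2) := h.sy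
      have h2 : ∀ a, s * z a * s⁻¹ = y (θ a) := h.sh
      rw [h1, m.z, h2]; congr 1
      simp only [ex, cond_true, Units.val_pow_eq_pow_val, um_val, map_mul, map_pow] at k1 ⊢
      rw [k1]; ring
  · intro a
    have k1 := key a
    cases ε
    · rw [h.z1 rfl, h.z1 rfl, mul_one, mul_inv_cancel, hg.homOn.map_one, mul_one, mul_inv_cancel]
    · have h1 : ∀ a, s * y a * s⁻¹ = z (θ a ^ 2) := h.sy
      have h2 : ∀ a, s * z a * s⁻¹ = y (θ a) := h.sh
      rw [h2, m.y, h1]; congr 1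
      simp only [ex, cond_true, Units.val_pow_eq_pow_val, um_val, map_mul, mul_pow] at k1 ⊢
      rw [k1]; ring

theorem podd (hS : IsPGroup 2 S) (hF : F.IsSaturated 2) : ∀ c ∈ Par F T v w y z,
    (∀ a, (c.1 : K) * c.2.2 (c.1 * c.2.2 a) = a) → (∀ a, (c.2.1 : K) * c.2.2 (c.2.1 * c.2.2 a) = a) →
    c.1 = 1 ∧ c.2.1 = 1 ∧ c.2.2 = RingEquiv.refl K := by
  rintro ⟨p, r, τ⟩ ⟨g, hg, m⟩ h1 h2
  dsimp only at m h1 h2 ⊢
  have := h.chr
  have co := h.toCo
  have hp : (p : K) * τ p = 1 := by simpa using h1 1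
  have hr : (r : K) * τ r = 1 := by simpa using h2 1
  have hτ : ∀ a, τ (τ a) = a := fun a => by
    have := h1 a
    rwa [map_mul, ← mul_assoc, hp, one_mul] at this
  have gT := co.mon_T hg.homOn m
  have gg : ∀ t ∈ T, g (g t) = t := by
    refine co.hom_ext (hg.comp hg gT).homOn (mor_id F h.le).homOn (fun a => ?_) (fun a => ?_) (fun a => ?_)
      fun a => ?_
    · rw [m.v, m.v, h1]
    · rw [m.w, m.w, h2]
    · rw [m.y, m.y]; congr 1
      rw [map_mul, map_mul, hτ]; linear_combination (a * ((r : K) * τ r)) * hp + a * hr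
    · rw [m.z, m.z]; congr 1
      rw [map_mul, map_mul, map_pow, hτ]
      linear_combination (a * ((r : K) * τ r) * ((p : K) * τ p + 1)) * hp + a * hr
  obtain ⟨α, hα, eα⟩ := hg.exists_aut' le_rfl gT
  have α2 : α ^ 2 = 1 := aut_ext fun t ht => by
    rw [pow_two, autFun_mul _ _ ht, autFun_one ht, eα t ht, eα _ (gT t ht), gg t ht]
  have hZ : IsPGroup 2 (zpowers α) := by
    rintro ⟨_, k, rfl⟩
    refine ⟨1, Subtype.ext ?_⟩
    change (α ^ k) ^ 2 ^ 1 = 1
    rw [pow_one, ← zpow_natCast, ← zpow_mul, mul_comm, zpow_mul, zpow_natCast, α2, one_zpow]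
  have := finite_autGroup F T
  obtain ⟨β, hβ, e⟩ := (sylIn_of_fullyAutomized (fullyAutomized_of_fullyNormalized hS hF
    (isFullyNormalized_of_normalizerIn_eq F h.le h.le_normalizer))).exists_conj_le hZ (zpowers_le.2 hα)
  obtain ⟨x, hx, ex'⟩ := mem_autInducedBy.1 (e α (mem_zpowers α))
  have hb := mor_autFun h.le hβ
  have key : ∀ t ∈ T, autFun β (g t) = x * autFun β t * x⁻¹ := fun t ht => by
    rw [← ex' _ (autFun_mem β ht), ← autFun_mul _ _ ht, inv_mul_cancel_right, autFun_mul _ _ ht, eα t ht]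
  by_cases hxT : x ∈ T
  · have hx' := autFun_mem β⁻¹ hxT
    have e2 : ∀ t ∈ T, g t = autFun β⁻¹ x * t * (autFun β⁻¹ x)⁻¹ := fun t ht =>
      hb.injOn (gT t ht) (mul_mem (mul_mem hx' ht) (inv_mem hx')) (by
        rw [key t ht, hb.homOn.map_conj hx' ht, autFun_apply_inv β hxT])
    obtain ⟨e3, e4, e5⟩ := co.par_eq (mon_id v w y z) hx' (co.mon_congr m e2)
    exact ⟨e3.symm, e4.symm, e5.symm⟩
  · exfalso
    have hbT := autFun_mem β (h.vT 1)
    have b2 : autFun β (v 1) * autFun β (v 1) = 1 := by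
      rw [← hb.homOn.map_mul (h.vT 1) (h.vT 1), add_sq h.v_add, hb.homOn.map_one]
    have bY : autFun β (v 1) ∉ Yg y z := fun hY => by
      have e6 := co.Yc hY (autFun_mem β (h.wT 1))
      rw [← hb.homOn.map_mul (h.vT 1) (h.wT 1), ← hb.homOn.map_mul (h.wT 1) (h.vT 1)] at e6
      simpa using co.comm_vw (hb.injOn (mul_mem (h.vT 1) (h.wT 1)) (mul_mem (h.wT 1) (h.vT 1)) e6)
    have bY' : x * autFun β (v 1) * x⁻¹ ∉ Yg y z := fun hY => bY (by
      simpa [mul_assoc] using h.conj_Y (inv_mem hx) hY)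
    have bc : autFun β (v 1) * (x * autFun β (v 1) * x⁻¹) = x * autFun β (v 1) * x⁻¹ * autFun β (v 1) := by
      rw [← key _ (h.vT 1), m.v, ← hb.homOn.map_mul (h.vT _) (h.vT _), ← hb.homOn.map_mul (h.vT _) (h.vT _),
        ← h.v_add, ← h.v_add, add_comm]
    rcases co.invol hbT b2 with h3 | h3
    · exact (co.comm_VW h3 (h.out_V hx hxT h3) bc).elim bY bY'
    · exact (co.comm_VW (h.out_W hx hxT h3) h3 bc.symm).elim bY' bY

end BPgq

theorem pgq : PGQ.{u} := fun _ _ _ _ F _ _ _ _ _ _ v w y z _ hS hF h =>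
  ⟨h.θθ, ⟨_, mor_id F h.le, mon_id v w y z⟩, BPgq.pmul h, BPgq.pinv h, BPgq.pswp h, h.tor, BPgq.podd h hS hF⟩

end CL.HK
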