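/-
Project HK (S5175), case (b): the fusion system of the extended group is in standard form.
-/
import Cfsg.Agent.HK.B0

set_option autoImplicit false

open Cfsg Subgroup
open scoped commutatorElement

namespace CL.HK

open CL.Fus CL.Loc CL.Grp CL.Even

theorem BQdg.nm {G : Type} [Group G] [Finite G] {Q : Subgroup G} {g : G} (h : ∀ x ∈ Q, g * x * g⁻¹ ∈ Q) : g ∈ 𝒩(Q) :=
  mem_norm_of_cj_le (by rintro _ ⟨x, hx, rfl⟩; exact h x hx)

open BQdg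

theorem qdg : QDG := by
  intro K _ _ _ G _ _ ε θ A G0 P MM v w y z n s h4 hA h hN
  have co := h.co
  have k := h.toMG0.toSW
  have hsN : s ∈ 𝒩(P) := k.mem_normalizer co
  have hPS : P ≤ P ⊔ zpowers s := le_sup_left
  have hsS : s ∈ P ⊔ zpowers s := mem_sup_right (mem_zpowers s)
  have gen : ∀ x ∈ P ⊔ zpowers s, x ∈ P ∨ x * s ∈ P := by
    intro x hx
    obtain ⟨a, ha, _, ⟨i, rfl⟩, rfl⟩ := (mem_sup_nl (zpowers_le.2 hsN)).1 hx
    obtain ⟨j, rfl | rfl⟩ := Int.even_or_odd' i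
    · left; simpa [zpow_mul, pow_two, h.s2] using ha
    · right; simpa [zpow_add_one, zpow_mul, pow_two, h.s2, mul_assoc] using ha
  have hmP : ∀ m ∈ MM, m ∈ 𝒩(P) := fun m hm => let ⟨_, _, c⟩ := h.mon m hm; nm (co.mon_T (homOn_conj P m) c)
  have hmV : ∀ m ∈ MM, m ∈ 𝒩(sp v y z) := fun m hm => let ⟨_, _, c⟩ := h.mon m hm; nm (co.mon_V (homOn_conj P m) c)
  have hmW : ∀ m ∈ MM, m ∈ 𝒩(sp w y z) := fun m hm => let ⟨_, _, c⟩ := h.mon m hm; nm (co.mon_W (homOn_conj P m) c)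
  have hA' : ∀ g ∈ 𝒩(sp v y z), ∃ m ∈ MM, ∃ g0 ∈ G0, g = m * g0 := by
    intro g hg
    obtain ⟨m, hm, g0, hg0, e | e⟩ := h.dec g
    · exact ⟨m, hm, g0, hg0, e⟩
    · refine absurd (fun x hx => ?_) (hN g0 hg0)
      have := conj_mem' (hmW m hm) (k.cV co _ (conj_mem hg hx))
      rwa [show m⁻¹ * (s * (g * x * g⁻¹) * s⁻¹) * m = m⁻¹ * (s * s) * m * (g0 * x * g0⁻¹) * (m⁻¹ * (s * s)⁻¹ * m) by
        rw [e]; group, h.s2, inv_one, mul_one, inv_mul_cancel, one_mul, mul_one] at this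
  have morc : ∀ g ∈ 𝒩(P), Mor (groupFusionSystem (P ⊔ zpowers s)) P fun x => g * x * g⁻¹ := fun g hg =>
    mor_group_iff.2 ⟨hPS, fun x hx => hPS (conj_mem hg hx), g, fun _ _ => rfl⟩
  have hC : ∀ g, Mor (groupFusionSystem (P ⊔ zpowers s)) P g → (∀ x ∈ P, g x ∈ P) → (∀ x ∈ sp v y z, g x ∈ sp v y z) →
      ∃ t ∈ P, ∃ c ∈ A, Mon v w y z c.1 c.2.1 c.2.2 fun x => t * g x * t⁻¹ := by
    intro g hg h1 h2
    obtain ⟨-, -, a, ha⟩ := mor_group_iff.1 hg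
    have haP : a ∈ 𝒩(P) := nm fun x hx => ha x hx ▸ h1 x hx
    obtain ⟨m, hm, g0, hg0, rfl⟩ := hA' a (nm fun x hx => ha x (co.V_le hx) ▸ h2 x hx)
    obtain ⟨t, ht, htm⟩ := h.b1 g0 hg0 ((mul_mem_cancel_left (hmP m hm)).1 haP)
    obtain ⟨c, hc, hc'⟩ := h.mon _ (mul_mem hm htm)
    exact ⟨_, conj_mem (hmP m hm) ht, c, hc, co.mon_congr hc' fun x hx => by rw [ha x hx]; group⟩
  have hPar : Par (groupFusionSystem (P ⊔ zpowers s)) P v w y z = A := by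
    refine Set.Subset.antisymm ?_ fun c hc => ?_
    · rintro c ⟨g, hg, hc⟩
      obtain ⟨t, ht, c', hc', hm⟩ := hC g hg (co.mon_T hg.homOn hc) (co.mon_V hg.homOn hc)
      obtain ⟨e1, e2, e3⟩ := co.par_eq hc ht hm
      rwa [show c = c' from Prod.ext e1 (Prod.ext e2 e3)]
    · obtain ⟨m, hm, hc'⟩ := h.real c hc
      exact ⟨_, morc m (hmP m hm), hc'⟩
  refine ⟨⟨co, inferInstance, h4, hPS, hsS, k.notMem co, h.s2, gen, hA.θθ, h.sv, h.sw, h.sy, h.sh,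
    ⟨fun x => n * x * n⁻¹, mor_group_iff.2 ⟨co.V_le.trans hPS, fun x hx => hPS (co.V_le ?_), n, fun _ _ => rfl⟩,
      h.nv, h.ny, h.nz, fun f hf hfV => ?_⟩, fun g h1 h2 h3 => ?_, fun c => hPar.symm ▸ hA.tor c,
    fun p r τ g hg hm hs => ?_⟩, hPar, stronglyClosed_iff.2 ⟨hPS, fun R f hf x hx hxP => ?_⟩⟩
  · exact co.hom_mem_V (homOn_conj _ n) (fun a => (h.nv a).symm ▸ y_mem_sp v y z a)
      (fun a => (h.ny a).symm ▸ v_mem_sp v y z a) (fun a => (h.nz a).symm ▸ z_mem_sp v y z a) x hx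
  · obtain ⟨-, -, a, ha⟩ := mor_group_iff.1 hf
    have haV : a ∈ 𝒩(sp v y z) := nm fun x hx => ha x hx ▸ hfV x hx
    obtain ⟨m, hm, g0, hg0, rfl⟩ := hA' a haV
    rcases h.b2 g0 hg0 ((mul_mem_cancel_left (hmV m hm)).1 haV) with hb | ⟨u, hb⟩
    · have := mul_mem (hmP m hm) hb
      exact ⟨_, 0, morc _ this, fun x hx => conj_mem this hx, Or.inl ha⟩
    · have := mul_mem (hmP m hm) hb
      exact ⟨_, u, morc _ this, fun x hx => conj_mem this hx, Or.inr fun x hx => by rw [ha x hx]; group⟩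
  · obtain ⟨t, ht, c, -, hc⟩ := hC g h1 h2 h3
    exact ⟨t, ht, _, _, _, hc⟩
  · obtain ⟨m, hmM, hm'⟩ := h.real (p, r, τ) (hPar ▸ ⟨g, hg, hm⟩)
    have e := co.mon_eq (homOn_conj P m) hg.homOn hm' hm
    have h1 := h.faith _ (mul_mem (inv_mem hmM) (h.sM m hmM)) fun t ht => by
      have h2 := hs _ (conj_mem' hsN ht)
      rw [← e _ (k.cT co _ (conj_mem' hsN ht)), ← e _ (conj_mem' hsN ht)] at h2
      calc m⁻¹ * (s * m * s⁻¹) * t = m⁻¹ * (s * (m * (s⁻¹ * t * s) * m⁻¹) * s⁻¹) * (s * m * s⁻¹) := by group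
        _ = _ := by rw [← h2]; group
    have h2 : m * s * m⁻¹ = s := by
      calc m * s * m⁻¹ = m * (m⁻¹ * (s * m * s⁻¹)) * s * m⁻¹ := by rw [h1]; group
        _ = s := by group
    refine ⟨fun x => m * x * m⁻¹, mor_group_iff.2 ⟨le_rfl, fun x hx => ?_, m, fun _ _ => rfl⟩, e, h2⟩
    rcases gen x hx with hx | hx
    · exact hPS (conj_mem (hmP m hmM) hx)
    · rw [show m * x * m⁻¹ = m * (x * s) * m⁻¹ * (m * s * m⁻¹)⁻¹ by group, h2]
      exact mul_mem (hPS (conj_mem (hmP m hmM) hx)) (inv_mem hsS)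
  · obtain ⟨-, h1, a, ha⟩ := mor_group_iff.1 hf
    refine (gen _ (h1 x hx)).resolve_right fun h2 => hN s ?_ (k.cV co)
    have h3 : f x ∈ G0 := ha x hx ▸ h.normal.conj_mem x (h.syl.le hxP) a
    exact (mul_mem_cancel_left h3).1 (h.syl.le h2)

end CL.HK
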