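/-
Project HK (S5175), case (b): coordinates, generation and centre of `Sp₄(q)`, `q` even.
-/
import Cfsg.Agent.HK.BDefs
import Cfsg.Agent.Known.StbSp

set_option autoImplicit false
set_option linter.unusedSectionVars false
set_option linter.unusedSimpArgs false
set_option linter.unusedTactic false
set_option linter.unreachableTactic false

open Cfsg Subgroup
open scoped commutatorElement

namespace CL.HK

namespace BS4a

open Matrix

variable {K : Type} [Field K]

def py' (a : K) : S4 K := ⟨_, memS4 1 0 !![0, a; a, 0] 1 (by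
  ext i j; rcases i with i | i <;> rcases j with j | j <;> fin_cases i <;> fin_cases j <;>
    simp [Matrix.mul_apply, Fintype.sum_sum_type, Fin.sum_univ_two, J])⟩
def pz' (a : K) : S4 K := ⟨_, memS4 1 0 !![a, 0; 0, 0] 1 (by
  ext i j; rcases i with i | i <;> rcases j with j | j <;> fin_cases i <;> fin_cases j <;>
    simp [Matrix.mul_apply, Fintype.sum_sum_type, Fin.sum_univ_two, J])⟩
def pm : S4 K := ⟨_, memS4 !![0, 1; 1, 0] 0 0 !![0, 1; 1, 0] (by
  ext i j; rcases i with i | i <;> rcases j with j | j <;> fin_cases i <;> fin_cases j <;>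
    simp [Matrix.mul_apply, Fintype.sum_sum_type, Fin.sum_univ_two, J])⟩

theorem cm (x y : S4 K) : (x * y).1 = x.1 * y.1 := rfl

theorem ext4 {x y : S4 K} (h : ∀ i j, x.1 i j = y.1 i j) : x = y := Subtype.ext (Matrix.ext h)

theorem zero2 : (0 : Matrix (Fin 2) (Fin 2) K) = !![0, 0; 0, 0] := by
  ext i j; fin_cases i <;> fin_cases j <;> rfl

theorem add2 (a b c d e f g h : K) : !![a, b; c, d] + !![e, f; g, h] = !![a + e, b + f; c + g, d + h] := by
  ext i j; fin_cases i <;> fin_cases j <;> rfl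

omit [Field K] in
theorem eq2 (a b c d e f g h : K) : !![a, b; c, d] = !![e, f; g, h] ↔ a = e ∧ b = f ∧ c = g ∧ d = h :=
  ⟨fun k => ⟨congrFun (congrFun k 0) 0, congrFun (congrFun k 0) 1, congrFun (congrFun k 1) 0,
    congrFun (congrFun k 1) 1⟩, by rintro ⟨rfl, rfl, rfl, rfl⟩; rfl⟩

variable [CharP K 2]

local macro "ent" : tactic => `(tactic| (
  refine Subtype.ext ?_
  simp only [cm, pv, pw, py, pz, pv', pw', py', pz', pn, pm, fromBlocks_multiply, one_fin_two, zero2, mul_fin_two,
    add2, fromBlocks_inj, eq2, CharTwo.neg_eq, mul_zero, zero_mul, mul_one, one_mul, add_zero, zero_add, and_self,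
    true_and, and_true] <;> (try constructorm* _ ∧ _) <;> first | ring1 | grind))

theorem v_add (a b : K) : pv (a + b) = pv a * pv b := by ent
theorem w_add (a b : K) : pw (a + b) = pw a * pw b := by ent
theorem y_add (a b : K) : py (a + b) = py a * py b := by ent
theorem z_add (a b : K) : pz (a + b) = pz a * pz b := by ent
theorem vw (a u : K) : pv a * pw u = py (a * u) * pz (a ^ 2 * u) * pw u * pv a := by ent
theorem yv (a b : K) : py a * pv b = pv b * py a := by ent
theorem yw (a b : K) : py a * pw b = pw b * py a := by ent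
theorem yz (a b : K) : py a * pz b = pz b * py a := by ent
theorem zv (a b : K) : pz a * pv b = pv b * pz a := by ent
theorem zw (a b : K) : pz a * pw b = pw b * pz a := by ent
theorem nv (a : K) : pn * pv a = py a * pn := by ent
theorem ny (a : K) : pn * py a = pv a * pn := by ent
theorem nz (a : K) : pn * pz a = pz a * pn := by ent
theorem nv' (a : K) : pn * pv' a = py' a * pn := by ent
theorem mw (a : K) : pm * pw a = pz a * pm := by ent
theorem mw' (a : K) : pm * pw' a = pz' a * pm := by ent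
theorem n_eq : (pn : S4 K) = pw 1 * pw' 1 * pw 1 := by ent
theorem m_eq : (pm : S4 K) = pv 1 * pv' 1 * pv 1 := by ent
theorem mul4 (a u b c a' u' b' c' : K) : pv a * pw u * py b * pz c * (pv a' * pw u' * py b' * pz c') =
    pv (a + a') * pw (u + u') * py (b + b' + a' * u) * pz (c + c' + a' ^ 2 * u) := by ent

theorem one_eq : (1 : S4 K) = pv 0 := by
  refine Subtype.ext ?_
  rw [OneMemClass.coe_one, ← fromBlocks_one]
  simp only [pv, one_fin_two, neg_zero]

theorem uniq {a u b c : K} (h : pv a * pw u * py b * pz c = 1) : a = 0 ∧ u = 0 ∧ b = 0 ∧ c = 0 := by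
  have k := congrArg Subtype.val (h.trans one_eq)
  simp only [cm, pv, pw, py, pz, fromBlocks_multiply, one_fin_two, zero2, mul_fin_two,
    add2, fromBlocks_inj, eq2, CharTwo.neg_eq, mul_zero, zero_mul, mul_one, one_mul, add_zero, zero_add, and_self,
    true_and, and_true] at k
  grind

theorem w0 : pw (0 : K) = 1 := by simpa using w_add (0 : K) 0
theorem y0 : py (0 : K) = 1 := by simpa using y_add (0 : K) 0
theorem z0 : pz (0 : K) = 1 := by simpa using z_add (0 : K) 0

theorem comm_P {g : S4 K} (h1 : ∀ a, g * pv a = pv a * g) (h2 : ∀ a, g * pw a = pw a * g)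
    (h3 : ∀ a, g * py a = py a * g) (h4 : ∀ a, g * pz a = pz a * g) {t : S4 K} (ht : t ∈ pP) : g * t = t * g := by
  refine (mem_centralizer_singleton_iff.1 ((closure_le (centralizer {g})).2 ?_ ht)).symm
  rintro _ (((⟨a, rfl⟩ | ⟨a, rfl⟩) | ⟨a, rfl⟩) | ⟨a, rfl⟩) <;> refine mem_centralizer_singleton_iff.2 (Eq.symm ?_)
  exacts [h1 a, h2 a, h3 a, h4 a]

theorem nf [Finite K] {t : S4 K} (ht : t ∈ pP) : ∃ a u b c, t = pv a * pw u * py b * pz c := by
  have : t ∈ Submonoid.closure (Set.range pv ∪ Set.range pw ∪ Set.range py ∪ Set.range (pz (K := K))) := by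
    rw [← closure_toSubmonoid_of_finite]; exact ht
  clear ht
  induction this using Submonoid.closure_induction with
  | mem x hx =>
    rcases hx with ((⟨a, rfl⟩ | ⟨a, rfl⟩) | ⟨a, rfl⟩) | ⟨a, rfl⟩
    · exact ⟨a, 0, 0, 0, by rw [w0, y0, z0, mul_one, mul_one, mul_one]⟩
    · exact ⟨0, a, 0, 0, by rw [← one_eq, y0, z0, one_mul, mul_one, mul_one]⟩
    · exact ⟨0, 0, a, 0, by rw [← one_eq, w0, z0, one_mul, one_mul, mul_one]⟩
    · exact ⟨0, 0, 0, a, by rw [← one_eq, w0, y0, one_mul, one_mul, one_mul]⟩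
  | one => exact ⟨0, 0, 0, 0, by rw [← one_eq, w0, y0, z0, mul_one, mul_one, mul_one]⟩
  | mul x y _ _ hx hy =>
    obtain ⟨a, u, b, c, rfl⟩ := hx
    obtain ⟨a', u', b', c', rfl⟩ := hy
    exact ⟨_, _, _, _, mul4 a u b c a' u' b' c'⟩

theorem co [Finite K] : Co true (pP (K := K)) pv pw py pz where
  vT a := subset_closure (.inl (.inl (.inl ⟨a, rfl⟩)))
  wT a := subset_closure (.inl (.inl (.inr ⟨a, rfl⟩)))
  yT a := subset_closure (.inl (.inr ⟨a, rfl⟩))
  zT a := subset_closure (.inr ⟨a, rfl⟩)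
  v_add := v_add
  w_add := w_add
  y_add := y_add
  z_add := z_add
  yc b _ ht := comm_P (yv b) (yw b) (fun a => by rw [← y_add, ← y_add, add_comm]) (yz b) ht
  zc b _ ht := comm_P (zv b) (zw b) (fun a => (yz a b).symm) (fun a => by rw [← z_add, ← z_add, add_comm]) ht
  com a u := by rw [commutatorElement_def, vw]; group
  z1 h := absurd h (by decide)
  nf _ ht := nf ht
  uniq _ _ _ _ h := let k := uniq h; ⟨k.1, k.2.1, k.2.2.1, fun _ => k.2.2.2⟩

theorem gen : closure (Set.range pv ∪ Set.range pw ∪ Set.range pv' ∪ Set.range (pw' (K := K))) = ⊤ := by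
  set H := closure (Set.range pv ∪ Set.range pw ∪ Set.range pv' ∪ Set.range (pw' (K := K))) with hH
  have hv : ∀ a, pv a ∈ H := fun a => subset_closure (.inl (.inl (.inl ⟨a, rfl⟩)))
  have hw : ∀ a, pw a ∈ H := fun a => subset_closure (.inl (.inl (.inr ⟨a, rfl⟩)))
  have hv' : ∀ a, pv' a ∈ H := fun a => subset_closure (.inl (.inr ⟨a, rfl⟩))
  have hw' : ∀ a, pw' a ∈ H := fun a => subset_closure (.inr ⟨a, rfl⟩)
  have hn : pn ∈ H := n_eq (K := K) ▸ mul_mem (mul_mem (hw 1) (hw' 1)) (hw 1)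
  have hm : pm ∈ H := m_eq (K := K) ▸ mul_mem (mul_mem (hv 1) (hv' 1)) (hv 1)
  have hy : ∀ a, py a ∈ H := fun a => (mul_mem_cancel_right hn).1 (nv a ▸ mul_mem hn (hv a))
  have hy' : ∀ a, py' a ∈ H := fun a => (mul_mem_cancel_right hn).1 (nv' a ▸ mul_mem hn (hv' a))
  have hz : ∀ a, pz a ∈ H := fun a => (mul_mem_cancel_right hm).1 (mw a ▸ mul_mem hm (hw a))
  have hz' : ∀ a, pz' a ∈ H := fun a => (mul_mem_cancel_right hm).1 (mw' a ▸ mul_mem hm (hw' a))
  have key : CL.Sp.Isom (CL.Sp.stdForm (Fin 2) K) ≤ H.map (CL.Sp.spLin (Fin 2) K) :=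
    CL.Chev.SysC.isom_le fun a b hab t => by
      rcases a with a | a <;> rcases b with b | b <;> fin_cases a <;> fin_cases b <;>
        first
        | exact absurd rfl hab
        | skip
      on_goal 1 => refine ⟨_, hz t, ?_⟩
      on_goal 2 => refine ⟨_, hy t, ?_⟩
      on_goal 3 => refine ⟨_, hy t, ?_⟩
      on_goal 4 => refine ⟨_, hw t, ?_⟩
      on_goal 5 => refine ⟨_, hv t, ?_⟩
      on_goal 6 => refine ⟨_, hv' t, ?_⟩
      on_goal 7 => refine ⟨_, hv' t, ?_⟩
      on_goal 8 => refine ⟨_, hv t, ?_⟩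
      on_goal 9 => refine ⟨_, hz' t, ?_⟩
      on_goal 10 => refine ⟨_, hy' t, ?_⟩
      on_goal 11 => refine ⟨_, hy' t, ?_⟩
      on_goal 12 => refine ⟨_, hw' t, ?_⟩
      all_goals
        ext x i
        rw [CL.Chev.SysC.yv_apply hab, CL.Sp.spLin_apply]
        rcases i with i | i <;> fin_cases i <;>
          simp [pv, pw, py, pz, pv', pw', py', pz', Matrix.mulVec, dotProduct, Fintype.sum_sum_type, Fin.sum_univ_two,
            CL.Chev.sg, CharTwo.neg_eq, add_comm]
  refine eq_top_iff.2 fun g _ => ?_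
  obtain ⟨x, hx, e⟩ := key (CL.Sp.spLin_mem g)
  exact CL.Sp.spLin_injective e ▸ hx

end BS4a

open BS4a

theorem s4a : S4a := fun K _ _ _ =>
  { co := co
    gen := gen
    cen := fun g hg _ => by
      rcases (CL.Sp.mem_center_symplecticGroup_iff g).1 (mem_center_iff.2 fun x => (hg x).symm) with h | h
      · exact Subtype.ext h
      · exact Subtype.ext (h.trans (Matrix.ext fun _ _ => CharTwo.neg_eq _))
    nv := fun a => by rw [nv, mul_inv_cancel_right]
    ny := fun a => by rw [ny, mul_inv_cancel_right]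
    nz := fun a => by rw [nz, mul_inv_cancel_right] }

end CL.HK
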