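/-
Project HK (S5175), case (b): the normalizers of `P` and `V` in `Sp₄(q)`.
-/
import Cfsg.Agent.HK.BDefs

set_option autoImplicit false

open Cfsg Subgroup Matrix

namespace CL.HK

open CL.Fus CL.Loc CL.Grp CL.Even

namespace BS4b

variable {K : Type} [Field K] {g h : S4 K}

abbrev e0 : Fin 2 ⊕ Fin 2 := .inl 0
abbrev e1 : Fin 2 ⊕ Fin 2 := .inl 1
abbrev f0 : Fin 2 ⊕ Fin 2 := .inr 0
abbrev f1 : Fin 2 ⊕ Fin 2 := .inr 1

theorem mul_ap (g h : S4 K) (i j : Fin 2 ⊕ Fin 2) : (g * h).1 i j =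
    g.1 i e0 * h.1 e0 j + g.1 i e1 * h.1 e1 j + (g.1 i f0 * h.1 f0 j + g.1 i f1 * h.1 f1 j) := by
  rw [Submonoid.coe_mul, Matrix.mul_apply, Fintype.sum_sum_type, Fin.sum_univ_two, Fin.sum_univ_two]

theorem form (g : S4 K) (i j : Fin 2 ⊕ Fin 2) : g.1 f0 i * g.1 e0 j + g.1 f1 i * g.1 e1 j -
    (g.1 e0 i * g.1 f0 j + g.1 e1 i * g.1 f1 j) = J (Fin 2) K i j := by
  rw [← SymplecticGroup.mem_iff'.1 g.2]
  simp [Matrix.mul_apply, Fintype.sum_sum_type, Fin.sum_univ_two, J, Matrix.one_apply]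
  ring

theorem inv_ll (g : S4 K) (i j : Fin 2) : g⁻¹.1 (.inl i) (.inl j) = g.1 (.inr j) (.inr i) := by
  simp [SymplecticGroup.coe_inv, Matrix.mul_apply, Fintype.sum_sum_type, J, Matrix.one_apply]
theorem inv_lr (g : S4 K) (i j : Fin 2) : g⁻¹.1 (.inl i) (.inr j) = -g.1 (.inl j) (.inr i) := by
  simp [SymplecticGroup.coe_inv, Matrix.mul_apply, Fintype.sum_sum_type, J, Matrix.one_apply]
theorem inv_rl (g : S4 K) (i j : Fin 2) : g⁻¹.1 (.inr i) (.inl j) = -g.1 (.inr j) (.inl i) := by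
  simp [SymplecticGroup.coe_inv, Matrix.mul_apply, Fintype.sum_sum_type, J, Matrix.one_apply]
theorem inv_rr (g : S4 K) (i j : Fin 2) : g⁻¹.1 (.inr i) (.inr j) = g.1 (.inl j) (.inl i) := by
  simp [SymplecticGroup.coe_inv, Matrix.mul_apply, Fintype.sum_sum_type, J, Matrix.one_apply]

/-- `g` fixes the point `e0` -/
def Pa (g : S4 K) : Prop := g.1 e1 e0 = 0 ∧ g.1 f0 e0 = 0 ∧ g.1 f1 e0 = 0

theorem Pa.d (k : Pa g) : g.1 e0 e0 * g.1 f0 f0 = 1 := by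
  have := form g e0 f0
  simpa [k.1, k.2.1, k.2.2, J] using this

theorem Pa.ne (k : Pa g) : g.1 e0 e0 ≠ 0 := left_ne_zero_of_mul_eq_one k.d

theorem Pa.z1 (k : Pa g) : g.1 f0 e1 = 0 := by
  have := form g e0 e1
  simpa [k.1, k.2.1, k.2.2, J, k.ne] using this

theorem Pa.z2 (k : Pa g) : g.1 f0 f1 = 0 := by
  have := form g e0 f1
  simpa [k.1, k.2.1, k.2.2, J, k.ne] using this

theorem Pa.mul (k : Pa g) (k' : Pa h) : Pa (g * h) := by
  simp [Pa, mul_ap, k.1, k.2.1, k.2.2, k'.1, k'.2.1, k'.2.2, -Submonoid.coe_mul]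

theorem Pa.inv (k : Pa g) : Pa g⁻¹ := by simp [Pa, inv_ll, inv_rl, k.2.1, k.z1, k.z2]

theorem Pa.col (k : Pa h) (i : Fin 2 ⊕ Fin 2) : (g * h).1 i e0 = g.1 i e0 * h.1 e0 e0 := by
  simp [mul_ap, k.1, k.2.1, k.2.2, -Submonoid.coe_mul]

/-- the Borel subgroup -/
def BB (K : Type) [Field K] : Subgroup (S4 K) where
  carrier := {g | Pa g ∧ g.1 f1 e1 = 0}
  one_mem' := by simp [Pa]
  mul_mem' := fun {g h} k k' => ⟨k.1.mul k'.1, by simp [mul_ap, k.1.2.2, k.2, k'.1.z1, k'.2, -Submonoid.coe_mul]⟩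
  inv_mem' := fun {g} k => ⟨k.1.inv, by rw [inv_rl, k.2, neg_zero]⟩

theorem BB_d (k : g ∈ BB K) : g.1 e1 e1 * g.1 f1 f1 = 1 := by
  have := form g e1 f1
  simpa [k.1.z1, k.1.z2, k.2, J] using this

theorem d1 (k : Pa g) (k' : h ∈ BB K) : (g * h).1 e1 e1 = g.1 e1 e1 * h.1 e1 e1 := by
  simp [mul_ap, k.1, k'.1.z1, k'.2, -Submonoid.coe_mul]

/-- its unipotent radical -/
def UU (K : Type) [Field K] : Subgroup (S4 K) where
  carrier := {g | g ∈ BB K ∧ g.1 e0 e0 = 1 ∧ g.1 e1 e1 = 1}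
  one_mem' := ⟨one_mem _, by simp⟩
  mul_mem' := fun {g h} k k' => ⟨mul_mem k.1 k'.1, by rw [k'.1.1.col, k.2.1, k'.2.1, mul_one],
    by rw [d1 k.1.1 k'.1, k.2.2, k'.2.2, mul_one]⟩
  inv_mem' := fun {g} k => ⟨inv_mem k.1, by simpa [inv_ll, k.2.1] using k.1.1.d,
    by simpa [inv_ll, k.2.2] using BB_d k.1⟩

theorem pv_mem (a : K) : pv a ∈ UU K := by simp [UU, BB, Pa, pv]
theorem pw_mem (a : K) : pw a ∈ UU K := by simp [UU, BB, Pa, pw]
theorem py_mem (a : K) : py a ∈ UU K := by simp [UU, BB, Pa, py]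
theorem pz_mem (a : K) : pz a ∈ UU K := by simp [UU, BB, Pa, pz]

theorem P_eq : pP = UU K := by
  refine le_antisymm ((closure_le _).2 ?_) fun g k => ?_
  · rintro _ (((⟨a, rfl⟩ | ⟨a, rfl⟩) | ⟨a, rfl⟩) | ⟨a, rfl⟩)
    exacts [pv_mem a, pw_mem a, py_mem a, pz_mem a]
  · obtain ⟨⟨⟨h1, h2, h3⟩, h4⟩, h5, h6⟩ := id k
    have h7 := k.1.1.z1
    have h8 := k.1.1.z2
    have h9 : g.1 f0 f0 = 1 := by simpa [h5] using k.1.1.d
    have h10 : g.1 f1 f1 = 1 := by simpa [h6] using BB_d k.1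
    have h11 : g.1 f1 f0 = -g.1 e0 e1 := by
      have := form g e1 f0
      simp [h4, h6, h7, h9, J] at this
      linear_combination -this
    have h12 : g.1 e0 f1 = g.1 e1 f0 + g.1 e0 e1 * g.1 e1 f1 := by
      have := form g f0 f1
      simp [h8, h9, h10, h11, J] at this
      linear_combination this
    have e : g = pv (g.1 e0 e1) * pw (g.1 e1 f1) * py (g.1 e1 f0) * pz (g.1 e0 f0 - g.1 e0 e1 * g.1 e1 f0) := by
      ext i j
      simp only [mul_ap]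
      rcases i with i | i <;> rcases j with j | j <;> fin_cases i <;> fin_cases j <;>
        simp [pv, pw, py, pz, h1, h2, h3, h4, h5, h6, h7, h8, h9, h10, h11, h12, add_comm]
    rw [e]
    exact mul_mem (mul_mem (mul_mem (subset_closure (.inl (.inl (.inl ⟨_, rfl⟩))))
      (subset_closure (.inl (.inl (.inr ⟨_, rfl⟩))))) (subset_closure (.inl (.inr ⟨_, rfl⟩))))
      (subset_closure (.inr ⟨_, rfl⟩))

theorem conj_U (k : g ∈ BB K) (k' : h ∈ UU K) : g * h * g⁻¹ ∈ UU K :=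
  ⟨mul_mem (mul_mem k k'.1) (inv_mem k), by rw [k.1.inv.col, k'.1.1.col, k'.2.1, mul_one, inv_ll, k.1.d],
    by rw [d1 (k.1.mul k'.1.1) (inv_mem k), d1 k.1 k'.1, k'.2.2, mul_one, inv_ll, BB_d k]⟩

theorem norm_of (k : g ∈ BB K) : g ∈ 𝒩(pP (K := K)) := by
  rw [P_eq, mem_normalizer_iff]
  exact fun h => ⟨conj_U k, fun e => by simpa [mul_assoc] using conj_U (inv_mem k) e⟩

theorem pa_of {V : Subgroup (S4 K)} (l : V ≤ UU K) (h1 : pv 1 ∈ V) (h2 : py 1 ∈ V) (k : g ∈ 𝒩(V)) : Pa g := by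
  have c : ∀ x ∈ V, ∀ i, (x * g).1 i e0 = g.1 i e0 := fun x hx i => by
    have m := l (conj_mem' k hx)
    rw [show x * g = g * (g⁻¹ * x * g) by group, m.1.1.col, m.2.1, mul_one]
  exact ⟨by simpa [mul_ap, pv, -Submonoid.coe_mul] using c _ h1 e0,
    by simpa [mul_ap, pv, -Submonoid.coe_mul] using c _ h1 f1,
    by simpa [mul_ap, py, -Submonoid.coe_mul] using c _ h2 e0⟩

theorem of_norm (k : g ∈ 𝒩(pP (K := K))) : g ∈ BB K := by
  rw [P_eq] at k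
  have p := pa_of le_rfl (pv_mem 1) (py_mem 1) k
  have m := conj_mem' k (pw_mem 1)
  have c := d1 p m.1
  rw [show g * (g⁻¹ * pw 1 * g) = pw 1 * g by group, m.2.2] at c
  exact ⟨p, by simpa [mul_ap, pw, -Submonoid.coe_mul] using c⟩

/-- diagonal matrices -/
def dg (s t : Kˣ) : S4 K := ⟨_, memS4 !![(s : K), 0; 0, t] 0 0 !![(s : K)⁻¹, 0; 0, (t : K)⁻¹] (by
  ext i j; rcases i with i | i <;> rcases j with j | j <;> fin_cases i <;> fin_cases j <;>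
    simp [Matrix.mul_apply, Fintype.sum_sum_type, Fin.sum_univ_two, J])⟩

theorem act (s t : Kˣ) : Act pv pw py pz pv' pw' (s * t⁻¹) (t ^ 2) (RingEquiv.refl K)
    fun x => dg s t * x * (dg s t)⁻¹ := by
  refine ⟨⟨fun a => ?_, fun a => ?_, fun a => ?_, fun a => ?_⟩, fun a => ?_, fun a => ?_⟩ <;>
    refine mul_inv_eq_iff_eq_mul.2 ?_ <;> ext i j <;> simp only [mul_ap] <;>
    rcases i with i | i <;> rcases j with j | j <;> fin_cases i <;> fin_cases j <;>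
    simp [dg, pv, pw, py, pz, pv', pw'] <;> field_simp

end BS4b

open BS4b

theorem s4b : S4b := by
  intro K _ _ _
  refine ⟨fun g k => ?_, fun g k => ?_⟩
  · have b := of_norm k
    let s := Units.mk0 _ b.1.ne
    let t := Units.mk0 _ (left_ne_zero_of_mul_eq_one (BB_d b))
    have d : dg s t ∈ BB K := by simp [BB, Pa, dg]
    refine ⟨dg s t * g⁻¹, (P_eq (K := K)).ge ⟨mul_mem d (inv_mem b), ?_, ?_⟩, s * t, s, ?_⟩
    · rw [b.1.inv.col, inv_ll]; exact b.1.d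
    · rw [d1 d.1 (inv_mem b), inv_ll]; exact BB_d b
    · rw [inv_mul_cancel_right, show (s * t)⁻¹ * s ^ 2 = s * t⁻¹ by ext; simp; field_simp,
        show (s * t) ^ 2 * (s ^ ex true)⁻¹ = t ^ 2 by ext; simp [ex]; field_simp]
      exact act s t
  · have p : Pa g := pa_of ((closure_le _).2 (by
      rintro _ ((⟨a, rfl⟩ | ⟨a, rfl⟩) | ⟨a, rfl⟩)
      exacts [pv_mem a, py_mem a, pz_mem a])) (subset_closure (.inl (.inl ⟨_, rfl⟩)))
      (subset_closure (.inl (.inr ⟨_, rfl⟩))) k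
    by_cases e : g.1 f1 e1 = 0
    · exact .inl (norm_of ⟨p, e⟩)
    · refine .inr ⟨g.1 f1 f1 / g.1 f1 e1, norm_of ⟨(p.mul (pw_mem _).1.1.inv).mul (Pa.inv (by simp [Pa, pn])), ?_⟩⟩
      simp only [mul_ap, inv_ll, inv_lr, inv_rl, inv_rr]
      simp [pn, pw]
      field_simp
      ring

end CL.HK
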