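/-
Project HK (S5175), case (b): diagonal, field and graph automorphisms of `Sp₄(q)`, `q` even.
-/
import Cfsg.Agent.HK.BDefs

set_option autoImplicit false

open Cfsg Subgroup Matrix

namespace CL.HK

namespace BS4c

variable {K : Type} [Field K]

/-- the field automorphism -/
def fld (τ : K ≃+* K) : MulAut (S4 K) where
  toFun g := ⟨g.1.map τ, SymplecticGroup.map_mem g.2 τ⟩
  invFun g := ⟨g.1.map τ.symm, SymplecticGroup.map_mem g.2 τ.symm⟩
  left_inv g := Subtype.ext (by ext i j; simp)
  right_inv g := Subtype.ext (by ext i j; simp)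
  map_mul' g h := Subtype.ext (Matrix.map_mul (f := τ))

theorem fld_val (τ : K ≃+* K) (g : S4 K) : (fld τ g).1 = g.1.map τ := rfl

theorem fv (τ : K ≃+* K) (a : K) : fld τ (pv a) = pv (τ a) := Subtype.ext (by
  ext i j; rcases i with i | i <;> rcases j with j | j <;> fin_cases i <;> fin_cases j <;> simp [fld_val, pv])
theorem fw (τ : K ≃+* K) (a : K) : fld τ (pw a) = pw (τ a) := Subtype.ext (by
  ext i j; rcases i with i | i <;> rcases j with j | j <;> fin_cases i <;> fin_cases j <;> simp [fld_val, pw])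
theorem fy (τ : K ≃+* K) (a : K) : fld τ (py a) = py (τ a) := Subtype.ext (by
  ext i j; rcases i with i | i <;> rcases j with j | j <;> fin_cases i <;> fin_cases j <;> simp [fld_val, py])
theorem fz (τ : K ≃+* K) (a : K) : fld τ (pz a) = pz (τ a) := Subtype.ext (by
  ext i j; rcases i with i | i <;> rcases j with j | j <;> fin_cases i <;> fin_cases j <;> simp [fld_val, pz])
theorem fv' (τ : K ≃+* K) (a : K) : fld τ (pv' a) = pv' (τ a) := Subtype.ext (by
  ext i j; rcases i with i | i <;> rcases j with j | j <;> fin_cases i <;> fin_cases j <;> simp [fld_val, pv'])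
theorem fw' (τ : K ≃+* K) (a : K) : fld τ (pw' a) = pw' (τ a) := Subtype.ext (by
  ext i j; rcases i with i | i <;> rcases j with j | j <;> fin_cases i <;> fin_cases j <;> simp [fld_val, pw'])

/-- the diagonal matrix -/
def dg (s t : Kˣ) : S4 K := ⟨_, memS4 !![(s : K), 0; 0, t] 0 0 !![(s : K)⁻¹, 0; 0, (t : K)⁻¹] (by
  ext i j; rcases i with i | i <;> rcases j with j | j <;> fin_cases i <;> fin_cases j <;>
    simp [Matrix.mul_apply, Fintype.sum_sum_type, Fin.sum_univ_two, J])⟩

theorem cj_of {D x x' : S4 K} (h : D.1 * x.1 = x'.1 * D.1) : MulAut.conj D x = x' := by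
  rw [MulAut.conj_apply, mul_inv_eq_iff_eq_mul]
  exact Subtype.ext h

theorem dv (s t : Kˣ) (a : K) : MulAut.conj (dg s t) (pv a) = pv (s * (t : K)⁻¹ * a) := cj_of (by
  ext i j; rcases i with i | i <;> rcases j with j | j <;> fin_cases i <;> fin_cases j <;>
    simp [Matrix.mul_apply, Fintype.sum_sum_type, Fin.sum_univ_two, dg, pv] <;> field_simp)
theorem dw (s t : Kˣ) (a : K) : MulAut.conj (dg s t) (pw a) = pw (t ^ 2 * a) := cj_of (by
  ext i j; rcases i with i | i <;> rcases j with j | j <;> fin_cases i <;> fin_cases j <;>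
    simp [Matrix.mul_apply, Fintype.sum_sum_type, Fin.sum_univ_two, dg, pw] <;> field_simp)
theorem dy (s t : Kˣ) (a : K) : MulAut.conj (dg s t) (py a) = py (s * t * a) := cj_of (by
  ext i j; rcases i with i | i <;> rcases j with j | j <;> fin_cases i <;> fin_cases j <;>
    simp [Matrix.mul_apply, Fintype.sum_sum_type, Fin.sum_univ_two, dg, py] <;> field_simp)
theorem dz (s t : Kˣ) (a : K) : MulAut.conj (dg s t) (pz a) = pz (s ^ 2 * a) := cj_of (by
  ext i j; rcases i with i | i <;> rcases j with j | j <;> fin_cases i <;> fin_cases j <;>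
    simp [Matrix.mul_apply, Fintype.sum_sum_type, Fin.sum_univ_two, dg, pz] <;> field_simp)
theorem dv' (s t : Kˣ) (a : K) : MulAut.conj (dg s t) (pv' a) = pv' (t * (s : K)⁻¹ * a) := cj_of (by
  ext i j; rcases i with i | i <;> rcases j with j | j <;> fin_cases i <;> fin_cases j <;>
    simp [Matrix.mul_apply, Fintype.sum_sum_type, Fin.sum_univ_two, dg, pv'] <;> field_simp)
theorem dw' (s t : Kˣ) (a : K) : MulAut.conj (dg s t) (pw' a) = pw' (((t : K) ^ 2)⁻¹ * a) := cj_of (by
  ext i j; rcases i with i | i <;> rcases j with j | j <;> fin_cases i <;> fin_cases j <;>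
    simp [Matrix.mul_apply, Fintype.sum_sum_type, Fin.sum_univ_two, dg, pw'] <;> field_simp)

variable [CharP K 2] (h2 : (2 : K) = 0)

open CL.SpAut

theorem st_val (g : S4 K) : (starHom h2 g).1 = SpAut.star g.1 := rfl

theorem sv (a : K) : starHom h2 (pv a) = pw (a ^ 2) := Subtype.ext (by
  ext i j; rcases i with i | i <;> rcases j with j | j <;> fin_cases i <;> fin_cases j <;>
    simp [st_val, SpAut.star, wdg, p1, p2, pv, pw, CharTwo.neg_eq, sq])
theorem sw (a : K) : starHom h2 (pw a) = pv a := Subtype.ext (by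
  ext i j; rcases i with i | i <;> rcases j with j | j <;> fin_cases i <;> fin_cases j <;>
    simp [st_val, SpAut.star, wdg, p1, p2, pv, pw, CharTwo.neg_eq, sq])
theorem sy (a : K) : starHom h2 (py a) = pz (a ^ 2) := Subtype.ext (by
  ext i j; rcases i with i | i <;> rcases j with j | j <;> fin_cases i <;> fin_cases j <;>
    simp [st_val, SpAut.star, wdg, p1, p2, py, pz, CharTwo.neg_eq, sq])
theorem sz (a : K) : starHom h2 (pz a) = py a := Subtype.ext (by
  ext i j; rcases i with i | i <;> rcases j with j | j <;> fin_cases i <;> fin_cases j <;>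
    simp [st_val, SpAut.star, wdg, p1, p2, py, pz, CharTwo.neg_eq, sq])
theorem sv' (a : K) : starHom h2 (pv' a) = pw' (a ^ 2) := Subtype.ext (by
  ext i j; rcases i with i | i <;> rcases j with j | j <;> fin_cases i <;> fin_cases j <;>
    simp [st_val, SpAut.star, wdg, p1, p2, pv', pw', CharTwo.neg_eq, sq])
theorem sw' (a : K) : starHom h2 (pw' a) = pv' a := Subtype.ext (by
  ext i j; rcases i with i | i <;> rcases j with j | j <;> fin_cases i <;> fin_cases j <;>
    simp [st_val, SpAut.star, wdg, p1, p2, pv', pw', CharTwo.neg_eq, sq])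

end BS4c

open BS4c in
theorem s4c : S4c := by
  intro K _ _ _
  have h2 : (2 : K) = 0 := CharTwo.two_eq_zero
  refine ⟨fun p r τ => ?_, fun θ => ?_⟩
  · obtain ⟨t, ht⟩ := (frobeniusEquiv K 2).surjective (r : K)
    rw [frobeniusEquiv_def] at ht
    have t0 : t ≠ 0 := fun e => r.ne_zero (by rw [← ht, e]; simp)
    have p0 := p.ne_zero
    refine ⟨MulAut.conj (dg (p * Units.mk0 t t0) (Units.mk0 t t0)) * fld τ, ⟨fun a => ?_, fun a => ?_, fun a => ?_,
      fun a => ?_⟩, fun a => ?_, fun a => ?_⟩
    · rw [MulAut.mul_apply, fv, dv]; congr 1; simp only [Units.val_mul, Units.val_mk0]; field_simp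
    · rw [MulAut.mul_apply, fw, dw, Units.val_mk0, ht]
    · rw [MulAut.mul_apply, fy, dy]; congr 1; simp only [Units.val_mul, Units.val_mk0]; rw [← ht]; ring
    · rw [MulAut.mul_apply, fz, dz]; congr 1; simp only [Units.val_mul, Units.val_mk0]; rw [← ht]; ring
    · rw [MulAut.mul_apply, fv', dv']; congr 1; simp only [Units.val_mul, Units.val_mk0]; field_simp
    · rw [MulAut.mul_apply, fw', dw', Units.val_mk0, ht]
  · refine ⟨MulEquiv.ofBijective (CL.SpAut.starHom h2)
      (Finite.injective_iff_bijective.1 (CL.SpAut.starHom_injective h2)) * fld θ, fun a => ?_, fun a => ?_,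
      fun a => ?_, fun a => ?_, fun a => ?_, fun a => ?_⟩
    · rw [MulAut.mul_apply, fv]; exact sv h2 _
    · rw [MulAut.mul_apply, fw]; exact sw h2 _
    · rw [MulAut.mul_apply, fy]; exact sy h2 _
    · show (_ * fld θ : MulAut (S4 K)) (pz a) = _
      rw [MulAut.mul_apply, fz]; exact sz h2 _
    · rw [MulAut.mul_apply, fv']; exact sv' h2 _
    · rw [MulAut.mul_apply, fw']; exact sw' h2 _

end CL.HK
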