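/-
Project HK (S5175), case (b): restriction to the subgroup `G0 MM ⟨s⟩`.
-/
import Cfsg.Agent.HK.B0

set_option autoImplicit false
set_option linter.unusedSectionVars false

open Cfsg Subgroup
open scoped commutatorElement

namespace CL.HK

open CL.Fus CL.Loc CL.Grp CL.Even

namespace BSub

variable {G : Type*} [Group G]

/-- the set `MM G0 ∪ s MM G0` -/
def D (G0 MM : Subgroup G) [hN : G0.Normal] (s : G) (s2 : s * s = 1) (sM : ∀ m ∈ MM, s * m * s⁻¹ ∈ MM) : Subgroup G where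
  carrier := {g | ∃ m ∈ MM, ∃ g0 ∈ G0, g = m * g0 ∨ g = s * m * g0}
  one_mem' := ⟨1, one_mem _, 1, one_mem _, .inl (one_mul 1).symm⟩
  mul_mem' := by
    have si : s⁻¹ = s := inv_eq_of_mul_eq_one_right s2
    rintro _ _ ⟨m, hm, g, hg, rfl | rfl⟩ ⟨m', hm', g', hg', rfl | rfl⟩
    · exact ⟨_, mul_mem hm hm', _, mul_mem (hN.conj_mem' g hg m') hg', .inl (by group)⟩
    · refine ⟨_, mul_mem (sM m hm) hm', _, mul_mem (hN.conj_mem' g hg (s * m')) hg', .inr ?_⟩
      rw [show s * (s * m * s⁻¹ * m') = s * s * m * s⁻¹ * m' by group, s2, si]; group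
    · exact ⟨_, mul_mem hm hm', _, mul_mem (hN.conj_mem' g hg m') hg', .inr (by group)⟩
    · refine ⟨_, mul_mem (sM m hm) hm', _, mul_mem (hN.conj_mem' g hg (s * m')) hg', .inl ?_⟩
      rw [show s * m * s⁻¹ * m' = s * m * (s * m') by rw [si]; group]; group
  inv_mem' := by
    have si : s⁻¹ = s := inv_eq_of_mul_eq_one_right s2
    rintro _ ⟨m, hm, g, hg, rfl | rfl⟩
    · exact ⟨_, inv_mem hm, _, hN.conj_mem _ (inv_mem hg) m, .inl (by group)⟩
    · refine ⟨_, sM _ (inv_mem hm), _, hN.conj_mem _ (inv_mem hg) (s * m), .inr ?_⟩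
      rw [show s * (s * m⁻¹ * s⁻¹) = s * s * m⁻¹ * s⁻¹ by group, s2]; group

theorem mem_norm {H Q : Subgroup G} (h : Q ≤ H) {g : H} : g ∈ 𝒩(Q.subgroupOf H) ↔ (g : G) ∈ 𝒩(Q) := by
  rw [← subgroupOf_normalizer_eq h, mem_subgroupOf]

end BSub

open BSub

theorem sub : SUB := by
  intro K _ G _ _ ε θ A G0 P MM v w y z n s h
  have := h.normal
  let H := G0 ⊔ MM ⊔ zpowers s
  have l0 : G0 ≤ H := le_sup_left.trans le_sup_left
  have lP : P ≤ H := h.syl.le.trans l0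
  have lM : MM ≤ H := le_sup_right.trans le_sup_left
  have c := h.co
  let v1 : K → H := fun a => ⟨v a, lP (c.vT a)⟩
  let w1 : K → H := fun a => ⟨w a, lP (c.wT a)⟩
  let y1 : K → H := fun a => ⟨y a, lP (c.yT a)⟩
  let z1 : K → H := fun a => ⟨z a, lP (c.zT a)⟩
  have ez : ∀ a, ((hz ε y1 z1 a : H) : G) = hz ε y z a := fun a => by cases ε <;> rfl
  have es : sp v1 y1 z1 = (sp v y z).subgroupOf H :=
    (comap_map_eq_self_of_injective H.subtype_injective _).symm.trans (congrArg (comap H.subtype) (sp_map H.subtype v1 y1 z1))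
  have lV : sp v y z ≤ H := (closure_le _).2 (by
    rintro _ ((⟨a, rfl⟩ | ⟨a, rfl⟩) | ⟨a, rfl⟩)
    exacts [(v1 a).2, (y1 a).2, (z1 a).2])
  refine ⟨H, inferInstance, inferInstance, G0.subgroupOf H, P.subgroupOf H, MM.subgroupOf H, v1, w1, y1, z1,
    ⟨n, l0 h.nG⟩, ⟨s, mem_sup_right (mem_zpowers s)⟩, ⟨⟨⟨c.vT, c.wT, c.yT, c.zT,
    fun a b => Subtype.ext (c.v_add a b), fun a b => Subtype.ext (c.w_add a b), fun a b => Subtype.ext (c.y_add a b),
    fun a b => Subtype.ext (c.z_add a b), fun b t ht => Subtype.ext (c.yc b t ht),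
    fun b t ht => Subtype.ext (c.zc b t ht), fun a u => Subtype.ext (c.com a u), fun e b => Subtype.ext (c.z1 e b),
    fun t ht => ?_, fun a u b d e => c.uniq a u b d (congrArg Subtype.val e)⟩, inferInstance,
    (subgroupOfEquivOfLe l0).isSimpleGroup_congr.2 h.simple,
    fun g k => Subtype.ext (h.cent g fun x hx => congrArg Subtype.val (k ⟨x, l0 hx⟩ hx)),
    ⟨subgroupOf_mono H h.syl.le, h.syl.isPGroup.comap_subtype, relIndex_subgroupOf l0 ▸ h.syl.not_dvd⟩, h.nG,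
    fun a => Subtype.ext (h.nv a), fun a => Subtype.ext (h.ny a), fun a => Subtype.ext (h.nz a), Subtype.ext h.s2,
    fun a => Subtype.ext (h.sv a), fun a => Subtype.ext (h.sw a), fun a => Subtype.ext ((h.sy a).trans (ez _).symm),
    fun a => Subtype.ext ((congrArg (s * · * s⁻¹) (ez a)).trans (h.sh a)), fun m hm => ?_, fun d hd => ?_,
    fun m hm k => Subtype.ext (h.faith m hm fun t ht => congrArg Subtype.val (k ⟨t, lP ht⟩ ht)),
    fun m hm k => Subtype.ext (h.odd m hm (congrArg Subtype.val k)), fun m hm => h.sM m hm, fun g hg k => ?_,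
    fun g hg k => ?_⟩, fun g => ?_⟩, ⟨subgroupOfEquivOfLe l0⟩⟩
  · obtain ⟨a, u, b, d, e⟩ := c.nf t ht
    exact ⟨a, u, b, d, Subtype.ext e⟩
  · obtain ⟨d, hd, k⟩ := h.mon m hm
    exact ⟨d, hd, fun a => Subtype.ext (k.v a), fun a => Subtype.ext (k.w a), fun a => Subtype.ext (k.y a),
      fun a => Subtype.ext (k.z a)⟩
  · obtain ⟨m, hm, k⟩ := h.real d hd
    exact ⟨⟨m, lM hm⟩, hm, fun a => Subtype.ext (k.v a), fun a => Subtype.ext (k.w a), fun a => Subtype.ext (k.y a),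
      fun a => Subtype.ext (k.z a)⟩
  · obtain ⟨t, ht, e⟩ := h.b1 g hg ((mem_norm lP).1 k)
    exact ⟨⟨t, lP ht⟩, ht, e⟩
  · rw [es] at k
    exact (h.b2 g hg ((mem_norm lV).1 k)).imp (mem_norm lP).2 fun ⟨u, e⟩ => ⟨u, (mem_norm lP).2 e⟩
  · obtain ⟨m, hm, g0, hg, e⟩ := (sup_le (sup_le (fun x hx => ⟨1, one_mem _, x, hx, .inl (one_mul x).symm⟩)
      fun x hx => ⟨x, hx, 1, one_mem _, .inl (mul_one x).symm⟩) (zpowers_le.2 ⟨1, one_mem _, 1, one_mem _,
        .inr (by simp)⟩) : H ≤ D G0 MM s h.s2 h.sM) g.2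
    exact ⟨⟨m, lM hm⟩, hm, ⟨g0, l0 hg⟩, hg, e.imp Subtype.ext Subtype.ext⟩

end CL.HK
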