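/-
Project HK (S5175), case (b): the Sylow subgroup of the model, and no conjugation of `V` into `W`.
-/
import Cfsg.Agent.HK.B0

set_option autoImplicit false

open Cfsg Subgroup
open scoped commutatorElement Pointwise

namespace CL.HK

open CL.Fus CL.Loc CL.Grp CL.Even

namespace BSylx

variable {K : Type} [Field K] {G : Type*} [Group G]

theorem par_one [CharP K 2] {f : K → G} (hf : ∀ a a', f a = f a' → a = a') {x : G} {p : K}
    (h : ∀ a, x * f a * x⁻¹ = f (p * a)) {k : ℕ} (hx : x ^ 2 ^ k = 1) : p = 1 := by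
  have : ∀ m : ℕ, x ^ m * f 1 * (x ^ m)⁻¹ = f (p ^ m) := fun m => by
    induction m with
    | zero => simp
    | succ m ih => rw [pow_succ', pow_succ', ← h, ← ih]; group
  have h1 := this (2 ^ k)
  rw [hx, one_mul, inv_one, mul_one] at h1
  have h2 : (p - 1) ^ 2 ^ k = 0 := by rw [sub_pow_char_pow, ← hf _ _ h1, one_pow, sub_self]
  exact sub_eq_zero.1 (pow_eq_zero_iff (by positivity) |>.1 h2)

theorem cen_one (cen : ∀ g : G, (∀ x, g * x = x * g) → g * g = 1 → g = 1) {x : G} (h : ∀ y, x * y = y * x) :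
    ∀ k : ℕ, x ^ 2 ^ k = 1 → x = 1
  | 0, e => by simpa using e
  | k + 1, e => cen_one cen h k (cen _ (fun y => (Commute.pow_left (h y) _).eq) (by rw [← pow_two, ← pow_mul, ← pow_succ, e]))

theorem cj_le {g : G} {A B : Subgroup G} (h : ∀ x ∈ A, g * x * g⁻¹ ∈ B) : cj g A ≤ B := by
  rintro _ ⟨x, hx, rfl⟩; exact h x hx

end BSylx

open BSylx in
theorem syl : SYL := by
  intro K _ _ G _ _ ε P v w y z v' w' n h
  have co := h.a.co
  refine isSylowIn_of_maximal le_top co.isPGroup fun U hU le _ => ?_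
  by_contra ne
  obtain ⟨g, hg, hN, hP⟩ := exists_mem_normalizer_not_mem hU (lt_of_le_of_ne le (Ne.symm ne))
  obtain ⟨t, ht, c, d, A⟩ := h.b.b1 g hN
  obtain ⟨k, hk⟩ := hU ⟨t * g, mul_mem (le ht) hg⟩
  replace hk : (t * g) ^ 2 ^ k = 1 := congrArg Subtype.val hk
  have e1 := par_one (fun _ _ => co.v_inj) A.mon.v hk
  have e2 := par_one (fun _ _ => co.w_inj) A.mon.w hk
  have : closure (Set.range v ∪ Set.range w ∪ Set.range v' ∪ Set.range w') ≤ centralizer {t * g} := by
    refine (closure_le _).2 ?_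
    rintro _ (((⟨a, rfl⟩ | ⟨a, rfl⟩) | ⟨a, rfl⟩) | ⟨a, rfl⟩) <;>
      refine mem_centralizer_singleton_iff.2 (mul_inv_eq_iff_eq_mul.1 ?_).symm
    · simpa only [e1, one_mul, RingEquiv.refl_apply] using A.mon.v a
    · simpa only [e2, one_mul, RingEquiv.refl_apply] using A.mon.w a
    · simpa only [e1, one_mul, inv_one, RingEquiv.refl_apply] using A.av a
    · simpa only [e2, one_mul, inv_one, RingEquiv.refl_apply] using A.aw a
  rw [h.a.gen] at this
  have e := cen_one h.a.cen (fun x => (mem_centralizer_singleton_iff.1 (this (mem_top x))).symm) k hk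
  exact hP (eq_inv_of_mul_eq_one_right e ▸ inv_mem ht)

open BSylx in
theorem nc : NC := by
  intro K _ _ G _ _ ε θ A G0 P MM v w y z n s _ h g hg hVW
  have co := h.co
  have := h.normal
  have c1 : Nat.card (sp w y z) ≤ Nat.card (cj g (sp v y z)) := by
    rw [card_cj, ← card_cj s]
    exact card_le_of_le (cj_le (h.toMG0.toSW.cW co))
  have e : cj g (sp v y z) = sp w y z := eq_of_le_of_card_ge (cj_le hVW) c1
  have S1 : IsSylowIn 2 P (G0 ⊓ 𝒩(sp w y z)) :=
    h.syl.of_le (le_inf h.syl.le (co.le_normalizer_of (Yg_le_sp _ _ _) co.W_le)) inf_le_left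
  have S2 : IsSylowIn 2 (cj g P) (G0 ⊓ 𝒩(sp w y z)) := (h.syl.conj_smul_of_mem hg).of_le (le_inf
    (cj_le_of_mem h.syl.le hg) (by
      rw [← e, ← cj_norm]; exact cj_mono g (co.le_normalizer_of (Yg_le_sp _ _ _) co.V_le))) inf_le_left
  obtain ⟨k, hk, ek⟩ := S2.exists_conj_eq S1
  obtain ⟨t, ht, hm⟩ := h.b1 (k * g) (mul_mem hk.1 hg) (cj_eq_iff_mem.1 ((cj_mul ..).trans ek))
  obtain ⟨c, -, m⟩ := h.mon _ hm
  have h1 := co.conj_W ht ((mem_normalizer_iff.1 hk.2 _).1 (hVW _ (v_mem_sp v y z 1)))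
  have h2 := m.v 1
  rw [map_one, mul_one] at h2
  refine c.1.ne_zero (co.v_mem_W (h2 ▸ ?_))
  simpa only [mul_inv_rev, mul_assoc] using h1

end CL.HK
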