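/-
Project HK (S5175), case (b): the essential subgroups inside `T`.
-/
import Cfsg.Agent.HK.B0
import Cfsg.Agent.Fus.FratChain

set_option autoImplicit false

open Cfsg Subgroup

namespace CL.HK

open CL.Fus CL.Loc CL.Grp CL.Even

universe u

theorem ess1 : ESS1.{u} := by
  intro Ω _ S _ F K _ _ ε θ T v w y z s E hS _ h hE hET
  have := h.chr
  have c := h.toCo
  have hc : ∀ x ∈ T, (∀ e ∈ E, e * x = x * e) → x ∈ E := fun x hx e =>
    hE.1.2 E (isConj_refl F hE.1.1) ⟨h.le hx, mem_centralizer_iff.2 e⟩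
  have hY : Yg y z ≤ E := fun x hx => hc x (c.Y_le hx) fun e he => (c.Yc hx (hET he)).symm
  by_cases hV : E ≤ sp v y z
  · exact Or.inl (le_antisymm hV fun x hx => hc x (c.V_le hx) fun e he => c.V_comm (hV he) hx)
  by_cases hW : E ≤ sp w y z
  · exact Or.inr (Or.inl (le_antisymm hW fun x hx => hc x (c.W_le hx) fun e he => c.W_comm (hW he) hx))
  have key : ∀ x ∈ E, x * x = 1 → (∀ e ∈ E, x * e = e * x) → x ∈ Yg y z := fun x hx h2 hz => by
    by_contra hn
    rcases c.invol (hET hx) h2 with e | e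
    · exact hV fun t ht => c.cent_V e hn (hET ht) (hz t ht)
    · exact hW fun t ht => c.cent_W e hn (hET ht) (hz t ht)
  refine Or.inr (Or.inr (le_antisymm hET fun t ht => ?_))
  refine mem_of_comm_frat hS hE.1 (IsEssential.isRadical hS hE) hY (fun γ _ x hx => ?_) (h.le ht)
    (c.le_normalizer_of hY hET ht) (fun x hx => ?_) fun x hx => ?_
  · have hγ := homOn_autFun γ
    refine key _ (autFun_mem γ (hY hx)) (by rw [← hγ.map_mul (hY hx) (hY hx), c.Y_sq hx, hγ.map_one]) fun e he => ?_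
    have he' := autFun_mem γ⁻¹ he
    rw [← autFun_apply_inv γ he, ← hγ.map_mul (hY hx) he', ← hγ.map_mul he' (hY hx), c.Yc hx (hET he')]
  · obtain ⟨k, hk, e⟩ := c.conj_eq ht (hET hx)
    rwa [e, inv_mul_cancel_left]
  · rw [← c.Yc hx ht, mul_inv_cancel_right, inv_mul_cancel]
    exact one_mem _

end CL.HK
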