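/-
Project HK (S5175), case (b): an essential subgroup whose automizer keeps `T` lies in `T`.
-/
import Cfsg.Agent.HK.B0
import Cfsg.Agent.Fus.FratChain
import Cfsg.Agent.Fus.StronglyEmb
import Cfsg.Agent.Fus.Alperin

set_option autoImplicit false

open Cfsg Subgroup
open scoped commutatorElement

namespace CL.HK

open CL.Fus CL.Loc CL.Grp CL.Even

universe u

namespace BEss2

variable {Ω : Type u} [Group Ω] {S : Subgroup Ω} {K : Type} [Field K] [Fintype K] {F : FusionSystem S} {ε : Bool}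
  {θ : K ≃+* K} {T E : Subgroup Ω} {v w y z : K → Ω} {s s' : Ω}

theorem mem_Y (h : QD F ε θ T v w y z s) (hE : E ≤ S) (hs : s' ∈ E) (hT : s' ∉ T) {x : Ω} (hx : x ∈ E ⊓ T)
    (h2 : x * x = 1) (hc : ∀ t ∈ E ⊓ T, x * t = t * x) : x ∈ Yg y z := by
  by_contra hY
  have k : s' * x * s'⁻¹ ∈ E ⊓ T :=
    ⟨E.mul_mem (E.mul_mem hs hx.1) (E.inv_mem hs), conj_mem (h.le_normalizer (hE hs)) hx.2⟩
  have k' : s' * x * s'⁻¹ ∈ Yg y z := by
    rcases h.toCo.invol hx.2 h2 with e | e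
    · exact h.toCo.mem_Y_of (h.toCo.cent_V e hY k.2 (hc _ k)) (h.out_V (hE hs) hT e)
    · exact h.toCo.mem_Y_of (h.out_W (hE hs) hT e) (h.toCo.cent_W e hY k.2 (hc _ k))
  have := h.conj_Y (S.inv_mem (hE hs)) k'
  rw [show s'⁻¹ * (s' * x * s'⁻¹) * s'⁻¹⁻¹ = x by group] at this
  exact hY this

end BEss2

theorem ess2 : ESS2.{u} := by
  intro Ω _ S _ F K _ _ ε θ T v w y z s E hS hF h hE hi
  have : Fact (Nat.Prime 2) := ⟨Nat.prime_two⟩
  have := h.chr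
  have hES : E ≤ S := IsEssential.le hE
  intro s' hs
  by_contra hT
  have i0 : ∀ γ ∈ F.autGroup E, ∀ x ∈ E ⊓ T, autFun γ x ∈ E ⊓ T := fun γ hγ x hx =>
    ⟨autFun_mem γ hx.1, hi _ (mor_autFun hES hγ) (fun _ => autFun_mem γ) x hx.1 hx.2⟩
  have iY : ∀ γ ∈ F.autGroup E, ∀ x ∈ E ⊓ T, x ∈ Yg y z → autFun γ x ∈ Yg y z := fun γ hγ x hx hY => by
    refine BEss2.mem_Y h hES hs hT (i0 γ hγ x hx) ?_ fun t ht => ?_
    · rw [← (homOn_autFun γ).map_mul hx.1 hx.1, h.toCo.Y_sq hY, (homOn_autFun γ).map_one]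
    · have ht' := i0 γ⁻¹ (inv_mem hγ) t ht
      rw [← autFun_apply_inv γ ht.1, ← (homOn_autFun γ).map_mul hx.1 ht'.1, h.toCo.Yc hY ht'.2,
        (homOn_autFun γ).map_mul ht'.1 hx.1]
  have key : ∀ a ∈ T, a ∈ 𝒩(E) → a ∈ E := fun a ha hn => by
    refine mem_of_comm_comm_frat hS hE.1 (IsEssential.isRadical hS hE) (Q := E ⊓ T) inf_le_left i0 iY (h.le ha) hn
      (fun x hx => ⟨E.mul_mem (E.inv_mem hx) (conj_mem hn hx), ?_⟩) (fun x hx => ?_) fun x _ hY => ?_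
    · have := T.mul_mem (conj_mem' (h.le_normalizer (hES hx)) ha) (T.inv_mem ha)
      rwa [show x⁻¹ * a * x * a⁻¹ = x⁻¹ * (a * x * a⁻¹) by group] at this
    · obtain ⟨k, hk, e⟩ := h.toCo.conj_eq ha hx.2
      rwa [e, inv_mul_cancel_left]
    · rw [← h.toCo.Yc hY ha, mul_inv_cancel_right, inv_mul_cancel]
      exact one_mem _
  obtain ⟨a, haS, hn, hne⟩ := exists_mem_normalizer_not_mem hS
    (IsEssential.lt hE (fullyAutomized_of_fullyNormalized hS hF (isFullyNormalized_top F)))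
  by_cases ha : a ∈ T
  · exact hne (key a ha hn)
  · exact hne ((E.mul_mem_cancel_right hs).1
      (key _ (h.mul_mem_of haS ha (hES hs) hT) (mul_mem hn (le_normalizer hs))))

end CL.HK
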