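/-
Project HK (S5175), case (b), step UQ1: the isomorphism of the Sylow subgroups respecting the coordinates.
-/
import Cfsg.Agent.HK.B0

set_option autoImplicit false
set_option linter.unusedSectionVars false

open Cfsg Subgroup
open scoped commutatorElement

namespace CL.HK

open CL.Fus CL.Loc CL.Grp CL.Even

universe u u'

namespace BUq1

variable {Ω Ω' : Type*} [Group Ω] [Group Ω'] {K : Type} [Field K] {ε : Bool} {θ : K ≃+* K}
  {T : Subgroup Ω} {v w y z : K → Ω} {s : Ω} {T' : Subgroup Ω'} {v' w' y' z' : K → Ω'} {s' : Ω'}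

theorem yz_mul (h : Co ε T v w y z) (b c b' c' : K) : y b * z c * (y b' * z c') = y (b + b') * z (c + c') := by
  rw [h.y_add, h.z_add, mul_assoc, ← mul_assoc (z c), h.zc c _ (h.yT b')]; simp only [mul_assoc]

theorem rule (h : Co ε T v w y z) (a u b c a' u' b' c' : K) :
    v a * w u * y b * z c * (v a' * w u' * y b' * z c') =
      v (a + a') * w (u + u') * y (-(a' * u) + b + b') * z (-(a' ^ 2 * u) + c + c') := by
  have hY : ∀ b c, y b * z c ∈ Yg y z := fun b c => h.mem_Y.2 ⟨b, c, rfl⟩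
  have e := h.mul_nf a u a' u' (hY b c) (y b' * z c')
  have e1 : (y (a' * u) * z (a' ^ 2 * u))⁻¹ = y (-(a' * u)) * z (-(a' ^ 2 * u)) := by
    rw [mul_inv_rev, add_inv h.y_add, add_inv h.z_add, h.zc _ _ (h.yT _)]
  rw [e1, yz_mul h, yz_mul h] at e
  simpa only [mul_assoc] using e

theorem wd (h : Co ε T v w y z) (h' : Co ε T' v' w' y' z') {a u b c a' u' b' c' : K}
    (e : v a * w u * y b * z c = v a' * w u' * y b' * z c') :
    v' a * w' u * y' b * z' c = v' a' * w' u' * y' b' * z' c' := by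
  have hY : ∀ b c, y b * z c ∈ Yg y z := fun b c => h.mem_Y.2 ⟨b, c, rfl⟩
  obtain ⟨rfl, rfl, e2⟩ := h.uniq' (a := a) (u := u) (a' := a') (u' := u') (hY b c) (hY b' c')
    (by simpa only [mul_assoc] using e)
  obtain ⟨rfl, e3⟩ := h.yz_inj e2
  have : z' c = z' c' := by
    cases ε
    · rw [h'.z1 rfl, h'.z1 rfl]
    · rw [h.z_inj rfl e3]
  rw [this]

theorem ex_phi (h : Co ε T v w y z) (h' : Co ε T' v' w' y' z') :
    ∃ φ : Ω → Ω', ∀ a u b c, φ (v a * w u * y b * z c) = v' a * w' u * y' b * z' c := by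
  classical
  refine ⟨fun x => if hx : ∃ q : K × K × K × K, x = v q.1 * w q.2.1 * y q.2.2.1 * z q.2.2.2 then
    v' hx.choose.1 * w' hx.choose.2.1 * y' hx.choose.2.2.1 * z' hx.choose.2.2.2 else 1, fun a u b c => ?_⟩
  have hx : ∃ q : K × K × K × K, v a * w u * y b * z c = v q.1 * w q.2.1 * y q.2.2.1 * z q.2.2.2 :=
    ⟨(a, u, b, c), rfl⟩
  simp only [dif_pos hx]
  exact (wd h h' hx.choose_spec).symm

/-- the properties of the coordinate map on `T` -/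
structure PH (T : Subgroup Ω) (v w y z : K → Ω) (T' : Subgroup Ω') (v' w' y' z' : K → Ω') (φ : Ω → Ω') : Prop where
  hom : HomOn T φ
  mem : ∀ t ∈ T, φ t ∈ T'
  hv : ∀ a, φ (v a) = v' a
  hw : ∀ a, φ (w a) = w' a
  hy : ∀ a, φ (y a) = y' a
  hz : ∀ a, φ (z a) = z' a

theorem ex_ph (h : Co ε T v w y z) (h' : Co ε T' v' w' y' z') : ∃ φ, PH T v w y z T' v' w' y' z' φ := by
  obtain ⟨φ, hφ⟩ := ex_phi h h'
  refine ⟨φ, fun x hx x' hx' => ?_, fun t ht => ?_, fun a => ?_, fun a => ?_, fun a => ?_, fun a => ?_⟩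
  · obtain ⟨a, u, b, c, rfl⟩ := h.nf x hx
    obtain ⟨a', u', b', c', rfl⟩ := h.nf x' hx'
    rw [rule h, hφ, hφ, hφ, rule h']
  · obtain ⟨a, u, b, c, rfl⟩ := h.nf t ht
    rw [hφ]
    exact mul_mem (mul_mem (mul_mem (h'.vT a) (h'.wT u)) (h'.yT b)) (h'.zT c)
  · simpa only [h.w_zero, h.y_zero, h.z_zero, h'.w_zero, h'.y_zero, h'.z_zero, mul_one] using hφ a 0 0 0
  · simpa only [h.v_zero, h.y_zero, h.z_zero, h'.v_zero, h'.y_zero, h'.z_zero, mul_one, one_mul] using hφ 0 a 0 0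
  · simpa only [h.v_zero, h.w_zero, h.z_zero, h'.v_zero, h'.w_zero, h'.z_zero, mul_one, one_mul] using hφ 0 0 a 0
  · simpa only [h.v_zero, h.w_zero, h.y_zero, h'.v_zero, h'.w_zero, h'.y_zero, mul_one, one_mul] using hφ 0 0 0 a

theorem PH.left {φ : Ω → Ω'} {ψ : Ω' → Ω} (p : PH T v w y z T' v' w' y' z' φ) (q : PH T' v' w' y' z' T v w y z ψ)
    (h : Co ε T v w y z) : ∀ t ∈ T, ψ (φ t) = t :=
  h.hom_ext (f := fun t => ψ (φ t)) (g := fun t => t)
    (fun x hx x' hx' => by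
      show ψ (φ (x * x')) = ψ (φ x) * ψ (φ x')
      rw [p.hom x hx x' hx', q.hom _ (p.mem x hx) _ (p.mem x' hx')])
    (fun _ _ _ _ => rfl) (fun a => by rw [p.hv, q.hv]) (fun a => by rw [p.hw, q.hw]) (fun a => by rw [p.hy, q.hy])
    fun a => by rw [p.hz, q.hz]

theorem PH.conj {φ : Ω → Ω'} (p : PH T v w y z T' v' w' y' z' φ) (h : Co ε T v w y z) (h' : Co ε T' v' w' y' z')
    (k : SW ε θ v w y z s) (k' : SW ε θ v' w' y' z' s') : ∀ t ∈ T, φ (s * t * s⁻¹) = s' * φ t * s'⁻¹ := by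
  have hh : ∀ a, φ (HK.hz ε y z a) = HK.hz ε y' z' a := fun a => by
    cases ε
    · exact p.hy a
    · exact p.hz a
  refine h.hom_ext (f := fun t => φ (s * t * s⁻¹)) (g := fun t => s' * φ t * s'⁻¹) (fun x hx x' hx' => ?_)
    (fun x hx x' hx' => ?_) (fun a => ?_) (fun a => ?_) (fun a => ?_) fun a => ?_
  · show φ (s * (x * x') * s⁻¹) = φ (s * x * s⁻¹) * φ (s * x' * s⁻¹)
    rw [← p.hom _ (k.cT h x hx) _ (k.cT h x' hx')]
    congr 1; group
  · show s' * φ (x * x') * s'⁻¹ = s' * φ x * s'⁻¹ * (s' * φ x' * s'⁻¹)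
    rw [p.hom x hx x' hx']; group
  · show φ (s * v a * s⁻¹) = s' * φ (v a) * s'⁻¹
    rw [k.sv, p.hw, p.hv, k'.sv]
  · show φ (s * w a * s⁻¹) = s' * φ (w a) * s'⁻¹
    rw [k.sw, p.hw, p.hv, k'.sw]
  · show φ (s * y a * s⁻¹) = s' * φ (y a) * s'⁻¹
    rw [k.sy, p.hy, hh, k'.sy]
  · show φ (s * z a * s⁻¹) = s' * φ (z a) * s'⁻¹
    cases ε
    · rw [p.hz, h.z1 rfl, h'.z1 rfl, mul_one, mul_one, mul_inv_cancel, mul_inv_cancel, p.hom.map_one]
    · have e := k.sh a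
      have e' := k'.sh a
      change s * z a * s⁻¹ = _ at e
      change s' * z' a * s'⁻¹ = _ at e'
      rw [e, p.hz, e', p.hy]

theorem ex_ext {φ : Ω → Ω'} (p : PH T v w y z T' v' w' y' z' φ) (h : Co ε T v w y z) (h' : Co ε T' v' w' y' z')
    (k : SW ε θ v w y z s) (k' : SW ε θ v' w' y' z' s') {S : Subgroup Ω}
    (gen : ∀ x ∈ S, x ∈ T ∨ ∃ t ∈ T, x = t * s) :
    ∃ Θ : Ω → Ω', HomOn S Θ ∧ (∀ t ∈ T, Θ t = φ t) ∧ ∀ t ∈ T, Θ (t * s) = φ t * s' := by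
  classical
  have h1 : ∀ t ∈ T, (fun x => if x ∈ T then φ x else φ (x * s) * s') t = φ t := fun t ht => if_pos ht
  have h2 : ∀ t ∈ T, (fun x => if x ∈ T then φ x else φ (x * s) * s') (t * s) = φ t * s' := fun t ht => by
    have : t * s ∉ T := fun e => k.notMem h (by simpa using T.mul_mem (T.inv_mem ht) e)
    show (if t * s ∈ T then φ (t * s) else φ (t * s * s) * s') = _
    rw [if_neg this, mul_assoc, k.s2, mul_one]
  refine ⟨_, ?_, h1, h2⟩
  generalize (fun x => if x ∈ T then φ x else φ (x * s) * s') = Θ at h1 h2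
  have c := p.conj h h' k k'
  intro x hx x' hx'
  rcases gen x hx with e | ⟨t, ht, rfl⟩ <;> rcases gen x' hx' with e' | ⟨t', ht', rfl⟩
  · rw [h1 _ (T.mul_mem e e'), h1 _ e, h1 _ e', p.hom _ e _ e']
  · rw [← mul_assoc, h2 _ (T.mul_mem e ht'), h1 _ e, h2 _ ht', p.hom _ e _ ht', mul_assoc]
  · have m := k.cT h _ e'
    rw [show t * s * x' = t * (s * x' * s⁻¹) * s by group, h2 _ (T.mul_mem ht m), p.hom _ ht _ m, c _ e', h2 _ ht,
      h1 _ e']
    group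
  · have m := k.cT h _ ht'
    have e : t * s * (t' * s) = t * (s * t' * s⁻¹) := by rw [k.inv]; group
    rw [e, h1 _ (T.mul_mem ht m), p.hom _ ht _ m, c _ ht', h2 _ ht, h2 _ ht', k'.inv]
    group

end BUq1

open BUq1 in
theorem uq1 : UQ1.{u, u'} := by
  intro Ω _ S F Ω' _ S' F' K _ _ ε θ T v w y z s T' v' w' y' z' s' h h'
  obtain ⟨φ, p⟩ := ex_ph h.toCo h'.toCo
  obtain ⟨ψ, q⟩ := ex_ph h'.toCo h.toCo
  have gen : ∀ x ∈ S, x ∈ T ∨ ∃ t ∈ T, x = t * s := fun x hx => by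
    by_cases e : x ∈ T
    · exact Or.inl e
    · exact Or.inr (h.exists_eq hx e)
  have gen' : ∀ x ∈ S', x ∈ T' ∨ ∃ t ∈ T', x = t * s' := fun x hx => by
    by_cases e : x ∈ T'
    · exact Or.inl e
    · exact Or.inr (h'.exists_eq hx e)
  obtain ⟨Θ, hΘ, a1, a2⟩ := ex_ext p h.toCo h'.toCo h.toSW h'.toSW gen
  obtain ⟨η, -, b1, b2⟩ := ex_ext q h'.toCo h.toCo h'.toSW h.toSW gen'
  have l := p.left q h.toCo
  have r := q.left p h'.toCo
  refine ⟨Θ, η, ⟨hΘ, fun x hx => ?_, fun x hx => ?_, fun x hx => ?_, fun x hx => ?_⟩, fun a => ?_, fun a => ?_,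
    fun a => ?_, fun a => ?_, ?_⟩
  · rcases gen x hx with e | ⟨t, ht, rfl⟩
    · rw [a1 _ e]; exact h'.le (p.mem _ e)
    · rw [a2 _ ht]; exact mul_mem (h'.le (p.mem _ ht)) h'.sS
  · rcases gen' x hx with e | ⟨t, ht, rfl⟩
    · rw [b1 _ e]; exact h.le (q.mem _ e)
    · rw [b2 _ ht]; exact mul_mem (h.le (q.mem _ ht)) h.sS
  · rcases gen x hx with e | ⟨t, ht, rfl⟩
    · rw [a1 _ e, b1 _ (p.mem _ e), l _ e]
    · rw [a2 _ ht, b2 _ (p.mem _ ht), l _ ht]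
  · rcases gen' x hx with e | ⟨t, ht, rfl⟩
    · rw [b1 _ e, a1 _ (q.mem _ e), r _ e]
    · rw [b2 _ ht, a2 _ (q.mem _ ht), r _ ht]
  · rw [a1 _ (h.vT a), p.hv]
  · rw [a1 _ (h.wT a), p.hw]
  · rw [a1 _ (h.yT a), p.hy]
  · rw [a1 _ (h.zT a), p.hz]
  · have := a2 1 (one_mem _)
    rwa [one_mul, p.hom.map_one, one_mul] at this

end CL.HK
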