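/-
Project HK (S5175), case (b): transport of the automorphisms of `T`, `V` and `W`.
-/
import Cfsg.Agent.HK.B0

set_option autoImplicit false
set_option linter.unusedSectionVars false

open Cfsg Subgroup
open scoped commutatorElement

namespace CL.HK

open CL.Fus CL.Loc CL.Grp CL.Even

universe u u'

namespace BUq2a

variable {Ω : Type u} [Group Ω] {S : Subgroup Ω} {Ω' : Type u'} [Group Ω'] {S' : Subgroup Ω'}

/-- the transported map is a morphism -/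
def Tr (F' : FusionSystem S') (Θ : Ω → Ω') (η : Ω' → Ω) (A : Subgroup Ω) (f : Ω → Ω) : Prop :=
  Mor F' (img Θ A) fun x => Θ (f (η x))

variable {F' : FusionSystem S'} {Θ : Ω → Ω'} {η : Ω' → Ω}

section
variable (I : GIso S S' Θ η) {A B : Subgroup Ω} {f g : Ω → Ω}
include I

theorem of_mor (hA : A ≤ S) {g' : Ω' → Ω'} (h : Mor F' (img Θ A) g') (e : ∀ x ∈ A, g' (Θ x) = Θ (f x)) :
    Tr F' Θ η A f :=
  h.congr fun x hx => by
    obtain ⟨a, ha, rfl⟩ := (I.mem_img hA).1 hx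
    rw [e a ha, I.left a (hA ha)]

theorem tconj (hA : A ≤ S) {x : Ω} (hx : x ∈ S) : Tr F' Θ η A fun a => x * a * x⁻¹ :=
  of_mor I hA (mor_conj F' (I.img_le hA) (I.mem x hx)) fun _ ha => (I.homOn.map_conj hx (hA ha)).symm

theorem tcongr (hA : A ≤ S) (h : Tr F' Θ η A f) (e : ∀ x ∈ A, f x = g x) : Tr F' Θ η A g :=
  of_mor I hA h fun a ha => by rw [I.left a (hA ha), e a ha]

theorem tcomp (hA : A ≤ S) (hB : B ≤ S) (hf : Tr F' Θ η A f) (hg : Tr F' Θ η B g) (h : ∀ x ∈ A, f x ∈ B) :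
    Tr F' Θ η A fun x => g (f x) :=
  of_mor I hA (Mor.comp hf hg fun x hx => mem_img_of_mem Θ (h _ (I.inv_mem_of_mem_img hA hx))) fun a ha => by
    rw [I.left a (hA ha), I.left _ (hB (h a ha))]

omit I in
theorem tmono (hB : B ≤ A) (h : Tr F' Θ η A f) : Tr F' Θ η B f := Mor.mono h (img_mono Θ hB)

end

variable {K : Type} [Field K]

theorem ext_V {ε : Bool} {T : Subgroup Ω} {v w y z : K → Ω} (h : Co ε T v w y z) {f g : Ω → Ω'}
    (hf : HomOn (sp v y z) f) (hg : HomOn (sp v y z) g) (h1 : ∀ a, f (v a) = g (v a)) (h3 : ∀ a, f (y a) = g (y a))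
    (h4 : ∀ a, f (z a) = g (z a)) : ∀ t ∈ sp v y z, f t = g t := by
  intro t ht
  obtain ⟨a, k, hk, rfl⟩ := h.mem_V.1 ht
  obtain ⟨b, c, rfl⟩ := h.mem_Y.1 hk
  rw [hf.map_mul (v_mem_sp _ _ _ _) (Yg_le_sp _ _ _ hk), hg.map_mul (v_mem_sp _ _ _ _) (Yg_le_sp _ _ _ hk),
    hf.map_mul (y_mem_sp _ _ _ _) (z_mem_sp _ _ _ _), hg.map_mul (y_mem_sp _ _ _ _) (z_mem_sp _ _ _ _), h1, h3, h4]

variable [Finite S] {F : FusionSystem S} [Fintype K] {ε : Bool} {θ : K ≃+* K} {T : Subgroup Ω} {v w y z : K → Ω} {s : Ω}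
  {T' : Subgroup Ω'} {v' w' y' z' : K → Ω'} {s' : Ω'}

/-- an automorphism of `T` fixes or interchanges `V` and `W` -/
theorem two (h : QD F ε θ T v w y z s) {f : Ω → Ω} (hf : Mor F T f) (hT : ∀ x ∈ T, f x ∈ T) :
    (∀ x ∈ sp v y z, f x ∈ sp v y z) ∨ ∀ x ∈ sp v y z, f x ∈ sp w y z := by
  have := h.chr
  have c := h.toCo
  have hY : f (v 1) ∉ Yg y z := fun e => by
    have := hf.injOn (mul_mem (c.vT 1) (c.wT 1)) (mul_mem (c.wT 1) (c.vT 1)) (by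
      rw [hf.homOn.map_mul (c.vT 1) (c.wT 1), hf.homOn.map_mul (c.wT 1) (c.vT 1)]
      exact c.Yc e (hT _ (c.wT 1)))
    simpa using c.comm_vw this
  have hc : ∀ x ∈ sp v y z, f (v 1) * f x = f x * f (v 1) := fun x hx => by
    rw [← hf.homOn.map_mul (c.vT 1) (c.V_le hx), ← hf.homOn.map_mul (c.V_le hx) (c.vT 1),
      c.V_comm (v_mem_sp _ _ _ _) hx]
  have h2 : f (v 1) * f (v 1) = 1 := by
    rw [← hf.homOn.map_mul (c.vT 1) (c.vT 1), c.V_sq (v_mem_sp _ _ _ _), hf.homOn.map_one]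
  exact (c.invol (hT _ (c.vT 1)) h2).imp (fun e x hx => c.cent_V e hY (hT _ (c.V_le hx)) (hc x hx))
    fun e x hx => c.cent_W e hY (hT _ (c.V_le hx)) (hc x hx)

variable (h : QD F ε θ T v w y z s) (h' : QD F' ε θ T' v' w' y' z' s') (hP : Par F T v w y z ⊆ Par F' T' v' w' y' z')
  (J : GI S S' v w y z s v' w' y' z' s' Θ η)
include h h' J

theorem imT : img Θ T = T' :=
  le_antisymm (img_le_iff.2 (h.toCo.hom_mem (J.iso.homOn.mono h.le) (fun a => J.hv a ▸ h'.vT a)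
    (fun a => J.hw a ▸ h'.wT a) (fun a => J.hy a ▸ h'.yT a) fun a => J.hz a ▸ h'.zT a))
    (h'.toCo.T_le_iff.2 ⟨fun a => J.hv a ▸ mem_img_of_mem Θ (h.vT a), fun a => J.hw a ▸ mem_img_of_mem Θ (h.wT a),
      fun a => J.hy a ▸ mem_img_of_mem Θ (h.yT a), fun a => J.hz a ▸ mem_img_of_mem Θ (h.zT a)⟩)

theorem imV : img Θ (sp v y z) = sp v' y' z' :=
  le_antisymm (img_le_iff.2 (h.toCo.hom_mem_V (J.iso.homOn.mono (h.toCo.V_le.trans h.le))
    (fun a => J.hv a ▸ v_mem_sp _ _ _ a) (fun a => J.hy a ▸ y_mem_sp _ _ _ a) fun a => J.hz a ▸ z_mem_sp _ _ _ a))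
    (sp_le_iff.2 ⟨fun a => J.hv a ▸ mem_img_of_mem Θ (v_mem_sp _ _ _ a),
      fun a => J.hy a ▸ mem_img_of_mem Θ (y_mem_sp _ _ _ a), fun a => J.hz a ▸ mem_img_of_mem Θ (z_mem_sp _ _ _ a)⟩)

include hP

theorem tM {g : Ω → Ω} (hg : Mor F T g) {p r : Kˣ} {τ : K ≃+* K} (m : Mon v w y z p r τ g) : Tr F' Θ η T g := by
  obtain ⟨g', hg', m'⟩ := hP (show (p, r, τ) ∈ Par F T v w y z from ⟨g, hg, m⟩)
  rw [← imT h h' J] at hg'
  exact of_mor J.iso h.le hg' (h.toCo.hom_ext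
    ((J.iso.homOn.mono h.le).comp hg'.homOn fun x hx => mem_img_of_mem Θ hx)
    (hg.homOn.comp J.iso.homOn fun x hx => hg.mem hx)
    (fun a => by rw [J.hv, m.v, J.hv, m'.v]) (fun a => by rw [J.hw, m.w, J.hw, m'.w])
    (fun a => by rw [J.hy, m.y, J.hy, m'.y]) fun a => by rw [J.hz, m.z, J.hz, m'.z])

theorem tT1 {g : Ω → Ω} (hg : Mor F T g) (hT : ∀ x ∈ T, g x ∈ T) (hV : ∀ x ∈ sp v y z, g x ∈ sp v y z) :
    Tr F' Θ η T g := by
  obtain ⟨t, ht, p, r, τ, m⟩ := h.mon g hg hT hV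
  have hk : Mor F T fun x => t * g x * t⁻¹ := hg.comp (mor_conj F h.le (h.le ht)) hT
  refine tcongr J.iso h.le (tcomp J.iso h.le h.le (tM h h' hP J hk m) (tconj J.iso h.le (inv_mem (h.le ht)))
    fun x hx => mul_mem (mul_mem ht (hT x hx)) (inv_mem ht)) fun x _ => by group

theorem tT {f : Ω → Ω} (hf : Mor F T f) (hT : ∀ x ∈ T, f x ∈ T) : Tr F' Θ η T f := by
  rcases two h hf hT with e | e
  · exact tT1 h h' hP J hf hT e
  have hs : ∀ x ∈ T, s * f x * s⁻¹ ∈ T := fun x hx => h.toSW.cT h.toCo _ (hT x hx)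
  refine tcongr J.iso h.le (tcomp J.iso h.le h.le (tT1 h h' hP J (hf.comp (mor_conj F h.le h.sS) hT) hs
    fun x hx => h.toSW.cW h.toCo _ (e x hx)) (tconj J.iso h.le (inv_mem h.sS)) hs) fun x _ => by group

theorem tV {f : Ω → Ω} (hf : Mor F (sp v y z) f) (hV : ∀ x ∈ sp v y z, f x ∈ sp v y z) : Tr F' Θ η (sp v y z) f := by
  have c := h.toCo
  have le : sp v y z ≤ S := c.V_le.trans h.le
  obtain ⟨n, hn, n1, n2, n3, k⟩ := h.nV
  obtain ⟨n', hn', m1, m2, m3, -⟩ := h'.nV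
  obtain ⟨g, a, hg, hT, e | e⟩ := k f hf hV
  · exact tcongr J.iso le (tmono c.V_le (tT h h' hP J hg hT)) fun x hx => (e x hx).symm
  rw [← imV h h' J] at hn'
  have tn : Tr F' Θ η (sp v y z) n := of_mor J.iso le hn' (ext_V c
    ((J.iso.homOn.mono le).comp hn'.homOn fun x hx => mem_img_of_mem Θ hx)
    (hn.homOn.comp J.iso.homOn fun x hx => hn.mem hx)
    (fun a => by rw [J.hv, n1, J.hy, m1]) (fun a => by rw [J.hy, n2, J.hv, m2]) fun a => by rw [J.hz, n3, J.hz, m3])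
  have h1 : ∀ x ∈ sp v y z, w a * x * (w a)⁻¹ ∈ sp v y z := fun x hx => c.conj_V (c.wT a) hx
  have h2 : ∀ x ∈ sp v y z, n x ∈ T := c.hom_mem_V hn.homOn (fun b => n1 b ▸ c.yT b) (fun b => n2 b ▸ c.vT b)
    fun b => (n3 b).symm ▸ c.zT b
  exact tcongr J.iso le (tcomp J.iso le h.le (tcomp J.iso le le (tconj J.iso le (h.le (c.wT a))) tn h1)
    (tT h h' hP J hg hT) fun x hx => h2 _ (h1 x hx)) fun x hx => (e x hx).symm

theorem tW {f : Ω → Ω} (hf : Mor F (sp w y z) f) (hW : ∀ x ∈ sp w y z, f x ∈ sp w y z) : Tr F' Θ η (sp w y z) f := by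
  have c := h.toCo
  have le : sp v y z ≤ S := c.V_le.trans h.le
  have le' : sp w y z ≤ S := c.W_le.trans h.le
  have k := h.toSW
  have h1 : ∀ x ∈ sp v y z, f (s * x * s⁻¹) ∈ sp w y z := fun x hx => hW _ (k.cV c x hx)
  have h2 : ∀ x ∈ sp v y z, s * f (s * x * s⁻¹) * s⁻¹ ∈ sp v y z := fun x hx => k.cW c _ (h1 x hx)
  have h3 := tV h h' hP J (((mor_conj F le h.sS).comp hf (k.cV c)).comp (mor_conj F le' h.sS) h1) h2
  have e : ∀ x, s * (s * x * s⁻¹) * s⁻¹ = x := fun x => by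
    rw [k.inv, show s * (s * x * s) * s = (s * s) * x * (s * s) by simp only [mul_assoc], k.s2, one_mul, mul_one]
  exact tcongr J.iso le' (tcomp J.iso le' le (tcomp J.iso le' le (tconj J.iso le' h.sS) h3 (k.cW c))
    (tconj J.iso le h.sS) fun x hx => h2 _ (k.cW c x hx)) fun x _ => by rw [e, e]

end BUq2a

open BUq2a in
theorem uq2a : UQ2a.{u, u'} := by
  intro Ω _ S _ F Ω' _ S' _ F' K _ _ ε θ T v w y z s T' v' w' y' z' s' Θ η h h' hP J A hA f hf e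
  have k := img_le_iff.1 e.le
  rcases hA with rfl | rfl | rfl
  exacts [tT h h' hP J hf k, tV h h' hP J hf k, tW h h' hP J hf k]

end CL.HK
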