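/-
Project HK (S5175), case (b): transport of the automorphisms of `S`.
-/
import Cfsg.Agent.HK.B0

set_option autoImplicit false
set_option linter.unusedSectionVars false

open Cfsg Subgroup

namespace CL.HK

open CL.Fus CL.Loc CL.Grp CL.Even

universe u u'

namespace BUq2b

variable {Ω : Type u} [Group Ω] {S : Subgroup Ω} [Finite S] {F : FusionSystem S} {K : Type} [Field K] [Fintype K]
  {ε : Bool} {θ : K ≃+* K} {T : Subgroup Ω} {v w y z : K → Ω} {s : Ω} {f : Ω → Ω}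

theorem inner (hS : IsPGroup 2 S) (hF : F.IsSaturated 2) (hf : Mor F S f) (h2 : ∀ x ∈ S, f (f x) = x) :
    ∃ c ∈ S, ∀ x ∈ S, f x = c * x * c⁻¹ := by
  have := Fact.mk Nat.prime_two
  obtain ⟨α, hα, e⟩ := hf.exists_aut' le_rfl fun x hx => hf.mem hx
  have a2 : α ^ 2 ^ 1 = 1 := aut_ext fun x hx => by
    rw [pow_one, pow_two, autFun_mul _ _ hx, e x hx, e _ (hf.mem hx), h2 x hx, autFun_one hx]
  obtain ⟨β, -, hβ⟩ := (mor_id F le_rfl).exists_aut_conj_le (img_id S)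
    (fullyAutomized_of_fullyNormalized hS hF (isFullyNormalized_top F)) (isPGroup_zpowers a2) (zpowers_le.2 hα)
  obtain ⟨b, hb, hc⟩ := hβ α (mem_zpowers α)
  refine ⟨autFun β⁻¹ b, autFun_mem _ hb.1, fun x hx => ?_⟩
  have := congrArg (autFun β⁻¹) (hc x hx)
  rwa [autFun_inv_apply _ (autFun_mem _ hx), (homOn_autFun β⁻¹).map_conj hb.1 (autFun_mem _ hx),
    autFun_inv_apply _ hx, e x hx] at this

theorem exT (h : QD F ε θ T v w y z s) (hf : Mor F S f) {g : K → Ω} (hg : ∀ a b, g (a + b) = g a * g b)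
    (hT : ∀ a, g a ∈ T) : ∃ a, a ≠ 0 ∧ f (g a) ∈ T := by
  classical
  have := h.chr
  obtain ⟨c, hc⟩ : ∃ c : K, c ∉ ({0, 1} : Finset K) := by
    by_contra! hc
    have h1 := Finset.card_le_card (show (Finset.univ : Finset K) ⊆ {0, 1} from fun c _ => hc c)
    have h2 := Finset.card_le_two (a := (0 : K)) (b := 1)
    have h3 := h.four
    rw [Finset.card_univ] at h1
    omega
  rw [Finset.mem_insert, Finset.mem_singleton, not_or] at hc
  by_cases h1 : f (g 1) ∈ T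
  · exact ⟨1, one_ne_zero, h1⟩
  by_cases h2 : f (g c) ∈ T
  · exact ⟨c, hc.1, h2⟩
  refine ⟨1 + c, fun e => hc.2 (CharTwo.add_eq_zero.1 e).symm, ?_⟩
  rw [hg, hf.homOn.map_mul (h.le (hT _)) (h.le (hT _))]
  exact h.mul_mem_of (hf.mem (h.le (hT _))) h1 (hf.mem (h.le (hT _))) h2

theorem cm (hf : Mor F S f) {a b : Ω} (ha : a ∈ S) (hb : b ∈ S) : f a * f b = f b * f a ↔ a * b = b * a := by
  rw [← hf.homOn.map_mul ha hb, ← hf.homOn.map_mul hb ha]
  exact ⟨hf.injOn (mul_mem ha hb) (mul_mem hb ha), fun e => by rw [e]⟩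

theorem sq (hf : Mor F S f) {a : Ω} (ha : a ∈ S) (e : a * a = 1) : f a * f a = 1 := by
  rw [← hf.homOn.map_mul ha ha, e, hf.homOn.map_one]

theorem pres (h : QD F ε θ T v w y z s) (hf : Mor F S f) : ∀ t ∈ T, f t ∈ T := by
  have := h.chr
  have c := h.toCo
  obtain ⟨a, a0, ha⟩ := exT h hf h.v_add h.vT
  obtain ⟨u, u0, hu⟩ := exT h hf h.w_add h.wT
  have va := h.le (h.vT a)
  have wu := h.le (h.wT u)
  have nc : f (v a) * f (w u) ≠ f (w u) * f (v a) := fun e =>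
    (c.comm_vw ((cm hf va wu).1 e)).elim a0 u0
  have hV : ∀ x ∈ sp v y z, f x ∈ T := fun x hx => by
    by_contra hn
    have xS := h.le (c.V_le hx)
    exact nc (c.Yc (h.mem_Y_of_out (hf.mem xS) hn ha (sq hf va (add_sq h.v_add a))
      ((cm hf xS va).2 (c.V_comm hx (v_mem_sp _ _ _ a)))) hu)
  have hW : ∀ x ∈ sp w y z, f x ∈ T := fun x hx => by
    by_contra hn
    have xS := h.le (c.W_le hx)
    exact nc (c.Yc (h.mem_Y_of_out (hf.mem xS) hn hu (sq hf wu (add_sq h.w_add u))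
      ((cm hf xS wu).2 (c.W_comm hx (v_mem_sp _ _ _ u)))) ha).symm
  exact c.hom_mem (hf.homOn.mono h.le) (fun a => hV _ (v_mem_sp _ _ _ a)) (fun a => hW _ (v_mem_sp _ _ _ a))
    (fun a => hV _ (y_mem_sp _ _ _ a)) fun a => hV _ (z_mem_sp _ _ _ a)

theorem toV (h : QD F ε θ T v w y z s) (hf : Mor F S f) :
    (∀ x ∈ sp v y z, f x ∈ sp v y z) ∨ ∀ x ∈ sp v y z, f x ∈ sp w y z := by
  have := h.chr
  have c := h.toCo
  have va := h.le (h.vT 1)
  have nY : f (v 1) ∉ Yg y z := fun e =>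
    (c.comm_vw ((cm hf va (h.le (h.wT 1))).1 (c.Yc e (pres h hf _ (h.wT 1))))).elim one_ne_zero one_ne_zero
  have k : ∀ x ∈ sp v y z, f (v 1) * f x = f x * f (v 1) := fun x hx =>
    (cm hf va (h.le (c.V_le hx))).2 (c.V_comm (v_mem_sp _ _ _ 1) hx)
  exact (c.invol (pres h hf _ (h.vT 1)) (sq hf va (add_sq h.v_add 1))).imp
    (fun e x hx => c.cent_V e nY (pres h hf _ (c.V_le hx)) (k x hx))
    (fun e x hx => c.cent_W e nY (pres h hf _ (c.V_le hx)) (k x hx))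

theorem toMon (h : QD F ε θ T v w y z s) (hf : Mor F S f) :
    ∃ c ∈ S, ∃ p r τ, Mon v w y z p r τ fun x => c * f x * c⁻¹ := by
  rcases toV h hf with e | e
  · obtain ⟨t, ht, m⟩ := h.mon f (hf.mono h.le) (pres h hf) e
    exact ⟨t, h.le ht, m⟩
  · have hg := hf.comp (mor_conj F le_rfl h.sS) fun x hx => hf.mem hx
    obtain ⟨t, ht, p, r, τ, m⟩ := h.mon _ (hg.mono h.le) (pres h hg) fun x hx => h.toSW.cW h.toCo _ (e x hx)
    refine ⟨t * s, mul_mem (h.le ht) h.sS, p, r, τ, h.toCo.mon_congr m fun x _ => ?_⟩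
    group

theorem fs (h : QD F ε θ T v w y z s) (hf : Mor F S f) {p r : Kˣ} {τ : K ≃+* K} (m : Mon v w y z p r τ f) :
    ∃ t ∈ Yg y z, f s = t * s := by
  have c := h.toCo
  have nT : f s ∉ T := fun e => by
    rw [← hf.img_eq_self h.le (pres h hf), hf.mem_img' h.le] at e
    obtain ⟨t, ht, e⟩ := e
    exact h.sT (hf.injOn (h.le ht) h.sS e ▸ ht)
  obtain ⟨t, ht, e⟩ := h.exists_eq (hf.mem h.sS) nT
  have k : ∀ x ∈ T, t * (s * f x * s⁻¹) * t⁻¹ = f (s * x * s⁻¹) := fun x hx => by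
    rw [hf.homOn.map_conj h.sS (h.le hx), e]; group
  have e1 := k _ (h.wT 1)
  have e2 := k _ (h.vT 1)
  rw [m.w, h.sw, h.sw, m.v] at e1
  rw [m.v, h.sv, h.sv, m.w] at e2
  rw [← c.conj_v_eq ht e1] at e1
  rw [← c.conj_w_eq ht e2] at e2
  exact ⟨t, c.mem_Y_of_comm ht (by simp) (by simp) (mul_inv_eq_iff_eq_mul.1 e1).symm
    (mul_inv_eq_iff_eq_mul.1 e2).symm, e⟩

variable {Ω' : Type u'} [Group Ω'] {S' : Subgroup Ω'} [Finite S'] {F' : FusionSystem S'} {T' : Subgroup Ω'}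
  {v' w' y' z' : K → Ω'} {s' : Ω'} {Θ : Ω → Ω'} {η : Ω' → Ω}

theorem conjI (I : GIso S S' Θ η) {g : Ω → Ω} {c : Ω} (hc : c ∈ S) (hg : ∀ x ∈ S, g x ∈ S)
    (e : ∀ x ∈ S, f x = c * g x * c⁻¹) (H : Mor F' S' fun x => Θ (g (η x))) : Mor F' S' fun x => Θ (f (η x)) :=
  (H.comp (mor_conj F' le_rfl (I.mem c hc)) fun _ hx => H.mem hx).congr fun x hx => by
    rw [e _ (I.mem' x hx), I.homOn.map_conj hc (hg _ (I.mem' x hx))]

theorem core (hS : IsPGroup 2 S) (hF : F.IsSaturated 2) (h : QD F ε θ T v w y z s) (h' : QD F' ε θ T' v' w' y' z' s')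
    (hP : Par F T v w y z ⊆ Par F' T' v' w' y' z') (I : GI S S' v w y z s v' w' y' z' s' Θ η) (hf : Mor F S f)
    {p r : Kˣ} {τ : K ≃+* K} (m : Mon v w y z p r τ f) : Mor F' S' fun x => Θ (f (η x)) := by
  have := h.chr
  have c := h.toCo
  obtain ⟨t, ht, e⟩ := fs h hf m
  have cs : ∀ x ∈ T, f (s * x * s⁻¹) = s * f x * s⁻¹ := fun x hx => by
    rw [hf.homOn.map_conj h.sS (h.le hx), e]
    calc _ = t * (s * f x * s⁻¹) * t⁻¹ := by group
      _ = _ := by rw [c.Yc ht (h.toSW.cT c _ (pres h hf x hx)), mul_inv_cancel_right]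
  obtain ⟨g, hg, gT, gs⟩ := h.sx p r τ f (hf.mono h.le) m cs
  obtain ⟨k, hk, k1, k2, -⟩ := hg.exists_inv' (hg.img_eq_self le_rfl fun x hx => hg.mem hx)
  have hj := hf.comp hk fun x hx => hf.mem hx
  have jT : ∀ x ∈ T, k (f x) = x := fun x hx => by rw [← gT x hx, k1 x (h.le hx)]
  have tS := h.le (c.Y_le ht)
  have kt := pres h hk t (c.Y_le ht)
  have js : k (f s) = k t * s := by
    rw [e, hk.homOn.map_mul tS h.sS]
    conv_lhs => rw [← gs, k1 s h.sS]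
  have j2 : ∀ x ∈ T, k (f (x * s)) = x * k t * s := fun x hx => by
    have := hj.homOn.map_mul (h.le hx) h.sS
    rw [mul_assoc, ← js, ← jT x hx]
    rw [jT x hx] at this ⊢
    exact this
  obtain ⟨d, hd, ed⟩ := inner hS hF hj fun x hx => by
    by_cases hT : x ∈ T
    · rw [jT x hT, jT x hT]
    · obtain ⟨x, hx', rfl⟩ := h.exists_eq hx hT
      rw [j2 x hx', j2 _ (mul_mem hx' kt), mul_assoc x, sq hk tS (c.Y_sq ht), mul_one]
  refine conjI I.iso (hg.mem hd) (fun x hx => hg.mem hx) (fun x hx => ?_) (g := g) ?_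
  · rw [← hg.homOn.map_conj hd hx, ← ed x hx, k2 _ (hf.mem hx)]
  have J := I.iso
  have ev : ∀ a, η (v' a) = v a := fun a => by rw [← I.hv, J.left _ (h.le (h.vT a))]
  have ew : ∀ a, η (w' a) = w a := fun a => by rw [← I.hw, J.left _ (h.le (h.wT a))]
  have ey : ∀ a, η (y' a) = y a := fun a => by rw [← I.hy, J.left _ (h.le (h.yT a))]
  have ez : ∀ a, η (z' a) = z a := fun a => by rw [← I.hz, J.left _ (h.le (h.zT a))]
  have es : η s' = s := by rw [← I.hs, J.left _ h.sS]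
  have eT : ∀ x ∈ T', η x ∈ T := h'.toCo.hom_mem (J.symm.homOn.mono h'.le) (fun a => ev a ▸ h.vT a)
    (fun a => ew a ▸ h.wT a) (fun a => ey a ▸ h.yT a) fun a => ez a ▸ h.zT a
  have hom : ∀ {q : Ω → Ω}, Mor F S q → HomOn S' fun x => Θ (q (η x)) := fun hq =>
    (J.symm.homOn.comp hq.homOn J.mem').comp J.homOn fun x hx => hq.mem (J.mem' x hx)
  obtain ⟨g', hg', m'⟩ := hP (show (p, r, τ) ∈ Par F T v w y z from ⟨f, hf.mono h.le, m⟩)
  have eq : ∀ x ∈ T', g' x = Θ (f (η x)) := h'.toCo.mon_eq hg'.homOn ((hom hf).mono h'.le) m'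
    ⟨fun a => by rw [ev, m.v, I.hv], fun a => by rw [ew, m.w, I.hw], fun a => by rw [ey, m.y, I.hy],
      fun a => by rw [ez, m.z, I.hz]⟩
  obtain ⟨g1, hg1, g1T, g1s⟩ := h'.sx p r τ g' hg' m' fun x hx => by
    rw [eq _ (h'.toSW.cT h'.toCo x hx), eq x hx, J.symm.homOn.map_conj h'.sS (h'.le hx), es, cs _ (eT x hx),
      J.homOn.map_conj h.sS (hf.mem (h.le (eT x hx))), I.hs]
  have a1 : ∀ x ∈ T', g1 x = Θ (g (η x)) := fun x hx => by rw [g1T x hx, eq x hx, gT _ (eT x hx)]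
  refine hg1.congr fun x hx => ?_
  by_cases hT : x ∈ T'
  · exact a1 x hT
  · obtain ⟨x, hx', rfl⟩ := h'.exists_eq hx hT
    have := (hom hg).map_mul (h'.le hx') h'.sS
    rw [hg1.homOn.map_mul (h'.le hx') h'.sS, a1 x hx', g1s, this, es, gs, I.hs]

end BUq2b

open BUq2b in
theorem uq2b : UQ2b.{u, u'} := by
  intro Ω _ S _ F Ω' _ S' _ F' K _ _ ε θ T v w y z s T' v' w' y' z' s' Θ η hS hF h h' hP I f hf
  obtain ⟨c, hc, p, r, τ, m⟩ := toMon h hf
  have hg := hf.comp (mor_conj F le_rfl hc) fun x hx => hf.mem hx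
  exact conjI I.iso (inv_mem hc) (fun x hx => hg.mem hx) (fun x _ => by group) (core hS hF h h' hP I hg m)

end CL.HK
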