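/-
Project HK (S5175): essential subgroups and uniqueness for systems in standard form.
-/
import Cfsg.Agent.HK.BAsm
import Cfsg.Agent.HK.BEss1
import Cfsg.Agent.HK.BEss2
import Cfsg.Agent.HK.BUq1
import Cfsg.Agent.HK.BUq2a
import Cfsg.Agent.HK.BUq2b

set_option autoImplicit false

namespace CL.HK

universe u u'

theorem essa : ESSa.{u} := essa_of ess1 ess2

theorem uq : UQ.{u, u'} := uq_of uq1 uq2a uq2a uq2b uq2b

end CL.HK
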