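/-
Project HK (S5175), case (b): the unconditional statements.
-/
import Cfsg.Agent.HK.BAsm
import Cfsg.Agent.HK.BL3a
import Cfsg.Agent.HK.BL3b
import Cfsg.Agent.HK.BL3c
import Cfsg.Agent.HK.BS4a
import Cfsg.Agent.HK.BS4b
import Cfsg.Agent.HK.BS4c
import Cfsg.Agent.HK.BUqE
import Cfsg.Agent.HK.BPgq
import Cfsg.Agent.HK.BDesc
import Cfsg.Agent.HK.BSyl
import Cfsg.Agent.HK.BBuild
import Cfsg.Agent.HK.BSub
import Cfsg.Agent.HK.BQdg
import Cfsg.Agent.HK.BFin

set_option autoImplicit false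

namespace CL.HK

universe u

theorem caseB : CaseB.{u} :=
  caseB_of (iso_of essa essa uq) pgq syl build sub nc qdg finG desc l3a l3b l3c s4a s4b s4c

end CL.HK
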