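/-
Project HK, part C: the steps from the model of `N_F(V)` to the standard form `QD`.
-/
import Cfsg.Agent.HK.Top
import Cfsg.Agent.Fus.CentricExt

set_option autoImplicit false

open Cfsg Subgroup
open scoped commutatorElement

namespace CL.HK

open CL.Fus CL.Loc CL.Grp CL.Even

universe u

section
variable {Ω : Type u} [Group Ω] {S : Subgroup Ω} {K : Type} [Field K] [Fintype K]

/-- `g` is an automorphism of `T` in the system that preserves `V` -/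
structure AT (F : FusionSystem S) (T V : Subgroup Ω) (g : Ω → Ω) : Prop where
  mor : Mor F T g
  mT : ∀ x ∈ T, g x ∈ T
  mV : ∀ x ∈ V, g x ∈ V

/-- the layers of `T` -/
structure G0 (T V Z : Subgroup Ω) (s : Ω) (ψ0 ψ1 μ : Ω → K) : Prop where
  chr : CharP K 2
  four : 4 ≤ Fintype.card K
  leV : V ≤ T
  sN : ∀ t ∈ T, s * t * s⁻¹ ∈ T
  σσ : ∀ t ∈ T, s * (s * t * s⁻¹) * s⁻¹ = t
  ss : s * s ∈ V
  Vn : ∀ t ∈ T, ∀ x ∈ V, t * x * t⁻¹ ∈ V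
  dec : ∀ t ∈ T, ∃ x ∈ V, ∃ x' ∈ V, t = x * (s * x' * s⁻¹)
  Vc : ∀ x ∈ V, ∀ x' ∈ V, x * x' = x' * x
  V2 : ∀ x ∈ V, x * x = 1
  ψ0_mul : ∀ x ∈ V, ∀ x' ∈ V, ψ0 (x * x') = ψ0 x + ψ0 x'
  ψ1_mul : ∀ x ∈ V, ∀ x' ∈ V, ψ1 (x * x') = ψ1 x + ψ1 x'
  surj : ∀ a b, ∃ x ∈ V, ψ0 x = a ∧ ψ1 x = b
  kerZ : ∀ x, x ∈ Z ↔ x ∈ V ∧ ψ0 x = 0 ∧ ψ1 x = 0
  μ_mul : ∀ t ∈ T, ∀ t' ∈ T, μ (t * t') = μ t + μ t'
  μ_surj : ∀ u, ∃ x ∈ V, μ (s * x * s⁻¹) = u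
  kerV : ∀ t ∈ T, μ t = 0 ↔ t ∈ V
  c0 : ∀ t ∈ T, ∀ x ∈ V, ψ0 (t * x * t⁻¹) = ψ0 x + μ t * ψ1 x
  c1 : ∀ t ∈ T, ∀ x ∈ V, ψ1 (t * x * t⁻¹) = ψ1 x
  line : ∀ x ∈ V, s * x * s⁻¹ ∈ V ↔ ψ1 x = 0
  cardZ : Z = ⊥ ∨ Nat.card Z = Fintype.card K
  disj : ∀ x ∈ Z, s * x * s⁻¹ ∈ Z → x = 1
  one : ∃ x ∈ V, ψ1 x = 1 ∧ μ (s * x * s⁻¹) = 1

/-- the Weyl element and the torus -/
structure GA (F : FusionSystem S) (T V Z : Subgroup Ω) (ψ0 ψ1 μ : Ω → K) (n : Ω → Ω) : Prop where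
  nM : Mor F V n
  nm : ∀ x ∈ V, n x ∈ V
  n0 : ∀ x ∈ V, ψ0 (n x) = ψ1 x
  n1 : ∀ x ∈ V, ψ1 (n x) = ψ0 x
  nn : ∀ x ∈ V, n (n x) = x
  nZ : ∀ x ∈ Z, n x = x
  gZ : ∀ g, AT F T V g → ∀ x ∈ Z, g x ∈ Z
  tor : ∀ c : Kˣ, ∃ k, AT F T V k ∧ (∀ x ∈ V, ψ1 (k x) = (c⁻¹ : Kˣ) * ψ1 x) ∧ (∀ t ∈ T, μ (k t) = (c : K) ^ 2 * μ t) ∧
    ∀ x ∈ Z, k x = x

/-- the Bruhat decomposition -/
structure GB (F : FusionSystem S) (T V : Subgroup Ω) (n : Ω → Ω) : Prop where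
  bru : ∀ f, Mor F V f → (∀ x ∈ V, f x ∈ V) → ∃ g, AT F T V g ∧ ∃ t ∈ T,
    (∀ x ∈ V, f x = g x) ∨ ∀ x ∈ V, f x = g (n (t * x * t⁻¹))
  mv : ∀ g, AT F T V g → ∃ t ∈ T, ∃ g', AT F T V g' ∧ ∀ x ∈ V, t * g (n x) * t⁻¹ = n (g' x)

structure G1 (F : FusionSystem S) (T V Z : Subgroup Ω) (s : Ω) (ψ0 ψ1 μ : Ω → K) (n : Ω → Ω) : Prop
    extends G0 T V Z s ψ0 ψ1 μ, GA F T V Z ψ0 ψ1 μ n, GB F T V n where
  le : T ≤ S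
  sS : s ∈ S
  sT : s ∉ T
  nS : ∀ x ∈ S, (∀ y ∈ V, x * y * x⁻¹ ∈ V) → x ∈ T

structure G2 (F : FusionSystem S) (T V Z : Subgroup Ω) (s : Ω) (ψ0 ψ1 μ : Ω → K) (n : Ω → Ω) : Prop
    extends G1 F T V Z s ψ0 ψ1 μ n where
  inv : ∀ t ∈ T, t * t = 1 → t ∈ V ∨ s * t * s⁻¹ ∈ V
  gen : ∀ x ∈ S, x ∈ T ∨ x * s ∈ T
  gs : ∀ g, AT F T V g → AT F T V fun x => s * g (s * x * s⁻¹) * s⁻¹
  Yc : ∀ x ∈ V, ψ1 x = 0 → ∀ t ∈ T, x * t = t * x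
  cen : ∀ x ∈ S, (∀ t ∈ T, x * t = t * x) → x ∈ V ∧ ψ1 x = 0
  spl : Z ≠ ⊥ → ∀ b, ∃ x ∈ Z, ψ0 (s * x * s⁻¹) = b

structure G3 (F : FusionSystem S) (T V Z : Subgroup Ω) (s : Ω) (ψ0 ψ1 μ : Ω → K) (n : Ω → Ω) (ε : Bool)
    (θ : K ≃+* K) : Prop extends G2 F T V Z s ψ0 ψ1 μ n where
  ε0 : ε = false ↔ Z = ⊥
  θθ : ∀ a, θ (θ a) ^ ex ε = a
  φ : ∀ x ∈ V, μ (s * x * s⁻¹) = θ (ψ1 x) ^ ex ε

structure G4 (F : FusionSystem S) (T V Z : Subgroup Ω) (s : Ω) (ψ0 ψ1 μ : Ω → K) (n : Ω → Ω) (ε : Bool)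
    (θ : K ≃+* K) (v w y z : K → Ω) : Prop extends G3 F T V Z s ψ0 ψ1 μ n ε θ, Co ε T v w y z where
  vV : ∀ a, v a ∈ V
  yV : ∀ a, y a ∈ V
  zZ : ∀ a, z a ∈ Z
  v1 : ∀ a, ψ1 (v a) = a
  wμ : ∀ a, μ (w a) = a
  ny : ∀ a, n (y a) = v a
  Zz : ∀ x ∈ Z, ∃ c, x = z c
  Vnf : ∀ x ∈ V, ∃ c, x = v (ψ1 x) * y (ψ0 x) * z c
  sv : ∀ a, s * v a * s⁻¹ = w (θ a ^ ex ε)
  sw : ∀ a, s * w a * s⁻¹ = v (θ a)
  sy : ∀ a, s * y a * s⁻¹ = hz ε y z (θ a ^ ex ε)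
  sh : ∀ a, s * hz ε y z a * s⁻¹ = y (θ a)

/-- the data in coordinates, before the monomial form and the choice of `s` -/
structure Q0 (F : FusionSystem S) (ε : Bool) (θ : K ≃+* K) (T : Subgroup Ω) (v w y z : K → Ω) (s : Ω) : Prop
    extends Co ε T v w y z where
  chr : CharP K 2
  four : 4 ≤ Fintype.card K
  le : T ≤ S
  sS : s ∈ S
  sT : s ∉ T
  gen : ∀ x ∈ S, x ∈ T ∨ x * s ∈ T
  θθ : ∀ a, θ (θ a) ^ ex ε = a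
  sv : ∀ a, s * v a * s⁻¹ = w (θ a ^ ex ε)
  sw : ∀ a, s * w a * s⁻¹ = v (θ a)
  sy : ∀ a, s * y a * s⁻¹ = hz ε y z (θ a ^ ex ε)
  sh : ∀ a, s * hz ε y z a * s⁻¹ = y (θ a)
  nV : ∃ n, Mor F (sp v y z) n ∧ (∀ a, n (v a) = y a) ∧ (∀ a, n (y a) = v a) ∧ (∀ a, n (z a) = z a) ∧
    ∀ f, Mor F (sp v y z) f → (∀ x ∈ sp v y z, f x ∈ sp v y z) → ∃ g u, Mor F T g ∧ (∀ x ∈ T, g x ∈ T) ∧
      ((∀ x ∈ sp v y z, f x = g x) ∨ ∀ x ∈ sp v y z, f x = g (n (w u * x * (w u)⁻¹)))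
  sN : ∀ t ∈ T, s * t * s⁻¹ ∈ T
  σσ : ∀ t ∈ T, s * (s * t * s⁻¹) * s⁻¹ = t
  ss : ∃ b c, s * s = y b * z c
  cen : ∀ x ∈ S, (∀ t ∈ T, x * t = t * x) → ∃ b c, x = y b * z c
  Vn : ∀ t ∈ T, ∀ x ∈ sp v y z, t * x * t⁻¹ ∈ sp v y z
  mv : ∀ g, AT F T (sp v y z) g → ∃ u, ∀ a, ∃ b, w u * g (v a) * (w u)⁻¹ = v b
  gs : ∀ g, AT F T (sp v y z) g → AT F T (sp v y z) fun x => s * g (s * x * s⁻¹) * s⁻¹
  gy : ∀ g, AT F T (sp v y z) g → ∀ a, ∃ b, g (y a) = y b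
  gz : ∀ g, AT F T (sp v y z) g → ∀ a, ∃ b, g (z a) = z b
  tor0 : ∀ c : Kˣ, ∃ k, AT F T (sp v y z) k ∧ (∀ t ∈ T, ∀ a a', t * k (v a) * t⁻¹ = v a' → a' = (c⁻¹ : Kˣ) * a) ∧
    ∀ t ∈ T, ∀ a a', t * k (w a) * t⁻¹ = w a' → a' = (c : K) ^ 2 * a

structure Q1 (F : FusionSystem S) (ε : Bool) (θ : K ≃+* K) (T : Subgroup Ω) (v w y z : K → Ω) (s : Ω) : Prop
    extends Q0 F ε θ T v w y z s where
  mon : ∀ g, Mor F T g → (∀ x ∈ T, g x ∈ T) → (∀ x ∈ sp v y z, g x ∈ sp v y z) →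
    ∃ t ∈ T, ∃ p r τ, Mon v w y z p r τ fun x => t * g x * t⁻¹
  tor : ∀ c : Kˣ, (c⁻¹, c ^ 2, RingEquiv.refl K) ∈ Par F T v w y z

/-- monomial maps that commute with `s` extend to `S` -/
def EX (F : FusionSystem S) (T : Subgroup Ω) (v w y z : K → Ω) (s : Ω) : Prop :=
  ∀ p r τ g, Mor F T g → Mon v w y z p r τ g → (∀ t ∈ T, g (s * t * s⁻¹) = s * g t * s⁻¹) →
    ∃ g', Mor F S g' ∧ (∀ t ∈ T, g' t = g t) ∧ ∃ b c, g' s = s * (y b * z c)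

/-- two maps on `S` that agree on `T` differ by the centre of `T` -/
def UN (F : FusionSystem S) (T : Subgroup Ω) (y z : K → Ω) : Prop :=
  ∀ g g', Mor F S g → Mor F S g' → (∀ t ∈ T, g t = g' t) →
    ∃ b c, ∀ x ∈ S, g' x = g (y b * z c * x * (y b * z c)⁻¹)

/-- `s'` is a good choice in the coset of `s` -/
def SX (F : FusionSystem S) (T : Subgroup Ω) (v w y z : K → Ω) (s s' : Ω) : Prop :=
  s' * s' = 1 ∧ ∀ p r τ g, Mor F T g → Mon v w y z p r τ g → (∀ t ∈ T, g (s * t * s⁻¹) = s * g t * s⁻¹) →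
    ∃ g', Mor F S g' ∧ (∀ t ∈ T, g' t = g t) ∧ g' s' = s'

/-! ### The functions given by the model -/

variable {M : Type u} [Group M] {T V Z : Subgroup Ω} (ι : T →* M) {L : Subgroup M}
  (N : NatSec K L (pCore 2 M) (pCore 2 M ⊓ 𝒞(L)))

noncomputable def p0 (l : K) (x : Ω) : K := l * N.ψ (ext ι x) 0
noncomputable def p1 (x : Ω) : K := N.ψ (ext ι x) 1
noncomputable def pm (l : K) (x : Ω) : K := l * (N.r (ext ι x)).1 0 1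
/-- the conjugation by `g` pulled back to `T` -/
noncomputable def pb (g : M) (x : Ω) : Ω := Function.invFunOn (ext ι) T (g * ext ι x * g⁻¹)
/-- the Weyl element -/
def IsNu (l : K) (ν : M) : Prop := ν ∈ L ∧ (N.r ν).1 = !![0, l⁻¹; l, 0]

variable {ι N}

theorem pb_spec {g : M} {x : Ω} (h : g * ext ι x * g⁻¹ ∈ ι.range) :
    pb ι g x ∈ T ∧ ext ι (pb ι g x) = g * ext ι x * g⁻¹ := by
  obtain ⟨t, ht⟩ := h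
  exact Function.invFunOn_pos ⟨t, t.2, (ext_coe ι t).trans ht⟩

variable {F : FusionSystem S} {s : Ω}

theorem EQ.pbV (h : EQ F T V Z s K ι L N) (g : M) {x : Ω} (hx : x ∈ V) :
    pb ι g x ∈ V ∧ ext ι (pb ι g x) = g * ext ι x * g⁻¹ := by
  have k : g * ext ι x * g⁻¹ ∈ pCore 2 M := (pCore_normal 2 M).conj_mem _ ((h.imV x (h.leV hx)).1 hx) g
  have := pb_spec (h.coreT k)
  exact ⟨(h.imV _ this.1).2 (this.2 ▸ k), this.2⟩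

theorem EQ.morV (h : EQ F T V Z s K ι L N) (g : M) : Mor F V (pb ι g) :=
  (h.mor V _ le_rfl h.leV (fun _ hx => h.leV (h.pbV g hx).1) fun _ hx => (h.pbV g hx).1).2
    ⟨g, fun _ hx => (h.pbV g hx).2⟩

theorem EQ.pbT (_h : EQ F T V Z s K ι L N) {g : M} (hg : g ∈ 𝒩(ι.range)) {x : Ω} (hx : x ∈ T) :
    pb ι g x ∈ T ∧ ext ι (pb ι g x) = g * ext ι x * g⁻¹ := pb_spec (conj_mem hg (ext_mem_range ι hx))

theorem EQ.at (h : EQ F T V Z s K ι L N) {g : M} (hg : g ∈ 𝒩(ι.range)) : AT F T V (pb ι g) :=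
  ⟨(h.mor T _ h.leV le_rfl (fun _ hx => (h.pbT hg hx).1) fun _ hx => (h.pbV g hx).1).2 ⟨g, fun _ hx => (h.pbT hg hx).2⟩,
    fun _ hx => (h.pbT hg hx).1, fun _ hx => (h.pbV g hx).1⟩

theorem EQ.of_at [Finite M] (h : EQ F T V Z s K ι L N) {g : Ω → Ω} (hg : AT F T V g) :
    ∃ m ∈ 𝒩(ι.range), ∀ x ∈ T, ext ι (g x) = m * ext ι x * m⁻¹ := by
  obtain ⟨m, hm⟩ := (h.mor T g h.leV le_rfl hg.mT hg.mV).1 hg.mor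
  refine ⟨m, mem_normalizer_of_finite ?_, hm⟩
  rintro _ ⟨t, rfl⟩
  rw [← ext_coe, ← hm t t.2]
  exact ext_mem_range ι (hg.mT t t.2)

theorem EQ.ext_inj (h : EQ F T V Z s K ι L N) {x y : Ω} (hx : x ∈ T) (hy : y ∈ T) (e : ext ι x = ext ι y) : x = y :=
  ext_injOn h.inj hx hy e

end

/-- a statement about all models -/
def AllM (P : ∀ {Ω : Type u} [Group Ω] {S : Subgroup Ω} (_ : FusionSystem S) (T _ _ : Subgroup Ω) {K : Type} [Field K]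
    [Fintype K] {M : Type u} [Group M] (_ : T →* M) {L : Subgroup M}
    (_ : NatSec K L (pCore 2 M) (pCore 2 M ⊓ 𝒞(L))), Prop) : Prop :=
  ∀ (Ω : Type u) [Group Ω] (S : Subgroup Ω) [Finite S] (F : FusionSystem S) (T V Z : Subgroup Ω) (s : Ω)
    (K : Type) [Field K] [Fintype K] (M : Type u) [Group M] [Finite M] (ι : T →* M) (L : Subgroup M)
    (N : NatSec K L (pCore 2 M) (pCore 2 M ⊓ 𝒞(L))), EQ F T V Z s K ι L N → P F T V Z ι N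

/-- a statement about all saturated systems over `2`-groups and all fields -/
def AllS (P : ∀ {Ω : Type u} [Group Ω] {S : Subgroup Ω} (_ : FusionSystem S) (K : Type) [Field K] [Fintype K], Prop) :
    Prop :=
  ∀ (Ω : Type u) [Group Ω] (S : Subgroup Ω) [Finite S] (F : FusionSystem S) (K : Type) [Field K] [Fintype K],
    IsPGroup 2 S → F.IsSaturated 2 → P F K

def C0S : Prop := AllM.{u} fun {_} _ {S} _ T V Z {_} _ _ {_} _ ι {_} N =>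
  ∃ s' ∈ S, s' ∉ T ∧ ∃ l, l ≠ 0 ∧ G0 T V Z s' (p0 ι N l) (p1 ι N) (pm ι N l)
def CAS : Prop := AllM.{u} fun {_} _ {_} F T V Z {_} _ _ {_} _ ι {_} N =>
  ∀ l ν, l ≠ 0 → IsNu N l ν → GA F T V Z (p0 ι N l) (p1 ι N) (pm ι N l) (pb ι ν)
def CBS : Prop := AllM.{u} fun {_} _ {_} F T V _ {_} _ _ {_} _ ι {_} N =>
  ∀ l ν, l ≠ 0 → IsNu N l ν → GB F T V (pb ι ν)
def C1S : Prop := AllS.{u} fun {Ω} _ {S} F K _ _ => ∀ T V Z s (ψ0 ψ1 μ : Ω → K) n,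
  G1 F T V Z s ψ0 ψ1 μ n → ∀ x ∈ S, x ∈ T ∨ x * s ∈ T
def C2S : Prop := AllS.{u} fun {Ω} _ {S} F K _ _ => ∀ T V Z s (ψ0 ψ1 μ : Ω → K) n,
  G1 F T V Z s ψ0 ψ1 μ n → (∀ x ∈ S, x ∈ T ∨ x * s ∈ T) → G2 F T V Z s ψ0 ψ1 μ n
def C3S : Prop := AllS.{u} fun {Ω} _ {_} F K _ _ => ∀ T V Z s (ψ0 ψ1 μ : Ω → K) n,
  G2 F T V Z s ψ0 ψ1 μ n → ∃ ε θ, G3 F T V Z s ψ0 ψ1 μ n ε θ
def C4S : Prop := AllS.{u} fun {Ω} _ {_} F K _ _ => ∀ T V Z s (ψ0 ψ1 μ : Ω → K) n ε θ,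
  G3 F T V Z s ψ0 ψ1 μ n ε θ → ∃ v w y z, G4 F T V Z s ψ0 ψ1 μ n ε θ v w y z
def C5S : Prop := AllS.{u} fun {Ω} _ {_} F K _ _ => ∀ T V Z s (ψ0 ψ1 μ : Ω → K) n ε θ v w y z,
  G4 F T V Z s ψ0 ψ1 μ n ε θ v w y z → Q0 F ε θ T v w y z s
def C6S : Prop := AllS.{u} fun {_} _ {_} F K _ _ => ∀ ε (θ : K ≃+* K) T v w y z s,
  Q0 F ε θ T v w y z s → Q1 F ε θ T v w y z s
def C7S : Prop := AllS.{u} fun {_} _ {_} F K _ _ => ∀ ε (θ : K ≃+* K) T v w y z s, Q1 F ε θ T v w y z s →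
  EX F T v w y z s ∧ UN F T y z
def C8S : Prop := AllS.{u} fun {_} _ {_} F K _ _ => ∀ ε (θ : K ≃+* K) T v w y z s, Q1 F ε θ T v w y z s →
  EX F T v w y z s → (ε = true ∨ ∃ d, θ d ≠ d) → ∃ b c, SX F T v w y z s (s * (y b * z c))
def C9S : Prop := AllS.{u} fun {_} _ {_} F K _ _ => ∀ (θ : K ≃+* K) T v w y z s, Q1 F false θ T v w y z s →
  EX F T v w y z s → UN F T y z → (∀ d, θ d = d) → ∃ b c, SX F T v w y z s (s * (y b * z c))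

end CL.HK
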