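/-
Project HK, part C: the layers of `T` given by the model.
-/
import Cfsg.Agent.HK.CDefs

set_option autoImplicit false

open Cfsg Subgroup
open scoped commutatorElement

namespace CL.HK

open CL.Fus CL.Loc CL.Grp CL.Even

universe u

namespace C0

variable {Ω : Type u} [Group Ω] {S : Subgroup Ω} {K : Type} [Field K] [Fintype K]
  {M : Type u} [Group M] {T V Z : Subgroup Ω} {ι : T →* M} {L : Subgroup M}
  {N : NatSec K L (pCore 2 M) (pCore 2 M ⊓ 𝒞(L))} {F : FusionSystem S} {s : Ω}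

theorem iup (h : EQ F T V Z s K ι L N) {t : Ω} (ht : t ∈ T) : ext ι t ∈ N.up := h.up ▸ ext_mem_range ι ht

theorem iL (h : EQ F T V Z s K ι L N) {t : Ω} (ht : t ∈ T) : ext ι t ∈ L := N.up_le (iup h ht)

theorem rup (h : EQ F T V Z s K ι L N) {t : Ω} (ht : t ∈ T) :
    N.r (ext ι t) = sl2Up ((N.r (ext ι t)).1 0 1) := by
  obtain ⟨_, c, hc⟩ := N.mem_up.1 (iup h ht)
  rw [← hc]
  rfl

theorem m_mul (h : EQ F T V Z s K ι L N) (l : K) {t t' : Ω} (ht : t ∈ T) (ht' : t' ∈ T) :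
    pm ι N l (t * t') = pm ι N l t + pm ι N l t' := by
  unfold pm
  obtain ⟨_, c, hc⟩ := N.mem_up.1 (iup h ht)
  obtain ⟨_, c', hc'⟩ := N.mem_up.1 (iup h ht')
  rw [homOn_ext ι t ht t' ht', N.r_mul _ (iL h ht) _ (iL h ht'), ← hc, ← hc', ← sl2Up_add, ← mul_add]
  rfl

theorem m_zero (h : EQ F T V Z s K ι L N) {l : K} (hl : l ≠ 0) {t : Ω} (ht : t ∈ T) :
    pm ι N l t = 0 ↔ t ∈ V := by
  unfold pm
  have k : ext ι t ∈ pCore 2 M ↔ ext ι t ∈ N.ker := by rw [h.ker]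
  rw [mul_eq_zero, or_iff_right hl, h.imV t ht, k, N.mem_ker, and_iff_right (iL h ht)]
  constructor
  · intro e
    rw [rup h ht, e, sl2Up_zero]
  · intro e
    rw [e]
    rfl

theorem TN (h : EQ F T V Z s K ι L N) : T ≤ 𝒩(V) := by
  rw [← h.nV]
  exact inf_le_right

theorem Vc (h : EQ F T V Z s K ι L N) {x y : Ω} (hx : x ∈ V) (hy : y ∈ V) : x * y = y * x :=
  congrArg Subtype.val (h.ea.1.is_comm.comm (⟨x, hx⟩ : V) ⟨y, hy⟩)

theorem V2 (h : EQ F T V Z s K ι L N) {x : Ω} (hx : x ∈ V) : x * x = 1 := by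
  rw [← pow_two]
  exact h.ea.2 x hx

theorem WT (h : EQ F T V Z s K ι L N) : cj s V ≤ T := h.sup ▸ le_sup_right

theorem dec (h : EQ F T V Z s K ι L N) {t : Ω} (ht : t ∈ T) : ∃ x ∈ V, ∃ w ∈ cj s V, x * w = t :=
  (mem_sup_nl ((WT h).trans (TN h))).1 (h.sup ▸ ht)

theorem pull (h : EQ F T V Z s K ι L N) {u : M} (hu : u ∈ pCore 2 M) : ∃ x ∈ V, ext ι x = u := by
  obtain ⟨t, rfl⟩ := h.coreT hu
  exact ⟨t, (h.imV t t.2).2 (by rwa [ext_coe]), ext_coe ι t⟩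

theorem iU (h : EQ F T V Z s K ι L N) {x : Ω} (hx : x ∈ V) : ext ι x ∈ pCore 2 M := (h.imV x (h.leV hx)).1 hx

theorem ψ_cj (h : EQ F T V Z s K ι L N) {t x : Ω} (ht : t ∈ T) (hx : x ∈ V) :
    N.ψ (ext ι (t * x * t⁻¹)) =
      ![N.ψ (ext ι x) 0 + (N.r (ext ι t)).1 0 1 * N.ψ (ext ι x) 1, N.ψ (ext ι x) 1] := by
  rw [(homOn_ext ι).map_conj ht (h.leV hx), N.ψ_conj _ (iL h ht) _ (iU h hx), ← sl2Up_mulVec, ← rup h ht]

/-- a better representative of the coset `s T` -/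
theorem better (h : EQ F T V Z s K ι L N) : ∃ s' ∈ S, s' ∉ T ∧ s' ∈ 𝒩(T) ∧ s' * s' ∈ V ∧
    cj s' V = cj s V ∧ cj s' Z = cj s Z := by
  obtain ⟨x, hx, w, hw, e⟩ := dec h h.ss
  have wT := WT h hw
  have h1 : s⁻¹ * w * s ∈ V := mem_cj.1 hw
  have h2 : w * w = 1 := by
    have := V2 h h1
    calc w * w = s * (s⁻¹ * w * s * (s⁻¹ * w * s)) * s⁻¹ := by group
      _ = 1 := by rw [this]; group
  have h3 : s * w * s⁻¹ ∈ V := by
    have := conj_mem (TN h h.ss) h1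
    convert this using 1
    group
  refine ⟨s * w, S.mul_mem h.sS (h.le wT), fun k => h.sT ?_, Subgroup.mul_mem _ h.sN (le_normalizer wT), ?_, ?_, ?_⟩
  · simpa using T.mul_mem k (T.inv_mem wT)
  · have : s * w * (s * w) = s * w * s⁻¹ * x := by
      calc s * w * (s * w) = s * w * s⁻¹ * (s * s) * w := by group
        _ = s * w * s⁻¹ * x * (w * w) := by rw [← e]; group
        _ = s * w * s⁻¹ * x := by rw [h2, mul_one]
    rw [this]
    exact V.mul_mem h3 hx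
  · rw [cj_mul, cj_eq (TN h wT)]
  · rw [cj_mul, cj_eq_of_mem_cent (g := w) (H := Z)]
    rw [mem_centralizer_iff]
    intro z hz
    obtain ⟨zV, zc⟩ := (h.imZ z).1 hz
    have zT := h.leV zV
    refine h.ext_inj (T.mul_mem zT wT) (T.mul_mem wT zT) ?_
    rw [homOn_ext ι z zT w wT, homOn_ext ι w wT z zT]
    exact (mem_centralizer_iff.1 zc _ (iL h wT)).symm

end C0

open C0 in
theorem c0S : C0S.{u} := by
  intro Ω _ S _ F T V Z s K _ _ M _ _ ι L N h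
  obtain ⟨s', sS, sT, sN, ss, eV, eZ⟩ := better h
  have dec' : ∀ t ∈ T, ∃ x ∈ V, ∃ x' ∈ V, t = x * (s' * x' * s'⁻¹) := fun t ht => by
    obtain ⟨x, hx, w, hw, e⟩ := dec h ht
    rw [← eV] at hw
    exact ⟨x, hx, _, mem_cj.1 hw, by rw [← e]; group⟩
  have σσ : ∀ t ∈ T, s' * (s' * t * s'⁻¹) * s'⁻¹ = t := fun t ht => by
    obtain ⟨x, hx, x', hx', rfl⟩ := dec' t ht
    have a := Vc h ss hx
    have b := Vc h ss hx'
    calc s' * (s' * (x * (s' * x' * s'⁻¹)) * s'⁻¹) * s'⁻¹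
        = (s' * s' * x) * (s' * s')⁻¹ * (s' * ((s' * s' * x') * (s' * s')⁻¹) * s'⁻¹) := by group
      _ = x * (s' * x' * s'⁻¹) := by rw [a, b]; group
  have flip : ∀ t ∈ T, s' * t * s'⁻¹ = s'⁻¹ * t * s' := fun t ht => by
    conv_rhs => rw [← σσ t ht]
    group
  have line : ∀ x ∈ V, s' * x * s'⁻¹ ∈ V ↔ p1 ι N x = 0 := fun x hx => by
    rw [flip x (h.leV hx), ← mem_cj, eV, h.line x hx, N.mem_line, and_iff_right (iU h hx)]
    rfl
  obtain ⟨u, hu, eu⟩ := N.ψ_surj ![0, 1]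
  obtain ⟨x1, hx1, rfl⟩ := pull h hu
  have p11 : p1 ι N x1 = 1 := by
    unfold p1
    rw [eu]
    rfl
  have x1T := conj_mem sN (h.leV hx1)
  have hm : (N.r (ext ι (s' * x1 * s'⁻¹))).1 0 1 ≠ 0 := fun e => by
    have : pm ι N 1 (s' * x1 * s'⁻¹) = 0 := by
      unfold pm
      rw [e, mul_zero]
    have := (line x1 hx1).1 ((m_zero h one_ne_zero x1T).1 this)
    rw [p11] at this
    exact one_ne_zero this
  obtain ⟨l, hl, e1⟩ : ∃ l : K, l ≠ 0 ∧ pm ι N l (s' * x1 * s'⁻¹) = 1 := ⟨_, inv_ne_zero hm, inv_mul_cancel₀ hm⟩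
  have ψm : ∀ x ∈ V, ∀ x' ∈ V, N.ψ (ext ι (x * x')) = N.ψ (ext ι x) + N.ψ (ext ι x') := fun x hx x' hx' => by
    rw [homOn_ext ι x (h.leV hx) x' (h.leV hx'), N.ψ_mul _ (iU h hx) _ (iU h hx')]
  refine ⟨s', sS, sT, l, hl,
    { chr := h.chr
      four := h.four
      leV := h.leV
      sN := fun t ht => conj_mem sN ht
      σσ := σσ
      ss := ss
      Vn := fun t ht x hx => conj_mem (TN h ht) hx
      dec := dec'
      Vc := fun x hx x' hx' => Vc h hx hx'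
      V2 := fun x hx => V2 h hx
      ψ0_mul := fun x hx x' hx' => ?_
      ψ1_mul := fun x hx x' hx' => ?_
      surj := fun a b => ?_
      kerZ := fun x => ?_
      μ_mul := fun t ht t' ht' => m_mul h l ht ht'
      μ_surj := fun c => ?_
      kerV := fun t ht => m_zero h hl ht
      c0 := fun t ht x hx => ?_
      c1 := fun t ht x hx => ?_
      line := line
      cardZ := h.cardZ
      disj := fun x hx k => ?_
      one := ⟨x1, hx1, p11, e1⟩ }⟩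
  · unfold p0
    rw [ψm x hx x' hx', Pi.add_apply, mul_add]
  · unfold p1
    rw [ψm x hx x' hx', Pi.add_apply]
  · obtain ⟨u, hu, e⟩ := N.ψ_surj ![l⁻¹ * a, b]
    obtain ⟨x, hx, rfl⟩ := pull h hu
    refine ⟨x, hx, ?_, ?_⟩
    · unfold p0
      rw [e]
      exact mul_inv_cancel_left₀ hl a
    · unfold p1
      rw [e]
      rfl
  · rw [h.imZ]
    refine and_congr_right fun hx => ?_
    unfold p0 p1
    rw [mul_eq_zero, or_iff_right hl, ← vec_eq_zero, N.ψ_eq_zero _ (iU h hx), mem_inf, and_iff_right (iU h hx)]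
  · obtain ⟨e, he, er⟩ := N.r_surj (sl2Up (l⁻¹ * c))
    have : e ∈ ι.range := h.up ▸ N.mem_up.2 ⟨he, _, er.symm⟩
    obtain ⟨t, rfl⟩ := this
    obtain ⟨x, hx, x', hx', e⟩ := dec' t t.2
    refine ⟨x', hx', ?_⟩
    have a : pm ι N l t = c := by
      unfold pm
      rw [ext_coe, er]
      exact mul_inv_cancel_left₀ hl c
    rw [e, m_mul h l (h.leV hx) (conj_mem sN (h.leV hx')), (m_zero h hl (h.leV hx)).2 hx, zero_add] at a
    exact a
  · unfold p0 p1 pm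
    rw [ψ_cj h ht hx]
    change l * (_ + _) = _
    ring
  · unfold p1
    rw [ψ_cj h ht hx]
    rfl
  · rw [flip x (h.leV ((h.imZ x).1 hx).1), ← mem_cj, eZ] at k
    exact mem_bot.1 (h.disj ▸ mem_inf.2 ⟨hx, k⟩)

end CL.HK
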