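/-
Project HK, part C: the subgroup `T` has index two in `S`.
-/
import Cfsg.Agent.HK.CDefs

set_option autoImplicit false

open Cfsg Subgroup
open scoped commutatorElement

namespace CL.HK

open CL.Fus CL.Loc CL.Grp CL.Even

universe u

namespace C1

variable {Ω : Type u} [Group Ω] {K : Type} [Field K] [Fintype K] {T V Z : Subgroup Ω} {s : Ω} {ψ0 ψ1 μ : Ω → K}
  (h : G0 T V Z s ψ0 ψ1 μ)
include h

theorem sig {t : Ω} (ht : t ∈ T) : s⁻¹ * t * s = s * t * s⁻¹ := by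
  conv_lhs => rw [← h.σσ t ht]
  group

theorem memW {t : Ω} (ht : t ∈ T) : t ∈ cj s V ↔ s * t * s⁻¹ ∈ V := by rw [mem_cj, sig h ht]

theorem leW : cj s V ≤ T := by
  rintro _ ⟨x, hx, rfl⟩
  exact h.sN x (h.leV hx)

theorem inv {t : Ω} (ht : t ∈ T) (h2 : t * t = 1) : t ∈ V ∨ t ∈ cj s V := by
  obtain ⟨x, hx, x', hx', rfl⟩ := h.dec t ht
  have hw : s * x' * s⁻¹ ∈ T := h.sN x' (h.leV hx')
  have e1 : (s * x' * s⁻¹)⁻¹ = s * x' * s⁻¹ := by
    rw [inv_eq_iff_mul_eq_one, show s * x' * s⁻¹ * (s * x' * s⁻¹) = s * (x' * x') * s⁻¹ by group, h.V2 x' hx']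
    group
  have e2 : s * x' * s⁻¹ * x * (s * x' * s⁻¹)⁻¹ = x := by
    rw [e1, ← mul_right_inj x, h.V2 x hx, ← h2]
    group
  have e3 := h.c0 _ hw x hx
  rw [e2, left_eq_add, mul_eq_zero] at e3
  rcases e3 with e | e
  · exact Or.inl (V.mul_mem hx ((h.kerV _ hw).1 e))
  · exact Or.inr (mul_mem ((memW h (h.leV hx)).2 ((h.line x hx).2 e)) (conj_mem_cj s hx'))

theorem sub {A : Subgroup Ω} (hA : A ≤ T) (h2 : ∀ a ∈ A, a * a = 1) : A ≤ V ∨ A ≤ cj s V := by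
  by_contra hc
  obtain ⟨h1, h1'⟩ := not_or.1 hc
  obtain ⟨a, ha, ha'⟩ := SetLike.not_le_iff_exists.1 h1
  obtain ⟨b, hb, hb'⟩ := SetLike.not_le_iff_exists.1 h1'
  have k1 := (inv h (hA ha) (h2 a ha)).resolve_left ha'
  have k2 := (inv h (hA hb) (h2 b hb)).resolve_right hb'
  rcases inv h (hA (A.mul_mem ha hb)) (h2 _ (A.mul_mem ha hb)) with k | k
  · exact ha' ((mul_mem_cancel_right k2).1 k)
  · exact hb' ((mul_mem_cancel_left k1).1 k)

theorem notle : ¬ V ≤ cj s V := fun hle => by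
  obtain ⟨x, hx, e, -⟩ := h.one
  have := (h.line x hx).1 ((memW h (h.leV hx)).1 (hle hx))
  exact one_ne_zero (e.symm.trans this)

theorem cj2 (g : Ω) : ∀ a ∈ cj g V, a * a = 1 := by
  rintro _ ⟨x, hx, rfl⟩
  rw [← map_mul, h.V2 x hx, map_one]

theorem cjc (g : Ω) : ∀ a ∈ cj g V, ∀ b ∈ cj g V, a * b = b * a := by
  rintro _ ⟨x, hx, rfl⟩ _ ⟨y, hy, rfl⟩
  rw [← map_mul, ← map_mul, h.Vc x hx y hy]

/-- the counting argument -/
theorem big [Finite T] {R A : Subgroup Ω} [Finite A] (hR : ∀ x ∈ R, x ∈ T ∨ x * s ∈ T) (hA : A ≤ R)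
    (hc : ∀ a ∈ A, ∀ b ∈ A, a * b = b * a) (h2 : ∀ a ∈ A, a * a = 1) (hcard : Nat.card A = Nat.card V) : A ≤ T := by
  by_contra hn
  obtain ⟨a, ha, ha'⟩ := SetLike.not_le_iff_exists.1 hn
  have hs := (hR a (hA ha)).resolve_left ha'
  have : Finite V := Finite.of_injective _ (inclusion_injective h.leV)
  have hY : ∀ b ∈ A, b ∈ T → b ∈ V ∧ ψ1 b = 0 := fun b hb hbT => by
    have e : a * s * (s⁻¹ * b * s) * (a * s)⁻¹ = b := by
      rw [show a * s * (s⁻¹ * b * s) * (a * s)⁻¹ = a * b * a⁻¹ by group, hc a ha b hb]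
      group
    have hV : b ∈ V := (inv h hbT (h2 b hb)).elim id fun k => e ▸ h.Vn _ hs _ (mem_cj.1 k)
    refine ⟨hV, (h.line b hV).1 ?_⟩
    rw [← sig h hbT, show s⁻¹ * b * s = (a * s)⁻¹ * (a * s * (s⁻¹ * b * s) * (a * s)⁻¹) * (a * s)⁻¹⁻¹ by group, e]
    exact h.Vn _ (inv_mem hs) _ hV
  have i2 : (T.subgroupOf A).index = 2 := by
    refine index_eq_two_iff.2 ⟨⟨a, ha⟩, fun b => ?_⟩
    by_cases hb : (b : Ω) ∈ T
    · exact Or.inr ⟨hb, fun k => ha' ((mul_mem_cancel_left hb).1 k)⟩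
    · refine Or.inl ⟨?_, hb⟩
      have k := T.mul_mem ((hR b (hA b.2)).resolve_left hb) (T.inv_mem hs)
      rw [show (b : Ω) * s * (a * s)⁻¹ = b * a⁻¹ by group, inv_eq_of_mul_eq_one_right (h2 a ha)] at k
      exact k
  let φ : V →* Multiplicative K := MonoidHom.mk' (fun x => Multiplicative.ofAdd (ψ1 x)) fun x y =>
    congrArg Multiplicative.ofAdd (h.ψ1_mul x x.2 y y.2)
  have hφ : Function.Surjective φ := fun c => by
    obtain ⟨x, hx, -, e⟩ := h.surj 0 c.toAdd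
    exact ⟨⟨x, hx⟩, congrArg Multiplicative.ofAdd e⟩
  have c1 := (T.subgroupOf A).card_mul_index
  have c2 := φ.ker.card_mul_index
  rw [index_ker, MonoidHom.range_eq_top.2 hφ, card_top, Nat.card_eq_fintype_card (α := Multiplicative K),
    Fintype.card_multiplicative] at c2
  have c3 : Nat.card (T.subgroupOf A) ≤ Nat.card φ.ker :=
    Nat.card_le_card_of_injective (fun b => ⟨⟨b.1.1, (hY _ b.1.2 b.2).1⟩,
      congrArg Multiplicative.ofAdd (hY _ b.1.2 b.2).2⟩) fun b b' e =>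
        Subtype.ext (Subtype.ext (congrArg (fun y : φ.ker => (y.1 : Ω)) e))
  have c4 : 0 < Nat.card φ.ker := Nat.card_pos
  have c5 := h.four
  rw [i2, hcard, ← c2] at c1
  nlinarith

end C1

open C1 in
theorem c1S : C1S.{u} := by
  intro Ω _ S _ F K _ _ hS _ T V Z s ψ0 ψ1 μ n g
  have h := g.toG0
  have fin : ∀ A ≤ S, Finite A := fun A hA => Finite.of_injective _ (inclusion_injective hA)
  have := fin T g.le
  have hR : ∀ x ∈ S ⊓ 𝒩(T), x ∈ T ∨ x * s ∈ T := by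
    rintro x ⟨hx, hn⟩
    rcases sub h (cj_le_of_le (leW h) hn) (by rw [← cj_mul]; exact cj2 h _) with k | k
    · refine Or.inr (g.nS _ (S.mul_mem hx g.sS) fun y hy => k ?_)
      rw [← cj_mul]
      exact conj_mem_cj _ hy
    · have := fin _ ((leW h).trans g.le)
      have e : cj x (cj s V) = cj s V := eq_of_le_of_card_ge k (card_cj _ _).ge
      rcases sub h (cj_le_of_le h.leV hn) (cj2 h x) with k' | k'
      · exact Or.inl (g.nS x hx fun y hy => k' (conj_mem_cj x hy))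
      · exact absurd (cj_le_cj.1 (k'.trans e.ge)) (notle h)
  have hT : T ≤ S ⊓ 𝒩(T) := le_inf g.le le_normalizer
  by_contra hc
  have hlt : S ⊓ 𝒩(T) < S := lt_of_le_of_ne inf_le_left fun e => hc fun x hx => hR x (e.ge hx)
  obtain ⟨x, ⟨hx, hn⟩, hx'⟩ := SetLike.exists_of_lt (lt_normalizerIn hS hlt)
  have key : ∀ y, cj y V ≤ S ⊓ 𝒩(T) → cj y V ≤ T := fun y hy =>
    haveI := fin _ (hy.trans inf_le_left)
    big h hR hy (cjc h y) (cj2 h y) (card_cj _ _)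
  have k1 := key x (cj_le_of_le (h.leV.trans hT) hn)
  have k2 := key (x * s) (by rw [cj_mul]; exact cj_le_of_le ((leW h).trans hT) hn)
  refine hx' ⟨hx, mem_normalizer_of_finite fun t ht => ?_⟩
  obtain ⟨a, ha, b, hb, rfl⟩ := h.dec t ht
  rw [show x * (a * (s * b * s⁻¹)) * x⁻¹ = x * a * x⁻¹ * (x * s * b * (x * s)⁻¹) by group]
  exact T.mul_mem (k1 (conj_mem_cj x ha)) (k2 (conj_mem_cj _ hb))

end CL.HK
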