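/-
Project HK, part C: involutions, the centre of `T` and the splitting.
-/
import Cfsg.Agent.HK.CDefs

set_option autoImplicit false

open Cfsg Subgroup
open scoped commutatorElement

namespace CL.HK

open CL.Fus CL.Loc CL.Grp CL.Even

universe u

namespace C2

variable {Ω : Type u} [Group Ω] {K : Type} [Field K] [Fintype K] {T V Z : Subgroup Ω} {s : Ω} {ψ0 ψ1 μ : Ω → K}
  (h : G0 T V Z s ψ0 ψ1 μ)
include h

theorem Yc {x : Ω} (hx : x ∈ V) (h1 : ψ1 x = 0) {t : Ω} (ht : t ∈ T) : x * t = t * x := by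
  obtain ⟨a, ha, b, hb, rfl⟩ := h.dec t ht
  have k : x * (s * b * s⁻¹) = s * b * s⁻¹ * x := by
    rw [← h.σσ x (h.leV hx), conj_mul, conj_mul, h.Vc _ ((h.line x hx).2 h1) b hb]
  rw [← mul_assoc, h.Vc x hx a ha, mul_assoc, k, mul_assoc a]

theorem fix {t x : Ω} (ht : t ∈ T) (hx : x ∈ V) (e : t * x = x * t) : μ t = 0 ∨ ψ1 x = 0 := by
  have k := h.c0 t ht x hx
  rw [e, mul_inv_cancel_right] at k
  exact mul_eq_zero.1 (left_eq_add.1 k)

theorem sq {x : Ω} (hx : x ∈ V) : s * x * s⁻¹ * (s * x * s⁻¹) = 1 := by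
  rw [conj_mul, h.V2 x hx, mul_one, mul_inv_cancel]

theorem inv {t : Ω} (ht : t ∈ T) (h2 : t * t = 1) : t ∈ V ∨ s * t * s⁻¹ ∈ V := by
  obtain ⟨a, ha, b, hb, rfl⟩ := h.dec t ht
  have k : s * b * s⁻¹ * a = a * (s * b * s⁻¹) := by
    rw [← inv_eq_of_mul_eq_one_right h2, mul_inv_rev, inv_eq_of_mul_eq_one_right (h.V2 a ha),
      inv_eq_of_mul_eq_one_right (sq h hb)]
  have m := h.sN b (h.leV hb)
  refine (fix h m ha k).imp (fun e => mul_mem ha ((h.kerV _ m).1 e)) fun e => ?_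
  rw [← conj_mul, h.σσ b (h.leV hb)]
  exact mul_mem ((h.line a ha).2 e) hb

theorem spl (hZ : Z ≠ ⊥) (b : K) : ∃ x ∈ Z, ψ0 (s * x * s⁻¹) = b := by
  have := h.chr
  have m : ∀ x ∈ Z, s * x * s⁻¹ ∈ V ∧ ψ1 (s * x * s⁻¹) = 0 := fun x hx => by
    obtain ⟨h1, -, h2⟩ := (h.kerZ x).1 hx
    have k := (h.line x h1).2 h2
    exact ⟨k, (h.line _ k).1 (by rw [h.σσ x (h.leV h1)]; exact h1)⟩
  have i : Function.Injective fun x : Z => ψ0 (s * x * s⁻¹) := fun x y e => Subtype.ext (by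
    have k := h.disj _ (mul_mem x.2 y.2) (by
      rw [← conj_mul, h.kerZ, h.ψ0_mul _ (m _ x.2).1 _ (m _ y.2).1, h.ψ1_mul _ (m _ x.2).1 _ (m _ y.2).1,
        (m _ x.2).2, (m _ y.2).2, add_zero]
      exact ⟨mul_mem (m _ x.2).1 (m _ y.2).1, by rw [show ψ0 (s * x * s⁻¹) = _ from e, CharTwo.add_self_eq_zero], rfl⟩)
    rw [eq_inv_of_mul_eq_one_left k, inv_eq_of_mul_eq_one_right (h.V2 _ ((h.kerZ _).1 y.2).1)])
  obtain ⟨x, hx⟩ := (i.bijective_of_nat_card_le (by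
    rw [h.cardZ.resolve_left hZ, Nat.card_eq_fintype_card])).2 b
  exact ⟨x, x.2, hx⟩

theorem gs {S : Subgroup Ω} [Finite S] {F : FusionSystem S} (le : T ≤ S) (sS : s ∈ S) {g : Ω → Ω}
    (hg : AT F T V g) : AT F T V fun x => s * g (s * x * s⁻¹) * s⁻¹ := by
  refine ⟨((mor_conj F le sS).comp hg.mor h.sN).comp (mor_conj F le sS) fun x hx => hg.mT _ (h.sN x hx),
    fun x hx => h.sN _ (hg.mT _ (h.sN x hx)), fun x hx => ?_⟩
  have k : ∀ x ∈ V, ψ1 x ≠ 0 → s * g (s * x * s⁻¹) * s⁻¹ ∈ V := fun x hx h1 => by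
    have m := h.sN x (h.leV hx)
    refine (inv h (hg.mT _ m) (by rw [← hg.mor.homOn.map_mul m m, sq h hx, hg.mor.homOn.map_one])).resolve_left
      fun e => h1 ((h.line x hx).1 (hg.mor.homOn.mem_of_mem_img hg.mor.injOn h.leV m ?_))
    rwa [hg.mor.img_eq_self h.leV hg.mV]
  by_cases h1 : ψ1 x = 0
  · obtain ⟨y, hy, h2, -⟩ := h.one
    have k1 := mul_mem (k _ (mul_mem hx hy) (by rw [h.ψ1_mul x hx y hy, h1, h2, zero_add]; exact one_ne_zero))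
      (inv_mem (k y hy (h2 ▸ one_ne_zero)))
    rwa [← conj_mul, hg.mor.homOn.map_mul (h.sN x (h.leV hx)) (h.sN y (h.leV hy)), ← conj_mul,
      mul_inv_cancel_right] at k1
  · exact k x hx h1

end C2

theorem c2S : C2S.{u} := by
  intro Ω _ S _ F K _ _ _ _ T V Z s ψ0 ψ1 μ n h gen
  refine ⟨h, fun t => C2.inv h.toG0, gen, fun g => C2.gs h.toG0 h.le h.sS, fun x hx h1 t => C2.Yc h.toG0 hx h1,
    fun x hx hc => ?_, C2.spl h.toG0⟩
  obtain ⟨y, hy, h1, h2⟩ := h.one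
  have xT := h.nS x hx fun y hy => by rwa [hc y (h.leV hy), mul_inv_cancel_right]
  have xV := (h.kerV x xT).1 ((C2.fix h.toG0 xT hy (hc y (h.leV hy))).resolve_right (h1 ▸ one_ne_zero))
  have m := h.sN y (h.leV hy)
  exact ⟨xV, (C2.fix h.toG0 m xV (hc _ m).symm).resolve_left (h2 ▸ one_ne_zero)⟩

end CL.HK
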