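/-
Project HK, part C: the field automorphism induced by the interchanging element.
-/
import Cfsg.Agent.HK.CDefs

set_option autoImplicit false

open Cfsg Subgroup
open scoped commutatorElement

namespace CL.HK

open CL.Fus CL.Loc CL.Grp CL.Even

universe u

namespace C3J

variable {Ω : Type u} [Group Ω] {S : Subgroup Ω} {K : Type} [Field K] [Fintype K] {T V Z : Subgroup Ω} {s t x y : Ω}
  {ψ0 ψ1 μ : Ω → K} {F : FusionSystem S} {n : Ω → Ω} {φ : K ≃+ K}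

section
variable (h : G0 T V Z s ψ0 ψ1 μ)
include h

theorem inv_eq (hx : x ∈ V) : x⁻¹ = x := inv_eq_of_mul_eq_one_right (h.V2 x hx)

theorem exφ : ∃ φ : K ≃+ K, φ 1 = 1 ∧ ∀ x ∈ V, μ (s * x * s⁻¹) = φ (ψ1 x) := by
  have := h.chr
  have k : ∀ x ∈ V, ∀ y ∈ V, μ (s * x * s⁻¹) = μ (s * y * s⁻¹) ↔ ψ1 x = ψ1 y := fun x hx y hy => by
    rw [← CharTwo.add_eq_zero, ← CharTwo.add_eq_zero (a := ψ1 x), ← h.ψ1_mul x hx y hy,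
      ← h.μ_mul _ (h.sN _ (h.leV hx)) _ (h.sN _ (h.leV hy)), conj_mul, h.kerV _ (h.sN _ (h.leV (mul_mem hx hy))),
      h.line _ (mul_mem hx hy)]
  choose X hX h0 h1 using h.surj 0
  have hi : Function.Injective fun a => μ (s * X a * s⁻¹) := fun a b e => by
    simpa only [h1] using (k _ (hX a) _ (hX b)).1 e
  obtain ⟨x₁, hx₁, e₁, e₂⟩ := h.one
  refine ⟨AddEquiv.ofBijective (AddMonoidHom.mk' (fun a => μ (s * X a * s⁻¹)) fun a b => ?_)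
    (Finite.injective_iff_bijective.1 hi), ?_, fun x hx => (k _ hx _ (hX _)).2 (h1 _).symm⟩
  · rw [← h.μ_mul _ (h.sN _ (h.leV (hX a))) _ (h.sN _ (h.leV (hX b))), conj_mul]
    exact (k _ (hX _) _ (mul_mem (hX a) (hX b))).2 (by rw [h.ψ1_mul _ (hX a) _ (hX b), h1, h1, h1])
  · exact ((k _ (hX 1) _ hx₁).2 ((h1 1).trans e₁.symm)).trans e₂

theorem key0 (ht : t ∈ T) (hx : x ∈ V) : ⁅t, x⁆ ∈ V ∧ ψ0 ⁅t, x⁆ = μ t * ψ1 x ∧ ψ1 ⁅t, x⁆ = 0 := by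
  have := h.chr
  rw [commutatorElement_def, inv_eq h hx, h.ψ0_mul _ (h.Vn t ht x hx) _ hx, h.ψ1_mul _ (h.Vn t ht x hx) _ hx,
    h.c0 t ht x hx, h.c1 t ht x hx, add_right_comm, CharTwo.add_self_eq_zero, CharTwo.add_self_eq_zero, zero_add]
  exact ⟨mul_mem (h.Vn t ht x hx) hx, rfl, rfl⟩

theorem key (hφ : ∀ x ∈ V, μ (s * x * s⁻¹) = φ (ψ1 x)) (ht : t ∈ T) (hx : x ∈ V) :
    ψ0 (s * ⁅t, x⁆ * s⁻¹) = φ (ψ1 x) * φ.symm (μ t) := by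
  obtain ⟨a, ha, b, hb, rfl⟩ := h.dec t ht
  have hb' := h.sN _ (h.leV hb)
  have hx' := h.sN _ (h.leV hx)
  have e1 : ⁅a * (s * b * s⁻¹), x⁆ = ⁅s * b * s⁻¹, x⁆ := by
    calc ⁅a * (s * b * s⁻¹), x⁆ = a * (s * b * s⁻¹ * x * (s * b * s⁻¹)⁻¹) * a⁻¹ * x⁻¹ := by
          rw [commutatorElement_def]; group
      _ = _ := by rw [h.Vc a ha _ (h.Vn _ hb' x hx), mul_inv_cancel_right, commutatorElement_def]
  have e2 : s * ⁅s * b * s⁻¹, x⁆ * s⁻¹ = ⁅s * x * s⁻¹, b⁆⁻¹ := by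
    rw [commutatorElement_inv, conjugate_commutatorElement, h.σσ b (h.leV hb)]
  obtain ⟨k1, k2, -⟩ := key0 h hx' hb
  rw [e1, e2, inv_eq h k1, k2, hφ x hx, h.μ_mul _ (h.leV ha) _ hb', (h.kerV a (h.leV ha)).2 ha, zero_add, hφ b hb,
    φ.symm_apply_apply]

theorem exT (u : K) : ∃ t ∈ T, μ t = u := let ⟨_, hx, e⟩ := h.μ_surj u; ⟨_, h.sN _ (h.leV hx), e⟩

theorem case0 (hφ : ∀ x ∈ V, μ (s * x * s⁻¹) = φ (ψ1 x)) (hZ : Z = ⊥) (a u : K) :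
    φ a * φ.symm u = φ (u * a) * φ.symm 1 := by
  have := h.chr
  obtain ⟨t, ht, rfl⟩ := exT h u
  obtain ⟨t₁, ht₁, e₁⟩ := exT h 1
  obtain ⟨x, hx, -, rfl⟩ := h.surj 0 a
  obtain ⟨x₁, hx₁, -, e₂⟩ := h.surj 0 (μ t * ψ1 x)
  obtain ⟨k1, k2, k3⟩ := key0 h ht hx
  obtain ⟨l1, l2, l3⟩ := key0 h ht₁ hx₁
  have e : ⁅t, x⁆ * ⁅t₁, x₁⁆ ∈ Z := (h.kerZ _).2 ⟨mul_mem k1 l1,
    by rw [h.ψ0_mul _ k1 _ l1, k2, l2, e₁, e₂, one_mul, CharTwo.add_self_eq_zero],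
    by rw [h.ψ1_mul _ k1 _ l1, k3, l3, add_zero]⟩
  rw [hZ, mem_bot, mul_eq_one_iff_eq_inv, inv_eq h l1] at e
  rw [← key h hφ ht hx, e, key h hφ ht₁ hx₁, e₁, e₂]

end

theorem fixY (h : G2 F T V Z s ψ0 ψ1 μ n) (hZ : Z ≠ ⊥) {k : Ω → Ω} (hk : AT F T V k) (hkZ : ∀ x ∈ Z, k x = x)
    (hy : y ∈ V) (h1 : ψ1 y = 0) : ψ0 (s * k y * s⁻¹) = ψ0 (s * y * s⁻¹) := by
  have := h.chr
  obtain ⟨z', hz', e⟩ := h.spl hZ (ψ0 y)
  obtain ⟨a1, a2, a3⟩ := (h.kerZ z').1 hz'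
  have b1 := (h.line z' a1).2 a3
  have b2 : ψ1 (s * z' * s⁻¹) = 0 := (h.line _ b1).1 (by rwa [h.σσ z' (h.leV a1)])
  have hz : y * (s * z' * s⁻¹) ∈ Z := (h.kerZ _).2 ⟨mul_mem hy b1,
    by rw [h.ψ0_mul _ hy _ b1, e, CharTwo.add_self_eq_zero], by rw [h.ψ1_mul _ hy _ b1, h1, b2, add_zero]⟩
  have e1 : y = y * (s * z' * s⁻¹) * (s * z' * s⁻¹) := by rw [mul_assoc y, h.V2 _ b1, mul_one]
  generalize y * (s * z' * s⁻¹) = z at hz e1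
  obtain ⟨c1, -, c3⟩ := (h.kerZ z).1 hz
  obtain ⟨d1, d2, -⟩ := (h.kerZ _).1 (h.gZ _ (h.gs k hk) z' hz')
  have c4 := (h.line z c1).2 c3
  rw [e1, hk.mor.homOn.map_mul (h.leV c1) (h.leV b1), hkZ z hz, ← conj_mul,
    show s * (z * (s * z' * s⁻¹)) * s⁻¹ = s * z * s⁻¹ * (s * (s * z' * s⁻¹) * s⁻¹) by group, h.σσ z' (h.leV a1),
    h.ψ0_mul _ c4 _ d1, h.ψ0_mul _ c4 _ a1, d2, a2]

theorem case1 (h : G2 F T V Z s ψ0 ψ1 μ n) (hφ : ∀ x ∈ V, μ (s * x * s⁻¹) = φ (ψ1 x)) (h1 : φ 1 = 1) (hZ : Z ≠ ⊥)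
    (a u : K) : φ a * φ.symm u = φ.symm (a ^ 2 * u) := by
  by_cases ha : a = 0
  · simp [ha]
  obtain ⟨t, ht, rfl⟩ := exT h.toG0 u
  obtain ⟨x, hx, -, rfl⟩ := h.surj 0 a
  obtain ⟨k, hk, k1, k2, k3⟩ := h.tor (Units.mk0 _ ha)
  obtain ⟨l1, -, l3⟩ := key0 h.toG0 ht hx
  rw [← key h.toG0 hφ ht hx, ← fixY h hZ hk k3 l1 l3, hk.mor.homOn.map_commutator ht (h.leV hx),
    key h.toG0 hφ (hk.mT t ht) (hk.mV x hx), k1 x hx, k2 t ht, Units.val_inv_eq_inv_val, Units.val_mk0,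
    inv_mul_cancel₀ ha, h1, one_mul]

end C3J

open C3J in
theorem c3S : C3S.{u} := by
  intro Ω _ S _ F K _ _ _ _ T V Z s ψ0 ψ1 μ n h
  have := h.chr
  obtain ⟨φ, h1, hφ⟩ := exφ h.toG0
  have h2 : φ.symm 1 = 1 := φ.symm_apply_eq.2 h1.symm
  by_cases hZ : Z = ⊥
  · have h3 := case0 h.toG0 hφ hZ
    have h4 : ∀ u, φ.symm u = φ u := fun u => by simpa [h1, h2] using h3 1 u
    refine ⟨false, ⟨φ.toEquiv, fun a b => ?_, φ.map_add⟩, h, by simp [hZ], fun a => ?_, fun x hx => ?_⟩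
    · exact ((h3 b a).trans (by rw [h2, mul_one]; rfl)).symm.trans (by rw [h4, mul_comm]; rfl)
    · exact (pow_one _).trans ((h4 _).symm.trans (φ.symm_apply_apply a))
    · exact (hφ x hx).trans (pow_one _).symm
  · have h3 := case1 h hφ h1 hZ
    have h4 : ∀ a, φ a = φ.symm (a ^ 2) := fun a => by simpa [h2] using h3 a 1
    have h5 : ∀ a b, φ.symm (a * b) = φ.symm a * φ.symm b := fun a b => by
      obtain ⟨c, rfl⟩ := (Finite.injective_iff_surjective.1 (frobenius K 2).injective) a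
      rw [frobenius_def, ← h3, h4]
    have h6 : ∀ a, φ a = φ.symm a ^ 2 := fun a => by rw [h4, pow_two, h5, pow_two]
    exact ⟨true, ⟨φ.symm.toEquiv, h5, φ.symm.map_add⟩, h, by simp [hZ],
      fun a => (h6 _).symm.trans (φ.apply_symm_apply a), fun x hx => (hφ x hx).trans (h6 _)⟩

end CL.HK
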