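/-
Project HK, part C: coordinates on `T`.
-/
import Cfsg.Agent.HK.CDefs

set_option autoImplicit false
set_option linter.unusedSectionVars false

open Cfsg Subgroup
open scoped commutatorElement

namespace CL.HK

open CL.Fus CL.Loc CL.Grp CL.Even

universe u

namespace C4A
variable {Ω : Type u} [Group Ω] {K : Type} [Field K] [Fintype K] {T V Z : Subgroup Ω} {s : Ω} {ψ0 ψ1 μ : Ω → K}

theorem aa (h : G0 T V Z s ψ0 ψ1 μ) (a : K) : a + a = 0 := by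
  have := h.chr
  exact CharTwo.add_self_eq_zero a

theorem eqZ (h : G0 T V Z s ψ0 ψ1 μ) {x x' : Ω} (hx : x ∈ V) (hx' : x' ∈ V) (e0 : ψ0 x = ψ0 x') (e1 : ψ1 x = ψ1 x') :
    x * x' ∈ Z :=
  (h.kerZ _).2 ⟨V.mul_mem hx hx', by rw [h.ψ0_mul x hx x' hx', e0, aa h], by rw [h.ψ1_mul x hx x' hx', e1, aa h]⟩

theorem eq1 (h : G0 T V Z s ψ0 ψ1 μ) {x x' : Ω} (hx' : x' ∈ V) (e : x * x' = 1) : x = x' := by
  calc x = x * (x' * x') := by rw [h.V2 x' hx', mul_one]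
    _ = x' := by rw [← mul_assoc, e, one_mul]

theorem sig (h : G0 T V Z s ψ0 ψ1 μ) {x : Ω} (hx : x ∈ V) (e : ψ1 x = 0) :
    s * x * s⁻¹ ∈ V ∧ ψ1 (s * x * s⁻¹) = 0 := by
  have h1 := (h.line x hx).2 e
  exact ⟨h1, (h.line _ h1).1 (by rw [h.σσ x (h.leV hx)]; exact hx)⟩

theorem cm (h : G0 T V Z s ψ0 ψ1 μ) {t x : Ω} (ht : t ∈ T) (hx : x ∈ V) :
    ⁅x, t⁆ ∈ V ∧ ψ0 ⁅x, t⁆ = μ t * ψ1 x ∧ ψ1 ⁅x, t⁆ = 0 ∧ ⁅t, x⁆ = ⁅x, t⁆ := by
  have hi : x⁻¹ = x := inv_eq_of_mul_eq_one_left (h.V2 x hx)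
  have hc := h.Vn t ht x hx
  have e : ⁅x, t⁆ = x * (t * x * t⁻¹) := by rw [commutatorElement_def, hi]; group
  have e' : ⁅t, x⁆ = (t * x * t⁻¹) * x := by rw [commutatorElement_def, hi]
  refine ⟨e ▸ V.mul_mem hx hc, ?_, ?_, ?_⟩
  · rw [e, h.ψ0_mul x hx _ hc, h.c0 t ht x hx, ← add_assoc, aa h, zero_add]
  · rw [e, h.ψ1_mul x hx _ hc, h.c1 t ht x hx, aa h]
  · rw [e, e', h.Vc x hx _ hc]

theorem sc (s a b : Ω) : s * ⁅a, b⁆ * s⁻¹ = ⁅s * a * s⁻¹, s * b * s⁻¹⁆ := by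
  simp only [commutatorElement_def]; group

theorem sm (s a b : Ω) : s * (a * b) * s⁻¹ = s * a * s⁻¹ * (s * b * s⁻¹) := by group

theorem z0 {f : K → Ω} (h : ∀ a b, f (a + b) = f a * f b) : f 0 = 1 := by
  have := h 0 0
  rw [add_zero] at this
  exact left_eq_mul.1 this

end C4A

open C4A in
theorem c4S : C4S.{u} := by
  intro Ω _ S _ F K _ _ _ _ T V Z s ψ0 ψ1 μ n ε θ h
  have g : G0 T V Z s ψ0 ψ1 μ := h.toG0
  have ZV : ∀ x ∈ Z, x ∈ V := fun x hx => ((g.kerZ x).1 hx).1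
  have Z0 : ∀ x ∈ Z, ψ0 x = 0 := fun x hx => ((g.kerZ x).1 hx).2.1
  have Z1 : ∀ x ∈ Z, ψ1 x = 0 := fun x hx => ((g.kerZ x).1 hx).2.2
  have Zb : ε = false → ∀ x ∈ Z, x = 1 := fun e x hx => mem_bot.1 (h.ε0.1 e ▸ hx)
  have fin : ∀ x ∈ V, ∀ x' ∈ V, x * x' ∈ Z → (ε = true → s * x * s⁻¹ * (s * x' * s⁻¹) ∈ Z) → x = x' := by
    intro x _ x' hx' hz hs
    refine eq1 g hx' ?_
    cases ε with
    | false => exact Zb rfl _ hz
    | true => exact g.disj _ hz (by rw [sm]; exact hs rfl)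
  have uq : ∀ x ∈ V, ∀ x' ∈ V, ψ1 x = 0 → ψ1 x' = 0 → (ε = true → s * x * s⁻¹ ∈ Z) → (ε = true → s * x' * s⁻¹ ∈ Z) →
      ψ0 x = ψ0 x' → x = x' := fun x hx x' hx' a a' b b' e =>
    fin x hx x' hx' (eqZ g hx hx' e (a.trans a'.symm)) fun k => Z.mul_mem (b k) (b' k)
  have ex1 : ∀ b, ∃ x, x ∈ V ∧ ψ1 x = 0 ∧ (ε = true → s * x * s⁻¹ ∈ Z) ∧ ψ0 x = b := by
    intro b
    cases ε with
    | false =>
      obtain ⟨x, hx, h0, h1⟩ := g.surj b 0
      exact ⟨x, hx, h1, fun k => absurd k (by simp), h0⟩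
    | true =>
      obtain ⟨x, hx, h0⟩ := h.spl (fun k => absurd (h.ε0.2 k) (by simp)) b
      have := sig g (ZV x hx) (Z1 x hx)
      exact ⟨_, this.1, this.2, fun _ => by rw [g.σσ x (g.leV (ZV x hx))]; exact hx, h0⟩
  choose y yV y1 yZ y0 using ex1
  have uy : ∀ x ∈ V, ψ1 x = 0 → (ε = true → s * x * s⁻¹ ∈ Z) → ∀ b, ψ0 x = b → x = y b := fun x hx a k b e =>
    uq x hx _ (yV b) a (y1 b) k (yZ b) (e.trans (y0 b).symm)
  obtain ⟨z, hz⟩ : ∃ z : K → Ω, ∀ c, z c = bif ε then s * y (θ c) * s⁻¹ else 1 := ⟨_, fun _ => rfl⟩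
  obtain ⟨v, hv⟩ : ∃ v : K → Ω, ∀ a, v a = n (y a) := ⟨_, fun _ => rfl⟩
  obtain ⟨w, hw⟩ : ∃ w : K → Ω, ∀ a, w a = s * v (θ a) * s⁻¹ := ⟨_, fun _ => rfl⟩
  have zt : ε = true → ∀ c, z c = s * y (θ c) * s⁻¹ := fun e c => by rw [hz, e]; rfl
  have zf : ε = false → ∀ c, z c = 1 := fun e c => by rw [hz, e]; rfl
  have cs : ε = true ∨ ε = false := by cases ε <;> simp
  have vV : ∀ a, v a ∈ V := fun a => hv a ▸ h.nm _ (yV a)
  have v0 : ∀ a, ψ0 (v a) = 0 := fun a => by rw [hv, h.n0 _ (yV a), y1]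
  have v1 : ∀ a, ψ1 (v a) = a := fun a => by rw [hv, h.n1 _ (yV a), y0]
  have zZ : ∀ c, z c ∈ Z := fun c => by
    rcases cs with e | e
    · rw [zt e]; exact yZ _ e
    · rw [zf e]; exact Z.one_mem
  have zV : ∀ c, z c ∈ V := fun c => ZV _ (zZ c)
  have wT : ∀ a, w a ∈ T := fun a => hw a ▸ g.sN _ (g.leV (vV _))
  have ya : ∀ a b, y (a + b) = y a * y b := fun a b =>
    (uy _ (V.mul_mem (yV a) (yV b)) (by rw [g.ψ1_mul _ (yV a) _ (yV b), y1, y1, add_zero])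
      (fun k => by rw [sm]; exact Z.mul_mem (yZ a k) (yZ b k)) _ (by rw [g.ψ0_mul _ (yV a) _ (yV b), y0, y0])).symm
  have va : ∀ a b, v (a + b) = v a * v b := fun a b => by
    rw [hv, hv, hv, ya, h.nM.homOn.map_mul (yV a) (yV b)]
  have wa : ∀ a b, w (a + b) = w a * w b := fun a b => by rw [hw, hw, hw, map_add, va, sm]
  have za : ∀ a b, z (a + b) = z a * z b := fun a b => by
    rcases cs with e | e
    · rw [zt e, zt e, zt e, map_add, ya, sm]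
    · rw [zf e, zf e, zf e, mul_one]
  have yc : ∀ b, ∀ t ∈ T, y b * t = t * y b := fun b => h.Yc _ (yV b) (y1 b)
  have zc : ∀ c, ∀ t ∈ T, z c * t = t * z c := fun c => h.Yc _ (zV c) (Z1 _ (zZ c))
  have wμ : ∀ a, μ (w a) = a := fun a => by rw [hw, h.φ _ (vV _), v1, h.θθ]
  have th : ∀ a, θ (θ a ^ ex ε) = a := fun a => by rw [map_pow, h.θθ]
  have sv : ∀ a, s * v a * s⁻¹ = w (θ a ^ ex ε) := fun a => by rw [hw, th]
  have sw : ∀ a, s * w a * s⁻¹ = v (θ a) := fun a => by rw [hw, g.σσ _ (g.leV (vV _))]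
  have Zz : ∀ x ∈ Z, ∃ c, x = z c := by
    intro x hx
    rcases cs with e | e
    · have k := sig g (ZV x hx) (Z1 x hx)
      have k2 := g.σσ x (g.leV (ZV x hx))
      refine ⟨θ.symm (ψ0 (s * x * s⁻¹)), ?_⟩
      rw [zt e, RingEquiv.apply_symm_apply, ← uy _ k.1 k.2 (fun _ => by rw [k2]; exact hx) _ rfl, k2]
    · exact ⟨0, by rw [zf e, Zb e x hx]⟩
  have Vnf : ∀ x ∈ V, ∃ c, x = v (ψ1 x) * y (ψ0 x) * z c := by
    intro x hx
    have hd := V.mul_mem (vV (ψ1 x)) (yV (ψ0 x))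
    obtain ⟨c, hc⟩ := Zz _ (eqZ g hx hd (by rw [g.ψ0_mul _ (vV _) _ (yV _), v0, y0, zero_add])
      (by rw [g.ψ1_mul _ (vV _) _ (yV _), v1, y1, add_zero]))
    refine ⟨c, ?_⟩
    rw [g.Vc _ hd _ (zV c), ← hc, mul_assoc x, g.V2 _ hd, mul_one]
  have syf : ε = false → ∀ a, s * y a * s⁻¹ = y (θ a) := by
    intro e a
    have nt : ∀ p : Prop, ε = true → p := fun _ k => absurd (e.symm.trans k) (by simp)
    obtain ⟨c1, c2, c3, -⟩ := cm g (wT a) (vV 1)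
    obtain ⟨d1, d2, d3, d4⟩ := cm g (wT (θ 1 ^ ex ε)) (vV (θ a))
    rw [← uy _ c1 c3 (nt _) a (by rw [c2, wμ, v1, mul_one]), sc, sv, sw, d4]
    exact uy _ d1 d3 (nt _) _ (by rw [d2, wμ, v1, map_one, one_pow, one_mul])
  have syt : ε = true → ∀ a, s * y a * s⁻¹ = z (θ a ^ ex ε) := fun e a => by rw [zt e, th]
  have szt : ε = true → ∀ a, s * z a * s⁻¹ = y (θ a) := fun e a => by rw [zt e, g.σσ _ (g.leV (yV _))]
  have com : ∀ a u, ⁅v a, w u⁆ = y (a * u) * z (a ^ 2 * u) := by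
    intro a u
    obtain ⟨c1, c2, c3, -⟩ := cm g (wT u) (vV a)
    refine fin _ c1 _ (V.mul_mem (yV _) (zV _)) (eqZ g c1 (V.mul_mem (yV _) (zV _)) ?_ ?_) fun e => ?_
    · rw [c2, wμ, v1, g.ψ0_mul _ (yV _) _ (zV _), y0, Z0 _ (zZ _), add_zero, mul_comm]
    · rw [c3, g.ψ1_mul _ (yV _) _ (zV _), y1, Z1 _ (zZ _), add_zero]
    · obtain ⟨d1, d2, d3, d4⟩ := cm g (wT (θ a ^ ex ε)) (vV (θ u))
      rw [sc, sv, sw, d4, sm, syt e, szt e]
      refine eqZ g d1 (V.mul_mem (zV _) (yV _)) ?_ ?_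
      · rw [d2, wμ, v1, g.ψ0_mul _ (zV _) _ (yV _), y0, Z0 _ (zZ _), zero_add, map_mul, map_pow, e]
        rfl
      · rw [d3, g.ψ1_mul _ (zV _) _ (yV _), y1, Z1 _ (zZ _), add_zero]
  have syz : ∀ b c, ∃ b' c', s * y b * s⁻¹ * (s * z c * s⁻¹) = y b' * z c' := by
    intro b c
    rcases cs with e | e
    · exact ⟨_, _, by rw [syt e, szt e, zc _ _ (g.leV (yV _))]⟩
    · exact ⟨θ b, 0, by rw [syf e, zf e, zf e]; group⟩
  have μV : ∀ x ∈ V, μ x = 0 := fun x hx => (g.kerV x (g.leV hx)).2 hx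
  have p01 : ψ0 1 = 0 := Z0 1 Z.one_mem
  have p11 : ψ1 1 = 0 := Z1 1 Z.one_mem
  refine ⟨v, w, y, z,
    { toG3 := h
      vT := fun a => g.leV (vV a)
      wT := wT
      yT := fun a => g.leV (yV a)
      zT := fun a => g.leV (zV a)
      v_add := va
      w_add := wa
      y_add := ya
      z_add := za
      yc := yc
      zc := zc
      com := com
      z1 := zf
      nf := ?_
      uniq := ?_
      vV := vV
      yV := yV
      zZ := zZ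
      v1 := v1
      wμ := wμ
      ny := fun a => (hv a).symm
      Zz := Zz
      Vnf := Vnf
      sv := sv
      sw := sw
      sy := ?_
      sh := ?_ }⟩
  · intro t ht
    obtain ⟨x, hx, x', hx', rfl⟩ := g.dec t ht
    obtain ⟨c, hc⟩ := Vnf x hx
    obtain ⟨c', hc'⟩ := Vnf x' hx'
    obtain ⟨b2, c2, e⟩ := syz (ψ0 x') c'
    refine ⟨ψ1 x, θ (ψ1 x') ^ ex ε, ψ0 x + b2, c + c2, ?_⟩
    have e2 : s * x' * s⁻¹ = w (θ (ψ1 x') ^ ex ε) * (y b2 * z c2) := by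
      rw [← e, ← sv]
      conv_lhs => rw [hc']
      group
    rw [e2, ya, za]
    conv_lhs => rw [hc]
    generalize θ (ψ1 x') ^ ex ε = u
    have k1 := yc (ψ0 x) _ (wT u)
    have k2 := zc c _ (wT u)
    have k3 := zc c _ (g.leV (yV b2))
    calc v (ψ1 x) * y (ψ0 x) * z c * (w u * (y b2 * z c2))
        = v (ψ1 x) * y (ψ0 x) * (z c * w u) * (y b2 * z c2) := by group
      _ = v (ψ1 x) * (y (ψ0 x) * w u) * (z c * y b2) * z c2 := by rw [k2]; group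
      _ = _ := by rw [k1, k3]; group
  · intro a u b c e
    have hu : u = 0 := by
      have := congrArg μ e
      rw [g.μ_mul _ (T.mul_mem (T.mul_mem (g.leV (vV a)) (wT u)) (g.leV (yV b))) _ (g.leV (zV c)),
        g.μ_mul _ (T.mul_mem (g.leV (vV a)) (wT u)) _ (g.leV (yV b)), g.μ_mul _ (g.leV (vV a)) _ (wT u),
        μV _ (vV a), μV _ (yV b), μV _ (zV c), wμ, μV 1 V.one_mem] at this
      simpa using this
    rw [hu, z0 wa, mul_one] at e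
    have ha : a = 0 := by
      have := congrArg ψ1 e
      rw [g.ψ1_mul _ (V.mul_mem (vV a) (yV b)) _ (zV c), g.ψ1_mul _ (vV a) _ (yV b), v1, y1, Z1 _ (zZ c), p11] at this
      simpa using this
    have hb : b = 0 := by
      have := congrArg ψ0 e
      rw [g.ψ0_mul _ (V.mul_mem (vV a) (yV b)) _ (zV c), g.ψ0_mul _ (vV a) _ (yV b), v0, y0, Z0 _ (zZ c), p01] at this
      simpa using this
    refine ⟨ha, hu, hb, fun k => ?_⟩
    rw [ha, hb, z0 va, z0 ya, one_mul, one_mul] at e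
    have := szt k c
    rw [e, mul_one, mul_inv_cancel] at this
    have k2 := y0 (θ c)
    rw [← this, p01] at k2
    exact θ.injective (by rw [← k2, map_zero])
  · intro a
    rcases cs with e | e
    · rw [syt e, e]; rfl
    · rw [syf e, e]; simp [hz, ex, CL.HK.hz]
  · intro a
    rcases cs with e | e
    · rw [← szt e, e]; rfl
    · rw [← syf e, e]; rfl

end CL.HK
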