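/-
Project HK, part C: from the layered data with coordinates to the data in coordinates.
-/
import Cfsg.Agent.HK.CDefs

set_option autoImplicit false

open Cfsg Subgroup
open scoped commutatorElement

namespace CL.HK

open CL.Fus CL.Loc CL.Grp CL.Even

universe u

namespace C5

variable {Ω : Type u} [Group Ω] {S : Subgroup Ω} {K : Type} [Field K] [Fintype K]
  {F : FusionSystem S} {T V Z : Subgroup Ω} {s : Ω} {ψ0 ψ1 μ : Ω → K} {n : Ω → Ω} {ε : Bool} {θ : K ≃+* K}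
  {v w y z : K → Ω}

theorem zV (h : G4 F T V Z s ψ0 ψ1 μ n ε θ v w y z) (a : K) : z a ∈ V := ((h.kerZ _).1 (h.zZ a)).1

theorem v0 (h : G4 F T V Z s ψ0 ψ1 μ n ε θ v w y z) : v 0 = 1 := by
  have := h.v_add 0 0
  rw [add_zero] at this
  exact left_eq_mul.1 this

theorem spV (h : G4 F T V Z s ψ0 ψ1 μ n ε θ v w y z) : sp v y z = V := by
  apply le_antisymm
  · rw [sp, closure_le]
    rintro x ((⟨a, rfl⟩ | ⟨a, rfl⟩) | ⟨a, rfl⟩)
    exacts [h.vV a, h.yV a, zV h a]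
  · intro x hx
    obtain ⟨c, hc⟩ := h.Vnf x hx
    rw [hc]
    refine mul_mem (mul_mem ?_ ?_) ?_ <;> apply Subgroup.subset_closure
    exacts [Or.inl (Or.inl ⟨_, rfl⟩), Or.inl (Or.inr ⟨_, rfl⟩), Or.inr ⟨_, rfl⟩]

theorem Ynf (h : G4 F T V Z s ψ0 ψ1 μ n ε θ v w y z) {x : Ω} (hx : x ∈ V) (h1 : ψ1 x = 0) :
    ∃ b c, x = y b * z c := by
  obtain ⟨c, hc⟩ := h.Vnf x hx
  rw [h1, v0 h, one_mul] at hc
  exact ⟨_, c, hc⟩

/-- an element of `T` acts on `V` like some `w u` -/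
theorem act (h : G4 F T V Z s ψ0 ψ1 μ n ε θ v w y z) {t : Ω} (ht : t ∈ T) :
    ∃ u, ∀ x ∈ V, t * x * t⁻¹ = w u * x * (w u)⁻¹ := by
  obtain ⟨a, u, b, c, rfl⟩ := h.nf t ht
  refine ⟨u, fun x hx => ?_⟩
  have e1 : y b * z c * x * (y b * z c)⁻¹ = x := by
    rw [h.Vc _ (mul_mem (h.yV b) (zV h c)) x hx, mul_inv_cancel_right]
  have e2 : v a * (w u * x * (w u)⁻¹) * (v a)⁻¹ = w u * x * (w u)⁻¹ := by
    rw [h.Vc _ (h.vV a) _ (h.Vn _ (h.wT u) x hx), mul_inv_cancel_right]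
  calc v a * w u * y b * z c * x * (v a * w u * y b * z c)⁻¹
      = v a * (w u * (y b * z c * x * (y b * z c)⁻¹) * (w u)⁻¹) * (v a)⁻¹ := by group
    _ = w u * x * (w u)⁻¹ := by rw [e1, e2]

theorem gy (h : G4 F T V Z s ψ0 ψ1 μ n ε θ v w y z) (g : Ω → Ω) (hg : AT F T V g) (a : K) :
    ∃ b, g (y a) = y b := by
  have hg' := h.gs g hg
  have hs := h.sh (θ.symm a)
  rw [θ.apply_symm_apply] at hs
  cases ε with
  | true =>
    have h1 := h.gZ _ hg' _ (h.zZ (θ.symm a))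
    obtain ⟨c, hc⟩ := h.Zz _ h1
    change s * z (θ.symm a) * s⁻¹ = y a at hs
    simp only [hs] at hc
    refine ⟨θ c, ?_⟩
    rw [← h.σσ _ (hg.mT _ (h.yT a)), hc]
    exact h.sh c
  | false =>
    have h1 := hg'.mV _ (h.yV (θ.symm a))
    change s * y (θ.symm a) * s⁻¹ = y a at hs
    simp only [hs] at h1
    have hx := hg.mV _ (h.yV a)
    obtain ⟨b, c, hc⟩ := Ynf h hx ((h.line _ hx).1 h1)
    exact ⟨b, by rw [hc, h.z1 rfl, mul_one]⟩

theorem μconj (h : G4 F T V Z s ψ0 ψ1 μ n ε θ v w y z) {t x : Ω} (ht : t ∈ T) (hx : x ∈ T) :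
    μ (t * x * t⁻¹) = μ x := by
  have e := h.μ_mul t ht t⁻¹ (inv_mem ht)
  rw [mul_inv_cancel, (h.kerV 1 (one_mem _)).2 (one_mem _)] at e
  rw [h.μ_mul _ (mul_mem ht hx) _ (inv_mem ht), h.μ_mul _ ht _ hx]
  linear_combination -e

end C5

theorem c5S : C5S.{u} := by
  intro Ω _ S _ F K _ _ _ _ T V Z s ψ0 ψ1 μ n ε θ v w y z h
  have hV := C5.spV h
  refine
    { toCo := h.toCo, chr := h.chr, four := h.four, le := h.le, sS := h.sS, sT := h.sT, gen := h.gen, θθ := h.θθ,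
      sv := h.sv, sw := h.sw, sy := h.sy, sh := h.sh, nV := ?_, sN := h.sN, σσ := h.σσ, ss := ?_, cen := ?_,
      Vn := ?_, mv := ?_, gs := ?_, gy := ?_, gz := ?_, tor0 := ?_ }
  · rw [hV]
    refine ⟨n, h.nM, fun a => ?_, h.ny, fun a => h.nZ _ (h.zZ a), fun f hf hf' => ?_⟩
    · rw [← h.ny a, h.nn _ (h.yV a)]
    · obtain ⟨g, hg, t, ht, e⟩ := h.bru f hf hf'
      obtain ⟨u, hu⟩ := C5.act h ht
      refine ⟨g, u, hg.mor, hg.mT, e.imp id fun e x hx => ?_⟩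
      rw [e x hx, hu x hx]
  · refine C5.Ynf h h.ss ((h.line _ h.ss).1 ?_)
    have : s * (s * s) * s⁻¹ = s * s := by group
    rw [this]
    exact h.ss
  · intro x hx hc
    exact C5.Ynf h (h.cen x hx hc).1 (h.cen x hx hc).2
  · rw [hV]
    exact h.Vn
  · rw [hV]
    intro g hg
    obtain ⟨t, ht, g', hg', e⟩ := h.mv g hg
    obtain ⟨u, hu⟩ := C5.act h ht
    refine ⟨u, fun a => ?_⟩
    obtain ⟨b, hb⟩ := C5.gy h g' hg' a
    refine ⟨b, ?_⟩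
    rw [← hu _ (hg.mV _ (h.vV a)), ← h.ny a, e _ (h.yV a), hb, h.ny]
  · rw [hV]
    exact h.gs
  · rw [hV]
    exact C5.gy h
  · rw [hV]
    exact fun g hg a => h.Zz _ (h.gZ g hg _ (h.zZ a))
  · rw [hV]
    intro c
    obtain ⟨k, hk, h1, h2, -⟩ := h.tor c
    refine ⟨k, hk, fun t ht a a' e => ?_, fun t ht a a' e => ?_⟩
    · rw [← h.v1 a', ← e, h.c1 t ht _ (hk.mV _ (h.vV a)), h1 _ (h.vV a), h.v1]
    · rw [← h.wμ a', ← e, C5.μconj h ht (hk.mT _ (h.wT a)), h2 _ (h.wT a), h.wμ]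

end CL.HK
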