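/-
Project HK, part C: the monomial form of the automorphisms of `T` that preserve `V`.
-/
import Cfsg.Agent.HK.CDefs

set_option autoImplicit false

open Cfsg Subgroup
open scoped commutatorElement

namespace CL.HK

open CL.Fus CL.Loc CL.Grp CL.Even

universe u

namespace C6

variable {Ω : Type u} [Group Ω] {K : Type} [Field K]

theorem add0 {f : K → Ω} (hf : ∀ a b, f (a + b) = f a * f b) : f 0 = 1 := by
  have := hf 0 0
  rw [add_zero] at this
  exact left_eq_mul.1 this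

theorem sq1 [CharP K 2] {f : K → Ω} (hf : ∀ a b, f (a + b) = f a * f b) (a : K) : f a * f a = 1 := by
  rw [← hf, CharTwo.add_self_eq_zero, add0 hf]

theorem eq_of_add [CharP K 2] {a b : K} (h : a + b = 0) : a = b := by
  rw [eq_neg_of_add_eq_zero_left h, CharTwo.neg_eq]

variable {ε : Bool} {T : Subgroup Ω} {v w y z : K → Ω}

theorem v_inj [CharP K 2] (h : Co ε T v w y z) {a b : K} (e : v a = v b) : a = b := by
  refine eq_of_add (h.uniq (a + b) 0 0 0 ?_).1
  rw [add0 h.w_add, add0 h.y_add, add0 h.z_add, h.v_add, e, sq1 h.v_add]; simp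

theorem w_inj [CharP K 2] (h : Co ε T v w y z) {a b : K} (e : w a = w b) : a = b := by
  refine eq_of_add (h.uniq 0 (a + b) 0 0 ?_).2.1
  rw [add0 h.v_add, add0 h.y_add, add0 h.z_add, h.w_add, e, sq1 h.w_add]; simp

theorem yz_inj [CharP K 2] (h : Co ε T v w y z) {b c b' c' : K} (e : y b * z c = y b' * z c') :
    b = b' ∧ (ε = true → c = c') := by
  have k : v 0 * w 0 * y (b + b') * z (c + c') = 1 := by
    rw [add0 h.v_add, add0 h.w_add, h.y_add, h.z_add, one_mul, one_mul]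
    calc y b * y b' * (z c * z c') = y b * (y b' * z c) * z c' := by group
      _ = (y b * z c) * (y b' * z c') := by rw [h.yc b' _ (h.zT c)]; group
      _ = y b' * (z c' * y b') * z c' := by rw [e]; group
      _ = (y b' * y b') * (z c' * z c') := by rw [← h.yc b' _ (h.zT c')]; group
      _ = 1 := by rw [sq1 h.y_add, sq1 h.z_add, one_mul]
  obtain ⟨-, -, h1, h2⟩ := h.uniq _ _ _ _ k
  exact ⟨eq_of_add h1, fun he => eq_of_add (h2 he)⟩

variable {S : Subgroup Ω} {F : FusionSystem S} [Fintype K] {θ : K ≃+* K} {s : Ω}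

theorem at_conj (h : Q0 F ε θ T v w y z s) {g : Ω → Ω} (hg : AT F T (sp v y z) g) {t : Ω} (ht : t ∈ T) :
    AT F T (sp v y z) fun x => t * g x * t⁻¹ :=
  ⟨hg.mor.comp (mor_conj F h.le (h.le ht)) hg.mT,
    fun x hx => mul_mem (mul_mem ht (hg.mT x hx)) (inv_mem ht), fun x hx => h.Vn t ht _ (hg.mV x hx)⟩

theorem mon_of (h : Q0 F ε θ T v w y z s) {g : Ω → Ω} (hg : AT F T (sp v y z) g)
    (hv : ∀ a, ∃ b, g (v a) = v b) (hw : ∀ a, ∃ b, g (w a) = w b) : ∃ p r τ, Mon v w y z p r τ g := by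
  have := h.chr
  have hc := h.toCo
  choose G1 e1 using hv
  choose G2 e2 using hw
  choose G0 e0 using h.gy g hg
  choose G3 e3 using h.gz g hg
  have hH := hg.mor.homOn
  have add1 : ∀ a b, G1 (a + b) = G1 a + G1 b := fun a b => v_inj hc (by
    rw [← e1, h.v_add, hH.map_mul (h.vT a) (h.vT b), e1, e1, h.v_add])
  have inj1 : Function.Injective G1 := fun a b e =>
    v_inj hc (hg.mor.injOn (h.vT a) (h.vT b) (by rw [e1, e1, e]))
  have z1 : G1 0 = 0 := by
    have := add1 0 0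
    rw [add_zero] at this
    exact left_eq_add.1 this
  have hp : G1 1 ≠ 0 := fun e => one_ne_zero (inj1 (e.trans z1.symm))
  have hr : G2 1 ≠ 0 := fun e => by
    have k : g (w 1) = g (w 0) := by rw [e2, e, add0 h.w_add, hH.map_one]
    exact one_ne_zero (w_inj hc (hg.mor.injOn (h.wT 1) (h.wT 0) k))
  have key : ∀ a u, G0 (a * u) = G1 a * G2 u ∧ (ε = true → G3 (a ^ 2 * u) = G1 a ^ 2 * G2 u) := fun a u =>
    yz_inj hc (by
      rw [← e0, ← e3, ← hH.map_mul (h.yT _) (h.zT _), ← h.com, hH.map_commutator (h.vT a) (h.wT u), e1, e2, h.com])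
  have k1 : ∀ a, G0 a = G1 a * G2 1 := fun a => by simpa using (key a 1).1
  have k2 : ∀ a, G2 a = G2 1 * (G1 a / G1 1) := fun a => by
    have := (key 1 a).1
    rw [one_mul, k1] at this
    field_simp
    linear_combination -this
  let τ0 : K →+* K :=
    { toFun := fun a => G1 a / G1 1
      map_one' := div_self hp
      map_mul' := fun a b => by
        have := (key a b).1
        rw [k1, k2 b] at this
        field_simp at this ⊢
        linear_combination this
      map_zero' := by rw [z1, zero_div]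
      map_add' := fun a b => by rw [add1, add_div] }
  have hτ : ∀ a, RingEquiv.ofBijective τ0 (Finite.injective_iff_bijective.1 τ0.injective) a = G1 a / G1 1 :=
    fun _ => rfl
  refine ⟨Units.mk0 _ hp, Units.mk0 _ hr, RingEquiv.ofBijective τ0 (Finite.injective_iff_bijective.1 τ0.injective),
    fun a => ?_, fun a => ?_, fun a => ?_, fun a => ?_⟩
  · rw [e1, hτ, Units.val_mk0, mul_div_cancel₀ _ hp]
  · rw [e2, hτ, Units.val_mk0, ← k2]
  · rw [e0, hτ, Units.val_mk0, Units.val_mk0, k1]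
    congr 1
    field_simp
  · cases he : ε
    · rw [h.z1 he, h.z1 he, hH.map_one]
    · have := (key 1 a).2 he
      rw [one_pow, one_mul, k2 a] at this
      rw [e3, hτ, Units.val_mk0, Units.val_mk0, this, mul_assoc]

theorem mon (h : Q0 F ε θ T v w y z s) {g : Ω → Ω} (hg : AT F T (sp v y z) g) :
    ∃ t ∈ T, ∃ p r τ, Mon v w y z p r τ fun x => t * g x * t⁻¹ := by
  obtain ⟨u1, h1⟩ := h.mv g hg
  have hg1 := at_conj h hg (h.wT u1)
  obtain ⟨u2, h2⟩ := h.mv _ (h.gs _ hg1)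
  have ht : v (θ u2) * w u1 ∈ T := mul_mem (h.vT _) (h.wT _)
  refine ⟨_, ht, mon_of h (at_conj h hg ht) (fun a => ?_) fun a => ?_⟩
  · obtain ⟨b, hb⟩ := h1 a
    refine ⟨b, ?_⟩
    calc v (θ u2) * w u1 * g (v a) * (v (θ u2) * w u1)⁻¹
        = v (θ u2) * (w u1 * g (v a) * (w u1)⁻¹) * (v (θ u2))⁻¹ := by group
      _ = v (θ u2) * v b * (v (θ u2))⁻¹ := by rw [hb]
      _ = v b := by rw [← h.v_add, add_comm, h.v_add, mul_inv_cancel_right]
  · obtain ⟨b, hb⟩ := h2 (θ a)
    refine ⟨θ b ^ ex ε, ?_⟩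
    rw [h.sv, h.θθ] at hb
    have k := h.σσ _ (hg1.mT _ (h.wT a))
    rw [← h.sv, ← hb, ← h.sw]
    calc s * w u2 * s⁻¹ * w u1 * g (w a) * (s * w u2 * s⁻¹ * w u1)⁻¹
        = s * w u2 * s⁻¹ * (w u1 * g (w a) * (w u1)⁻¹) * (s * w u2 * s⁻¹)⁻¹ := by group
      _ = s * w u2 * s⁻¹ * (s * (s * (w u1 * g (w a) * (w u1)⁻¹) * s⁻¹) * s⁻¹) * (s * w u2 * s⁻¹)⁻¹ := by rw [k]
      _ = _ := by group

end C6

theorem c6S : C6S.{u} := by
  intro Ω _ S _ F K _ _ _ _ ε θ T v w y z s h
  refine ⟨h, fun g h1 h2 h3 => C6.mon h ⟨h1, h2, h3⟩, fun c => ?_⟩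
  obtain ⟨k, hk, k1, k2⟩ := h.tor0 c
  obtain ⟨t, ht, p, r, τ, hm⟩ := C6.mon h hk
  have e1 := fun a => k1 t ht a _ (hm.v a)
  have e2 := fun a => k2 t ht a _ (hm.w a)
  have hp : p = c⁻¹ := Units.ext (by simpa using e1 1)
  have hr : r = c ^ 2 := Units.ext (by simpa using e2 1)
  have hτ : τ = RingEquiv.refl K := RingEquiv.ext fun a => by
    have := e1 a
    rw [hp] at this
    exact mul_left_cancel₀ (Units.ne_zero _) this
  subst hp hr hτ
  exact ⟨_, (C6.at_conj h hk ht).mor, hm⟩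

end CL.HK
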