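/-
Project HK, part C, step 7: extension of monomial maps to `S` and uniqueness of extensions.
-/
import Cfsg.Agent.HK.CDefs

set_option autoImplicit false

open Cfsg Subgroup
open scoped commutatorElement

namespace CL.HK

open CL.Fus CL.Loc CL.Grp CL.Even

universe u

theorem c7S : C7S.{u} := by
  intro Ω _ S _ F K _ _ hS hF ε θ T v w y z s h
  have : Fact (Nat.Prime 2) := ⟨Nat.prime_two⟩
  have gen : ∀ X : Subgroup Ω, T ≤ X → s ∈ X → S ≤ X := fun X h1 h2 x hx =>
    (h.gen x hx).elim (fun e => h1 e) fun e => (X.mul_mem_cancel_right h2).1 (h1 e)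
  have sN : s ∈ 𝒩(T) := mem_normalizer_iff.2 fun t => ⟨h.sN t, fun ht => by
    have e := h.σσ _ ht
    rw [mul_left_inj, mul_right_inj] at e
    exact e ▸ h.sN _ ht⟩
  have fn := isFullyNormalized_of_normalizerIn_eq F h.le (gen _ le_normalizer sN)
  have cen : F.IsCentric T := centric_of_fullyCentralized (fullyCentralized_of_fullyNormalized hS hF fn) fun x hx => by
    obtain ⟨b, c, rfl⟩ := h.cen x hx.1 fun t ht => (hx.2 t ht).symm
    exact mul_mem (h.yT b) (h.zT c)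
  refine ⟨fun p r τ g hg hm hs => ?_, fun g g' hg hg' e => ?_⟩
  · have gT : ∀ t ∈ T, g t ∈ T := fun t ht => by
      obtain ⟨a, u, b, c, rfl⟩ := h.nf t ht
      rw [hg.homOn.map_mul (mul_mem (mul_mem (h.vT a) (h.wT u)) (h.yT b)) (h.zT c),
        hg.homOn.map_mul (mul_mem (h.vT a) (h.wT u)) (h.yT b), hg.homOn.map_mul (h.vT a) (h.wT u), hm.v, hm.w, hm.y,
        hm.z]
      exact mul_mem (mul_mem (mul_mem (h.vT _) (h.wT _)) (h.yT _)) (h.zT _)
    have im := hg.img_eq_self le_rfl gT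
    obtain ⟨g', hg', e⟩ := hg.extend (im.symm ▸ receptive_of_fullyNormalized hS hF fn)
    replace hg' := hg'.mono (gen _ hg.le_extenderF (mem_extenderF.2 ⟨h.sS, sN, s, h.sS, hs⟩))
    obtain ⟨b, c, k⟩ := h.cen (s⁻¹ * g' s) (mul_mem (inv_mem h.sS) (hg'.mem h.sS)) fun t ht => by
      obtain ⟨x, hx, rfl⟩ := hg.homOn.mem_img.1 (im.ge ht)
      have k := hg'.homOn.map_conj h.sS (h.le hx)
      rw [e _ (h.sN x hx), e x hx, hs x hx] at k
      calc _ = s⁻¹ * (g' s * g x * (g' s)⁻¹) * g' s := by group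
        _ = _ := by rw [← k]; group
    exact ⟨g', hg', e, b, c, by rw [← k, mul_inv_cancel_left]⟩
  · obtain ⟨x, hx, h1, h2⟩ := hg.exists_conj_of_eq_on hS hF hg' h.le cen e
    obtain ⟨b, c, rfl⟩ := h.cen x (h.le hx) fun t ht => (h1 t ht).symm
    exact ⟨b, c, h2⟩

end CL.HK
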