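/-
Project HK, part C: the choice of an involution in the coset of `s` (the free case).
-/
import Cfsg.Agent.HK.CDefs

set_option autoImplicit false

open Cfsg Subgroup
open scoped commutatorElement

namespace CL.HK

open CL.Fus CL.Loc CL.Grp CL.Even

universe u

namespace C8

theorem core {Ω : Type u} [Group Ω] (Y : Ω → Prop) (s : Ω) (mul : ∀ a b, Y a → Y b → Y (a * b))
    (sq : ∀ a, Y a → a * a = 1) (sig : ∀ a, Y a → Y (s * a * s⁻¹))
    (free : ∀ a, Y a → s * a * s⁻¹ = a → ∃ b, Y b ∧ a = b * (s * b * s⁻¹)) (ss : Y (s * s)) :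
    ∃ b, Y b ∧ s * b * (s * b) = 1 ∧ ∀ c, Y c → s * c * (s * c) = 1 → ∃ e, Y e ∧ e * (s * c) * e⁻¹ = s * b := by
  have inv : ∀ a, Y a → a⁻¹ = a := fun a ha => inv_eq_of_mul_eq_one_right (sq a ha)
  have cm : ∀ a b, Y a → Y b → a * b = b * a := fun a b ha hb => by
    rw [← inv _ (mul a b ha hb), mul_inv_rev, inv a ha, inv b hb]
  have key : ∀ c, Y c → (s * c * (s * c) = 1 ↔ s * s = c * (s * c * s⁻¹)) := fun c hc => by
    have e : s * c * (s * c) = (s * s) * (c * (s * c * s⁻¹)) := by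
      rw [cm c _ hc (sig c hc), ← mul_assoc (s * s), cm _ _ ss (sig c hc)]; group
    rw [e, mul_eq_one_iff_eq_inv, inv _ (mul _ _ hc (sig c hc))]
  obtain ⟨b, hb, e⟩ := free _ ss (by group)
  refine ⟨b, hb, (key b hb).2 e, fun c hc h => ?_⟩
  have e' := (key c hc).1 h
  have h1 : s * (b * c) * s⁻¹ = b * c := by
    have h2 : s * b * s⁻¹ = b * (s * s) := by rw [e, ← mul_assoc b b, sq b hb, one_mul]
    have h3 : s * c * s⁻¹ = s * s * c := by rw [← cm _ _ hc ss, e', ← mul_assoc c c, sq c hc, one_mul]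
    calc s * (b * c) * s⁻¹ = (s * b * s⁻¹) * (s * c * s⁻¹) := by group
      _ = b * (s * s * (s * s)) * c := by rw [h2, h3]; group
      _ = b * c := by rw [sq _ ss, mul_one]
  obtain ⟨d, hd, e2⟩ := free _ (mul b c hb hc) h1
  refine ⟨d, hd, ?_⟩
  have h4 : d * s = s * (s * d * s⁻¹) := by
    calc d * s = d * (s * s) * s⁻¹ := by group
      _ = _ := by rw [cm _ _ hd ss]; group
  calc d * (s * c) * d⁻¹ = d * s * (c * d) := by rw [inv d hd]; group
    _ = s * ((s * d * s⁻¹) * d) * c := by rw [h4, cm c d hc hd]; group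
    _ = s * b * (c * c) := by rw [← cm d _ hd (sig d hd), ← e2]; group
    _ = s * b := by rw [sq c hc, mul_one]

variable {Ω : Type u} [Group Ω] {K : Type} [Field K]

theorem zero {y : K → Ω} (h : ∀ a b, y (a + b) = y a * y b) : y 0 = 1 := by
  have := h 0 0
  rw [add_zero] at this
  exact mul_eq_left.1 this.symm

theorem mulf {ε : Bool} {T : Subgroup Ω} {v w y z : K → Ω} (h : Co ε T v w y z) (b c b' c' : K) :
    y b * z c * (y b' * z c') = y (b + b') * z (c + c') := by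
  rw [h.y_add, h.z_add, mul_assoc, mul_assoc, ← mul_assoc (z c), h.zc c _ (h.yT b'), mul_assoc]

end C8

open C8

theorem c8S : C8S.{u} := by
  intro Ω _ S _ F K _ _ _ _ ε θ T v w y z s h hE hd
  have := h.chr
  have co : Co ε T v w y z := h.toCo
  have y0 := zero h.y_add
  have z0 := zero h.z_add
  have sq : ∀ b c, y b * z c * (y b * z c) = 1 := fun b c => by
    rw [mulf co, CharTwo.add_self_eq_zero, CharTwo.add_self_eq_zero, y0, z0, mul_one]
  have cj2 : ∀ b c, s * (y b * z c) * s⁻¹ = (s * y b * s⁻¹) * (s * z c * s⁻¹) := fun b c => by group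
  obtain ⟨_, ⟨b, c, rfl⟩, h1, h2⟩ := core (fun x => ∃ b c, x = y b * z c) s
    (by rintro _ _ ⟨b, c, rfl⟩ ⟨b', c', rfl⟩; exact ⟨_, _, mulf co ..⟩) (by rintro _ ⟨b, c, rfl⟩; exact sq b c)
    (by
      rintro _ ⟨b, c, rfl⟩
      cases ε
      · exact ⟨θ b ^ 1, c, by rw [cj2, h.sy, h.z1 rfl, mul_one, mul_inv_cancel]; rfl⟩
      · exact ⟨θ c, θ b ^ 2, by rw [cj2, h.sy, ← h.zc _ _ (h.yT _)]; exact congrArg _ (h.sh c)⟩)
    (by
      rintro _ ⟨b, c, rfl⟩ e
      cases ε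
      · obtain ⟨d, hd⟩ := hd.resolve_left (by decide)
        have t2 : ∀ a, θ (θ a) = a := fun a => by simpa [ex] using h.θθ a
        have sy : ∀ a, s * y a * s⁻¹ = y (θ a) := fun a => h.sh a
        rw [h.z1 rfl, mul_one, sy] at e
        have e1 : θ b + b = 0 := (h.uniq 0 0 _ 0 (by
          rw [zero h.v_add, zero h.w_add, z0, one_mul, one_mul, mul_one, h.y_add, e, ← h.y_add,
            CharTwo.add_self_eq_zero, y0])).2.2.1
        have e2 : θ b = b := by rw [← CharTwo.neg_eq b]; nth_rewrite 1 [CharTwo.neg_eq b]; exact eq_neg_of_add_eq_zero_left e1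
        have d0 : d + θ d ≠ 0 := fun k => hd (by rw [eq_neg_of_add_eq_zero_right k, CharTwo.neg_eq])
        refine ⟨y (b * d / (d + θ d)) * z 0, ⟨_, _, rfl⟩, ?_⟩
        rw [h.z1 rfl, z0, mul_one, mul_one, sy, ← h.y_add, map_div₀, map_mul, map_add, t2, e2, add_comm (θ d) d,
          ← add_div, ← mul_add, mul_div_assoc, div_self d0, mul_one]
      · have sz : ∀ a, s * z a * s⁻¹ = y (θ a) := fun a => h.sh a
        have sy : ∀ a, s * y a * s⁻¹ = z (θ a ^ 2) := fun a => h.sy a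
        rw [cj2, sy, sz, h.zc _ _ (h.yT _)] at e
        have e1 : θ c + b = 0 := (h.uniq 0 0 _ (θ b ^ 2 + c) (by
          rw [zero h.v_add, zero h.w_add, one_mul, one_mul, ← mulf co, e, sq])).2.2.1
        have e2 : θ c = b := by rw [eq_neg_of_add_eq_zero_left e1, CharTwo.neg_eq]
        refine ⟨y 0 * z c, ⟨_, _, rfl⟩, ?_⟩
        rw [y0, one_mul, sz, e2, h.zc _ _ (h.yT _)])
    h.ss
  refine ⟨b, c, h1, fun p r τ g hg hm hs => ?_⟩
  obtain ⟨g', m', a', b', c', e'⟩ := hE p r τ g hg hm hs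
  have yzT : ∀ b c, y b * z c ∈ T := fun b c => T.mul_mem (h.yT b) (h.zT c)
  have e1 : g' (s * (y b * z c)) = s * (y (b' + p * r * τ b) * z (c' + p ^ 2 * r * τ c)) := by
    rw [m'.homOn.map_mul h.sS (h.le (yzT b c)), e', a' _ (yzT b c), hg.homOn.map_mul (h.yT b) (h.zT c), hm.y, hm.z,
      mul_assoc s, mulf co]
  have sS : s * (y b * z c) ∈ S := S.mul_mem h.sS (h.le (yzT b c))
  obtain ⟨_, ⟨b2, c2, rfl⟩, e2⟩ := h2 _ ⟨_, _, rfl⟩ (by rw [← e1, ← m'.homOn.map_mul sS sS, h1, m'.homOn.map_one])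
  refine ⟨fun x => y b2 * z c2 * g' x * (y b2 * z c2)⁻¹,
    m'.comp (mor_conj F le_rfl (h.le (yzT b2 c2))) fun x hx => m'.mem hx, fun t ht => ?_, by rw [← e1] at e2; exact e2⟩
  have gT : g t ∈ T := by
    obtain ⟨a, u, b, c, rfl⟩ := h.nf t ht
    rw [hg.homOn.map_mul (T.mul_mem (T.mul_mem (h.vT a) (h.wT u)) (h.yT b)) (h.zT c),
      hg.homOn.map_mul (T.mul_mem (h.vT a) (h.wT u)) (h.yT b), hg.homOn.map_mul (h.vT a) (h.wT u), hm.v, hm.w, hm.y,
      hm.z]
    exact T.mul_mem (T.mul_mem (T.mul_mem (h.vT _) (h.wT _)) (h.yT _)) (h.zT _)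
  show y b2 * z c2 * g' t * (y b2 * z c2)⁻¹ = g t
  rw [a' t ht, mul_assoc (y b2), h.zc _ _ gT, ← mul_assoc, h.yc _ _ gT, mul_assoc (g t), mul_inv_cancel_right]

end CL.HK
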