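/-
Project HK, part C: the choice of `s` for `L₃(q)` with trivial field part.
-/
import Cfsg.Agent.HK.CDefs

set_option autoImplicit false
set_option linter.unusedSectionVars false

open Cfsg Subgroup
open scoped commutatorElement

namespace CL.HK

open CL.Fus CL.Loc CL.Grp CL.Even

universe u

namespace C9x

variable {Ω : Type u} [Group Ω] {S : Subgroup Ω} {K : Type} [Field K] [Fintype K] {F : FusionSystem S} {θ : K ≃+* K}
  {T : Subgroup Ω} {v w y z : K → Ω} {s : Ω}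

theorem zero {f : K → Ω} (h : ∀ a b, f (a + b) = f a * f b) : f 0 = 1 := by simpa using h 0 0

theorem exists_c (h : 4 ≤ Fintype.card K) : ∃ c : Kˣ, (c : K) ≠ 1 := by
  obtain ⟨a, b, c, h1, h2, h3⟩ := Fintype.two_lt_card_iff.1 (show 2 < Fintype.card K by omega)
  obtain ⟨d, d0, d1⟩ : ∃ d : K, d ≠ 0 ∧ d ≠ 1 := by
    by_contra! k
    have k' : ∀ d : K, d = 0 ∨ d = 1 := fun d => or_iff_not_imp_left.2 (k d)
    rcases k' a with rfl | rfl <;> rcases k' b with rfl | rfl <;> rcases k' c with rfl | rfl <;> contradiction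
  exact ⟨Units.mk0 d d0, d1⟩

variable (h : Q1 F false θ T v w y z s) (hθ : ∀ d, θ d = d)
include h

theorem z1 (c : K) : z c = 1 := h.z1 rfl c

theorem yy (b : K) : y b * y b = 1 := by
  have := h.chr
  rw [← h.y_add, CharTwo.add_self_eq_zero, zero h.y_add]

theorem y_inj {a b : K} (e : y a = y b) : a = b := by
  have := h.chr
  have k := (h.uniq 0 0 (a + b) 0 (by rw [zero h.v_add, zero h.w_add, z1 h, h.y_add, e, yy h]; simp)).2.2.1
  rwa [add_eq_zero_iff_eq_neg, CharTwo.neg_eq] at k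

theorem extT {f g : Ω → Ω} (hf : HomOn T f) (hg : HomOn T g) (h1 : ∀ a, f (v a) = g (v a)) (h2 : ∀ a, f (w a) = g (w a))
    (h3 : ∀ a, f (y a) = g (y a)) : ∀ t ∈ T, f t = g t := fun t ht => by
  obtain ⟨a, u, b, c, rfl⟩ := h.nf t ht
  rw [z1 h, mul_one, hf.map_mul (mul_mem (h.vT a) (h.wT u)) (h.yT b), hf.map_mul (h.vT a) (h.wT u),
    hg.map_mul (mul_mem (h.vT a) (h.wT u)) (h.yT b), hg.map_mul (h.vT a) (h.wT u), h1, h2, h3]

theorem mapT {g : Ω → Ω} {p r : Kˣ} {τ : K ≃+* K} (hg : HomOn T g) (m : Mon v w y z p r τ g) : ∀ t ∈ T, g t ∈ T :=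
  fun t ht => by
  obtain ⟨a, u, b, c, rfl⟩ := h.nf t ht
  rw [z1 h, mul_one, hg.map_mul (mul_mem (h.vT a) (h.wT u)) (h.yT b), hg.map_mul (h.vT a) (h.wT u), m.v, m.w, m.y]
  exact mul_mem (mul_mem (h.vT _) (h.wT _)) (h.yT _)

theorem ext' (hE : EX F T v w y z s) {g : Ω → Ω} {p r : Kˣ} {τ : K ≃+* K} (hg : Mor F T g) (m : Mon v w y z p r τ g)
    (k : ∀ t ∈ T, g (s * t * s⁻¹) = s * g t * s⁻¹) :
    ∃ g', Mor F S g' ∧ (∀ t ∈ T, g' t = g t) ∧ Mon v w y z p r τ g' ∧ ∃ b, g' s = s * y b := by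
  obtain ⟨g', h1, h2, b, c, h3⟩ := hE p r τ g hg m k
  exact ⟨g', h1, h2, ⟨fun a => (h2 _ (h.vT a)).trans (m.v a), fun a => (h2 _ (h.wT a)).trans (m.w a),
    fun a => (h2 _ (h.yT a)).trans (m.y a), fun a => (h2 _ (h.zT a)).trans (m.z a)⟩, b, by rw [h3, z1 h, mul_one]⟩

include hθ

theorem sv (a : K) : s * v a * s⁻¹ = w a := by rw [h.sv, hθ]; simp [ex]
theorem sw (a : K) : s * w a * s⁻¹ = v a := by rw [h.sw, hθ]
theorem sy (a : K) : s * y a * s⁻¹ = y a := by rw [h.sy, hθ]; simp [ex, hz]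

theorem yS (b : K) {x : Ω} (hx : x ∈ S) : y b * x = x * y b := by
  rcases h.gen x hx with k | k
  · exact h.yc b x k
  · have := h.yc b _ k
    rw [mul_assoc x, mul_inv_eq_iff_eq_mul.1 (sy h hθ b), ← mul_assoc, ← mul_assoc] at this
    exact mul_right_cancel this

theorem un (hU : UN F T y z) {g g' : Ω → Ω} (hg : Mor F S g) (hg' : Mor F S g') (k : ∀ t ∈ T, g t = g' t) {x : Ω}
    (hx : x ∈ S) : g' x = g x := by
  obtain ⟨b, c, e⟩ := hU g g' hg hg' k
  rw [e x hx, z1 h, mul_one, yS h hθ b hx, mul_inv_cancel_right]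

theorem cs {g : Ω → Ω} {p : Kˣ} {τ : K ≃+* K} (hg : HomOn T g) (m : Mon v w y z p p τ g) :
    ∀ t ∈ T, g (s * t * s⁻¹) = s * g t * s⁻¹ :=
  extT h ((homOn_conj T s).comp hg h.sN) (hg.comp (homOn_conj T s) (mapT h hg m))
    (fun a => by rw [sv h hθ, m.w, m.v, sv h hθ]) (fun a => by rw [sw h hθ, m.w, m.v, sw h hθ])
    fun a => by rw [sy h hθ, m.y, sy h hθ]

theorem kap (hE : EX F T v w y z s) (d : Kˣ) :
    ∃ g, Mor F S g ∧ Mon v w y z d d (RingEquiv.refl K) g ∧ ∃ b, g s = s * y b := by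
  obtain ⟨g, hg, m⟩ := h.tor d
  have c := mor_conj F h.le h.sS
  have mT := mapT h hg.homOn m
  have k1 : Mor F T fun x => g (s * g (s * x * s⁻¹) * s⁻¹) :=
    ((c.comp hg h.sN).comp c fun x hx => mT _ (h.sN x hx)).comp hg fun x hx => h.sN _ (mT _ (h.sN x hx))
  have k2 : Mon v w y z d d (RingEquiv.refl K) fun x => g (s * g (s * x * s⁻¹) * s⁻¹) := by
    refine ⟨fun a => ?_, fun a => ?_, fun a => ?_, fun a => ?_⟩
    · simp only [sv h hθ, m.w, sw h hθ, m.v]; congr 1; simp [sq, mul_assoc]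
    · simp only [sw h hθ, m.v, sv h hθ, m.w]; congr 1; simp [sq, mul_assoc]
    · simp only [sy h hθ, m.y]; congr 1; simp [sq, mul_assoc]
    · simp [z1 h, hg.homOn.map_one]
  obtain ⟨g', h1, -, h2⟩ := ext' h hE k1 k2 (cs h hθ k1.homOn k2)
  exact ⟨g', h1, h2⟩

theorem fix (hU : UN F T y z) {c d p r : Kˣ} {τ : K ≃+* K} {b e : K} {g a a' : Ω → Ω} (hc : (c : K) * c ≠ 1)
    (hg : Mor F S g) (mg : Mon v w y z c c (RingEquiv.refl K) g) (fg : g (s * y b) = s * y b)
    (ha : Mor F S a) (ma : Mon v w y z p r τ a) (sa : a s = s * y e)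
    (ha' : Mor F S a') (ma' : Mon v w y z d d (RingEquiv.refl K) a') (fa : a' (s * y b) = s * y b) (hd : τ d = c) :
    a (s * y b) = s * y b := by
  have yS' : ∀ b, y b ∈ S := fun b => h.le (h.yT b)
  have m : s * y b ∈ S := mul_mem h.sS (yS' b)
  have k1 : a (s * y b) = s * y b * y (b + (e + p * r * τ b)) := by
    rw [ha.homOn.map_mul h.sS (yS' b), sa, ma.y, h.y_add, h.y_add, mul_assoc s (y b), ← mul_assoc (y b), yy h, one_mul,
      mul_assoc]
  generalize b + (e + p * r * τ b) = e' at k1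
  have k2 := ha'.comp ha fun x hx => ha'.mem hx
  have k3 := ha.comp hg fun x hx => ha.mem hx
  have k4 := un h hθ hU k2 k3 (extT h (k2.homOn.mono h.le) (k3.homOn.mono h.le)
    (fun x => by simp only [ma'.v, ma.v, mg.v]; congr 1; simp [hd, mul_left_comm])
    (fun x => by simp only [ma'.w, ma.w, mg.w]; congr 1; simp [hd, mul_left_comm])
    fun x => by simp only [ma'.y, ma.y, mg.y]; congr 1; simp [hd, mul_left_comm, mul_assoc]) m
  simp only [fa, k1] at k4
  rw [hg.homOn.map_mul m (yS' e'), fg, mg.y] at k4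
  have k5 : (c * c - 1) * e' = 0 := by
    have := y_inj h (mul_left_cancel k4)
    simp only [RingEquiv.refl_apply] at this
    linear_combination this
  rw [k1, (mul_eq_zero.1 k5).resolve_left (sub_ne_zero.2 hc), zero h.y_add, mul_one]

end C9x

open C9x in
theorem c9S : C9S.{u} := by
  intro Ω _ S _ F K _ _ _ _ θ T v w y z s h hE hU hθ
  have := h.chr
  obtain ⟨c, c1⟩ := exists_c h.four
  have hc : (c : K) * c ≠ 1 := fun e => by
    rcases mul_self_eq_one_iff.1 e with k | k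
    exacts [c1 k, c1 (k.trans (CharTwo.neg_eq 1))]
  have hc' : (1 : K) + c * c ≠ 0 := fun e => hc (by rw [← CharTwo.neg_eq (c * c : K)]; linear_combination -e)
  obtain ⟨g, hg, mg, η, sg⟩ := kap h hθ hE c
  have sys : ∀ b, s * y b * (s * y b) = s * s := fun b => by
    rw [mul_assoc, ← mul_assoc (y b), yS h hθ b h.sS, mul_assoc, yy h, mul_one]
  have ss : s * s = 1 := by
    obtain ⟨b, c', e⟩ := h.ss
    rw [z1 h, mul_one] at e
    have k := hg.homOn.map_mul h.sS h.sS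
    rw [sg, sys, e, mg.y] at k
    have k5 : (c * c - 1) * b = 0 := by
      have := y_inj h k
      simp only [RingEquiv.refl_apply] at this
      linear_combination this
    rw [e, (mul_eq_zero.1 k5).resolve_left (sub_ne_zero.2 hc), zero h.y_add]
  have fg : g (s * y (η / (1 + c * c))) = s * y (η / (1 + c * c)) := by
    rw [hg.homOn.map_mul h.sS (h.le (h.yT _)), sg, mg.y, mul_assoc, ← h.y_add]
    congr 2
    rw [RingEquiv.refl_apply, eq_div_iff hc', add_mul, mul_assoc, div_mul_cancel₀ _ hc']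
    linear_combination CharTwo.add_self_eq_zero (c * c * η : K)
  refine ⟨η / (1 + c * c), 0, ?_⟩
  rw [z1 h, mul_one]
  refine ⟨(sys _).trans ss, fun p r τ g1 h1 m1 k1 => ?_⟩
  obtain ⟨a, ha, ea, ma, e, sa⟩ := ext' h hE h1 m1 k1
  obtain ⟨a', ha', ma', e', sa'⟩ := kap h hθ hE (Units.map (τ.symm : K →* K) c)
  exact ⟨a, ha, ea, fix h hθ hU hc hg mg fg ha ma sa ha' ma'
    (fix h hθ hU hc hg mg fg ha' ma' sa' hg mg fg rfl) (by simp)⟩

end CL.HK
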