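/-
Project HK, part C: the Weyl element and the torus.
-/
import Cfsg.Agent.HK.CDefs
import Cfsg.Agent.Loc.ElemAb

set_option autoImplicit false

open Cfsg Subgroup
open scoped commutatorElement

namespace CL.HK

open CL.Fus CL.Loc CL.Grp CL.Even Matrix

universe u

namespace CAx

theorem diag_up {K : Type} [Field K] {c : K} (hc : c ≠ 0) (a : K) :
    (sl2Diag hc * sl2Up a * (sl2Diag hc)⁻¹).1 0 1 = c ^ 2 * (sl2Up a).1 0 1 := by
  have e : sl2Diag hc * sl2Up a = sl2Up (c ^ 2 * a) * sl2Diag hc := sl2_ext fun v => by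
    rw [sl2_mul_mulVec, sl2_mul_mulVec, sl2Up_mulVec, sl2Diag_mulVec, sl2Diag_mulVec, sl2Up_mulVec]
    ext i
    fin_cases i
    · simp; field_simp
    · simp
  have k : ∀ b : K, (sl2Up b).1 0 1 = b := fun b => by
    have := congrFun (sl2Up_mulVec b ![0, 1]) 0
    rw [sl2_mulVec_zero] at this
    simpa using this
  rw [e, mul_inv_cancel_right, k, k]

variable {Ω : Type u} [Group Ω] {S : Subgroup Ω} {K : Type} [Field K] [Fintype K] {M : Type u} [Group M]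
  {T V Z : Subgroup Ω} {ι : T →* M} {L : Subgroup M} {N : NatSec K L (pCore 2 M) (pCore 2 M ⊓ 𝒞(L))}
  {F : FusionSystem S} {s : Ω} (h : EQ F T V Z s K ι L N)
include h

theorem memU {x : Ω} (hx : x ∈ V) : ext ι x ∈ pCore 2 M := (h.imV x (h.leV hx)).1 hx

theorem commU {u : M} (hu : u ∈ pCore 2 M) {x : Ω} (hx : x ∈ V) : u * ext ι x = ext ι x * u := by
  obtain ⟨t, rfl⟩ := h.coreT hu
  rw [← ext_coe ι t] at hu ⊢
  have ht := (h.imV t t.2).2 hu
  rw [← (homOn_ext ι).map_mul t.2 (h.leV hx), ← (homOn_ext ι).map_mul (h.leV hx) t.2, ea_mul_comm h.ea ht hx]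

theorem fixZ {g : M} (hg : g ∈ L) {x : Ω} (hx : x ∈ Z) : pb ι g x = x := by
  obtain ⟨hV, hc⟩ := (h.imZ x).1 hx
  refine h.ext_inj (h.leV (h.pbV g hV).1) (h.leV hV) ?_
  rw [(h.pbV g hV).2, comm_of_mem hc hg, mul_inv_cancel_right]

theorem psi {g : M} (hg : g ∈ L) {x : Ω} (hx : x ∈ V) : N.ψ (ext ι (pb ι g x)) = (N.r g).1 *ᵥ N.ψ (ext ι x) := by
  rw [(h.pbV g hx).2, N.ψ_conj g hg _ (memU h hx)]

end CAx

open CAx in
theorem cAS : CAS.{u} := by
  intro Ω _ S _ F T V Z s K _ _ M _ _ ι L N h l ν hl hν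
  obtain ⟨hν, hr⟩ := hν
  refine ⟨h.morV ν, fun x hx => (h.pbV ν hx).1, fun x hx => ?_, fun x hx => ?_, fun x hx => ?_,
    fun x hx => fixZ h hν hx, fun g hg x hx => ?_, fun c => ?_⟩
  · rw [p0, p1, psi h hν hx, sl2_mulVec_zero, hr]
    simp [mul_inv_cancel_left₀ hl]
  · rw [p0, p1, psi h hν hx, sl2_mulVec_one, hr]
    simp
  · have k : ν * ν ∈ pCore 2 M := h.ker.le (N.mem_ker.2 ⟨L.mul_mem hν hν, by
      rw [N.r_mul ν hν ν hν]
      refine Subtype.ext ?_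
      rw [Matrix.SpecialLinearGroup.coe_mul, hr, Matrix.SpecialLinearGroup.coe_one]
      ext i j
      fin_cases i <;> fin_cases j <;> simp [hl]⟩)
    have h1 := h.pbV ν hx
    have h2 := h.pbV ν h1.1
    refine h.ext_inj (h.leV h2.1) (h.leV hx) ?_
    rw [h2.2, h1.2, show ν * (ν * ext ι x * ν⁻¹) * ν⁻¹ = ν * ν * ext ι x * (ν * ν)⁻¹ by group, commU h k hx,
      mul_inv_cancel_right]
  · obtain ⟨m, -, hm⟩ := h.of_at hg
    obtain ⟨hV, hc⟩ := (h.imZ x).1 hx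
    refine (h.imZ _).2 ⟨hg.mV x hV, ?_⟩
    rw [hm x (h.leV hV)]
    haveI := h.normal
    exact conj_mem (norm_le_norm_cent L (le_normalizer_of_normal (mem_top m))) hc
  · obtain ⟨k, hk, e⟩ := N.r_surj (sl2Diag c.ne_zero)
    have kn : k ∈ 𝒩(ι.range) := h.up ▸ (N.mem_norm_up_iff hk).2 ((N.mem_norm_line_iff hk).2 (by rw [e]; rfl))
    refine ⟨pb ι k, h.at kn, fun x hx => ?_, fun t ht => ?_, fun x hx => fixZ h hk hx⟩
    · rw [p1, p1, psi h hk hx, e, sl2Diag_mulVec]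
      simp
    · obtain ⟨hL, a, ha⟩ := N.mem_up.1 (h.up.ge (ext_mem_range ι ht))
      rw [pm, pm, (h.pbT kn ht).2, N.r_conj hk hL, e, ← ha, diag_up]
      ring

end CL.HK
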