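/-
Project HK, part C: the Bruhat decomposition of the automizer of `V`.
-/
import Cfsg.Agent.HK.CDefs

set_option autoImplicit false

open Cfsg Subgroup
open scoped commutatorElement

namespace CL.HK

open CL.Fus CL.Loc CL.Grp CL.Even

universe u

namespace CBx

theorem bruhat {G K : Type*} [Group G] [Field K] {E U U₀ : Subgroup G} (N : NatSec K E U U₀) {e κ : G} (he : e ∈ E)
    (hκ : κ ∈ E) (h1 : (N.r e).1 1 0 ≠ 0) (h2 : (N.r κ).1 0 0 = 0) : ∃ t ∈ N.up, e * t⁻¹ * κ ∈ 𝒩(N.up) := by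
  obtain ⟨t, ht, e1⟩ := N.r_surj (sl2Up (-((N.r e).1 1 1 / (N.r e).1 1 0)))
  have hm := mul_mem (mul_mem he ht) hκ
  refine ⟨t⁻¹, inv_mem (N.mem_up.2 ⟨ht, _, e1.symm⟩), ?_⟩
  rw [inv_inv, N.mem_norm_up_iff hm, N.mem_norm_line_iff hm, N.r_mul _ (mul_mem he ht) _ hκ, N.r_mul _ he _ ht, e1]
  simp only [Matrix.SpecialLinearGroup.coe_mul, Matrix.mul_apply, Fin.sum_univ_two, h2, sl2Up_coe]
  simp [mul_div_cancel₀ _ h1]

end CBx

open CBx in
theorem cBS : CBS.{u} := by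
  intro Ω _ S _ F T V Z s K _ _ M _ _ ι L N h l ν l0 hν
  have := Fact.mk Nat.prime_two
  have := h.normal
  have hT : ι.range ≤ L := h.up ▸ N.up_le
  have nL : ∀ m : M, m ∈ 𝒩(L) := fun m => le_normalizer_of_normal (K := ⊤) (mem_top m)
  have Vn : ∀ t : T, ∀ x ∈ V, t * x * (t : Ω)⁻¹ ∈ V := fun t x hx =>
    (h.imV _ (mul_mem (mul_mem t.2 (h.leV hx)) (inv_mem t.2))).2 (by
      rw [(homOn_ext ι).map_conj t.2 (h.leV hx)]
      exact (pCore_normal 2 M).conj_mem _ ((h.imV x (h.leV hx)).1 hx) _)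
  constructor
  · intro f hf hV
    obtain ⟨m, hm⟩ := (h.mor V f le_rfl h.leV (fun x hx => h.leV (hV x hx)) hV).1 hf
    obtain ⟨a, ha, e, he, rfl⟩ := frattini_mul (h.syl.of_le hT le_top) le_top (fun m _ => nL m) (mem_top m)
    by_cases k : (N.r e).1 1 0 = 0
    · have k1 : e ∈ 𝒩(ι.range) := h.up ▸ (N.mem_norm_up_iff he).2 ((N.mem_norm_line_iff he).2 k)
      exact ⟨_, h.at (mul_mem ha.2 k1), 1, one_mem _, Or.inl fun x hx =>
        h.ext_inj (h.leV (hV x hx)) (h.leV (h.pbV _ hx).1) ((hm x hx).trans (h.pbV _ hx).2.symm)⟩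
    · obtain ⟨_, ht, hb⟩ := bruhat N he (inv_mem hν.1) k (by
        rw [N.r_inv hν.1, Matrix.SpecialLinearGroup.coe_inv, Matrix.adjugate_fin_two, hν.2]; rfl)
      rw [h.up] at ht hb
      obtain ⟨t, rfl⟩ := ht
      refine ⟨_, h.at (mul_mem ha.2 hb), t, t.2, Or.inr fun x hx => ?_⟩
      have k1 := h.pbV ν (Vn t x hx)
      have k2 := h.pbV (a * (e * (ι t)⁻¹ * ν⁻¹)) k1.1
      refine h.ext_inj (h.leV (hV x hx)) (h.leV k2.1) ?_
      rw [hm x hx, k2.2, k1.2, (homOn_ext ι).map_conj t.2 (h.leV hx), ext_coe]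
      group
  · intro g hg
    obtain ⟨m, hm, e⟩ := h.of_at hg
    have nU : m ∈ 𝒩(pCore 2 M) := by
      have := pCore_normal 2 M
      exact le_normalizer_of_normal (K := ⊤) (mem_top m)
    have ml : m ∈ 𝒩(N.line) := by
      rw [← N.commutator_sup_eq_line le_rfl N.not_up_le_ker, h.up, ← zpowers_le]
      exact le_norm_sup (le_norm_commutator (zpowers_le.2 nU) (zpowers_le.2 hm))
        (le_norm_inf (zpowers_le.2 nU) (le_norm_cent (zpowers_le.2 (nL m))))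
    have he : m * ν⁻¹ * m⁻¹ ∈ L := conj_mem (nL m) (inv_mem hν.1)
    obtain ⟨_, ht, hb⟩ := bruhat N he hν.1 (fun k => l0 (by
      have k1 := mul_mem (mul_mem (inv_mem ml) (inv_mem ((N.mem_norm_line_iff he).2 k))) ml
      rw [show m⁻¹ * (m * ν⁻¹ * m⁻¹)⁻¹ * m = ν by group, N.mem_norm_line_iff hν.1, hν.2] at k1
      exact k1)) (by rw [hν.2]; rfl)
    rw [h.up] at ht hb
    obtain ⟨t, rfl⟩ := ht
    refine ⟨t, t.2, _, h.at (mul_mem (inv_mem hb) hm), fun x hx => ?_⟩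
    have k1 := h.pbV ν hx
    have k2 := h.pbV ((m * ν⁻¹ * m⁻¹ * (ι t)⁻¹ * ν)⁻¹ * m) hx
    have k3 := h.pbV ν k2.1
    refine h.ext_inj (h.leV (Vn t _ (hg.mV _ k1.1))) (h.leV k3.1) ?_
    rw [k3.2, k2.2, (homOn_ext ι).map_conj t.2 (hg.mT _ (h.leV k1.1)), ext_coe, e _ (h.leV k1.1), k1.2]
    group

end CL.HK
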