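import Cfsg.Agent.HK.Core
import Cfsg.Agent.Fus.KNormSat

/-! # HK-CH: level functions on centralisers in a minimal system -/

set_option autoImplicit false

open Cfsg Subgroup
open scoped commutatorElement

namespace CL.HK

open CL.Fus CL.Loc CL.Grp CL.Even

universe u

theorem ch (h : LVS.{u}) : CH.{u} := by
  intro Ω _ S _ F hS hF hM x hx x1
  have hX : zpowers x ≤ S := zpowers_le.2 hx
  obtain ⟨α, hα, hfn⟩ := exists_mor_normalizerIn_fullyNormalized hS hF hX
  have hC : S ⊓ centralizer {x} ≤ FusionSystem.normalizerIn S (zpowers x) := fun a ha => ⟨ha.1,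
    cent_le_norm (zpowers x) fun y hy => by
      obtain ⟨k, rfl⟩ := mem_zpowers_iff.1 hy
      exact ((show Commute a x from mem_centralizer_singleton_iff.1 ha.2).zpow_right k).eq.symm⟩
  have hxN : x ∈ FusionSystem.normalizerIn S (zpowers x) := le_normalizerIn hX (mem_zpowers x)
  have inj1 : ∀ a ∈ FusionSystem.normalizerIn S (zpowers x), α a = 1 → a = 1 := fun a ha e =>
    hα.injOn ha (one_mem _) (by rw [e, hα.homOn.map_one])
  have hne : img α (zpowers x) ≠ ⊥ := fun e => x1 (inj1 x hxN (mem_bot.1 (e ▸ mem_img_of_mem α (mem_zpowers x))))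
  obtain ⟨l, hl, hinv⟩ := h Ω _ (normalizerSystem F _ hfn.1) (hS.to_le (normalizerIn_le S _))
    (isSaturated_normalizerSystem hS hF hfn) (hM _ hne hfn _ (isNormalizerSystem_normalizerSystem F hfn.1))
  have mp : ∀ a ∈ S ⊓ centralizer {x}, α a ∈ FusionSystem.normalizerIn S (img α (zpowers x)) := fun a ha =>
    hα.map_normalizerIn hX (hC ha)
  refine ⟨fun a => l (α a), ⟨fun a ha e => inj1 a (hC ha) (hl.zero _ (mp a ha) e), fun a ha b hb => ?_,
    fun a ha => ?_, fun a ha b hb k => ?_⟩, fun P f hf hxP hfx a ha hax => ?_⟩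
  · simp only [hα.homOn.map_mul (hC ha) (hC hb)]
    exact hl.mul _ (mp a ha) _ (mp b hb)
  · simp only [hα.homOn.map_inv (hC ha)]
    exact hl.inv _ (mp a ha)
  · simp only [hα.homOn.map_commutator (hC ha) (hC hb)]
    refine hl.com _ (mp a ha) _ (mp b hb) fun e => k (inj1 _ ?_ (by rw [hα.homOn.map_commutator (hC ha) (hC hb), e]))
    exact mul_mem (mul_mem (mul_mem (hC ha) (hC hb)) (inv_mem (hC ha))) (inv_mem (hC hb))
  · have hP : P ⊓ centralizer {x} ≤ S ⊓ centralizer {x} := inf_le_inf_right _ hf.le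
    have hXP : zpowers x ≤ P ⊓ centralizer {x} := zpowers_le.2 ⟨hxP, mem_centralizer_singleton_iff.2 rfl⟩
    have hfC : ∀ y ∈ P ⊓ centralizer {x}, f y ∈ S ⊓ centralizer {x} := fun y hy => ⟨hf.mem hy.1,
      mem_centralizer_singleton_iff.2 (by
        conv_lhs => rw [← hfx]
        conv_rhs => rw [← hfx]
        rw [← hf.homOn.map_mul hy.1 hxP, ← hf.homOn.map_mul hxP hy.1, mem_centralizer_singleton_iff.1 hy.2])⟩
    obtain ⟨β, hβ, e1, -, e3⟩ := (hα.mono (hP.trans hC)).exists_inv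
    have hβm : ∀ y ∈ img α (P ⊓ centralizer {x}), β y ∈ P ⊓ centralizer {x} := fun y hy =>
      e3 ▸ mem_img_of_mem β hy
    have hg : Mor F (img α (P ⊓ centralizer {x})) fun y => α (f (β y)) :=
      (hβ.comp hf fun y hy => (hβm y hy).1).comp hα fun y hy => hC (hfC _ (hβm y hy))
    have hE : Mor (normalizerSystem F _ hfn.1) (img α (P ⊓ centralizer {x})) fun y => α (f (β y)) := by
      refine mor_normalizerSystem.2 ⟨img_le_iff.2 fun y hy => mp y (hP hy), _,
        by rwa [sup_eq_left.2 (img_mono α hXP)], fun _ _ => rfl, img_eq_self_of_fix fun y hy => ?_⟩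
      obtain ⟨z, hz, rfl⟩ := (hα.mem_img' (le_normalizerIn hX)).1 hy
      obtain ⟨k, rfl⟩ := mem_zpowers_iff.1 hz
      rw [e1 _ (hXP hz), hf.homOn.map_zpow hxP, hfx]
    have := hinv _ _ hE _ (mem_img_of_mem α (show a ∈ P ⊓ centralizer {x} from ⟨ha, hax⟩))
    rwa [e1 a ⟨ha, hax⟩] at this

end CL.HK
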