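/-
Project HK, part C: the assembly of the steps.
-/
import Cfsg.Agent.HK.CDefs

set_option autoImplicit false

open Cfsg Subgroup
open scoped commutatorElement

namespace CL.HK

open CL.Fus CL.Loc CL.Grp CL.Even

universe u

theorem Q1.qd {Ω : Type u} [Group Ω] {S : Subgroup Ω} {K : Type} [Field K] [Fintype K] {F : FusionSystem S} {ε : Bool}
    {θ : K ≃+* K} {T : Subgroup Ω} {v w y z : K → Ω} {s : Ω} (h : Q1 F ε θ T v w y z s) {b c : K}
    (k : SX F T v w y z s (s * (y b * z c))) : QD F ε θ T v w y z (s * (y b * z c)) := by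
  have m : y b * z c ∈ T := mul_mem (h.yT b) (h.zT c)
  have e : ∀ t ∈ T, s * (y b * z c) * t * (s * (y b * z c))⁻¹ = s * t * s⁻¹ := fun t ht => by
    have : y b * z c * t = t * (y b * z c) := by rw [mul_assoc, h.zc c t ht, ← mul_assoc, h.yc b t ht, mul_assoc]
    rw [mul_assoc s, this]; group
  have hT : ∀ a, hz ε y z a ∈ T := fun a => by cases ε; exacts [h.yT a, h.zT a]
  refine { h.toCo with
    chr := h.chr, four := h.four, le := h.le, sS := mul_mem h.sS (h.le m), sT := fun q => h.sT ((mul_mem_cancel_right m).1 q)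
    s2 := k.1, gen := fun x hx => (h.gen x hx).imp_right fun q => by rw [← mul_assoc]; exact mul_mem q m
    θθ := h.θθ, sv := fun a => (e _ (h.vT a)).trans (h.sv a), sw := fun a => (e _ (h.wT a)).trans (h.sw a)
    sy := fun a => (e _ (h.yT a)).trans (h.sy a), sh := fun a => (e _ (hT a)).trans (h.sh a)
    nV := h.nV, mon := h.mon, tor := h.tor, sx := fun p r τ g hg hm hc => k.2 p r τ g hg hm fun t ht => ?_ }
  have gT : g t ∈ T := by
    obtain ⟨a, u, b, c, rfl⟩ := h.nf t ht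
    have := hg.homOn
    rw [this.map_mul (mul_mem (mul_mem (h.vT _) (h.wT _)) (h.yT _)) (h.zT _),
      this.map_mul (mul_mem (h.vT _) (h.wT _)) (h.yT _), this.map_mul (h.vT _) (h.wT _), hm.v, hm.w, hm.y, hm.z]
    exact mul_mem (mul_mem (mul_mem (h.vT _) (h.wT _)) (h.yT _)) (h.zT _)
  rw [← e t ht, hc t ht, e _ gT]

theorem co_of (h0 : C0S.{u}) (hA : CAS.{u}) (hB : CBS.{u}) (h1 : C1S.{u}) (h2 : C2S.{u}) (h3 : C3S.{u}) (h4 : C4S.{u})
    (h5 : C5S.{u}) (h6 : C6S.{u}) (h7 : C7S.{u}) (h8 : C8S.{u}) (h9 : C9S.{u}) : CO.{u} := by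
  intro Ω _ S _ F T V Z s K _ _ M _ _ ι L N hS hF h
  obtain ⟨s', s1, s2, l, l0, g0⟩ := h0 Ω S F T V Z s K M ι L N h
  have := h.chr
  obtain ⟨ν, hν, e⟩ := N.r_surj ⟨!![0, l⁻¹; l, 0], by simp [Matrix.det_fin_two, l0, CharTwo.neg_eq]⟩
  have nu : IsNu N l ν := ⟨hν, congrArg Subtype.val e⟩
  have : Finite V := finite_of_le (h.leV.trans h.le)
  have g1 : G1 F T V Z s' (p0 ι N l) (p1 ι N) (pm ι N l) (pb ι ν) :=
    { g0, hA Ω S F T V Z s K M ι L N h l ν l0 nu, hB Ω S F T V Z s K M ι L N h l ν l0 nu with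
      le := h.le, sS := s1, sT := s2, nS := fun x hx k => h.nV.le ⟨hx, mem_normalizer_of_finite k⟩ }
  obtain ⟨ε, θ, g3⟩ := h3 Ω S F K hS hF _ _ _ _ _ _ _ _
    (h2 Ω S F K hS hF _ _ _ _ _ _ _ _ g1 (h1 Ω S F K hS hF _ _ _ _ _ _ _ _ g1))
  obtain ⟨v, w, y, z, g4⟩ := h4 Ω S F K hS hF _ _ _ _ _ _ _ _ _ _ g3
  have q := h6 Ω S F K hS hF _ _ _ _ _ _ _ _ (h5 Ω S F K hS hF _ _ _ _ _ _ _ _ _ _ _ _ _ _ g4)
  obtain ⟨ex, un⟩ := h7 Ω S F K hS hF _ _ _ _ _ _ _ _ q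
  obtain ⟨b, c, k⟩ : ∃ b c, SX F T v w y z s' (s' * (y b * z c)) := by
    by_cases r : ε = true ∨ ∃ d, θ d ≠ d
    · exact h8 Ω S F K hS hF _ _ _ _ _ _ _ _ q ex r
    · push Not at r
      obtain rfl : ε = false := Bool.eq_false_iff.2 r.1
      exact h9 Ω S F K hS hF _ _ _ _ _ _ _ q ex un r.2
  exact ⟨ε, θ, v, w, y, z, _, q.qd k⟩

end CL.HK
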