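/-
Project HK, part C: coordinates.
-/
import Cfsg.Agent.HK.CoA
import Cfsg.Agent.HK.C0
import Cfsg.Agent.HK.CA
import Cfsg.Agent.HK.CB
import Cfsg.Agent.HK.C1
import Cfsg.Agent.HK.C2
import Cfsg.Agent.HK.C3
import Cfsg.Agent.HK.C4
import Cfsg.Agent.HK.C5
import Cfsg.Agent.HK.C6
import Cfsg.Agent.HK.C7
import Cfsg.Agent.HK.C8
import Cfsg.Agent.HK.C9

set_option autoImplicit false

namespace CL.HK

universe u

theorem co : CO.{u} := co_of c0S cAS cBS c1S c2S c3S c4S c5S c6S c7S c8S c9S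

end CL.HK
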