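/-
Project HK (S5175): an involution outside `V W` acting freely on `V` and `W`.
-/
import Cfsg.Agent.HK.Core

set_option autoImplicit false

open Cfsg Subgroup
open scoped commutatorElement

namespace CL.HK

open CL.Fus CL.Loc CL.Grp CL.Even Matrix

universe u

namespace FI1x

section
variable {T : Type*} [Group T] {A B D D' P : Subgroup T} {x a b : T}

theorem cmem (n : x ∈ 𝒩(A)) (ha : a ∈ A) : ⁅x, a⁆ ∈ A := mul_mem (conj_mem n ha) (inv_mem ha)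

theorem cmul (ab : A ≤ 𝒞(A)) (n : x ∈ 𝒩(A)) (ha : a ∈ A) (hb : b ∈ A) : ⁅x, a * b⁆ = ⁅x, a⁆ * ⁅x, b⁆ := by
  calc ⁅x, a * b⁆ = ⁅x, a⁆ * (a * ⁅x, b⁆ * a⁻¹) := by simp only [commutatorElement_def]; group
    _ = _ := by rw [conj_eq_of_mem (ab ha) (cmem n hb)]

theorem cc (ea : IsElementaryAbelian 2 A) (n : x ∈ 𝒩(A)) (s : x * x ∈ 𝒞(A)) (ha : a ∈ A) : ⁅x, ⁅x, a⁆⁆ = 1 := by
  obtain ⟨ab, sq⟩ := elem_iff.1 ea
  have i : ∀ c ∈ A, c⁻¹ = c := fun c hc => inv_eq_of_mul_eq_one_right (pow_two c ▸ sq c hc)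
  have h : x * ⁅x, a⁆ * x⁻¹ = ⁅x, a⁆⁻¹ := by
    calc x * ⁅x, a⁆ * x⁻¹ = x * x * a * (x * x)⁻¹ * (x * a * x⁻¹)⁻¹ := by simp only [commutatorElement_def]; group
      _ = _ := by rw [conj_eq_of_mem s ha, commutatorElement_def]; group
  rw [commutatorElement_def x ⁅x, a⁆, h, i _ (cmem n ha), ← pow_two, sq _ (cmem n ha)]

theorem ext (ea : IsElementaryAbelian 2 A) (n : x ∈ 𝒩(A)) (s : x * x ∈ 𝒞(A)) (le : B ≤ A) (h1 : Fr x A B)
    (h2 : Fr x B ⊥) : Fr x A ⊥ := fun a ha k => by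
  have ab := elem_le_cent ea
  obtain ⟨c, hc, k1⟩ := h1 a ha (bot_le (a := B) k)
  obtain ⟨d, hd, k2⟩ := h2 _ k1 (by
    have := cmul ab n (le k1) (cmem n hc)
    rw [inv_mul_cancel_right, cc ea n s hc, mul_one] at this
    exact this ▸ k)
  exact ⟨d * c, mul_mem (le hd) hc, by rwa [cmul ab n (le hd) hc, _root_.mul_inv_rev, ← mul_assoc]⟩

theorem part (ab : A ≤ 𝒞(A)) (n : x ∈ 𝒩(A)) (nD : x ∈ 𝒩(D)) (nD' : x ∈ 𝒩(D')) (le : D ≤ A) (le' : D' ≤ A)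
    (dj : D ⊓ D' = ⊥) (sup : A ≤ D ⊔ D') (h : Fr x A D') : Fr x D ⊥ := fun a ha k => by
  obtain ⟨c, hc, k1⟩ := h a (le ha) (bot_le (a := D') k)
  obtain ⟨d, hd, d', hd', rfl⟩ := (mem_sup_nr (le.trans (ab.trans ((cent_mono le').trans (cent_le_norm _))))).1 (sup hc)
  refine ⟨d, hd, dj.le (mem_inf.2 ⟨D.mul_mem ha (D.inv_mem (cmem nD hd)), ?_⟩)⟩
  rw [cmul ab n (le hd) (le' hd'), comm_of_mem (ab (cmem n (le' hd'))) (cmem n (le hd)), _root_.mul_inv_rev,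
    ← mul_assoc] at k1
  exact (mul_mem_cancel_right (inv_mem (cmem nD' hd'))).1 k1

theorem sec {K : Type} [Field K] [CharP K 2] (θ : T → K) (mul : ∀ a ∈ A, ∀ b ∈ A, θ (a * b) = θ a + θ b)
    (su : ∀ c, ∃ a ∈ A, θ a = c) (ker : ∀ a ∈ A, θ a = 0 ↔ a ∈ B) (n : x ∈ 𝒩(A)) {σ : K ≃+* K}
    (hσ : σ ≠ RingEquiv.refl K) {d : K} (act : ∀ a ∈ A, θ (x * a * x⁻¹) = d * σ (θ a))
    (s : ∀ a ∈ A, ⁅x * x, a⁆ ∈ B) : Fr x A B ∧ ∃ c ∈ A, ⁅x, c⁆ ∉ B := by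
  have dv : ∀ a ∈ A, ∀ b ∈ A, θ (a * b⁻¹) = θ a + θ b := fun a ha b hb => by
    have := mul _ (mul_mem ha (inv_mem hb)) b hb
    rw [inv_mul_cancel_right] at this
    rw [this, add_assoc, CharTwo.add_self_eq_zero, add_zero]
  have cm : ∀ a ∈ A, θ ⁅x, a⁆ = d * σ (θ a) + θ a := fun a ha => by
    rw [commutatorElement_def, dv _ (conj_mem n ha) a ha, act a ha]
  have s2 : ∀ c, d * σ (d * σ c) = c := fun c => by
    obtain ⟨a, ha, rfl⟩ := su c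
    have := (ker _ (cmem (mul_mem n n) ha)).2 (s a ha)
    rw [commutatorElement_def, dv _ (conj_mem (mul_mem n n) ha) a ha,
      show x * x * a * (x * x)⁻¹ = x * (x * a * x⁻¹) * x⁻¹ by group, act _ (conj_mem n ha), act a ha] at this
    exact CharTwo.add_eq_zero.1 this
  have s3 : ∀ c, σ (σ c) = c := fun c => by
    have h1 := s2 1
    have h2 := s2 c
    rw [map_one, mul_one] at h1
    rwa [map_mul, ← mul_assoc, h1, one_mul] at h2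
  obtain ⟨c, hc⟩ : ∃ c, σ c + c ≠ 0 := by
    by_contra! k
    exact hσ (RingEquiv.ext fun c => CharTwo.add_eq_zero.1 (k c))
  refine ⟨fun a ha k => ?_, ?_⟩
  · obtain ⟨e, he, l⟩ := su (θ a * (c / (σ c + c)))
    have k1 := CharTwo.add_eq_zero.1 (cm a ha ▸ (ker _ (cmem n ha)).2 k)
    refine ⟨e, he, (ker _ (mul_mem ha (inv_mem (cmem n he)))).1 ?_⟩
    rw [dv a ha _ (cmem n he), cm e he, l, map_mul, ← mul_assoc, k1, map_div₀, map_add, s3, add_comm c, ← mul_add,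
      ← add_div, div_self hc, mul_one, CharTwo.add_self_eq_zero]
  · by_contra! k
    have l : ∀ c, d * σ c = c := fun c => by
      obtain ⟨a, ha, rfl⟩ := su c
      exact CharTwo.add_eq_zero.1 (cm a ha ▸ (ker _ (cmem n ha)).2 (k a ha))
    have d1 : d = 1 := by simpa using l 1
    exact hc (by rw [← l c, d1, one_mul, s3, add_comm, ← l c, d1, one_mul, s3, ← one_mul (σ c), ← d1, l,
      CharTwo.add_self_eq_zero])

theorem pick (k : ℕ) : ∀ s : T, s ∉ P → s ^ 2 ^ k ∈ P → ∃ t, t ∉ P ∧ t * t ∈ P := by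
  induction k with
  | zero => exact fun s h1 h2 => absurd (by simpa using h2) h1
  | succ k ih =>
    intro s h1 h2
    by_cases h : s * s ∈ P
    · exact ⟨s, h1, h⟩
    · exact ih _ h (by rwa [← pow_two, ← pow_mul, ← pow_succ'])

end

variable {T M : Type u} [Group T] [Group M] {K : Type} [Field K] [Fintype K] {i j : T →* M} {L : Subgroup M}
  {N : NS K L} {x : T}

/-- the symmetric part of the hypotheses -/
structure H1 (i j : T →* M) (L : Subgroup M) (N : NS K L) : Prop where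
  chr : CharP K 2
  ea : IsElementaryAbelian 2 (pCoreOf 2 L)
  nL : L.Normal
  inj : Function.Injective i
  sub : pCoreOf 2 L ≤ i.range
  line : ∀ x ∈ Vv i L, x ∈ Vv j L ↔ i x ∈ N.line
  DV : Dd i L ≤ Vv i L

namespace H1

variable (h : H1 i j L N)
include h

theorem eV : IsElementaryAbelian 2 (Vv i L) :=
  elem_iff.2 ⟨fun _ ha _ hb => h.inj (by simpa only [map_mul] using comm_of_mem (elem_le_cent h.ea ha) hb),
    fun a ha => h.inj (by simpa only [map_pow, map_one] using (elem_iff.1 h.ea).2 _ ha)⟩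

theorem nV (x : T) : x ∈ 𝒩(Vv i L) :=
  have := h.nL
  have : (pCoreOf 2 L).Normal := normalizer_eq_top_iff.1 (top_le_iff.1 (le_norm_core le_normalizer_of_normal))
  le_normalizer_of_normal (mem_top x)

theorem nD (x : T) : x ∈ 𝒩(Dd i L) :=
  have := h.nL
  le_normalizer_of_normal (mem_top x)

theorem DY : Dd i L ≤ Vv i L ⊓ Vv j L := fun d hd =>
  ⟨h.DV hd, (h.line d (h.DV hd)).2 (N.le_line ⟨h.DV hd, hd⟩)⟩

theorem s1 (hx : Fd N (i x)) (s : ∀ a ∈ Vv i L, ⁅x * x, a⁆ ∈ Vv i L ⊓ Vv j L) :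
    Fr x (Vv i L) (Vv i L ⊓ Vv j L) ∧ ∃ c ∈ Vv i L, ⁅x, c⁆ ∉ Vv i L ⊓ Vv j L := by
  obtain ⟨σ, a, b, d, hσ, -, -, act⟩ := hx
  have := h.chr
  refine sec (fun v => N.ψ (i v) 1) (fun a ha b hb => by rw [map_mul, N.ψ_mul _ ha _ hb]; rfl) (fun c => ?_)
    (fun a ha => ⟨fun k => ⟨ha, (h.line a ha).2 (N.mem_line.2 ⟨ha, k⟩)⟩,
      fun k => (N.mem_line.1 ((h.line a ha).1 k.2)).2⟩) (h.nV x) hσ (d := d)
    (fun v hv => by rw [map_mul, map_mul, map_inv, act _ hv]; rfl) s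
  obtain ⟨u, hu, e⟩ := N.ψ_surj ![0, c]
  obtain ⟨v, rfl⟩ := h.sub hu
  exact ⟨v, hu, by rw [e]; rfl⟩

theorem s0 (n : x ∈ 𝒩(Vv i L ⊓ Vv j L)) (hx : Fd N (i x)) (s : x * x ∈ 𝒞(Vv i L ⊓ Vv j L)) :
    Fr x (Vv i L ⊓ Vv j L) (Dd i L) := by
  obtain ⟨σ, a, b, d, hσ, -, -, act⟩ := hx
  have := h.chr
  have l : ∀ v ∈ Vv i L ⊓ Vv j L, N.ψ (i v) 1 = 0 := fun v hv => (N.mem_line.1 ((h.line v hv.1).1 hv.2)).2
  refine (sec (fun v => N.ψ (i v) 0) (fun a ha b hb => by rw [map_mul, N.ψ_mul _ ha.1 _ hb.1]; rfl) (fun c => ?_)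
    (fun a ha => ⟨fun k => ((N.ψ_eq_zero _ (mem_inf.1 ha).1).1 (vec_eq_zero.2 ⟨k, l a ha⟩)).2,
      fun k => (vec_eq_zero.1 ((N.ψ_eq_zero _ (mem_inf.1 ha).1).2 (mem_inf.2 ⟨(mem_inf.1 ha).1, k⟩))).1⟩) n hσ (d := a)
    (fun v hv => by rw [map_mul, map_mul, map_inv, act _ hv.1, l v hv]; simp) fun v hv => by
      rw [commutatorElement_def, conj_eq_of_mem s hv, mul_inv_cancel]; exact one_mem _).1
  obtain ⟨u, hu, e⟩ := N.ψ_surj ![c, 0]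
  obtain ⟨v, rfl⟩ := h.sub hu
  exact ⟨v, ⟨hu, (h.line v hu).2 (N.mem_line.2 ⟨hu, by rw [e]; rfl⟩)⟩, by rw [e]; rfl⟩

theorem cardY : Nat.card (Vv i L ⊓ Vv j L : Subgroup T) = Fintype.card K * Nat.card (Dd i L) := by
  have k : ∀ X ≤ pCoreOf 2 L, Nat.card (X.comap i) = Nat.card X := fun X hX => by
    rw [card_comap, (i.ker_eq_bot_iff).2 h.inj, card_bot, one_mul, inf_eq_left.2 (hX.trans h.sub)]
  have e1 : Vv i L ⊓ Vv j L = N.line.comap i := le_antisymm (fun v hv => (h.line v hv.1).1 hv.2)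
    fun v hv => ⟨N.line_le hv, (h.line v (N.line_le hv)).2 hv⟩
  have e2 : Dd i L = (pCoreOf 2 L ⊓ 𝒞(L)).comap i := le_antisymm (fun v hv => ⟨h.DV hv, hv⟩) fun v hv => hv.2
  rw [e1, e2, k _ N.line_le, k _ inf_le_left, N.card_line, Nat.card_eq_fintype_card]

theorem frY (h' : H1 j i L N) (dj : Dd i L ⊓ Dd j L = ⊥)
    (c : Dd i L = ⊥ ∨ Vv i L ⊓ Vv j L ≤ Dd i L ⊔ Dd j L) (hx : Fd N (i x)) (hx' : Fd N (j x))
    (s : x * x ∈ 𝒞(Vv i L ⊓ Vv j L)) : Fr x (Vv i L ⊓ Vv j L) ⊥ := by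
  have n : x ∈ 𝒩(Vv i L ⊓ Vv j L) := inf_normalizer_le_normalizer_inf ⟨h.nV x, h'.nV x⟩
  have k := h.s0 n hx s
  rcases c with c | c
  · exact c ▸ k
  have eY : IsElementaryAbelian 2 (Vv i L ⊓ Vv j L : Subgroup T) := elem_iff.2 ⟨fun _ ha _ hb =>
    elem_le_cent h.eV (mem_inf.1 ha).1 _ (mem_inf.1 hb).1, fun a ha => (elem_iff.1 h.eV).2 a (mem_inf.1 ha).1⟩
  refine ext eY n s h.DY k (part (elem_le_cent eY) n (h.nD x) (h'.nD x) h.DY (inf_comm (Vv j L) _ ▸ h'.DY) dj c ?_)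
  rw [inf_comm] at n s ⊢
  exact h'.s0 n hx' s

theorem frV (hx : Fd N (i x)) (s : x * x ∈ 𝒞(Vv i L)) (hY : Fr x (Vv i L ⊓ Vv j L) ⊥) : Fr x (Vv i L) ⊥ :=
  ext h.eV (h.nV x) s inf_le_left (h.s1 hx fun v hv => by
    rw [commutatorElement_def, conj_eq_of_mem s hv, mul_inv_cancel]; exact one_mem _).1 hY

theorem fix (hx : Fd N (i x)) (s : x * x = 1) : ∃ v ∈ Vv i L, v ∉ Vv j L ∧ x * v = v * x := by
  obtain ⟨c, hc, k⟩ := (h.s1 hx fun v hv => by rw [s, commutatorElement_one_left]; exact one_mem _).2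
  exact ⟨_, cmem (h.nV x) hc, fun l => k ⟨cmem (h.nV x) hc, l⟩,
    commutatorElement_eq_one_iff_mul_comm.1 (cc h.eV (h.nV x) (s ▸ one_mem _) hc)⟩

end H1

theorem notIn {S : Subgroup M} (inj : Function.Injective i) (su : ∀ t ∈ S ⊓ L, ∃ w ∈ Vv j L, i w * t⁻¹ ∈ 𝒞(pCoreOf 2 L))
    (cV : 𝒞(Vv i L) ≤ Vv i L) (k : In S L (i x)) : x ∈ Vv i L ⊔ Vv j L := by
  obtain ⟨t, ht, c⟩ := k
  obtain ⟨w, hw, c'⟩ := su t ht
  have : x * w⁻¹ ∈ Vv i L := cV fun v hv => inj (by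
    have := comm_of_mem (mul_mem c (inv_mem c')) hv
    simpa [mul_assoc] using this)
  simpa using mul_mem_sup this hw

end FI1x

open FI1x in
theorem fi1 (h : LA.{u}) : FI1.{u} := by
  intro T M _ _ _ K _ _ i j L N p q DV DW cD cD' ne
  have : Finite T := Finite.of_injective i p.inj
  have nL := q.normal
  have sub : pCoreOf 2 L ≤ i.range := p.ln.core.trans (core_top (G := M) (p := 2) ▸ core_le_syl p.ln.syl)
  have a : H1 i j L N := ⟨p.ln.chr, p.ln.ea, nL, p.inj, sub, p.line, DV⟩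
  have b : H1 j i L N := ⟨p.ln.chr, p.ln.ea, nL, p.inj', p.rng ▸ sub, p.line', DW⟩
  have fd : ∀ x, x ∉ Vv i L ⊔ Vv j L → Fd N (i x) ∧ Fd N (j x) := fun x hx =>
    ⟨((h M K _ L N p.ln).1 _ ⟨x, rfl⟩ (le_normalizer_of_normal (mem_top _))).resolve_left fun k =>
      hx (notIn p.inj p.surj (q.cV.le.trans (sup_le le_rfl DV)) k),
    ((h M K _ L N p.ln).1 _ (p.rng ▸ ⟨x, rfl⟩) (le_normalizer_of_normal (mem_top _))).resolve_left fun k =>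
      hx (sup_comm (Vv j L) _ ▸ notIn p.inj' p.surj' (q.cW.le.trans (sup_le le_rfl DW)) k)⟩
  have c : Dd i L = ⊥ ∨ Vv i L ⊓ Vv j L ≤ Dd i L ⊔ Dd j L := cD.imp_right fun e => by
    have k := card_sup_mul_card_inf (H := Dd i L) fun x _ => b.nD x
    rw [q.disj, card_bot, mul_one, cD'] at k
    exact (eq_of_le_of_card_ge (sup_le a.DY (inf_comm (Vv j L) _ ▸ b.DY)) (by rw [k, a.cardY, e])).ge
  obtain ⟨aV, sV⟩ := elem_iff.1 a.eV
  obtain ⟨aW, sW⟩ := elem_iff.1 b.eV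
  have frY : ∀ x, x ∉ Vv i L ⊔ Vv j L → x * x ∈ Vv j L → Fr x (Vv i L ⊓ Vv j L) ⊥ := fun x hx s =>
    a.frY b q.disj c (fd x hx).1 (fd x hx).2 (cent_mono inf_le_right (aW s))
  obtain ⟨s, hs⟩ : ∃ s, s ∉ Vv i L ⊔ Vv j L := by
    by_contra! k
    exact ne ((eq_top_iff' _).2 k)
  obtain ⟨k, hk⟩ := p.ln.syl.isPGroup ⟨i s, s, rfl⟩
  obtain ⟨t, ht, t2⟩ := pick k s hs (by
    rw [show s ^ 2 ^ k = 1 from p.inj (by simpa using congrArg Subtype.val hk)]; exact one_mem _)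
  obtain ⟨v0, hv0, w0, hw0, e⟩ := (mem_sup_nl fun x _ => a.nV x).1 t2
  have VW : ∀ v ∈ Vv i L, ∀ w ∈ Vv j L, ⁅w, v⁆ ∈ Vv i L ⊓ Vv j L := fun v hv w hw =>
    mem_inf.2 ⟨cmem (a.nV w) hv, commutatorElement_inv v w ▸ (Vv j L).inv_mem (cmem (b.nV v) hw)⟩
  obtain ⟨v, hv, k1⟩ := (a.s1 (fd t ht).1 fun v hv => by
    rw [← e, show ⁅v0 * w0, v⁆ = v0 * ⁅w0, v⁆ * v0⁻¹ * (v0 * v * v0⁻¹ * v⁻¹) by simp only [commutatorElement_def]; group,
      conj_eq_of_mem (aV hv0) hv, conj_eq_of_mem (aV hv0) (VW v hv w0 hw0).1, mul_inv_cancel, mul_one]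
    exact VW v hv w0 hw0).1 v0 hv0 (mem_inf.2 ⟨cmem (a.nV t) hv0, by
      have e1 : t * (v0 * w0) * t⁻¹ = v0 * w0 := by rw [e]; group
      have e2 : ⁅t, v0⁆ = w0 * (t * w0 * t⁻¹)⁻¹ := by
        rw [commutatorElement_def, comm_of_mem (aV (inv_mem hv0)) (conj_mem (a.nV t) hv0),
          show t * v0 * t⁻¹ = t * (v0 * w0) * t⁻¹ * (t * w0 * t⁻¹)⁻¹ by group, e1]
        group
      exact e2 ▸ mul_mem hw0 (inv_mem (conj_mem (b.nV t) hw0))⟩)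
  have out : ∀ x, x ∉ Vv i L ⊔ Vv j L → ∀ y ∈ Vv i L ⊔ Vv j L, x * y ∉ Vv i L ⊔ Vv j L := fun x hx y hy k =>
    hx ((mul_mem_cancel_right hy).1 k)
  have adj : ∀ (A : Subgroup T) (x y : T), IsElementaryAbelian 2 A → x ∈ 𝒩(A) → y ∈ A →
      x * y * (x * y) = ⁅x, y⁆ * (y * (x * x) * y⁻¹) := fun A x y eA n hy => by
    rw [show y⁻¹ = y from inv_eq_of_mul_eq_one_right (pow_two y ▸ (elem_iff.1 eA).2 y hy), commutatorElement_def]
    group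
  have h1 := out t ht v (mem_sup_left hv)
  have s1 : t * v * (t * v) ∈ Vv j L := by
    rw [adj _ t v a.eV (a.nV t) hv, ← e, show v * (v0 * w0) * v⁻¹ = v * v0 * v⁻¹ * (v * w0 * v⁻¹) by group,
      conj_eq_of_mem (aV hv) hv0, ← mul_assoc]
    refine mul_mem ?_ (conj_mem (b.nV v) hw0)
    rw [← comm_of_mem (aV (cmem (a.nV t) hv)) hv0,
      ← (inv_eq_of_mul_eq_one_right (pow_two ⁅t, v⁆ ▸ sV _ (cmem (a.nV t) hv)) : ⁅t, v⁆⁻¹ = ⁅t, v⁆)]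
    exact (mem_inf.1 k1).2
  generalize t * v = r at h1 s1
  obtain ⟨w, hw, k2⟩ := b.frV (fd r h1).2 (aW s1) (inf_comm (Vv i L) _ ▸ frY r h1 s1) _ s1 (by
    rw [mem_bot, commutatorElement_def]; group)
  have h2 := out r h1 w (mem_sup_right hw)
  have s2 : r * w * (r * w) = 1 := by
    rw [adj _ r w b.eV (b.nV r) hw, conj_eq_of_mem (aW hw) s1, mul_inv_eq_one.1 (mem_bot.1 k2), ← pow_two,
      sW _ (cmem (b.nV r) hw)]
  have y2 := frY _ h2 (s2 ▸ one_mem _)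
  exact ⟨_, s2, (fd _ h2).1, (fd _ h2).2, a.frV (fd _ h2).1 (s2 ▸ one_mem _) y2,
    b.frV (fd _ h2).2 (s2 ▸ one_mem _) (inf_comm (Vv i L) _ ▸ y2), a.fix (fd _ h2).1 s2, b.fix (fd _ h2).2 s2⟩

end CL.HK
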