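/-
Project HK: an involution inducing field automorphisms on both blocks contradicts the level function.
-/
import Cfsg.Agent.HK.Core

set_option autoImplicit false

open Cfsg Subgroup
open scoped commutatorElement

namespace CL.HK

open CL.Fus CL.Loc CL.Grp CL.Even Matrix

universe u

/-- an element of `SL₂(K)` interchanging a basis, in characteristic two -/
theorem fi2_swap {K : Type} [Field K] [CharP K 2] {a b : Fin 2 → K} (h0 : a 0 ≠ 0) (h1 : a 1 = 0) (h2 : b 1 ≠ 0) :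
    ∃ s : SL2 K, s.1 *ᵥ a = b ∧ s.1 *ᵥ b = a := by
  refine ⟨⟨!![b 0 / a 0, (a 0 - b 0 ^ 2 / a 0) / b 1; b 1 / a 0, -(b 0 / a 0)], ?_⟩, ?_, ?_⟩
  · rw [det_fin_two_of, ← CharTwo.neg_eq (1 : K)]; field_simp; ring
  · ext k; fin_cases k <;> simp [mulVec, dotProduct, Fin.sum_univ_two, h1, h0]
  · ext k; fin_cases k <;> simp [mulVec, dotProduct, Fin.sum_univ_two, h1] <;> field_simp <;> ring

theorem fi2_span {K : Type} [Field K] {a b : Fin 2 → K} (h0 : a 0 ≠ 0) (h1 : a 1 = 0) (h2 : b 1 ≠ 0) (y : Fin 2 → K) :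
    ∃ c d : K, y = c • a + d • b := ⟨(y 0 - y 1 / b 1 * b 0) / a 0, y 1 / b 1, by
  ext k; fin_cases k <;> simp [h1, h0, h2]⟩

variable {T M : Type u} [Group T] [Group M] {K : Type} [Field K] {L : Subgroup M} {N : NS K L}

theorem fi2_ne (h : Fd N 1) : False := by
  obtain ⟨σ, a, b, d, h1, -, -, h⟩ := h
  have k : ∀ t, t = d * σ t := fun t => by
    obtain ⟨u, hu, e⟩ := N.ψ_surj ![0, t]
    simpa [e] using congrFun (h u hu) 1
  have d1 : d = 1 := by simpa using (k 1).symm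
  exact h1 (RingEquiv.ext fun t => by simpa [d1] using (k t).symm)

theorem fi2_one [Finite M] [Fintype K] {i : T →* M} (hi : Function.Injective i) (h : LN i.range L N) [L.Normal]
    {f z v : T} (f2 : f * f = 1) (fd : Fd N (i f)) (fr : Fr f (Vv i L) ⊥) (z1 : i z ∈ N.line) (z2 : z ∉ Dd i L)
    (z3 : f * z = z * f) (v1 : v ∈ Vv i L) (v2 : i v ∉ N.line) (v3 : f * v = v * f) :
    ∃ g : M, g * i f = i f * g ∧ ∃ v' ∈ Vv i L, i v' = g * i z * g⁻¹ ∧ i (v' * v⁻¹) ∈ N.line := by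
  haveI := h.chr
  have hT : pCoreOf 2 L ≤ i.range :=
    h.core.trans (h.syl.le_of_normalized pCore_isP le_top (normalizer_eq_top _).ge)
  have z0 := N.line_le z1
  have a1 := (N.mem_line.1 z1).2
  have a0 : N.ψ (i z) 0 ≠ 0 := fun e => z2 ((N.ψ_eq_zero _ z0).1 (vec_eq_zero.2 ⟨e, a1⟩)).2
  have b1 : N.ψ (i v) 1 ≠ 0 := fun e => v2 (N.mem_line.2 ⟨v1, e⟩)
  obtain ⟨s, s1, s2⟩ := fi2_swap a0 a1 b1
  obtain ⟨l, hl, rfl⟩ := N.r_surj s
  obtain ⟨σ, α, β, δ, -, -, -, fd⟩ := fd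
  have x2 : i f * i f = 1 := by rw [← map_mul, f2, map_one]
  have xn : i f ∈ 𝒩(pCoreOf 2 L) := norm_le_norm_core L ((normalizer_eq_top L).ge trivial)
  let Φ : (Fin 2 → K) → Fin 2 → K := fun y => ![α * σ (y 0) + β * σ (y 1), δ * σ (y 1)]
  have Φ1 : ∀ (c d : K) (y y' : Fin 2 → K), Φ (c • y + d • y') = σ c • Φ y + σ d • Φ y' := fun c d y y' => by
    ext k; fin_cases k <;> simp [Φ] <;> ring
  have Φ2 : ∀ {y : T}, y ∈ Vv i L → f * y = y * f → Φ (N.ψ (i y)) = N.ψ (i y) := fun {y} hy e => by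
    rw [← map_inv] at fd
    have := fd _ hy
    rw [← map_mul, ← map_mul, e, mul_inv_cancel_right] at this
    exact this.symm
  have Φ3 : ∀ y, Φ ((N.r l).1 *ᵥ y) = (N.r l).1 *ᵥ Φ y := fun y => by
    obtain ⟨c, d, rfl⟩ := fi2_span a0 a1 b1 y
    simp only [mulVec_add, mulVec_smul, s1, s2, Φ1, Φ2 z0 z3, Φ2 v1 v3]
  have hl' : i f * l * (i f)⁻¹ ∈ L := Normal.conj_mem inferInstance l hl _
  have r1 : N.r (i f * l * (i f)⁻¹) = N.r l := sl2_ext fun y => by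
    obtain ⟨u, hu, rfl⟩ := N.ψ_surj y
    have hu' := conj_mem' xn hu
    have e1 := fd _ hu'
    have e2 := fd _ (conj_mem (N.norm hl) hu')
    rw [N.ψ_conj l hl _ hu'] at e2
    rw [show i f * ((i f)⁻¹ * u * i f) * (i f)⁻¹ = u by group] at e1
    rw [← N.ψ_conj _ hl' u hu, show i f * l * (i f)⁻¹ * u * (i f * l * (i f)⁻¹)⁻¹ =
      i f * (l * ((i f)⁻¹ * u * i f) * l⁻¹) * (i f)⁻¹ by group, e2, e1]
    exact Φ3 _
  have d1 : ⁅i f, l⁆ ∈ pCoreOf 2 L := h.ker ▸ (N.r_eq_iff hl' hl).1 r1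
  have d2 : ⁅i f, l⁆ * ⁅i f, l⁆ = 1 := by rw [← pow_two]; exact ea_pow h.ea d1
  obtain ⟨d, hd⟩ := hT d1
  obtain ⟨c, hc, e⟩ := fr d (show i d ∈ _ from hd ▸ d1) (mem_bot.2 (hi (by
    rw [map_commutatorElement, map_one, hd, commutatorElement_def, eq_inv_of_mul_eq_one_left d2, inv_inv,
      ← d2, commutatorElement_inv]
    simp only [commutatorElement_def, inv_eq_of_mul_eq_one_left x2]
    rw [show i f * (l * i f * l⁻¹ * i f) * i f * (i f * l * i f * l⁻¹) =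
      i f * l * i f * l⁻¹ * (i f * i f) * (i f * l * i f * l⁻¹) by group, x2, mul_one])))
  have e' : ⁅i f, i c⁆ = ⁅i f, l⁆ := by rw [← hd, mul_inv_eq_one.1 (mem_bot.1 e), map_commutatorElement]
  have m := conj_mem (N.norm hl) z0
  obtain ⟨v', hv'⟩ := hT m
  refine ⟨i c * l, (commutatorElement_eq_one_iff_mul_comm.1 ?_).symm, v', show i v' ∈ _ from hv' ▸ m, ?_, ?_⟩
  · rw [show ⁅i f, i c * l⁆ = ⁅i f, i c⁆ * (i c * ⁅i f, l⁆) * (i c)⁻¹ by simp only [commutatorElement_def]; group, e',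
      ea_mul_comm h.ea hc d1, ← mul_assoc, d2, one_mul, mul_inv_cancel]
  · rw [hv', show i c * l * i z * (i c * l)⁻¹ = i c * (l * i z * l⁻¹) * (i c)⁻¹ by group, ea_mul_comm h.ea hc m,
      mul_inv_cancel_right]
  · rw [map_mul, map_inv, hv']
    exact N.le_line ((N.ψ_eq_iff m v1).1 (by rw [N.ψ_conj l hl _ z0, s1]))

theorem fi2 : FI2.{u} := by
  intro T M _ _ _ K _ _ i Γ L γ N f v w hC hγ h hL f2 d1 d2 r1 r2 v1 v2 v3 w1 w2 w3
  have z0 : ⁅v, w⁆ ∈ Vv i L ⊓ Vv (em i γ) L := h.Y ▸ commutator_mem_commutator v1 w1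
  have z1 : ⁅v, w⁆ ∉ Dd i L := fun k => (h.nd v v1 w w1 k).elim v2 w2
  have z2 : ⁅v, w⁆ ∉ Dd (em i γ) L := fun k => (h.nd' v v1 w w1 k).elim v2 w2
  have z3 : Commute f ⁅v, w⁆ := ((Commute.mul_right v3 w3).mul_right (Commute.inv_right v3)).mul_right (Commute.inv_right w3)
  obtain ⟨g, g1, v', g2, g3, g4⟩ := fi2_one h.inj h.ln f2 d1 r1 ((h.line _ z0.1).1 z0.2) z1 z3 v1
    (fun k => v2 ((h.line v v1).2 k)) v3
  obtain ⟨k, k1, w', k2, k3, k4⟩ := fi2_one h.inj' (h.rng ▸ h.ln) f2 d2 r2 ((h.line' _ z0.2).1 z0.1) z2 z3 w1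
    (fun k => w2 ((h.line' w w1).2 k)) w3
  have a1 := mul_mem g2 (inv_mem v1)
  have a2 := (h.line _ a1).2 g4
  have b1 := mul_mem k2 (inv_mem w1)
  have b2 := (h.line' _ b1).2 k4
  have eV := ea_comap h.ln.ea h.inj
  have eW := ea_comap h.ln.ea h.inj'
  have e : ⁅v', w'⁆ = ⁅v, w⁆ := by
    rw [show ⁅v', w'⁆ = v' * v⁻¹ * (v * w' * v⁻¹) * (v' * v⁻¹)⁻¹ * w'⁻¹ by simp only [commutatorElement_def]; group,
      show v * w' * v⁻¹ = v * (w' * w⁻¹) * v⁻¹ * ⁅v, w⁆ * w by simp only [commutatorElement_def]; group,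
      ea_mul_comm eV v1 b2, mul_inv_cancel_right, ea_mul_comm eW a2 (mul_mem (mul_mem b1 z0.2) w1), mul_inv_cancel_right,
      ea_mul_comm eW b1 z0.2, mul_assoc, mul_assoc, ← mul_assoc (w' * w⁻¹), inv_mul_cancel_right, mul_inv_cancel, mul_one]
  have c : ∀ {j : T →* M} {x : T} {y : M}, Function.Injective j → y * j f = j f * y → j x = y * j ⁅v, w⁆ * y⁻¹ →
      x ∈ centralizer ({f} : Set T) := fun {j x y} hj e1 e2 => mem_centralizer_singleton_iff.2 (hj (by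
    rw [map_mul, map_mul, e2]
    exact ((Commute.mul_left e1 (z3.symm.map j)).mul_left (Commute.inv_left e1)).eq))
  obtain ⟨l, l1, l2⟩ := hC.chain f fun k => fi2_ne (by simpa [k] using d1)
  have z4 : ⁅v, w⁆ ∈ centralizer ({f} : Set T) := mem_centralizer_singleton_iff.2 z3.symm
  have := l1.com v' (c h.inj g1 g3) w' (c h.inj' k1 k3) (e ▸ fun j => z1 (j ▸ one_mem _))
  rw [e, l2 1 (one_mem _) g g1 _ z4 v' g3, l2 γ hγ k k1 _ z4 w' k3, max_self] at this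
  exact lt_irrefl _ this

end CL.HK
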