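/-
Project HK (S5175): symmetry of a linear pair, and the elements that centralize both modules.
-/
import Cfsg.Agent.HK.Core

set_option autoImplicit false

open Cfsg Subgroup
open scoped commutatorElement

namespace CL.HK

open CL.Fus CL.Loc CL.Grp CL.Even Matrix

universe u

theorem gl2m_step {M : Type*} [Group M] {L V : Subgroup M} (hn : 𝒩(L) ≤ 𝒩(V)) (hc : L ⊓ 𝒞(V) = V) {a l : M}
    (ha : a ∈ 𝒩(L)) (ha' : a ∈ 𝒞(V)) (hl : l ∈ L) : a * l * a⁻¹ * l⁻¹ ∈ V := by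
  rw [← hc]
  refine ⟨L.mul_mem ((mem_normalizer_iff.1 ha l).1 hl) (L.inv_mem hl), ?_⟩
  have hl' : l⁻¹ ∈ 𝒩(V) := hn (le_normalizer (L.inv_mem hl))
  have : l * a⁻¹ * l⁻¹ ∈ 𝒞(V) := by
    rw [mem_centralizer_iff]
    intro v hv
    have h1 : l⁻¹ * v * l⁻¹⁻¹ ∈ V := (mem_normalizer_iff.1 hl' v).1 hv
    have h2 := mem_centralizer_iff.1 ((𝒞(V)).inv_mem ha') _ h1
    calc v * (l * a⁻¹ * l⁻¹) = l * (l⁻¹ * v * l⁻¹⁻¹ * a⁻¹) * l⁻¹ := by group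
      _ = l * (a⁻¹ * (l⁻¹ * v * l⁻¹⁻¹)) * l⁻¹ := by rw [h2]
      _ = l * a⁻¹ * l⁻¹ * v := by group
  have e : a * l * a⁻¹ * l⁻¹ = a * (l * a⁻¹ * l⁻¹) := by group
  rw [SetLike.mem_coe, e]
  exact (𝒞(V)).mul_mem ha' this

theorem gl2m_comm {M : Type*} [Group M] {L V : Subgroup M} (hn : 𝒩(L) ≤ 𝒩(V)) (hc : L ⊓ 𝒞(V) = V) {a b : M}
    (ha : a ∈ 𝒩(L)) (ha' : a ∈ 𝒞(V)) (hb : b ∈ 𝒩(L)) (hb' : b ∈ 𝒞(V)) : ⁅a, b⁆ ∈ 𝒞(L) := by
  have key : ∀ l ∈ L, a * (b * l * b⁻¹) * a⁻¹ = b * (a * l * a⁻¹) * b⁻¹ := by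
    intro l hl
    have hd := gl2m_step hn hc ha ha' hl
    have hd' := gl2m_step hn hc hb hb' hl
    set d := a * l * a⁻¹ * l⁻¹ with e
    set d' := b * l * b⁻¹ * l⁻¹ with e'
    have h1 : d' * a = a * d' := mem_centralizer_iff.1 ha' _ hd'
    have h2 : d * b = b * d := mem_centralizer_iff.1 hb' _ hd
    have h3 : d' * d = d * d' := by
      have : d ∈ 𝒞(V) := (hc.ge hd).2
      exact mem_centralizer_iff.1 this _ hd'
    have f : a * l * a⁻¹ = d * l := by rw [e]; group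
    have f' : b * l * b⁻¹ = d' * l := by rw [e']; group
    calc a * (b * l * b⁻¹) * a⁻¹ = (a * d') * l * a⁻¹ := by rw [f']; group
      _ = d' * (a * l * a⁻¹) := by rw [← h1]; group
      _ = (d' * d) * l := by rw [f]; group
      _ = d * (b * l * b⁻¹) := by rw [h3, f']; group
      _ = (d * b) * l * b⁻¹ := by group
      _ = b * (d * l) * b⁻¹ := by rw [h2]; group
      _ = b * (a * l * a⁻¹) * b⁻¹ := by rw [f]
  rw [mem_centralizer_iff]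
  intro l hl
  have hm : (b * a)⁻¹ ∈ 𝒩(L) := (𝒩(L)).inv_mem ((𝒩(L)).mul_mem hb ha)
  have hl' : (b * a)⁻¹ * l * (b * a)⁻¹⁻¹ ∈ L := (mem_normalizer_iff.1 hm l).1 hl
  have h := key _ hl'
  rw [commutatorElement_def]
  calc l * (a * b * a⁻¹ * b⁻¹)
      = (b * (a * ((b * a)⁻¹ * l * (b * a)⁻¹⁻¹) * a⁻¹) * b⁻¹) * (a * b * a⁻¹ * b⁻¹) := by group
    _ = (a * (b * ((b * a)⁻¹ * l * (b * a)⁻¹⁻¹) * b⁻¹) * a⁻¹) * (a * b * a⁻¹ * b⁻¹) := by rw [h]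
    _ = a * b * a⁻¹ * b⁻¹ * l := by group

theorem gl2m_symm {T M : Type u} [Group T] [Group M] {K : Type} [Field K] [Fintype K] {i j : T →* M}
    {L : Subgroup M} {N : NS K L} (h : Lp i j L N) : Lp j i L N where
  inj := h.inj'
  inj' := h.inj
  rng := h.rng.symm
  ln := h.rng ▸ h.ln
  Y := by rw [inf_comm, commutator_comm]; exact h.Y
  line := h.line'
  line' := h.line
  act := h.rng ▸ h.act'
  act' := h.rng ▸ h.act
  surj := h.rng ▸ h.surj'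
  surj' := h.rng ▸ h.surj
  nd := fun v hv w hw hd => (h.nd' w hw v hv (by
    rw [← commutatorElement_inv]; exact (Dd j L).inv_mem hd)).symm
  nd' := fun v hv w hw hd => (h.nd w hw v hv (by
    rw [← commutatorElement_inv]; exact (Dd i L).inv_mem hd)).symm

theorem gl2m (h : GLm.{u}) : GL2m.{u} := by
  intro T M _ _ _ K _ _ i j L N hp
  refine ⟨gl2m_symm hp, fun x hx hV hW => ?_⟩
  haveI : Fact (Nat.Prime 2) := ⟨Nat.prime_two⟩
  have hle : pCoreOf 2 L ≤ j.range := by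
    rw [hp.rng]; exact hp.ln.core.trans (core_top.ge.trans (core_le_syl hp.ln.syl))
  have hX : j x ∈ 𝒞(pCoreOf 2 L) := by
    rw [mem_centralizer_iff]
    intro v hv
    obtain ⟨w, rfl⟩ := hle hv
    rw [← map_mul, ← map_mul, mem_centralizer_iff.1 hW w hv]
  have ht : ∀ t ∈ i.range ⊓ L, ⁅j x, t⁆ ∈ 𝒞(L) := by
    intro t ht
    obtain ⟨v, hv, hc⟩ := hp.surj' t ht
    have hn : j v * t⁻¹ ∈ 𝒩(L) := (𝒩(L)).mul_mem (hp.act' v hv).1 (le_normalizer (L.inv_mem ht.2))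
    have h1 := gl2m_comm (norm_le_norm_core L) hp.ln.cent hx hX ((𝒩(L)).inv_mem hn)
      ((𝒞(pCoreOf 2 L)).inv_mem hc)
    have h2 : j v * j x = j x * j v := by rw [← map_mul, ← map_mul, mem_centralizer_iff.1 hV v hv]
    have e : ⁅j x, t⁆ = ⁅j x, (j v * t⁻¹)⁻¹⁆ := by
      rw [commutatorElement_def, commutatorElement_def]
      calc j x * t * (j x)⁻¹ * t⁻¹ = j x * t * (j v)⁻¹ * (j x)⁻¹ * (j x * j v) * (j x)⁻¹ * t⁻¹ := by
            group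
        _ = j x * t * (j v)⁻¹ * (j x)⁻¹ * (j v * j x) * (j x)⁻¹ * t⁻¹ := by rw [h2]
        _ = _ := by group
    rw [e]; exact h1
  obtain ⟨y, hy, hxy⟩ := h M K i.range L N (j x) hp.ln hx hX ht
  obtain ⟨w, rfl⟩ := hle (N.line_le hy)
  have hw : w ∈ Vv j L := N.line_le hy
  refine ⟨w, ⟨(hp.line' w hw).2 hy, hw⟩, ?_⟩
  show j (x * w⁻¹) ∈ 𝒞(L)
  rwa [map_mul, map_inv]

end CL.HK
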