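/-
Project HK: an element centralising `O₂(L)` and `T ∩ L` modulo `C(L)` centralises `L` up to an element of the line.
-/
import Cfsg.Agent.HK.Core

set_option autoImplicit false

open Cfsg Subgroup
open scoped commutatorElement

namespace CL.HK

open CL.Fus CL.Loc CL.Grp CL.Even Matrix

universe u

/-- a cocycle vanishing on a subgroup of odd index is a coboundary -/
theorem glm_avg {X : Type*} [Group X] [Finite X] {K : Type} [Field K] [CharP K 2] (P : Subgroup X)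
    (hP : ¬ 2 ∣ P.index) (r : X → Matrix (Fin 2) (Fin 2) K) (e : X → Fin 2 → K)
    (he : ∀ g h, e (g * h) = e g + r g *ᵥ e h) (h0 : ∀ t ∈ P, e t = 0) : ∃ w, ∀ h, w = e h + r h *ᵥ w := by
  classical
  have := Fintype.ofFinite (X ⧸ P)
  let E : X ⧸ P → Fin 2 → K := fun q => e q.out
  have k1 : ∀ g : X, E (g : X ⧸ P) = e g := fun g => by
    obtain ⟨t, ht⟩ := QuotientGroup.mk_out_eq_mul P g
    simp only [E]
    rw [ht, he, h0 t t.2, mulVec_zero, add_zero]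
  have k2 : ∀ (h : X) (q : X ⧸ P), E (h • q) = e h + r h *ᵥ E q := fun h q => by
    induction q using QuotientGroup.induction_on with
    | H g => rw [MulAction.Quotient.smul_coe, k1, k1, smul_eq_mul, he]
  refine ⟨∑ q, E q, fun h => ?_⟩
  obtain ⟨k, hk⟩ : Odd (Fintype.card (X ⧸ P)) := by
    rw [← Nat.card_eq_fintype_card, ← Nat.not_even_iff_odd, even_iff_two_dvd]; exact hP
  have k3 : Fintype.card (X ⧸ P) • e h = e h := by
    ext i
    simp [hk, CharTwo.two_eq_zero]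
  calc ∑ q, E q = ∑ q, E (h • q) := (Equiv.sum_comp (MulAction.toPerm h) E).symm
    _ = _ := by
      simp only [k2, Finset.sum_add_distrib, Finset.sum_const, Finset.card_univ, k3, mulVec_sum]

theorem glm : GLm.{u} := by
  intro M _ _ K _ _ T L N x h hn hc ht
  have := h.chr
  have nV : L ≤ 𝒩(pCoreOf 2 L) := self_le_norm_core L
  have d1 : ∀ g ∈ L, ⁅x, g⁆ ∈ pCoreOf 2 L := fun g hg => by
    rw [← h.cent]
    refine mem_inf.2 ⟨mul_mem (conj_mem hn hg) (inv_mem hg), ?_⟩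
    have := mul_mem hc (conj_mem (le_norm_cent nV hg) (inv_mem hc))
    simpa [commutatorElement_def, mul_assoc] using this
  obtain ⟨w, hw⟩ := glm_avg ((T ⊓ L).subgroupOf L) h.sylL.not_dvd (fun g : L => (N.r g).1) (fun g => N.ψ ⁅x, (g : M)⁆)
    (fun a b => by
      rw [← N.ψ_conj _ a.2 _ (d1 _ b.2), ← N.ψ_mul _ (d1 _ a.2) _ (conj_mem (nV a.2) (d1 _ b.2))]
      congr 1
      simp only [commutatorElement_def, coe_mul]
      group)
    fun t k => (N.ψ_eq_zero _ (d1 _ t.2)).2 ⟨d1 _ t.2, ht _ k⟩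
  obtain ⟨y, hy, rfl⟩ := N.ψ_surj w
  have xy : ∀ a ∈ pCoreOf 2 L, a * x = x * a := fun a ha => comm_of_mem hc ha
  have z : ∀ g ∈ L, ⁅x * y⁻¹, g⁆ ∈ pCoreOf 2 L ⊓ 𝒞(L) := fun g hg => by
    have m : y⁻¹ * (g * y * g⁻¹) ∈ pCoreOf 2 L := mul_mem (inv_mem hy) (conj_mem (nV hg) hy)
    have e : ⁅x * y⁻¹, g⁆ = y⁻¹ * (g * y * g⁻¹) * ⁅x, g⁆ := by
      simp only [commutatorElement_def]
      calc x * y⁻¹ * g * (x * y⁻¹)⁻¹ * g⁻¹ = x * (y⁻¹ * (g * y * g⁻¹)) * (g * x⁻¹ * g⁻¹) := by group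
        _ = _ := by rw [← xy _ m]; group
    rw [e, ← N.ψ_eq_zero _ (mul_mem m (d1 g hg)), N.ψ_mul _ m _ (d1 g hg),
      N.ψ_mul _ (inv_mem hy) _ (conj_mem (nV hg) hy), N.ψ_inv hy, N.ψ_conj _ hg _ hy]
    have := hw ⟨g, hg⟩
    simp only at this
    rw [add_assoc, add_comm _ (N.ψ ⁅x, g⁆), ← this, neg_add_cancel]
  refine ⟨y, N.mem_line.2 ⟨hy, ?_⟩, ?_⟩
  · obtain ⟨t, htL, e⟩ := N.r_surj (sl2Up 1)
    have tu : t ∈ T ⊓ L := h.up ▸ N.mem_up.2 ⟨htL, 1, e.symm⟩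
    have := hw ⟨t, htL⟩
    simp only at this
    rw [(N.ψ_eq_zero _ (d1 _ htL)).2 ⟨d1 _ htL, ht _ tu⟩, zero_add, e, sl2Up_mulVec] at this
    simpa using congrFun this 0
  · have : pResidualOf 2 L ≤ centralizer {x * y⁻¹} := res_le_of_pow fun g hg => ⟨1, by
      have e1 := h.ea.2 _ (z g hg).1
      have e2 := comm_of_mem (z g hg).2 hg
      rw [mem_centralizer_singleton_iff, eq_comm, ← commutatorElement_eq_one_iff_mul_comm]
      calc ⁅x * y⁻¹, g ^ 2 ^ 1⁆ = ⁅x * y⁻¹, g⁆ * (g * ⁅x * y⁻¹, g⁆ * g⁻¹) := by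
            simp only [commutatorElement_def, pow_one, pow_two]; group
        _ = 1 := by rw [e2, mul_inv_cancel_right, ← pow_two, e1]⟩
    rw [h.res] at this
    exact mem_centralizer_iff.2 fun g hg => mem_centralizer_singleton_iff.1 (this hg)

end CL.HK
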