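/-
Project HK: finite checks in `S₅` for the job `J5`.
-/
import Cfsg.Agent.HK.Core

set_option autoImplicit false
set_option synthInstance.maxSize 100000
set_option synthInstance.maxHeartbeats 200000

namespace CL.HK.J5x

open Equiv

abbrev S5 := Perm (Fin 5)

def Sw (ρ : S5) : Prop := ∃ a b : Fin 5, a ≠ b ∧ ρ = swap a b

instance (ρ : S5) : Decidable (Sw ρ) := by unfold Sw; infer_instance

/-- the even vectors fixed by `σ` and `τ` -/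
def fx (σ τ : S5) : Finset (Fin 5 → ZMod 2) :=
  Finset.univ.filter fun x => ∑ k, x k = 0 ∧ (∀ k, x (σ⁻¹ k) = x k) ∧ ∀ k, x (τ⁻¹ k) = x k

theorem d0 : (fx 1 1).card = 16 := by decide +kernel

theorem d1 : ∀ σ : S5, σ * σ = 1 → σ ≠ 1 → ∀ τ : S5, τ * τ = 1 → τ ≠ 1 → τ ≠ σ → σ * τ = τ * σ →
    (∀ ρ : S5, ρ * σ = σ * ρ → ρ * τ = τ * ρ → ρ = 1 ∨ ρ = σ ∨ ρ = τ ∨ ρ = σ * τ) ∧ (fx σ τ).card ≤ 4 ∧
      (4 ≤ (fx σ τ).card → Sw σ ∧ Sw τ ∨ Sw σ ∧ Sw (σ * τ) ∨ Sw τ ∧ Sw (σ * τ)) := by decide +kernel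

theorem d2 : ∀ σ : S5, σ * σ = 1 → σ ≠ 1 → (fx σ σ).card ≤ 8 ∧ (8 ≤ (fx σ σ).card → Sw σ) := by decide +kernel

theorem d3 : ∀ ρ : S5, ρ ^ 60 = 1 := by decide +kernel

theorem d4 : ∀ j k : Fin 5, (∀ x : Fin 5 → ZMod 2, ∑ k, x k = 0 → x j = x k) → j = k := by decide +kernel

theorem d5 : ∀ σ : S5, σ ^ 4 = 1 → σ ≠ 1 → Perm.sign σ = 1 → ∀ τ : S5, τ ^ 4 = 1 → τ ≠ 1 → Perm.sign τ = 1 →
    τ ≠ σ → (σ * τ) ^ 4 = 1 → ∀ a b : Fin 5, a ≠ b → (swap a b * σ) ^ 4 = 1 → ∃ c d : Fin 5, [a, b, c, d].Nodup ∧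
      (σ = swap a c * swap b d ∨ τ = swap a c * swap b d) ∧ ∀ a' b' : Fin 5, a' ≠ b' → (swap a' b' * σ) ^ 4 = 1 →
        (swap a' b' * swap a b) ^ 4 = 1 → swap a' b' = swap a b ∨ swap a' b' = swap c d := by decide +kernel

end CL.HK.J5x
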