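/-
Project HK: the Thompson subgroup acts on an `A₅`-block through two disjoint transpositions.
-/
import Cfsg.Agent.HK.J5d

set_option autoImplicit false

open Cfsg Subgroup
open scoped commutatorElement

namespace CL.HK

open CL.Fus CL.Loc CL.Grp CL.Even

universe u

namespace J5x

open Equiv

theorem card_le (E : Subgroup S5) (s : Finset S5) (h : ∀ ρ ∈ E, ρ ∈ s) : Nat.card E ≤ s.card := by
  rw [← Nat.card_eq_finsetCard]
  exact Nat.card_le_card_of_injective (fun x : E => (⟨x, h x x.2⟩ : s))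
    fun a b e => Subtype.ext (congrArg (fun z : s => (z : S5)) e)

theorem comb (E : Subgroup S5) (m : ℕ) (h2 : ∀ ρ ∈ E, ρ * ρ = 1) (hc : ∀ ρ ∈ E, ∀ ρ' ∈ E, ρ * ρ' = ρ' * ρ)
    (hm : ∀ σ ∈ E, ∀ τ ∈ E, m ≤ (fx σ τ).card) : Nat.card E * m ≤ 16 ∧
      (16 ≤ Nat.card E * m → ∀ Z : Subgroup S5, (∀ ρ ∈ E, Sw ρ → ρ ∈ Z) → E ≤ Z) := by
  by_cases h0 : ∀ σ ∈ E, σ = 1
  · have a := card_le E {1} fun ρ hρ => Finset.mem_singleton.2 (h0 ρ hρ)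
    have b := hm 1 (one_mem E) 1 (one_mem E)
    rw [d0] at b
    rw [Finset.card_singleton] at a
    exact ⟨(Nat.mul_le_mul a b).trans (by norm_num), fun _ Z _ ρ hρ => h0 ρ hρ ▸ one_mem Z⟩
  push Not at h0
  obtain ⟨σ, hσ, σ1⟩ := h0
  by_cases h1 : ∀ τ ∈ E, τ = 1 ∨ τ = σ
  · have a := (card_le E {1, σ} fun ρ hρ => by simpa using h1 ρ hρ).trans Finset.card_le_two
    have b := hm σ hσ σ hσ
    obtain ⟨c, d⟩ := d2 σ (h2 σ hσ) σ1
    refine ⟨(Nat.mul_le_mul a (b.trans c)).trans (by norm_num), fun k Z hZ ρ hρ => ?_⟩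
    have := k.trans (Nat.mul_le_mul a b)
    rcases h1 ρ hρ with rfl | rfl
    exacts [one_mem Z, hZ _ hρ (d (by omega))]
  push Not at h1
  obtain ⟨τ, hτ, τ1, τσ⟩ := h1
  obtain ⟨e, c, d⟩ := d1 σ (h2 σ hσ) σ1 τ (h2 τ hτ) τ1 τσ (hc σ hσ τ hτ)
  have e' : ∀ ρ ∈ E, ρ = 1 ∨ ρ = σ ∨ ρ = τ ∨ ρ = σ * τ := fun ρ hρ => e ρ (hc ρ hρ σ hσ) (hc ρ hρ τ hτ)
  have a := (card_le E {1, σ, τ, σ * τ} fun ρ hρ => by simpa using e' ρ hρ).trans Finset.card_le_four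
  have b := hm σ hσ τ hτ
  refine ⟨(Nat.mul_le_mul a (b.trans c)).trans (by norm_num), fun k Z hZ ρ hρ => ?_⟩
  have := k.trans (Nat.mul_le_mul a b)
  have hs : σ ∈ Z ∧ τ ∈ Z := by
    rcases d (by omega) with ⟨p, q⟩ | ⟨p, q⟩ | ⟨p, q⟩
    · exact ⟨hZ σ hσ p, hZ τ hτ q⟩
    · exact ⟨hZ σ hσ p, (mul_mem_cancel_left (hZ σ hσ p)).1 (hZ _ (mul_mem hσ hτ) q)⟩
    · exact ⟨(mul_mem_cancel_right (hZ τ hτ p)).1 (hZ _ (mul_mem hσ hτ) q), hZ τ hτ p⟩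
  rcases e' ρ hρ with rfl | rfl | rfl | rfl
  exacts [one_mem Z, hs.1, hs.2, mul_mem hs.1 hs.2]

theorem pow_four {ρ : S5} {k : ℕ} (h : ρ ^ 2 ^ k = 1) : ρ ^ 4 = 1 :=
  orderOf_dvd_iff_pow_eq_one.1 (Nat.Coprime.dvd_of_dvd_mul_right (n := 15)
    (Nat.Coprime.coprime_dvd_left (orderOf_dvd_of_pow_eq_one h) (Nat.Coprime.pow_left k (show Nat.Coprime 2 15 by norm_num)))
    (orderOf_dvd_of_pow_eq_one (d3 ρ)))

theorem mem_two {X : Type*} [Group X] {s x : X} (h : s * s = 1) (hx : x ∈ zpowers s) : x = 1 ∨ x = s := by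
  obtain ⟨n, rfl⟩ := hx
  have h2 : ∀ k : ℤ, s ^ (2 * k) = 1 := fun k => by rw [zpow_mul, zpow_two, h, one_zpow]
  rcases Int.even_or_odd' n with ⟨k, rfl | rfl⟩
  · exact .inl (h2 k)
  · exact .inr (by change s ^ (2 * k + 1) = s; rw [zpow_add, h2, one_mul, zpow_one])

variable {M : Type u} [Group M] {T L : Subgroup M} {π : M → S5} {ψ : M → Fin 5 → ZMod 2}

/-- the homomorphism defined by `π` -/
def hom (p : P5 L π ψ) {A : Subgroup M} (hA : A ≤ 𝒩(L)) : A →* S5 :=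
  MonoidHom.mk' (fun x => π x) fun a b => p.π_mul _ (hA a.2) _ (hA b.2)

theorem inj (b : Bk T L) (p : P5 L π ψ) {v w : M} (hv : v ∈ pCoreOf 2 L) (hw : w ∈ pCoreOf 2 L) (e : ψ v = ψ w) :
    v = w := by
  have h1 := p.ψ_inj _ (mul_mem hv hw) (by rw [p.ψ_mul v hv w hw, e]; exact CharTwo.add_self_eq_zero _)
  have h2 : w * w = 1 := by rw [← sq]; exact ea_pow b.ea hw
  exact mul_right_cancel (h1.trans h2.symm)

theorem ker (b : Bk T L) (p : P5 L π ψ) {m : M} (hm : m ∈ 𝒩(L)) : π m = 1 ↔ m ∈ 𝒞(pCoreOf 2 L) := by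
  refine ⟨fun h => mem_centralizer_iff.2 fun v hv => ?_, fun h => ?_⟩
  · have := inj b p (conj_mem (norm_le_norm_core L hm) hv) hv (funext fun k => by rw [p.ψ_conj m hm v hv, h]; rfl)
    exact (mul_inv_eq_iff_eq_mul.1 this).symm
  · refine inv_eq_one.1 (Equiv.ext fun k => d4 _ _ fun x hx => ?_)
    obtain ⟨v, hv, rfl⟩ := p.ψ_surj x hx
    rw [← p.ψ_conj m hm v hv, conj_eq_of_mem h hv]
    rfl

variable [Finite M]

theorem le_T (b : Bk T L) : pCoreOf 2 L ≤ T := b.core.trans (core_top (G := M) (p := 2) ▸ core_le_syl b.syl)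

omit [Finite M] in
theorem card_V (b : Bk T L) (p : P5 L π ψ) : Nat.card (pCoreOf 2 L) = 16 := by
  rw [← d0, ← Nat.card_eq_finsetCard]
  refine Nat.card_eq_of_bijective (fun v => ⟨ψ v, Finset.mem_filter.2
    ⟨Finset.mem_univ _, p.ψ_even _ v.2, fun _ => rfl, fun _ => rfl⟩⟩)
    ⟨fun v w e => Subtype.ext (inj b p v.2 w.2 (congrArg Subtype.val e)), fun x => ?_⟩
  obtain ⟨v, hv, e⟩ := p.ψ_surj x.1 (Finset.mem_filter.1 x.2).2.1
  exact ⟨⟨v, hv⟩, Subtype.ext e⟩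

theorem mea (b : Bk T L) (p : P5 L π ψ) {A : Subgroup M} (hA : A ∈ meaIn 2 T) (hN : A ≤ 𝒩(L)) :
    pCoreOf 2 L ≤ 𝐉[2] T ∧ ∀ Z : Subgroup S5, (∀ y ∈ A, Sw (π y) → π y ∈ Z) → ∀ x ∈ A, π x ∈ Z := by
  obtain ⟨V, hV⟩ : ∃ V, V = pCoreOf 2 L := ⟨_, rfl⟩
  have cV : Nat.card V = 16 := hV ▸ card_V b p
  have hB : IsElementaryAbelian 2 (V ⊔ (A ⊓ 𝒞(V)) : Subgroup M) :=
    ea_sup (hV ▸ b.ea) (CL.Loc.ea_mono hA.2.1 inf_le_left) (le_centralizer_iff.1 inf_le_right)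
  have hBT : V ⊔ (A ⊓ 𝒞(V)) ≤ T := sup_le (hV ▸ le_T b) (inf_le_left.trans hA.1)
  have c1 := card_sup_mul_card_inf (H := V) (K := A ⊓ 𝒞(V))
    ((le_centralizer_iff.1 inf_le_right).trans (cent_le_norm _))
  have c2 : Nat.card (A ⊓ 𝒞(V) : Subgroup M) * Nat.card (hom p hN).range = Nat.card A := by
    rw [← index_ker, ← (hom p hN).ker.card_mul_index,
      ← Nat.card_congr (subgroupOfEquivOfLe (inf_le_left : A ⊓ 𝒞(V) ≤ A)).toEquiv]
    congr 3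
    ext x
    rw [mem_subgroupOf, MonoidHom.mem_ker, mem_inf, hV, ← ker b p (hN x.2)]
    exact ⟨fun h => h.2, fun h => ⟨x.2, h⟩⟩
  obtain ⟨k1, k2⟩ := comb (hom p hN).range (Nat.card (V ⊓ (A ⊓ 𝒞(V)) : Subgroup M))
    (by rintro _ ⟨x, rfl⟩
        rw [← map_mul, show x * x = 1 from Subtype.ext (by rw [← sq]; exact ea_pow hA.2.1 x.2), map_one])
    (by rintro _ ⟨x, rfl⟩ _ ⟨y, rfl⟩
        rw [← map_mul, ← map_mul, show x * y = y * x from Subtype.ext (ea_commute hA.2.1 x.2 y.2).eq])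
    (by rintro _ ⟨x, rfl⟩ _ ⟨y, rfl⟩
        have fixed : ∀ (z : A) (w : (V ⊓ (A ⊓ 𝒞(V)) : Subgroup M)) (k : Fin 5), ψ w ((hom p hN z)⁻¹ k) = ψ w k :=
          fun z w k => by
            have := p.ψ_conj z (hN z.2) w (hV ▸ w.2.1) k
            rw [(ea_commute hA.2.1 z.2 w.2.2.1).eq, mul_inv_cancel_right] at this
            exact this.symm
        rw [← Nat.card_eq_finsetCard]
        exact Nat.card_le_card_of_injective (fun w : (V ⊓ (A ⊓ 𝒞(V)) : Subgroup M) =>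
          (⟨ψ w, Finset.mem_filter.2 ⟨Finset.mem_univ _, p.ψ_even _ (hV ▸ w.2.1), fixed x w, fixed y w⟩⟩ : fx _ _))
          fun v w e => Subtype.ext (inj b p (hV ▸ v.2.1) (hV ▸ w.2.1) (congrArg Subtype.val e)))
  have c3 := hA.2.2 _ hBT hB
  have p1 : 0 < Nat.card (A ⊓ 𝒞(V) : Subgroup M) := Nat.card_pos
  have p2 : 0 < Nat.card (V ⊓ (A ⊓ 𝒞(V)) : Subgroup M) := Nat.card_pos
  rw [cV] at c1
  refine ⟨hV ▸ le_sup_left.trans (le_thompsonSubgroupOf (mem_meaIn_of_card_le hA hBT hB ?_)), fun Z hZ x hx => ?_⟩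
  · refine Nat.le_of_mul_le_mul_right ?_ p2
    rw [c1, ← c2, mul_assoc, mul_comm 16]
    exact Nat.mul_le_mul_left _ k1
  · refine k2 (Nat.le_of_mul_le_mul_left ?_ p1) Z (by rintro _ ⟨y, rfl⟩; exact hZ y y.2) ⟨⟨x, hx⟩, rfl⟩
    rw [← mul_assoc, c2, mul_comm _ 16, ← c1]
    exact Nat.mul_le_mul_right _ c3

omit [Finite M] in
theorem four (b : Bk T L) (p : P5 L π ψ) : ∃ s ∈ T ⊓ L, ∃ t ∈ T ⊓ L, π s ≠ 1 ∧ π t ≠ 1 ∧ π t ≠ π s := by
  have h1 : IsSylowIn 2 ((T ⊓ L).subgroupOf L) ⊤ :=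
    ⟨le_top, b.sylL.isPGroup.comap_subtype, by rw [relIndex_top_right]; exact b.sylL.not_dvd⟩
  have h2 := syl_map (hom p (le_normalizer : L ≤ 𝒩(L))) h1
  have hU : IsPGroup 2 (zpowers (swap 0 1 * swap 2 3 : S5) ⊔ zpowers (swap 0 2 * swap 1 3 : S5) : Subgroup S5) :=
    isPGroup_sup (isPGroup_zpowers (k := 1) (by decide)) (isPGroup_zpowers (k := 1) (by decide))
      (zpowers_le.2 (cent_le_norm _ (by
        rintro _ ⟨n, rfl⟩; exact (Commute.zpow_left (by unfold Commute SemiconjBy; decide) n).eq)))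
  have hr : ∀ c : S5, Perm.sign c = 1 → c ∈ (⊤ : Subgroup L).map (hom p (le_normalizer : L ≤ 𝒩(L))) :=
    fun c hc => by
      obtain ⟨a, ha, e⟩ := p.π_surj c hc
      exact ⟨⟨a, ha⟩, trivial, e⟩
  obtain ⟨g, -, hg⟩ := syl_conj_le h2 hU (sup_le (zpowers_le.2 (hr _ (by decide))) (zpowers_le.2 (hr _ (by decide))))
  obtain ⟨s, hs, es⟩ := hg (conj_mem_cj g (mem_sup_left (mem_zpowers _)))
  obtain ⟨t, ht, et⟩ := hg (conj_mem_cj g (mem_sup_right (mem_zpowers _)))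
  refine ⟨s, hs, t, ht, fun e => ?_, fun e => ?_, fun e => ?_⟩
  · exact absurd (conj_eq_one_iff.1 (es.symm.trans e)) (by decide)
  · exact absurd (conj_eq_one_iff.1 (et.symm.trans e)) (by decide)
  · exact absurd (mul_left_cancel (mul_right_cancel (et.symm.trans (e.trans es)))) (by decide)

end J5x

open J5x in
theorem j5 (h : LC.{u}) : J5.{u} := by
  intro M _ _ T L π ψ b p
  have hJ : 𝐉[2] T ≤ 𝒩(L) := (h M (ZMod 2) T L).2.2.2 b
  have hA : ∀ A ∈ meaIn 2 T, A ≤ 𝒩(L) := fun A hA => (le_thompsonSubgroupOf hA).trans hJ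
  obtain ⟨A₀, hA₀⟩ := exists_mem_meaIn 2 T
  have hV := (mea b p hA₀ (hA _ hA₀)).1
  refine ⟨hV, ?_⟩
  have p4 : ∀ x ∈ T, ∀ y ∈ T, x ∈ 𝒩(L) → y ∈ 𝒩(L) → (π x * π y) ^ 4 = 1 := fun x hx y hy hx' hy' => by
    obtain ⟨k, hk⟩ := isPGroup_iff_forall.1 b.syl.isPGroup _ (mul_mem hx hy)
    rw [← p.π_mul x hx' y hy']
    refine pow_four (k := k) ?_
    have := map_pow (hom p le_rfl) ⟨x * y, mul_mem hx' hy'⟩ (2 ^ k)
    rw [show (⟨x * y, mul_mem hx' hy'⟩ : 𝒩(L)) ^ 2 ^ k = 1 from Subtype.ext hk, map_one] at this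
    exact this.symm
  have π1 : π 1 = 1 := map_one (hom p le_rfl)
  obtain ⟨A, hA', y, hy, a, a', ha, e⟩ : ∃ A ∈ meaIn 2 T, ∃ y ∈ A, Sw (π y) := by
    by_contra hn
    push Not at hn
    have h1 : 𝐉[2] T ≤ 𝒞(pCoreOf 2 L) := thompsonSubgroupOf_le_iff.2 fun A hA' x hx =>
      (ker b p (hA A hA' hx)).1 (mem_bot.1 ((mea b p hA' (hA A hA')).2 ⊥ (fun y hy k => (hn A hA' y hy k).elim) x hx))
    have h2 := bau_le_cent_of (le_T b) b.ea (le_centralizer_iff.1 h1)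
    have h3 : L ≤ 𝒞(pCoreOf 2 L) := b.bau.ge.trans ((commutator_mono le_rfl h2).trans
      (commutator_le_of_le_norm' (le_norm_cent (self_le_norm_core L))))
    exact b.ne (b.comm.symm.trans (commutator_eq_bot_iff'.2 h3))
  obtain ⟨s, hs, t, ht, s1, t1, ts⟩ := four b p
  have sN : s ∈ 𝒩(L) := le_normalizer hs.2
  have tN : t ∈ 𝒩(L) := le_normalizer ht.2
  have yT : y ∈ T := hA'.1 hy
  have yN : y ∈ 𝒩(L) := hA A hA' hy
  obtain ⟨c, d, nd, e1, e2⟩ := d5 (π s) (by simpa [π1] using p4 s hs.1 1 (one_mem _) sN (one_mem _)) s1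
    (p.π_alt s hs.2) (π t) (by simpa [π1] using p4 t ht.1 1 (one_mem _) tN (one_mem _)) t1 (p.π_alt t ht.2) ts
    (p4 s hs.1 t ht.1 sN tN) a a' ha (e ▸ p4 y yT s hs.1 yN sN)
  refine ⟨a, a', c, d, nd, fun x hx => ?_, e1.elim (fun k => ⟨s, hs, k⟩) fun k => ⟨t, ht, k⟩⟩
  have hc : Equiv.swap a a' * Equiv.swap c d = Equiv.swap c d * Equiv.swap a a' := by
    clear * - nd
    revert a a' c d
    decide +kernel
  have h1 : 𝐉[2] T ≤ ((zpowers (Equiv.swap a a') ⊔ zpowers (Equiv.swap c d)).comap (hom p le_rfl)).map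
      (𝒩(L)).subtype := thompsonSubgroupOf_le_iff.2 fun B hB z hz =>
    ⟨⟨z, hA B hB hz⟩, (mea b p hB (hA B hB)).2 (zpowers (Equiv.swap a a') ⊔ zpowers (Equiv.swap c d))
      (fun w hw ⟨r, r', hr, k⟩ => by
      rw [k]
      rcases e2 r r' hr (k ▸ p4 w (hB.1 hw) s hs.1 (hA B hB hw) sN) (k ▸ e ▸ p4 w (hB.1 hw) y yT (hA B hB hw) yN)
        with k' | k' <;> rw [k']
      exacts [mem_sup_left (mem_zpowers _), mem_sup_right (mem_zpowers _)]) z hz, rfl⟩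
  obtain ⟨z, hz, rfl⟩ := h1 hx
  obtain ⟨u, hu, v, hv, k⟩ := (mem_sup_nr (zpowers_le.2 (cent_le_norm _ (by
    rintro _ ⟨n, rfl⟩; exact (Commute.zpow_left hc.symm n).eq)))).1 hz
  have k' : π (z : M) = u * v := k.symm
  change π (z : M) = 1 ∨ π (z : M) = _ ∨ π (z : M) = _ ∨ π (z : M) = _
  rw [k']
  rcases mem_two (Equiv.swap_mul_self _ _) hu with rfl | rfl <;>
    rcases mem_two (Equiv.swap_mul_self _ _) hv with rfl | rfl <;> simp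

end CL.HK
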