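/-
Project HK (S5175), case (c): definitions and the statements of the parts.
-/
import Cfsg.Agent.HK.Top
import Cfsg.Agent.U5.Cri
import Cfsg.Agent.Spor.J23H

set_option autoImplicit false

open Cfsg Subgroup
open scoped commutatorElement

namespace CL.HK.J

open CL.Fus CL.Grp CL.J23

universe u

section
variable {Ω : Type u} [Group Ω] {K : Type} [Field K]

/-- the group part of `QD` -/
structure GD [Fintype K] (S : Subgroup Ω) (ε : Bool) (θ : K ≃+* K) (T : Subgroup Ω) (v w y z : K → Ω) (s : Ω) :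
    Prop extends Co ε T v w y z where
  chr : CharP K 2
  four : 4 ≤ Fintype.card K
  le : T ≤ S
  sS : s ∈ S
  sT : s ∉ T
  s2 : s * s = 1
  gen : ∀ x ∈ S, x ∈ T ∨ x * s ∈ T
  θθ : ∀ a, θ (θ a) ^ ex ε = a
  sv : ∀ a, s * v a * s⁻¹ = w (θ a ^ ex ε)
  sw : ∀ a, s * w a * s⁻¹ = v (θ a)
  sy : ∀ a, s * y a * s⁻¹ = hz ε y z (θ a ^ ex ε)
  sh : ∀ a, s * hz ε y z a * s⁻¹ = y (θ a)

theorem _root_.CL.HK.QD.jgd [Fintype K] {S : Subgroup Ω} {F : FusionSystem S} {ε : Bool} {θ : K ≃+* K} {T : Subgroup Ω}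
    {v w y z : K → Ω} {s : Ω} (h : QD F ε θ T v w y z s) : GD S ε θ T v w y z s :=
  ⟨h.toCo, h.chr, h.four, h.le, h.sS, h.sT, h.s2, h.gen, h.θθ, h.sv, h.sw, h.sy, h.sh⟩

/-- the element with the coordinates `a, u, b, c` -/
def el (v w y z : K → Ω) (a u b c : K) : Ω := v a * w u * y b * z c

/-- the centre `Y` of `T` -/
def Yc (y z : K → Ω) : Subgroup Ω := closure (Set.range y ∪ Set.range z)

/-- the extraspecial group of order 32 in the case `q = 4` -/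
def Es (v w y : K → Ω) (s : Ω) : Subgroup Ω := closure (Set.range (fun a => v a * w (a ^ 2)) ∪ Set.range y ∪ {s})

/-- five anticommuting involutions -/
def qq (v w y : K → Ω) (s : Ω) (ω : K) : Fin 5 → Ω :=
  ![y (ω + 1), s, v 1 * w 1 * s, v ω * w (ω ^ 2) * s, v (ω + 1) * w ((ω + 1) ^ 2) * s]

/-- the case `q = 4` with the unitary automorphism -/
structure Q4 [Fintype K] (ε : Bool) (θ : K ≃+* K) (ω : K) : Prop where
  eps : ε = false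
  card : Fintype.card K = 4
  th : ∀ a, θ a = a ^ 2
  sq : ω ^ 2 = ω + 1
  all : ∀ a : K, a = 0 ∨ a = 1 ∨ a = ω ∨ a = ω + 1

/-- computing in `S` -/
structure Bas (S : Subgroup Ω) (ε : Bool) (θ : K ≃+* K) (T : Subgroup Ω) (v w y z : K → Ω) (s : Ω) : Prop where
  two : ∀ a : K, a + a = 0
  three : ∃ a : K, a ≠ 0 ∧ a ≠ 1
  mul : ∀ a u b c a' u' b' c', el v w y z a u b c * el v w y z a' u' b' c' =
    el v w y z (a + a') (u + u') (b + b' + a' * u) (c + c' + a' ^ 2 * u)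
  one : el v w y z 0 0 0 0 = 1
  inv : ∀ a u b c, (el v w y z a u b c)⁻¹ = el v w y z a u (b + a * u) (c + a ^ 2 * u)
  inj : ∀ {a u b c a' u' b' c'}, el v w y z a u b c = el v w y z a' u' b' c' →
    a = a' ∧ u = u' ∧ b = b' ∧ (ε = true → c = c')
  drop : ε = false → ∀ a u b c, el v w y z a u b c = el v w y z a u b 0
  ev : ∀ a, v a = el v w y z a 0 0 0
  ew : ∀ a, w a = el v w y z 0 a 0 0
  ey : ∀ a, y a = el v w y z 0 0 a 0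
  ez : ∀ a, z a = el v w y z 0 0 0 a
  memT : ∀ t, t ∈ T ↔ ∃ a u b c, t = el v w y z a u b c
  memY : ∀ x, x ∈ Yc y z ↔ ∃ b c, x = el v w y z 0 0 b c
  memV : ∀ x, x ∈ sp v y z ↔ ∃ a b c, x = el v w y z a 0 b c
  memW : ∀ x, x ∈ sp w y z ↔ ∃ u b c, x = el v w y z 0 u b c
  sel : ∀ a u b c, ∃ b' c', s * el v w y z a u b c * s⁻¹ = el v w y z (θ u) (θ a ^ ex ε) b' c'
  sel0 : ε = false → ∀ a u b c, s * el v w y z a u b c * s⁻¹ = el v w y z (θ u) (θ a) (θ b + θ u * θ a) 0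
  xel : ∀ x ∈ S, x ∉ T → ∀ a u b c, ∃ b' c', x * el v w y z a u b c * x⁻¹ = el v w y z (θ u) (θ a ^ ex ε) b' c'
  out : ∀ x ∈ S, x ∉ T → ∃ t ∈ T, x = t * s
  idx : ∀ x ∈ S, ∀ x' ∈ S, x ∉ T → x' ∉ T → x * x' ∈ T
  sq : ∀ x ∈ S, x * x ∈ T
  nT : ∀ g ∈ S, ∀ t ∈ T, g * t * g⁻¹ ∈ T
  YT : Yc y z ≤ T
  Yz : ∀ x ∈ Yc y z, ∀ t ∈ T, x * t = t * x
  zY : ∀ x ∈ T, (∀ t ∈ T, x * t = t * x) → x ∈ Yc y z
  Y2 : ∀ x ∈ Yc y z, x * x = 1
  nY : ∀ g ∈ S, ∀ x ∈ Yc y z, g * x * g⁻¹ ∈ Yc y z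
  cT : ∀ t ∈ T, ∀ t' ∈ T, ⁅t, t'⁆ ∈ Yc y z
  sY : ∀ c ∈ S, c ∉ T → ∀ x ∈ Yc y z, c * x * c⁻¹ = s * x * s⁻¹
  iY : ∀ c ∈ S, c ∉ T → ∀ t ∈ T, t * t = 1 → ⁅t, c⁆ ∈ Yc y z → t ∈ Yc y z
  iVW : ∀ t ∈ T, t * t = 1 → t ∈ sp v y z ∨ t ∈ sp w y z

/-- the centraliser of `s` in `Y` has index greater than two -/
def Big (y z : K → Ω) (s : Ω) : Prop := ∃ a ∈ Yc y z, ∃ b ∈ Yc y z, s * a ≠ a * s ∧ s * b ≠ b * s ∧ s * (a * b) ≠ a * b * s

/-- facts about `Es` -/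
structure E4 (S T : Subgroup Ω) (v w y z : K → Ω) (s : Ω) (ω : K) : Prop where
  mem : ∀ x, x ∈ Es v w y s ↔ ∃ a b, x = el v w y z a (a ^ 2) b 0 ∨ x = el v w y z a (a ^ 2) b 0 * s
  memT : ∀ x, x ∈ Es v w y s ∧ x ∈ T ↔ ∃ a b, x = el v w y z a (a ^ 2) b 0
  qg : QG (y 1) (qq v w y s ω)
  qE : ∀ i, qq v w y s ω i ∈ Es v w y s
  card : Nat.card (Es v w y s) = 32
  cardS : Nat.card S = 128
  le : Es v w y s ≤ S
  nE : ∀ g ∈ S, ∀ e ∈ Es v w y s, g * e * g⁻¹ ∈ Es v w y s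
  com : ∀ e ∈ Es v w y s, ∀ e' ∈ Es v w y s, ⁅e, e'⁆ = 1 ∨ ⁅e, e'⁆ = y 1
  dec : ∀ x ∈ S, ∃ u, ∃ e ∈ Es v w y s, x = v u * e
  yz : ∀ x ∈ S, y 1 * x = x * y 1
  Y0 : ∀ x ∈ Yc y z, s * x = x * s → x = 1 ∨ x = y 1
  act : ∀ u a, v u * (v a * w (a ^ 2) * s) * (v u)⁻¹ = v (a + u) * w ((a + u) ^ 2) * s
  pmE : ∀ e ∈ Es v w y s, ∀ i, Pm (y 1) (qq v w y s ω) (e * qq v w y s ω i * e⁻¹) i

/-- `f` permutes the five singular points evenly -/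
def Ev (z : Ω) (q : Fin 5 → Ω) (f : Ω → Ω) : Prop := ∃ σ ∈ alternatingGroup (Fin 5), ∀ i, Pm z q (f (q i)) (σ i)

/-- some automorphism of `E` does not leave `E ⊓ T` invariant -/
def NI {S : Subgroup Ω} (F : FusionSystem S) (E T : Subgroup Ω) : Prop :=
  ∃ f, Mor F E f ∧ img f E = E ∧ ∃ x ∈ E, x ∈ T ∧ f x ∉ T

/-- generators and relations found in `J₃` -/
structure JRel (a₁ a₂ b₁ b₂ c₁ c₂ s n h k : Ω) : Prop where
  sq : ∀ x ∈ [a₁, a₂, b₁, b₂, c₁, c₂, s], x * x = 1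
  aa : a₁ * a₂ = a₂ * a₁
  bb : b₁ * b₂ = b₂ * b₁
  cc : ∀ c ∈ [c₁, c₂], ∀ x ∈ [a₁, a₂, b₁, b₂, c₁, c₂], c * x = x * c
  ab : a₁ * b₁ = c₁ * b₁ * a₁ ∧ a₁ * b₂ = c₂ * b₂ * a₁ ∧ a₂ * b₁ = c₂ * b₁ * a₂ ∧ a₂ * b₂ = c₁ * c₂ * b₂ * a₂
  rs : s * a₁ = b₁ * s ∧ s * a₂ = b₁ * b₂ * s ∧ s * b₁ = a₁ * s ∧ s * b₂ = a₁ * a₂ * s ∧ s * c₁ = c₁ * s ∧
    s * c₂ = c₁ * c₂ * s
  rn : n * a₁ = c₁ * n ∧ n * a₂ = c₂ * n ∧ n * c₁ = a₁ * n ∧ n * c₂ = a₂ * n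
  rh : h * a₁ = a₂ * h ∧ h * a₂ = a₁ * a₂ * h ∧ h * b₁ = b₂ * h ∧ h * b₂ = b₁ * b₂ * h ∧ h * c₁ = c₁ * c₂ * h ∧
    h * c₂ = c₁ * h
  rk : k * a₁ = a₂ * k ∧ k * a₂ = a₁ * a₂ * k ∧ k * b₁ = b₁ * b₂ * k ∧ k * b₂ = b₁ * k ∧ k * c₁ = c₁ * k ∧
    k * c₂ = c₂ * k ∧ k * s = s * k
  ne : c₁ ≠ 1

/-- the fusion maps that are given in `J₃` -/
structure Giv {S : Subgroup Ω} (F : FusionSystem S) (T : Subgroup Ω) (v w y z : K → Ω) (s : Ω) : Prop where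
  n : ∃ n, Mor F (sp v y z) n ∧ (∀ a, n (v a) = y a) ∧ (∀ a, n (y a) = v a) ∧ ∀ a, n (z a) = z a
  m : ∀ p r : Kˣ, ∃ g, Mor F T g ∧ Mon v w y z p r (RingEquiv.refl K) g
  x : ∀ p : Kˣ, ∃ g, Mor F S g ∧ Mon v w y z p (p ^ 2) (RingEquiv.refl K) g ∧ g s = s

end

/-- job: computing in `S` -/
def JBAS : Prop := ∀ (Ω : Type u) [Group Ω] (K : Type) [Field K] [Fintype K] (S : Subgroup Ω) (ε : Bool) (θ : K ≃+* K)
  (T : Subgroup Ω) (v w y z : K → Ω) (s : Ω), GD S ε θ T v w y z s → Bas S ε θ T v w y z s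

/-- job: three cases -/
def JTRI : Prop := ∀ (Ω : Type u) [Group Ω] (K : Type) [Field K] [Fintype K] (S : Subgroup Ω) (ε : Bool) (θ : K ≃+* K)
  (T : Subgroup Ω) (v w y z : K → Ω) (s : Ω), GD S ε θ T v w y z s → Bas S ε θ T v w y z s →
  Big y z s ∨ (ε = false ∧ ∀ a, θ a = a) ∨ ∃ ω, Q4 ε θ ω

/-- job: the extraspecial group -/
def JE4 : Prop := ∀ (Ω : Type u) [Group Ω] (K : Type) [Field K] [Fintype K] (S : Subgroup Ω) (ε : Bool) (θ : K ≃+* K)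
  (T : Subgroup Ω) (v w y z : K → Ω) (s : Ω) (ω : K), GD S ε θ T v w y z s → Bas S ε θ T v w y z s → Q4 ε θ ω →
  E4 S T v w y z s ω

/-- job: a critical subgroup contains `Y` -/
def JII : Prop := ∀ (U : Type u) [Group U] [Finite U] (K : Type) [Field K] [Fintype K] (ε : Bool) (θ : K ≃+* K)
  (T : Subgroup U) (v w y z : K → U) (s : U) (E : Subgroup U) (M B : (U → U) → Prop), GD ⊤ ε θ T v w y z s →
  Bas ⊤ ε θ T v w y z s → U5.Crit E M B →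
  (Big y z s ∨ (ε = false ∧ ∀ a, θ a = a) ∨ ∃ ω, Q4 ε θ ω ∧ E4 ⊤ T v w y z s ω) → Yc y z ≤ E

/-- job: the first case -/
def JIA : Prop := ∀ (U : Type u) [Group U] [Finite U] (K : Type) [Field K] [Fintype K] (ε : Bool) (θ : K ≃+* K)
  (T : Subgroup U) (v w y z : K → U) (s : U) (E : Subgroup U) (M B : (U → U) → Prop), GD ⊤ ε θ T v w y z s →
  Bas ⊤ ε θ T v w y z s → U5.Crit E M B → Yc y z ≤ E → (∃ f, M f ∧ ∃ x ∈ E, x ∈ T ∧ f x ∉ T) → ¬ Big y z s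

/-- job: the second case, `Y` is moved out of `T` -/
def JIB1 : Prop := ∀ (U : Type u) [Group U] [Finite U] (K : Type) [Field K] [Fintype K] (θ : K ≃+* K)
  (T : Subgroup U) (v w y z : K → U) (s : U) (E : Subgroup U) (M B : (U → U) → Prop), GD ⊤ false θ T v w y z s →
  Bas ⊤ false θ T v w y z s → U5.Crit E M B → Yc y z ≤ E → (∀ a, θ a = a) → ∀ f, M f → ∀ x ∈ Yc y z, f x ∈ T

/-- job: the second case, `Y` stays in `T` -/
def JIB2 : Prop := ∀ (U : Type u) [Group U] [Finite U] (K : Type) [Field K] [Fintype K] (θ : K ≃+* K)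
  (T : Subgroup U) (v w y z : K → U) (s : U) (E : Subgroup U) (M B : (U → U) → Prop), GD ⊤ false θ T v w y z s →
  Bas ⊤ false θ T v w y z s → U5.Crit E M B → Yc y z ≤ E → (∀ a, θ a = a) → (∀ f, M f → ∀ x ∈ Yc y z, f x ∈ T) →
  E ≤ T

/-- job: the third case -/
def JIC : Prop := ∀ (U : Type u) [Group U] [Finite U] (K : Type) [Field K] [Fintype K] (ε : Bool) (θ : K ≃+* K)
  (T : Subgroup U) (v w y z : K → U) (s : U) (ω : K) (E : Subgroup U) (M B : (U → U) → Prop), GD ⊤ ε θ T v w y z s →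
  Bas ⊤ ε θ T v w y z s → U5.Crit E M B → Yc y z ≤ E → (∃ f, M f ∧ ∃ x ∈ E, x ∈ T ∧ f x ∉ T) → Q4 ε θ ω →
  E4 ⊤ T v w y z s ω → E = Es v w y s

/-- the essential subgroup whose intersection with `T` is not invariant -/
def JESC : Prop := ∀ (Ω : Type u) [Group Ω] (S : Subgroup Ω) [Finite S] (F : FusionSystem S) (K : Type) [Field K]
  [Fintype K] (ε : Bool) (θ : K ≃+* K) (T : Subgroup Ω) (v w y z : K → Ω) (s : Ω) (E : Subgroup Ω), IsPGroup 2 S →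
  F.IsSaturated 2 → GD S ε θ T v w y z s → F.IsEssential 2 E → NI F E T → (∃ ω, Q4 ε θ ω) ∧ E = Es v w y s

/-- job: `T` is characteristic in `S` -/
def JCH : Prop := ∀ (Ω : Type u) [Group Ω] (S : Subgroup Ω) [Finite S] (F : FusionSystem S) (K : Type) [Field K]
  [Fintype K] (ε : Bool) (θ : K ≃+* K) (T : Subgroup Ω) (v w y z : K → Ω) (s : Ω), GD S ε θ T v w y z s →
  Bas S ε θ T v w y z s → ∀ g, Mor F S g → ∀ t ∈ T, g t ∈ T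

/-- job: if `T` is not strongly closed there is such an essential subgroup -/
def JSC : Prop := ∀ (Ω : Type u) [Group Ω] (S : Subgroup Ω) [Finite S] (F : FusionSystem S) (T : Subgroup Ω),
  IsPGroup 2 S → F.IsSaturated 2 → T ≤ S → (∀ g, Mor F S g → ∀ t ∈ T, g t ∈ T) → ¬ F.StronglyClosed T →
  ∃ E, F.IsEssential 2 E ∧ NI F E T

/-- job: 2-elements of `Aut_F(T)` that fix `V` are inner -/
def JTWO : Prop := ∀ (Ω : Type u) [Group Ω] (S : Subgroup Ω) [Finite S] (F : FusionSystem S) (K : Type) [Field K]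
  [Fintype K] (ε : Bool) (θ : K ≃+* K) (T : Subgroup Ω) (v w y z : K → Ω) (s : Ω), IsPGroup 2 S → F.IsSaturated 2 →
  GD S ε θ T v w y z s → Bas S ε θ T v w y z s → ∀ g, Mor F T g → (∀ t ∈ T, g t ∈ T) →
  (∀ x ∈ sp v y z, g x ∈ sp v y z) → (∀ t ∈ T, g (g (g (g t))) = t) → ∃ x ∈ T, ∀ t ∈ T, g t = x * t * x⁻¹

/-- job: the action of `Aut(2^{1+4}_-)` on the five singular points -/
def JXS : Prop := ∀ (Ω : Type u) [Group Ω] (z : Ω) (q : Fin 5 → Ω) (E : Subgroup Ω), QG z q → (∀ i, q i ∈ E) →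
  Nat.card E = 32 → ∃ π : MulAut E →* Equiv.Perm (Fin 5), (∀ α i, Pm z q (autFun α (q i)) (π α i)) ∧
    (∀ α : MulAut E, autFun α z = z) ∧ π.ker = Inn E

/-- job: subgroups of `S₅` -/
def JS5 : Prop := ∀ H : Subgroup (Equiv.Perm (Fin 5)), Equiv.swap 1 2 * Equiv.swap 3 4 ∈ H →
  Equiv.swap 1 3 * Equiv.swap 2 4 ∈ H → (∃ h ∈ H, h 0 ≠ 0) → ¬ 8 ∣ Nat.card H → H = alternatingGroup (Fin 5)

/-- job: the automizer of `Es` -/
def JAE : Prop := ∀ (Ω : Type u) [Group Ω] (S : Subgroup Ω) [Finite S] (F : FusionSystem S) (K : Type) [Field K]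
  [Fintype K] (ε : Bool) (θ : K ≃+* K) (T : Subgroup Ω) (v w y z : K → Ω) (s : Ω) (ω : K), IsPGroup 2 S →
  F.IsSaturated 2 → GD S ε θ T v w y z s → Bas S ε θ T v w y z s → Q4 ε θ ω → E4 S T v w y z s ω →
  NI F (Es v w y s) T →
  (∀ f, HomOn (Es v w y s) f → img f (Es v w y s) = Es v w y s →
    (Mor F (Es v w y s) f ↔ Ev (y 1) (qq v w y s ω) f)) ∧
  ∀ σ ∈ alternatingGroup (Fin 5), ∃ f, Mor F (Es v w y s) f ∧ img f (Es v w y s) = Es v w y s ∧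
    ∀ i, Pm (y 1) (qq v w y s ω) (f (qq v w y s ω i)) (σ i)

/-- job: no field automorphisms -/
def JP0 : Prop := ∀ (Ω : Type u) [Group Ω] (S : Subgroup Ω) [Finite S] (F : FusionSystem S) (K : Type) [Field K]
  [Fintype K] (ε : Bool) (θ : K ≃+* K) (T : Subgroup Ω) (v w y z : K → Ω) (s : Ω) (ω : K), IsPGroup 2 S →
  F.IsSaturated 2 → GD S ε θ T v w y z s → Bas S ε θ T v w y z s → Q4 ε θ ω →
  ∀ p r τ g, Mor F T g → Mon v w y z p r τ g → τ = RingEquiv.refl K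

/-- job: an automorphism of `S` of order three -/
def JEX : Prop := ∀ (Ω : Type u) [Group Ω] (S : Subgroup Ω) [Finite S] (F : FusionSystem S) (K : Type) [Field K]
  [Fintype K] (ε : Bool) (θ : K ≃+* K) (T : Subgroup Ω) (v w y z : K → Ω) (s : Ω) (ω : K), IsPGroup 2 S →
  F.IsSaturated 2 → GD S ε θ T v w y z s → Bas S ε θ T v w y z s → Q4 ε θ ω → E4 S T v w y z s ω →
  ∀ f, Mor F (Es v w y s) f → img f (Es v w y s) = Es v w y s →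
  (∀ i, Pm (y 1) (qq v w y s ω) (f (qq v w y s ω i)) ((Equiv.swap 2 4 * Equiv.swap 2 3 : Equiv.Perm (Fin 5)) i)) →
  ∃ g, Mor F S g ∧ ∀ x ∈ Es v w y s, g x = f x

/-- job: the parameters -/
def JPAR : Prop := ∀ (Ω : Type u) [Group Ω] (S : Subgroup Ω) [Finite S] (F : FusionSystem S) (K : Type) [Field K]
  [Fintype K] (ε : Bool) (θ : K ≃+* K) (T : Subgroup Ω) (v w y z : K → Ω) (s : Ω) (ω : K), IsPGroup 2 S →
  F.IsSaturated 2 → QD F ε θ T v w y z s → Bas S ε θ T v w y z s → Q4 ε θ ω → E4 S T v w y z s ω →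
  ∀ g, Mor F S g → (∀ x ∈ Es v w y s, g x ∈ Es v w y s) →
  (∀ i, Pm (y 1) (qq v w y s ω) (g (qq v w y s ω i)) ((Equiv.swap 2 4 * Equiv.swap 2 3 : Equiv.Perm (Fin 5)) i)) →
  Par F T v w y z = {c | c.2.2 = RingEquiv.refl K}

/-- job: `V` is fully normalized -/
def JFN : Prop := ∀ (Ω : Type u) [Group Ω] (S : Subgroup Ω) [Finite S] (F : FusionSystem S) (K : Type) [Field K]
  [Fintype K] (ε : Bool) (θ : K ≃+* K) (T : Subgroup Ω) (v w y z : K → Ω) (s : Ω) (ω : K),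
  GD S ε θ T v w y z s → Bas S ε θ T v w y z s → Q4 ε θ ω → E4 S T v w y z s ω →
  F.IsFullyNormalized (sp v y z) ∧ ∀ x ∈ S, x ∈ normalizer (sp v y z : Set Ω) ↔ x ∈ T

/-- job: conjugates of `Y` in `V` meet trivially -/
def JTI : Prop := ∀ (Ω : Type u) [Group Ω] (S : Subgroup Ω) [Finite S] (F : FusionSystem S) (K : Type) [Field K]
  [Fintype K] (ε : Bool) (θ : K ≃+* K) (T : Subgroup Ω) (v w y z : K → Ω) (s : Ω) (ω : K), IsPGroup 2 S →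
  F.IsSaturated 2 → GD S ε θ T v w y z s → Bas S ε θ T v w y z s → Q4 ε θ ω →
  F.IsFullyNormalized (sp v y z) → (∀ x ∈ S, x ∈ normalizer (sp v y z : Set Ω) ↔ x ∈ T) →
  ∀ f, Mor F (sp v y z) f → (∀ x ∈ sp v y z, f x ∈ sp v y z) → ∀ a, a ≠ 0 → f (y a) ∈ Yc y z →
  ∀ x ∈ Yc y z, f x ∈ Yc y z

/-- job: automorphisms of `V` that normalise `Y` extend to `T` -/
def JBO : Prop := ∀ (Ω : Type u) [Group Ω] (S : Subgroup Ω) [Finite S] (F : FusionSystem S) (K : Type) [Field K]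
  [Fintype K] (ε : Bool) (θ : K ≃+* K) (T : Subgroup Ω) (v w y z : K → Ω) (s : Ω), IsPGroup 2 S →
  F.IsSaturated 2 → GD S ε θ T v w y z s → Bas S ε θ T v w y z s →
  F.IsFullyNormalized (sp v y z) → (∀ x ∈ S, x ∈ normalizer (sp v y z : Set Ω) ↔ x ∈ T) →
  ∀ f, Mor F (sp v y z) f → (∀ x ∈ sp v y z, f x ∈ sp v y z) → (∀ x ∈ Yc y z, f x ∈ Yc y z) →
  ∃ g, Mor F T g ∧ (∀ x ∈ T, g x ∈ T) ∧ ∀ x ∈ sp v y z, f x = g x

/-- job: automorphisms of `T` are monomial up to inner ones -/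
def JMON : Prop := ∀ (Ω : Type u) [Group Ω] (S : Subgroup Ω) [Finite S] (F : FusionSystem S) (K : Type) [Field K]
  [Fintype K] (ε : Bool) (θ : K ≃+* K) (T : Subgroup Ω) (v w y z : K → Ω) (s : Ω) (ω : K), IsPGroup 2 S →
  F.IsSaturated 2 → GD S ε θ T v w y z s → Bas S ε θ T v w y z s → Q4 ε θ ω →
  (∀ p r : Kˣ, ∃ g, Mor F T g ∧ Mon v w y z p r (RingEquiv.refl K) g) →
  ∀ g, Mor F T g → (∀ x ∈ T, g x ∈ T) → (∀ x ∈ sp v y z, g x ∈ sp v y z) →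
    ∃ t ∈ T, ∃ p r τ, Mon v w y z p r τ fun x => t * g x * t⁻¹

/-- job: the standard form from the given maps -/
def JQD : Prop := ∀ (Ω : Type u) [Group Ω] (S : Subgroup Ω) [Finite S] (F : FusionSystem S) (K : Type) [Field K]
  [Fintype K] (ε : Bool) (θ : K ≃+* K) (T : Subgroup Ω) (v w y z : K → Ω) (s : Ω) (ω : K), IsPGroup 2 S →
  F.IsSaturated 2 → GD S ε θ T v w y z s → Q4 ε θ ω → Giv F T v w y z s → QD F ε θ T v w y z s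

/-- job: coordinates from the relations -/
def JG : Prop := ∀ (G : Type u) [Group G] (a₁ a₂ b₁ b₂ c₁ c₂ s n h k : G), JRel a₁ a₂ b₁ b₂ c₁ c₂ s n h k →
  ∀ (K : Type) [Field K] [Fintype K] [CharP K 2] (θ : K ≃+* K) (ω : K), Q4 false θ ω →
  ∃ (S T : Subgroup G) (v w y : K → G), GD S false θ T v w y (fun _ => 1) s ∧
    (v 1 = a₁ ∧ v ω = a₂ ∧ w 1 = b₁ ∧ w ω = b₂ ∧ y 1 = c₁ ∧ y ω = c₂)

/-- job: the given maps from the relations -/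
def JGV : Prop := ∀ (G : Type u) [Group G] (a₁ a₂ b₁ b₂ c₁ c₂ s n h k : G), JRel a₁ a₂ b₁ b₂ c₁ c₂ s n h k →
  ∀ (K : Type) [Field K] [Fintype K] (θ : K ≃+* K) (ω : K) (S T : Subgroup G) (v w y : K → G), Q4 false θ ω →
  GD S false θ T v w y (fun _ => 1) s → Bas S false θ T v w y (fun _ => 1) s →
  (v 1 = a₁ ∧ v ω = a₂ ∧ w 1 = b₁ ∧ w ω = b₂ ∧ y 1 = c₁ ∧ y ω = c₂) →
  Giv (groupFusionSystem S) T v w y (fun _ => 1) s

/-- the relations hold in `J₃` -/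
def JM : Prop := ∀ (G : Type u) [Group G], Spor.IsoJ3 G → ∃ a₁ a₂ b₁ b₂ c₁ c₂ s n h k : G,
  JRel a₁ a₂ b₁ b₂ c₁ c₂ s n h k

end CL.HK.J
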