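/-
Project HK (S5175), case (c): the automizer of the extraspecial group of order 32.
-/
import Cfsg.Agent.HK.JDefs

set_option autoImplicit false

open Cfsg Subgroup
open scoped commutatorElement

namespace CL.HK.J

open CL.Fus CL.Grp CL.J23

universe u

namespace JAEx

variable {Ω : Type u} [Group Ω]

theorem injOn {E : Subgroup Ω} [Finite E] {f : Ω → Ω} (hf : HomOn E f) (e : img f E = E) : Set.InjOn f E := by
  have h : Function.Injective fun x : E => (⟨f x, e.le (mem_img_of_mem f x.2)⟩ : E) :=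
    Finite.injective_iff_surjective.2 fun y => by
      obtain ⟨x, hx, h⟩ := hf.mem_img.1 (e.ge y.2)
      exact ⟨⟨x, hx⟩, Subtype.ext h⟩
  intro a ha b hb hab
  exact congrArg Subtype.val (h (a₁ := ⟨a, ha⟩) (a₂ := ⟨b, hb⟩) (Subtype.ext hab))

theorem not_dvd {G : Type} [Group G] [Finite G] {X Y : Subgroup G} (h : SylIn 2 X Y) (hc : Nat.card X ≤ 4) :
    ¬ 8 ∣ Nat.card Y := fun hd => by
  have h1 : 3 ≤ (Nat.card Y).factorization 2 :=
    (Nat.prime_two.pow_dvd_iff_le_factorization Nat.card_pos.ne').1 hd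
  have h2 := Nat.pow_le_pow_right (n := 2) (by norm_num) h1
  rw [← h.card_eq_pow] at h2
  omega

end JAEx

theorem jae (h1 : JXS.{u}) (h2 : JS5) : JAE.{u} := by
  intro Ω _ S _ F K _ _ ε θ T v w y z s ω hS hF g b q4 e4 ni
  obtain ⟨π, hπ, -, hk⟩ := h1 Ω (y 1) (qq v w y s ω) (Es v w y s) e4.qg e4.qE e4.card
  have hE := e4.le
  have : Finite (Es v w y s) := finite_of_le hE
  have πeq : ∀ (α : MulAut (Es v w y s)) (σ : Equiv.Perm (Fin 5)),
      (∀ i, Pm (y 1) (qq v w y s ω) (autFun α (qq v w y s ω i)) (σ i)) → π α = σ := fun α σ h =>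
    Equiv.ext fun i => e4.qg.pm_unique (hπ α i) (h i)
  have hN : S ≤ normalizer (Es v w y s : Set Ω) := fun a ha => mem_normalizer_iff.2 fun x =>
    ⟨e4.nE a ha x, fun hx => by simpa [mul_assoc] using e4.nE _ (S.inv_mem ha) _ hx⟩
  have hv : ∀ u, v u ∈ S := fun u => g.le (g.vT u)
  have v0 : v 0 = 1 := by have := g.v_add 0 0; rwa [add_zero, left_eq_mul] at this
  have w0 : w 0 = 1 := by have := g.w_add 0 0; rwa [add_zero, left_eq_mul] at this
  let p : K → Ω := fun a => v a * w (a ^ 2) * s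
  have q1 : qq v w y s ω 1 = p 0 := by simp [qq, p, v0, w0]
  have q2 : qq v w y s ω 2 = p 1 := by simp [qq, p]
  have q3 : qq v w y s ω 3 = p ω := rfl
  have q4' : qq v w y s ω 4 = p (ω + 1) := rfl
  have c0 : ∀ u, autFun (conjAut _ (hN (hv u))) (qq v w y s ω 0) = qq v w y s ω 0 := fun u => by
    rw [autFun_conjAut _ (e4.qE 0)]
    exact mul_inv_eq_iff_eq_mul.2 (g.yc _ _ (g.vT u)).symm
  have cp : ∀ u i j a a', qq v w y s ω i = p a → qq v w y s ω j = p a' → a + u = a' →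
      Pm (y 1) (qq v w y s ω) (autFun (conjAut _ (hN (hv u))) (qq v w y s ω i)) j := fun u i j a a' hi hj e =>
    .inl (by rw [autFun_conjAut _ (e4.qE i), hi, hj, ← e]; exact e4.act u a)
  have π1 : π (conjAut _ (hN (hv 1))) = Equiv.swap 1 2 * Equiv.swap 3 4 := πeq _ _ fun i => by
    fin_cases i
    · exact .inl (c0 1)
    · exact cp 1 1 2 _ _ q1 q2 (zero_add _)
    · exact cp 1 2 1 _ _ q2 q1 (b.two _)
    · exact cp 1 3 4 _ _ q3 q4' rfl
    · exact cp 1 4 3 _ _ q4' q3 (by rw [add_assoc, b.two, add_zero])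
  have πω : π (conjAut _ (hN (hv ω))) = Equiv.swap 1 3 * Equiv.swap 2 4 := πeq _ _ fun i => by
    fin_cases i
    · exact .inl (c0 ω)
    · exact cp ω 1 3 _ _ q1 q3 (zero_add _)
    · exact cp ω 2 4 _ _ q2 q4' (add_comm _ _)
    · exact cp ω 3 1 _ _ q3 q1 (b.two _)
    · exact cp ω 4 2 _ _ q4' q2 (by rw [add_right_comm, b.two, zero_add])
  have fin := finite_autGroup F (Es v w y s)
  have syl := (sylIn_of_fullyNormalized hS hF (isFullyNormalized_of_normalizerIn_eq F hE hN)).map π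
  have hc : Nat.card ((autInducedBy S (Es v w y s)).map π) ≤ 4 := by
    rw [← q4.card, ← Nat.card_eq_fintype_card]
    refine Nat.card_le_card_of_surjective (fun u => ⟨π (conjAut _ (hN (hv u))),
      mem_map_of_mem _ (conjAut_mem_autInducedBy _ (hv u))⟩) ?_
    rintro ⟨_, α, hα, rfl⟩
    obtain ⟨a, ha, h⟩ := mem_autInducedBy.1 hα
    obtain ⟨u, e, he, rfl⟩ := e4.dec a ha
    refine ⟨u, Subtype.ext ?_⟩
    have h3 : α = conjAut _ (hN (hv u)) * MulAut.conj (⟨e, he⟩ : Es v w y s) := aut_ext fun x hx => by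
      rw [h x hx, autFun_mul _ _ hx, autFun_conjAut _ (autFun_mem _ hx), autFun_conj _ hx]
      group
    have h4 : π (MulAut.conj (⟨e, he⟩ : Es v w y s)) = 1 :=
      MonoidHom.mem_ker.1 (hk ▸ mem_Inn_iff.2 ⟨e, he, fun x hx => autFun_conj _ hx⟩)
    change π _ = π α
    rw [h3, map_mul, h4, mul_one]
  have hmv : ∃ σ ∈ (F.autGroup (Es v w y s)).map π, σ 0 ≠ 0 := by
    obtain ⟨f, hf, hi, x, hx, hxT, hfx⟩ := ni
    obtain ⟨φ, hφ, e⟩ := hf.exists_aut hi
    refine ⟨π φ, mem_map_of_mem _ hφ, fun h0 => ?_⟩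
    have h3 := hπ φ 0
    rw [h0, e _ (e4.qE 0)] at h3
    have h4 : f (qq v w y s ω 0) * f x = f x * f (qq v w y s ω 0) := by
      rw [← hf.homOn _ (e4.qE 0) _ hx, ← hf.homOn _ hx _ (e4.qE 0)]
      exact congrArg f (g.yc _ _ hxT)
    have h5 : y (ω + 1) * f x = f x * y (ω + 1) := by
      rcases h3 with h3 | h3 <;> rw [h3] at h4
      · exact h4
      · rw [mul_assoc, e4.yz _ (hf.mem hx), ← mul_assoc, ← mul_assoc] at h4
        exact mul_right_cancel h4
    have h6 := b.sY _ (hf.mem hx) hfx (y (ω + 1)) (subset_closure (Or.inl ⟨_, rfl⟩))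
    rw [← h5, mul_inv_cancel_right, g.sy, q4.eps, q4.th] at h6
    change y (ω + 1) = y (((ω + 1) ^ 2) ^ 1) at h6
    rw [b.ey, b.ey] at h6
    have h7 := (b.inj h6).2.2.1
    have h8 := b.two ω
    have h9 := q4.sq
    exact one_ne_zero (α := K) (by linear_combination -h7 - h9 - h8)
  have hH := h2 ((F.autGroup (Es v w y s)).map π)
    (π1 ▸ mem_map_of_mem _ (conjAut_mem_autGroup F hE _ (hv 1)))
    (πω ▸ mem_map_of_mem _ (conjAut_mem_autGroup F hE _ (hv ω))) hmv (JAEx.not_dvd syl hc)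
  have key : ∀ α, α ∈ F.autGroup (Es v w y s) ↔ π α ∈ alternatingGroup (Fin 5) := fun α => by
    rw [← hH]
    refine ⟨mem_map_of_mem _, ?_⟩
    rintro ⟨β, hβ, e⟩
    have h3 : α * β⁻¹ ∈ π.ker := by rw [MonoidHom.mem_ker, map_mul, map_inv, e, mul_inv_cancel]
    have := mul_mem (Inn_le_autGroup F hE (hk ▸ h3)) (show β ∈ F.autGroup _ from hβ)
    rwa [inv_mul_cancel_right] at this
  refine ⟨fun f hf hi => ?_, fun σ hσ => ?_⟩
  · have e : ∀ x ∈ Es v w y s, autFun (hf.equiv (JAEx.injOn hf hi) hi) x = f x := fun x hx => by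
      rw [autFun_apply _ hx]; rfl
    constructor
    · intro h
      refine ⟨_, (key _).1 ((mem_autGroup_iff hE).2 (h.congr fun x hx => (e x hx).symm)), fun i => ?_⟩
      rw [← e _ (e4.qE i)]
      exact hπ _ i
    · rintro ⟨σ, hσ, h⟩
      refine (mor_autFun hE ((key _).2 ?_)).congr e
      rwa [πeq _ σ fun i => by rw [e _ (e4.qE i)]; exact h i]
  · obtain ⟨α, hα, rfl⟩ : σ ∈ (F.autGroup (Es v w y s)).map π := hH ▸ hσ
    exact ⟨autFun α, mor_autFun hE hα, img_autFun α, hπ α⟩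

end CL.HK.J
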