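/-
Project HK (S5175), part J, job JBO: automorphisms of `V` that normalise `Y` extend to `T`.
-/
import Cfsg.Agent.HK.JDefs

set_option autoImplicit false

open Cfsg Subgroup
open scoped commutatorElement

namespace CL.HK.J

open CL.Fus CL.Grp CL.J23

universe u

namespace JBOx

theorem gen {Ω : Type u} [Group Ω] {S : Subgroup Ω} [Finite S] {F : FusionSystem S} {T V Y : Subgroup Ω}
    (hS : IsPGroup 2 S) (hF : F.IsSaturated 2) (hTS : T ≤ S) (hVT : V ≤ T) (hYV : Y ≤ V)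
    (hz : ∀ x ∈ Y, ∀ t ∈ T, x * t = t * x) (hc : ∀ t ∈ T, ∀ t' ∈ T, ⁅t, t'⁆ ∈ Y)
    (hV : F.IsFullyNormalized V) (hN : ∀ x ∈ S, x ∈ normalizer (V : Set Ω) ↔ x ∈ T) {f : Ω → Ω} (hf : Mor F V f)
    (h1 : ∀ x ∈ V, f x ∈ V) (h2 : ∀ x ∈ Y, f x ∈ Y) :
    ∃ g, Mor F T g ∧ (∀ x ∈ T, g x ∈ T) ∧ ∀ x ∈ V, f x = g x := by
  have : Fact (Nat.Prime 2) := ⟨Nat.prime_two⟩
  have hVS : V ≤ S := hVT.trans hTS
  have : Finite V := finite_of_le hVS
  have : Finite Y := finite_of_le (hYV.trans hVS)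
  have hP : IsPGroup 2 V := hS.to_le hVS
  have e : img f V = V := hf.img_eq_self le_rfl h1
  obtain ⟨γ, hγ, k⟩ := hf.exists_aut e
  have hγ' : γ ∈ F.autGroup V ⊓ stabAut V Y :=
    ⟨hγ, mem_stabAut_of_finite hYV fun x hx => by rw [k x (hYV hx)]; exact h2 x hx⟩
  have syl := sylIn_of_fullyNormalized hS hF hV
  have fixY : ∀ a ∈ T, ∀ x ∈ Y, a * x * a⁻¹ = x := fun a ha x hx => by rw [← hz x hx a ha, mul_inv_cancel_right]
  have PG : autInducedBy S V ≤ F.autGroup V ⊓ stabAut V Y := fun α hα => by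
    refine ⟨syl.le hα, mem_stabAut_of_finite hYV fun x hx => ?_⟩
    obtain ⟨a, ha, ea⟩ := mem_autInducedBy'.1 hα
    rw [ea x (hYV hx), fixY a ((hN a ha.1).1 ha.2) x hx]
    exact hx
  have OP : (pCore 2 (F.autGroup V ⊓ stabAut V Y : Subgroup (MulAut V))).map (Subgroup.subtype _) ≤
      autInducedBy S V := by
    refine syl.le_of_normalizes (isPGroup_pCore'.map _) ((map_subtype_le _).trans inf_le_left) (PG.trans ?_)
    refine le_trans ?_ (le_normalizer_map _)
    rw [normalizer_eq_top]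
    intro α hα
    exact ⟨⟨α, hα⟩, mem_top _, rfl⟩
  have ext : T ≤ extenderF S V f := fun t ht => by
    have tn := (hN t (hTS ht)).2 ht
    have m := PG (conjAut_mem_autInducedBy tn (hTS ht))
    have hcore := mem_pCore_of_chain hP (F.autGroup V ⊓ stabAut V Y) 2
      (fun i => [⊥, Y].getD i V) (fun i β hβ x hx h => match i, h with
        | 0, h => by rw [Subgroup.mem_bot.1 h, (homOn_autFun β).map_one]; exact one_mem _
        | 1, h => (hβ.2 x hx).2 h
        | _ + 2, _ => autFun_mem β hx) le_rfl (fun x _ h => Subgroup.mem_bot.1 h) (α := ⟨_, m⟩)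
      fun i hi x hx h => by
        rw [autFun_conjAut _ hx]
        match i, hi, h with
        | 0, _, h => exact Subgroup.mem_bot.2 (by rw [fixY t ht x h, inv_mul_cancel])
        | 1, _, _ =>
          rw [inv_mul_conj_eq_commutator]
          exact hc _ (inv_mem (hVT hx)) t ht
    obtain ⟨b, hb, eb⟩ := mem_autInducedBy.1
      (OP ⟨_, (inferInstance : (pCore 2 _).Normal).conj_mem _ hcore ⟨γ, hγ'⟩, rfl⟩)
    refine ⟨hTS ht, tn, b, hb, fun x hx => ?_⟩
    have := eb _ (autFun_mem γ hx)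
    change autFun (γ * conjAut V tn * γ⁻¹) _ = _ at this
    rw [autFun_mul _ _ (autFun_mem γ hx), autFun_inv_apply γ hx, autFun_mul _ _ hx, autFun_conjAut _ hx,
      k _ (conj_mem_of_mem_normalizer tn hx), k x hx] at this
    exact this
  obtain ⟨g, hg, eg⟩ := hf.extend (by rw [e]; exact receptive_of_fullyNormalized hS hF hV)
  have hg' := hg.mono ext
  refine ⟨g, hg', fun x hx => (hN _ (hg'.mem hx)).1 ?_, fun x hx => (eg x hx).symm⟩
  have := hg'.homOn.map_mem_normalizer hVT hx ((hN x (hTS hx)).2 hx)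
  rwa [img_congr eg, e] at this

end JBOx

theorem jbo : JBO.{u} := by
  intro Ω _ S _ F K _ _ ε θ T v w y z s hS hF hG hB hV hN f hf h1 h2
  refine JBOx.gen hS hF hG.le (fun x hx => ?_) (fun x hx => ?_) hB.Yz hB.cT hV hN hf h1 h2
  · obtain ⟨a, b, c, rfl⟩ := (hB.memV x).1 hx
    exact (hB.memT _).2 ⟨_, _, _, _, rfl⟩
  · obtain ⟨b, c, rfl⟩ := (hB.memY x).1 hx
    exact (hB.memV _).2 ⟨_, _, _, rfl⟩

end CL.HK.J
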