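/-
Project HK (S5175), case (c): computing in the Sylow subgroup.
-/
import Cfsg.Agent.HK.JDefs

set_option autoImplicit false
set_option linter.unusedSectionVars false

open Cfsg Subgroup
open scoped commutatorElement

namespace CL.HK.J

universe u

namespace JBASx

variable {Ω : Type u} [Group Ω] {K : Type} [Field K] [Fintype K] {S : Subgroup Ω} {ε : Bool} {θ : K ≃+* K}
  {T : Subgroup Ω} {v w y z : K → Ω} {s : Ω}

theorem zero {f : K → Ω} (hf : ∀ a b, f (a + b) = f a * f b) : f 0 = 1 := by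
  have := hf 0 0
  rw [add_zero] at this
  exact left_eq_mul.1 this

theorem mv {p q : Ω} (e : p * q = q * p) (x : Ω) : p * (q * x) = q * (p * x) := by
  rw [← mul_assoc, e, mul_assoc]

theorem ad {f : K → Ω} (hf : ∀ a b, f (a + b) = f a * f b) (a b : K) (x : Ω) : f a * (f b * x) = f (a + b) * x := by
  rw [hf, mul_assoc]

variable (h : GD S ε θ T v w y z s)
include h

local notation "E" => el v w y z

theorem two (a : K) : a + a = 0 := by have := h.chr; exact CharTwo.add_self_eq_zero a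

theorem wv (a u : K) (x : Ω) : w u * (v a * x) = v a * (w u * (y (a * u) * (z (a ^ 2 * u) * x))) := by
  have e : v a * w u = y (a * u) * (z (a ^ 2 * u) * (w u * v a)) := by
    rw [← mul_assoc, ← h.com, commutatorElement_def]; group
  rw [← mul_assoc (v a), e, ← mv (h.yc _ _ (mul_mem (h.yT _) (mul_mem (h.zT _) (mul_mem (h.wT _) (h.vT _))))),
    mul_assoc, ad h.y_add, two h, zero h.y_add, one_mul, mul_assoc,
    ← mv (h.zc _ _ (mul_mem (h.wT _) (h.vT _))), ad h.z_add, two h, zero h.z_add, one_mul, mul_assoc]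

theorem mul (a u b c a' u' b' c' : K) :
    E a u b c * E a' u' b' c' = E (a + a') (u + u') (b + b' + a' * u) (c + c' + a' ^ 2 * u) := by
  rw [add_comm (b + b'), add_comm (c + c'), ← add_assoc, ← add_assoc]
  simp only [el, mul_assoc, fun c a => mv (h.zc c _ (h.vT a)), fun c a => mv (h.zc c _ (h.wT a)),
    fun c a => mv (h.zc c _ (h.yT a)), fun c a => mv (h.yc c _ (h.vT a)), fun c a => mv (h.yc c _ (h.wT a)), wv h,
    ad h.v_add, ad h.w_add, ad h.y_add, ← h.z_add, add_assoc]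

theorem ev (a : K) : v a = E a 0 0 0 := by simp [el, zero h.w_add, zero h.y_add, zero h.z_add]
theorem ew (a : K) : w a = E 0 a 0 0 := by simp [el, zero h.v_add, zero h.y_add, zero h.z_add]
theorem ey (a : K) : y a = E 0 0 a 0 := by simp [el, zero h.v_add, zero h.w_add, zero h.z_add]
theorem ez (a : K) : z a = E 0 0 0 a := by simp [el, zero h.v_add, zero h.w_add, zero h.y_add]
theorem one : E 0 0 0 0 = 1 := (ev h 0).symm.trans (zero h.v_add)

theorem inv (a u b c : K) : (E a u b c)⁻¹ = E a u (b + a * u) (c + a ^ 2 * u) := by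
  have := h.chr
  refine inv_eq_of_mul_eq_one_right ?_
  rw [mul h, ← one h]
  congr 1 <;> grind

theorem inj {a u b c a' u' b' c' : K} (e : E a u b c = E a' u' b' c') :
    a = a' ∧ u = u' ∧ b = b' ∧ (ε = true → c = c') := by
  have := h.chr
  rw [← mul_inv_eq_one, inv h, mul h] at e
  obtain ⟨h1, h2, h3, h4⟩ := h.uniq _ _ _ _ e
  obtain rfl : a = a' := by grind
  obtain rfl : u = u' := by grind
  exact ⟨rfl, rfl, by grind, fun k => by have := h4 k; grind⟩

theorem drop (e : ε = false) (a u b c : K) : E a u b c = E a u b 0 := by rw [el, el, h.z1 e, h.z1 e]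

theorem memT (t : Ω) : t ∈ T ↔ ∃ a u b c, t = E a u b c := ⟨h.nf t, by
  rintro ⟨a, u, b, c, rfl⟩
  exact mul_mem (mul_mem (mul_mem (h.vT _) (h.wT _)) (h.yT _)) (h.zT _)⟩

theorem memY (x : Ω) : x ∈ Yc y z ↔ ∃ b c, x = E 0 0 b c := ⟨fun hx => by
  induction hx using closure_induction with
  | mem x hx => rcases hx with ⟨a, rfl⟩ | ⟨a, rfl⟩; exacts [⟨a, 0, ey h a⟩, ⟨0, a, ez h a⟩]
  | one => exact ⟨0, 0, (one h).symm⟩
  | mul x x' _ _ h1 h2 =>
    obtain ⟨b, c, rfl⟩ := h1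
    obtain ⟨b', c', rfl⟩ := h2
    rw [mul h, add_zero (0 : K)]; exact ⟨_, _, rfl⟩
  | inv x _ h1 =>
    obtain ⟨b, c, rfl⟩ := h1
    rw [inv h]; exact ⟨_, _, rfl⟩, by
  rintro ⟨b, c, rfl⟩
  rw [el, zero h.v_add, zero h.w_add, one_mul, one_mul]
  exact mul_mem (subset_closure (.inl ⟨_, rfl⟩)) (subset_closure (.inr ⟨_, rfl⟩))⟩

theorem memV (x : Ω) : x ∈ sp v y z ↔ ∃ a b c, x = E a 0 b c := ⟨fun hx => by
  induction hx using closure_induction with
  | mem x hx =>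
    rcases hx with (⟨a, rfl⟩ | ⟨a, rfl⟩) | ⟨a, rfl⟩
    exacts [⟨a, 0, 0, ev h a⟩, ⟨0, a, 0, ey h a⟩, ⟨0, 0, a, ez h a⟩]
  | one => exact ⟨0, 0, 0, (one h).symm⟩
  | mul x x' _ _ h1 h2 =>
    obtain ⟨a, b, c, rfl⟩ := h1
    obtain ⟨a', b', c', rfl⟩ := h2
    rw [mul h, add_zero (0 : K)]; exact ⟨_, _, _, rfl⟩
  | inv x _ h1 =>
    obtain ⟨a, b, c, rfl⟩ := h1
    rw [inv h]; exact ⟨_, _, _, rfl⟩, by
  rintro ⟨a, b, c, rfl⟩
  rw [el, zero h.w_add, mul_one]
  exact mul_mem (mul_mem (subset_closure (.inl (.inl ⟨_, rfl⟩))) (subset_closure (.inl (.inr ⟨_, rfl⟩))))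
    (subset_closure (.inr ⟨_, rfl⟩))⟩

theorem memW (x : Ω) : x ∈ sp w y z ↔ ∃ u b c, x = E 0 u b c := ⟨fun hx => by
  induction hx using closure_induction with
  | mem x hx =>
    rcases hx with (⟨a, rfl⟩ | ⟨a, rfl⟩) | ⟨a, rfl⟩
    exacts [⟨a, 0, 0, ew h a⟩, ⟨0, a, 0, ey h a⟩, ⟨0, 0, a, ez h a⟩]
  | one => exact ⟨0, 0, 0, (one h).symm⟩
  | mul x x' _ _ h1 h2 =>
    obtain ⟨a, b, c, rfl⟩ := h1
    obtain ⟨a', b', c', rfl⟩ := h2
    rw [mul h, add_zero (0 : K)]; exact ⟨_, _, _, rfl⟩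
  | inv x _ h1 =>
    obtain ⟨a, b, c, rfl⟩ := h1
    rw [inv h]; exact ⟨_, _, _, rfl⟩, by
  rintro ⟨a, b, c, rfl⟩
  rw [el, zero h.v_add, one_mul]
  exact mul_mem (mul_mem (subset_closure (.inl (.inl ⟨_, rfl⟩))) (subset_closure (.inl (.inr ⟨_, rfl⟩))))
    (subset_closure (.inr ⟨_, rfl⟩))⟩

theorem se (a u b c : K) :
    s * E a u b c * s⁻¹ = E 0 (θ a ^ ex ε) 0 0 * E (θ u) 0 0 0 * hz ε y z (θ b ^ ex ε) * (s * z c * s⁻¹) := by
  rw [← ew h, ← ev h, ← h.sv, ← h.sw, ← h.sy, el]; group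

theorem sel (a u b c : K) : ∃ b' c', s * E a u b c * s⁻¹ = E (θ u) (θ a ^ ex ε) b' c' := by
  obtain ⟨b1, c1, h1⟩ : ∃ b' c', hz ε y z (θ b ^ ex ε) = E 0 0 b' c' := by
    cases ε; exacts [⟨_, 0, ey h _⟩, ⟨0, _, ez h _⟩]
  obtain ⟨b2, c2, h2⟩ : ∃ b' c', s * z c * s⁻¹ = E 0 0 b' c' := by
    cases ε
    · exact ⟨0, 0, by rw [h.z1 rfl, one h, mul_one, mul_inv_cancel]⟩
    · exact ⟨_, 0, (h.sh c).trans (ey h _)⟩
  rw [se h, h1, h2, mul h, mul h, mul h]
  simp only [zero_add, add_zero]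
  exact ⟨_, _, rfl⟩

theorem sel0 (e : ε = false) (a u b c : K) : s * E a u b c * s⁻¹ = E (θ u) (θ a) (θ b + θ u * θ a) 0 := by
  subst e
  rw [se h, h.z1 rfl, mul_one, mul_inv_cancel, mul_one, show hz false y z (θ b ^ ex false) = _ from ey h _, mul h,
    mul h, drop h rfl, show ex false = 1 from rfl]
  congr 1 <;> ring

theorem out (x : Ω) (hx : x ∈ S) (hn : x ∉ T) : ∃ t ∈ T, x = t * s :=
  ⟨x * s, (h.gen x hx).resolve_left hn, by rw [mul_assoc, h.s2, mul_one]⟩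

theorem sT (t : Ω) (ht : t ∈ T) : s * t * s⁻¹ ∈ T := by
  obtain ⟨a, u, b, c, rfl⟩ := (memT h t).1 ht
  obtain ⟨b', c', e⟩ := sel h a u b c
  exact (memT h _).2 ⟨_, _, _, _, e⟩

theorem nT (g : Ω) (hg : g ∈ S) (t : Ω) (ht : t ∈ T) : g * t * g⁻¹ ∈ T := by
  by_cases k : g ∈ T
  · exact mul_mem (mul_mem k ht) (inv_mem k)
  · obtain ⟨r, hr, rfl⟩ := out h g hg k
    rw [show r * s * t * (r * s)⁻¹ = r * (s * t * s⁻¹) * r⁻¹ by group]
    exact mul_mem (mul_mem hr (sT h t ht)) (inv_mem hr)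

theorem xel (x : Ω) (hx : x ∈ S) (hn : x ∉ T) (a u b c : K) :
    ∃ b' c', x * E a u b c * x⁻¹ = E (θ u) (θ a ^ ex ε) b' c' := by
  have := h.chr
  obtain ⟨r, hr, rfl⟩ := out h x hx hn
  obtain ⟨b', c', e⟩ := sel h a u b c
  rw [show r * s * E a u b c * (r * s)⁻¹ = r * (s * E a u b c * s⁻¹) * r⁻¹ by group, e]
  obtain ⟨a1, u1, b1, c1, rfl⟩ := (memT h r).1 hr
  rw [inv h, mul h, mul h, show a1 + θ u + a1 = θ u by grind, show u1 + θ a ^ ex ε + u1 = θ a ^ ex ε by grind]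
  exact ⟨_, _, rfl⟩

theorem idx (x : Ω) (hx : x ∈ S) (x' : Ω) (hx' : x' ∈ S) (hn : x ∉ T) (hn' : x' ∉ T) : x * x' ∈ T := by
  obtain ⟨r, hr, rfl⟩ := out h x hx hn
  obtain ⟨r', hr', rfl⟩ := out h x' hx' hn'
  have := mul_mem hr (sT h r' hr')
  rw [inv_eq_of_mul_eq_one_right h.s2] at this
  simpa only [mul_assoc] using this

theorem YT : Yc y z ≤ T := fun x hx =>
  let ⟨_, _, e⟩ := (memY h x).1 hx
  (memT h x).2 ⟨_, _, _, _, e⟩

theorem Yz (x : Ω) (hx : x ∈ Yc y z) (t : Ω) (ht : t ∈ T) : x * t = t * x := by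
  obtain ⟨b, c, rfl⟩ := (memY h x).1 hx
  obtain ⟨a, u, b', c', rfl⟩ := (memT h t).1 ht
  rw [mul h, mul h]
  congr 1 <;> ring

theorem zY (x : Ω) (hx : x ∈ T) (k : ∀ t ∈ T, x * t = t * x) : x ∈ Yc y z := by
  obtain ⟨a, u, b, c, rfl⟩ := (memT h x).1 hx
  have k1 := k _ (h.wT 1)
  have k2 := k _ (h.vT 1)
  rw [ew h, mul h, mul h] at k1
  rw [ev h, mul h, mul h] at k2
  obtain rfl : a = 0 := by simpa using (inj h k1).2.2.1
  obtain rfl : u = 0 := by simpa using (inj h k2).2.2.1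
  exact (memY h _).2 ⟨_, _, rfl⟩

theorem nY (g : Ω) (hg : g ∈ S) (x : Ω) (hx : x ∈ Yc y z) : g * x * g⁻¹ ∈ Yc y z := by
  by_cases k : g ∈ T
  · rwa [← Yz h x hx g k, mul_inv_cancel_right]
  · obtain ⟨b, c, rfl⟩ := (memY h x).1 hx
    obtain ⟨b', c', e⟩ := xel h g hg k 0 0 b c
    rw [map_zero, zero_pow (by cases ε <;> decide)] at e
    exact (memY h _).2 ⟨_, _, e⟩

theorem au {a u b c : K} (e : E a u b c * E a u b c = 1) : a = 0 ∨ u = 0 := by
  rw [mul h, ← one h] at e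
  have := (inj h e).2.2.1
  rwa [two h, zero_add, mul_eq_zero] at this

end JBASx

open JBASx in
theorem jbas : JBAS.{u} := fun _ _ K _ _ S ε θ T v w y z s h =>
  { two := two h
    three := by
      classical
      obtain ⟨a, -, ha⟩ := Finset.exists_mem_notMem_of_card_lt_card (s := ({0, 1} : Finset K)) (t := Finset.univ)
        (Finset.card_le_two.trans_lt (by have := h.four; rw [Finset.card_univ]; omega))
      exact ⟨a, by simpa using ha⟩
    mul := mul h
    one := one h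
    inv := inv h
    inj := inj h
    drop := drop h
    ev := ev h
    ew := ew h
    ey := ey h
    ez := ez h
    memT := memT h
    memY := memY h
    memV := memV h
    memW := memW h
    sel := sel h
    sel0 := sel0 h
    xel := xel h
    out := out h
    idx := idx h
    sq := fun x hx => by
      by_cases k : x ∈ T
      exacts [mul_mem k k, idx h x hx x hx k k]
    nT := nT h
    YT := YT h
    Yz := Yz h
    zY := zY h
    Y2 := fun x hx => by
      have := h.chr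
      obtain ⟨b, c, rfl⟩ := (memY h x).1 hx
      rw [mul h, ← one h]
      congr 1 <;> grind
    nY := nY h
    cT := fun t ht t' ht' => by
      have := h.chr
      obtain ⟨a, u, b, c, rfl⟩ := (memT h t).1 ht
      obtain ⟨a', u', b', c', rfl⟩ := (memT h t').1 ht'
      rw [commutatorElement_def, inv h, inv h, mul h, mul h, mul h, show a + a' + a + a' = 0 by grind,
        show u + u' + u + u' = 0 by grind]
      exact (memY h _).2 ⟨_, _, rfl⟩
    sY := fun c hc hn x hx => by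
      obtain ⟨r, hr, rfl⟩ := out h c hc hn
      rw [show r * s * x * (r * s)⁻¹ = r * (s * x * s⁻¹) * r⁻¹ by group, ← Yz h _ (nY h s h.sS x hx) r hr,
        mul_inv_cancel_right]
    iY := fun c hc hn t ht t2 k => by
      have := h.chr
      obtain ⟨a, u, b, d, rfl⟩ := (memT h t).1 ht
      obtain ⟨b', d', e⟩ := xel h c hc hn a u (b + a * u) (d + a ^ 2 * u)
      rw [commutatorElement_def, mul_assoc, mul_assoc, ← mul_assoc c, inv h, e, mul h, memY h] at k
      obtain ⟨_, _, k⟩ := k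
      have k1 := (inj h k).1
      have : a = 0 ∧ u = 0 := by
        rcases au h t2 with rfl | rfl
        · exact ⟨rfl, by simpa using k1⟩
        · exact ⟨by simpa using k1, rfl⟩
      obtain ⟨rfl, rfl⟩ := this
      exact (memY h _).2 ⟨_, _, rfl⟩
    iVW := fun t ht t2 => by
      obtain ⟨a, u, b, d, rfl⟩ := (memT h t).1 ht
      rcases au h t2 with rfl | rfl
      exacts [.inr ((memW h _).2 ⟨_, _, _, rfl⟩), .inl ((memV h _).2 ⟨_, _, _, rfl⟩)] }

end CL.HK.J
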