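/-
Project HK (S5175), case (c): `T` is characteristic in `S`; an essential subgroup moving `T`.
-/
import Cfsg.Agent.HK.JDefs
import Cfsg.Agent.Fus.Alperin

set_option autoImplicit false

open Cfsg Subgroup
open scoped commutatorElement

namespace CL.HK.J

open CL.Fus CL.Grp CL.J23

universe u

namespace JCHx

variable {Ω : Type u} [Group Ω] {K : Type} [Field K] {S : Subgroup Ω} {F : FusionSystem S} {ε : Bool} {θ : K ≃+* K}
  {T : Subgroup Ω} {v w y z : K → Ω} {s : Ω} {g : Ω → Ω}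

theorem pick (B : Bas S ε θ T v w y z s) (le : T ≤ S) (hg : Mor F S g) {p : K → Ω} (pT : ∀ a, p a ∈ T)
    (pm : ∀ a b, p (a + b) = p a * p b) : ∃ a, a ≠ 0 ∧ g (p a) ∈ T := by
  obtain ⟨t, t0, t1⟩ := B.three
  by_cases h1 : g (p 1) ∈ T
  · exact ⟨1, one_ne_zero, h1⟩
  by_cases h2 : g (p t) ∈ T
  · exact ⟨t, t0, h2⟩
  refine ⟨1 + t, fun e => t1 (by linear_combination e - B.two 1), ?_⟩
  rw [pm, hg.homOn _ (le (pT 1)) _ (le (pT t))]
  exact B.idx _ (hg.mem (le (pT 1))) _ (hg.mem (le (pT t))) h1 h2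

theorem key (B : Bas S ε θ T v w y z s) (le : T ≤ S) (hg : Mor F S g) {p q : K → Ω} (pT : ∀ a, p a ∈ T)
    (pm : ∀ a b, p (a + b) = p a * p b) (p2 : ∀ a, p a * p a = 1) (qT : ∀ a, q a ∈ T)
    (qm : ∀ a b, q (a + b) = q a * q b) (pq : ∀ a u, p a * q u = q u * p a → a * u = 0) {x : Ω} (hx : x ∈ S)
    (xp : ∀ a, p a * x = x * p a) : g x ∈ T := by
  by_contra h
  obtain ⟨a, a0, ha⟩ := pick B le hg pT pm
  obtain ⟨u, u0, hu⟩ := pick B le hg qT qm
  have pS := le (pT a)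
  have qS := le (qT u)
  have m := B.iY _ (hg.mem hx) h _ ha (by rw [← hg.homOn _ pS _ pS, p2, hg.homOn.map_one]) (by
    rw [← hg.homOn.map_commutator pS hx, commutatorElement_eq_one_iff_mul_comm.2 (xp a), hg.homOn.map_one]
    exact one_mem _)
  have e := B.Yz _ m _ hu
  rw [← hg.homOn _ pS _ qS, ← hg.homOn _ qS _ pS] at e
  exact mul_ne_zero a0 u0 (pq a u (hg.injOn (mul_mem pS qS) (mul_mem qS pS) e))

end JCHx

open JCHx

theorem jch : JCH.{u} := by
  intro Ω _ S _ F K _ _ ε θ T v w y z s D B g hg t ht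
  have eT : ∀ a u b c, el v w y z a u b c ∈ T := fun a u b c => (B.memT _).2 ⟨a, u, b, c, rfl⟩
  have vT : ∀ a, v a ∈ T := fun a => B.ev a ▸ eT _ _ _ _
  have wT : ∀ a, w a ∈ T := fun a => B.ew a ▸ eT _ _ _ _
  have vm : ∀ a b, v (a + b) = v a * v b := fun a b => by rw [B.ev, B.ev a, B.ev b, B.mul]; simp
  have wm : ∀ a b, w (a + b) = w a * w b := fun a b => by rw [B.ew, B.ew a, B.ew b, B.mul]; simp
  have v2 : ∀ a, v a * v a = 1 := fun a => by rw [← vm, B.two, B.ev, B.one]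
  have w2 : ∀ a, w a * w a = 1 := fun a => by rw [← wm, B.two, B.ew, B.one]
  have vw : ∀ a u, v a * w u = w u * v a → a * u = 0 := fun a u e => by
    rw [B.ev, B.ew, B.mul, B.mul] at e
    simpa using (B.inj e).2.2.1.symm
  obtain ⟨a, u, b, c, rfl⟩ := (B.memT t).1 ht
  have e : el v w y z a u b c = el v w y z a 0 b c * w u := by rw [B.ew, B.mul]; simp
  rw [e, hg.homOn _ (D.le (eT _ _ _ _)) _ (D.le (wT u))]
  exact mul_mem (key B D.le hg vT vm v2 wT wm vw (D.le (eT _ _ _ _)) fun a' => by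
      rw [B.ev, B.mul, B.mul]; simp [add_comm])
    (key B D.le hg wT wm w2 vT vm (fun u a e => by rw [mul_comm]; exact vw a u e.symm) (D.le (wT u)) fun a' => by
      rw [← wm, ← wm, add_comm])

theorem jsc : JSC.{u} := by
  intro Ω _ S _ F T hS hF le h hn
  have := Fact.mk Nat.prime_two
  by_contra k
  refine hn (stronglyClosed_iff.2 ⟨le, fun P f hf => alperin_induction hS hF (fun f => ∀ x ∈ P, x ∈ T → f x ∈ T)
    (fun f e x hx hT => by rw [e x hx]; exact hT) (fun f g a A _ hC hA ha hi hm e x hx hT => ?_) hf⟩)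
  rw [e x hx]
  rcases hA with rfl | hA
  · exact h a ha _ (hC x hx hT)
  · by_contra k'
    exact k ⟨A, hA, a, ha, hi, f x, hm x hx, hC x hx hT, k'⟩

end CL.HK.J
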