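/-
Project HK, part J: the extraspecial group of order 32 in the case `q = 4`.
-/
import Cfsg.Agent.HK.JDefs

set_option autoImplicit false
set_option linter.unusedSectionVars false

open Cfsg Subgroup
open scoped commutatorElement

namespace CL.HK.J

open CL.Fus CL.Grp CL.J23

universe u

namespace JE4x

variable {Ω : Type u} [Group Ω] {K : Type} [Field K]

/-- the calculus with three coordinates -/
structure Cal (L : K → K → K → Ω) (s : Ω) : Prop where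
  p4 : ∀ a : K, a ^ 4 = a
  mul : ∀ a u b a' u' b', L a u b * L a' u' b' = L (a + a') (u + u') (b + b' + a' * u)
  sL : ∀ a u b, s * L a u b = L (u ^ 2) (a ^ 2) (b ^ 2 + u ^ 2 * a ^ 2) * s
  ss : s * s = 1
  one : L 0 0 0 = 1
  inv : ∀ a u b, (L a u b)⁻¹ = L a u (b + a * u)
  eq : ∀ a u b a' u' b', L a u b = L a' u' b' ↔ a = a' ∧ u = u' ∧ b = b'

theorem card_two {X : Type} {H T : Subgroup Ω} {s : Ω} (f : X → Ω) (hf : Function.Injective f) (hT : ∀ x, f x ∈ T)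
    (hs : s ∉ T) (h : ∀ g, g ∈ H ↔ ∃ x, g = f x ∨ g = f x * s) [Finite X] : Nat.card H = 2 * Nat.card X := by
  have ne : ∀ x x', f x ≠ f x' * s := fun x x' e => hs (by
    rw [show s = (f x')⁻¹ * f x by rw [e]; group]; exact mul_mem (inv_mem (hT _)) (hT _))
  rw [two_mul, ← Nat.card_sum]
  refine (Nat.card_eq_of_bijective (fun p : X ⊕ X => (⟨Sum.elim f (fun x => f x * s) p, (h _).2 (by
    rcases p with x | x
    exacts [⟨x, .inl rfl⟩, ⟨x, .inr rfl⟩])⟩ : H)) ⟨?_, ?_⟩).symm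
  · rintro (x | x) (x' | x') e <;> replace e := congrArg Subtype.val e
    · rw [hf e]
    · exact (ne _ _ e).elim
    · exact (ne _ _ e.symm).elim
    · rw [hf (mul_right_cancel e)]
  · rintro ⟨g, hg⟩
    obtain ⟨x, e | e⟩ := (h g).1 hg
    exacts [⟨.inl x, Subtype.ext e.symm⟩, ⟨.inr x, Subtype.ext e.symm⟩]

namespace Cal

variable [CharP K 2] {L : K → K → K → Ω} {s : Ω} (C : Cal L s)
include C

theorem mul' (a u b a' u' b' : K) (x : Ω) :
    L a u b * (L a' u' b' * x) = L (a + a') (u + u') (b + b' + a' * u) * x := by rw [← mul_assoc, C.mul]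

theorem sL' (a u b : K) (x : Ω) : s * (L a u b * x) = L (u ^ 2) (a ^ 2) (b ^ 2 + u ^ 2 * a ^ 2) * (s * x) := by
  rw [← mul_assoc, C.sL, mul_assoc]

theorem ss' (x : Ω) : s * (s * x) = x := by rw [← mul_assoc, C.ss, one_mul]

theorem si : s⁻¹ = s := inv_eq_of_mul_eq_one_left C.ss

theorem eq1 (a u b : K) : L a u b = 1 ↔ a = 0 ∧ u = 0 ∧ b = 0 := by rw [← C.one, C.eq]

theorem DD (a b a' b' : K) : L a (a ^ 2) b * L a' (a' ^ 2) b' = L (a + a') ((a + a') ^ 2) (b + b' + a' * a ^ 2) := by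
  rw [C.mul, C.eq]; grind

theorem sD (a b : K) : s * L a (a ^ 2) b = L a (a ^ 2) (b ^ 2 + a ^ 3) * s := by
  have := C.p4 a
  rw [C.sL, mul_left_inj, C.eq]; grind

/-- the subgroup `E` -/
def E : Subgroup Ω where
  carrier := {x | ∃ a b, x = L a (a ^ 2) b ∨ x = L a (a ^ 2) b * s}
  one_mem' := ⟨0, 0, .inl (by rw [zero_pow two_ne_zero, C.one])⟩
  mul_mem' := by
    rintro _ _ ⟨a, b, rfl | rfl⟩ ⟨a', b', rfl | rfl⟩
    · exact ⟨_, _, .inl (C.DD ..)⟩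
    · exact ⟨_, _, .inr (by rw [← mul_assoc, C.DD])⟩
    · exact ⟨_, _, .inr (by rw [mul_assoc, C.sD, ← mul_assoc, C.DD])⟩
    · exact ⟨_, _, .inl (by rw [mul_assoc, ← mul_assoc s, C.sD, mul_assoc, C.ss, mul_one, C.DD])⟩
  inv_mem' := by
    rintro _ ⟨a, b, rfl | rfl⟩
    · exact ⟨_, _, .inl (C.inv ..)⟩
    · exact ⟨_, _, .inr (by rw [mul_inv_rev, C.si, C.inv, C.sD])⟩

theorem key (A U B : K) (hA : A = 0) (hU : U = 0) (hB : B ^ 2 = B) : L A U B = 1 ∨ L A U B = L 0 0 1 := by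
  rw [C.eq1, C.eq]
  have : B * (B - 1) = 0 := by linear_combination hB
  rcases mul_eq_zero.1 this with h | h
  exacts [.inl ⟨hA, hU, h⟩, .inr ⟨hA, hU, sub_eq_zero.1 h⟩]

theorem com : ∀ e ∈ C.E, ∀ e' ∈ C.E, ⁅e, e'⁆ = 1 ∨ ⁅e, e'⁆ = L 0 0 1 := by
  rintro _ ⟨a, b, rfl | rfl⟩ _ ⟨a', b', rfl | rfl⟩ <;>
  · have h1 := C.p4 a; have h2 := C.p4 b; have h3 := C.p4 a'; have h4 := C.p4 b'
    simp only [commutatorElement_def, mul_inv_rev, C.inv, C.si, mul_assoc, C.mul, C.mul', C.sL, C.sL', C.ss, C.ss',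
      mul_one]
    apply C.key <;> grind

theorem act (u a : K) : L u 0 0 * (L a (a ^ 2) 0 * s) * (L u 0 0)⁻¹ = L (a + u) ((a + u) ^ 2) 0 * s := by
  simp only [C.inv, mul_assoc, C.mul, C.mul', C.sL, mul_left_inj, C.eq]
  grind

theorem nv (u : K) : ∀ e ∈ C.E, L u 0 0 * e * (L u 0 0)⁻¹ ∈ C.E := by
  rintro _ ⟨a, b, rfl | rfl⟩
  · refine ⟨a, b + u * a ^ 2, .inl ?_⟩
    simp only [C.inv, mul_assoc, C.mul, C.eq]
    grind
  · refine ⟨a + u, b, .inr ?_⟩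
    simp only [C.inv, mul_assoc, C.mul, C.mul', C.sL, mul_left_inj, C.eq]
    grind

theorem dec (a u b : K) : L a u b = L (a + u ^ 2) 0 0 * L (u ^ 2) ((u ^ 2) ^ 2) b := by
  have := C.p4 u
  rw [C.mul, C.eq]; grind

theorem qg {ω : K} (h : ω ^ 2 = ω + 1) : QG (L 0 0 1) ![L 0 0 (ω + 1), L 0 0 0 * s, L 1 1 0 * s, L ω (ω ^ 2) 0 * s,
    L (ω + 1) ((ω + 1) ^ 2) 0 * s] := by
  refine ⟨?_, ?_, fun i => ?_, fun i => ?_, fun i j => ?_, ?_⟩
  · rw [C.mul, C.eq1]; grind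
  · rw [Ne, C.eq1]; simp
  · fin_cases i <;> simp [mul_assoc, C.mul, C.mul', C.sL, C.eq] <;> grind
  · fin_cases i <;> simp [mul_assoc, C.mul, C.mul', C.sL, C.sL', C.ss, C.eq1] <;> grind
  · fin_cases i <;> fin_cases j <;> simp [mul_assoc, C.mul, C.mul', C.sL, C.sL', C.ss, C.ss', C.eq] <;> grind
  · simp [mul_assoc, C.mul, C.mul', C.sL, C.sL', C.ss, C.ss', C.eq1]
    grind

end Cal

end JE4x

open JE4x in
theorem je4 : JE4.{u} := by
  intro Ω _ K _ _ S ε θ T v w y z s ω g B q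
  obtain rfl := q.eps
  haveI := g.chr
  obtain ⟨L, hL⟩ : ∃ L : K → K → K → Ω, ∀ a u b c, el v w y z a u b c = L a u b :=
    ⟨fun a u b => el v w y z a u b 0, B.drop rfl⟩
  have C : Cal L s := ⟨fun a => by rw [← q.card, FiniteField.pow_card], fun a u b a' u' b' => by
      rw [← hL _ _ _ 0, ← hL _ _ _ 0, B.mul, hL], fun a u b => by
      rw [← hL _ _ _ 0, ← mul_inv_eq_iff_eq_mul, B.sel0 rfl, hL, q.th, q.th, q.th], g.s2, by rw [← hL _ _ _ 0, B.one],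
    fun a u b => by rw [← hL _ _ _ 0, B.inv, hL], fun a u b a' u' b' => ⟨fun e => by
      rw [← hL _ _ _ 0, ← hL _ _ _ 0] at e
      exact ⟨(B.inj e).1, (B.inj e).2.1, (B.inj e).2.2.1⟩, by rintro ⟨rfl, rfl, rfl⟩; rfl⟩⟩
  have ev : ∀ a, v a = L a 0 0 := fun a => by rw [B.ev, hL]
  have ew : ∀ a, w a = L 0 a 0 := fun a => by rw [B.ew, hL]
  have ey : ∀ a, y a = L 0 0 a := fun a => by rw [B.ey, hL]
  have vw : ∀ a u, v a * w u = L a u 0 := fun a u => by rw [ev, ew, C.mul]; simp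
  have mT : ∀ t, t ∈ T ↔ ∃ a u b, t = L a u b := fun t => by simp [B.memT, hL]
  have LT : ∀ a u b, L a u b ∈ T := fun a u b => (mT _).2 ⟨a, u, b, rfl⟩
  have sE : s ∈ C.E := ⟨0, 0, .inr (by rw [zero_pow two_ne_zero, C.one, one_mul])⟩
  have hE : Es v w y s = C.E := by
    refine le_antisymm ((closure_le _).2 ?_) ?_
    · rintro _ ((⟨a, rfl⟩ | ⟨a, rfl⟩) | rfl)
      exacts [⟨a, 0, .inl (vw ..)⟩, ⟨0, a, .inl (by rw [ey, zero_pow two_ne_zero])⟩, sE]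
    · have : ∀ a b, L a (a ^ 2) b ∈ Es v w y s := fun a b => by
        rw [show L a (a ^ 2) b = v a * w (a ^ 2) * y b by rw [vw, ey, C.mul]; simp]
        exact mul_mem (subset_closure (.inl (.inl ⟨a, rfl⟩))) (subset_closure (.inl (.inr ⟨b, rfl⟩)))
      rintro _ ⟨a, b, rfl | rfl⟩
      exacts [this a b, mul_mem (this a b) (subset_closure (.inr rfl))]
  have hq : qq v w y s ω = ![L 0 0 (ω + 1), L 0 0 0 * s, L 1 1 0 * s, L ω (ω ^ 2) 0 * s,
      L (ω + 1) ((ω + 1) ^ 2) 0 * s] := by simp only [qq, vw, ey, C.one, one_mul]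
  have mS : ∀ x, x ∈ S ↔ ∃ p : K × K × K, x = L p.1 p.2.1 p.2.2 ∨ x = L p.1 p.2.1 p.2.2 * s := fun x => by
    refine ⟨fun hx => ?_, ?_⟩
    · by_cases h : x ∈ T
      · obtain ⟨a, u, b, e⟩ := (mT x).1 h
        exact ⟨(a, u, b), .inl e⟩
      · obtain ⟨t, ht, rfl⟩ := B.out x hx h
        obtain ⟨a, u, b, rfl⟩ := (mT t).1 ht
        exact ⟨(a, u, b), .inr rfl⟩
    · rintro ⟨p, rfl | rfl⟩
      exacts [g.le (LT ..), mul_mem (g.le (LT ..)) g.sS]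
  have dec : ∀ x ∈ S, ∃ u, ∃ e ∈ C.E, x = v u * e := fun x hx => by
    obtain ⟨⟨a, u, b⟩, rfl | rfl⟩ := (mS x).1 hx
    · exact ⟨_, _, ⟨_, _, .inl rfl⟩, by rw [ev]; exact C.dec a u b⟩
    · exact ⟨_, _, ⟨_, _, .inr rfl⟩, by rw [ev, ← mul_assoc, ← C.dec a u b]⟩
  have qE : ∀ i, qq v w y s ω i ∈ C.E := fun i => by
    rw [hq]
    fin_cases i
    exacts [⟨0, _, .inl (by rw [zero_pow two_ne_zero]; rfl)⟩, ⟨0, _, .inr (by rw [zero_pow two_ne_zero]; rfl)⟩,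
      ⟨1, _, .inr (by rw [one_pow]; rfl)⟩, ⟨_, _, .inr rfl⟩, ⟨_, _, .inr rfl⟩]
  have qg : QG (y 1) (qq v w y s ω) := by rw [hq, ey]; exact C.qg q.sq
  have cK : Nat.card K = 4 := by rw [Nat.card_eq_fintype_card, q.card]
  refine ⟨?_, ?_, qg, hE ▸ qE, ?_, ?_, ?_, ?_, ?_, hE ▸ dec, ?_, ?_, ?_, ?_⟩
  · intro x; simp only [hE, hL]; rfl
  · intro x
    simp only [hE, hL]
    refine ⟨?_, by rintro ⟨a, b, rfl⟩; exact ⟨⟨a, b, .inl rfl⟩, LT ..⟩⟩
    rintro ⟨⟨a, b, rfl | rfl⟩, h⟩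
    exacts [⟨a, b, rfl⟩, (g.sT ((mul_mem_cancel_left (LT ..)).1 h)).elim]
  · rw [hE, card_two (fun p : K × K => L p.1 (p.1 ^ 2) p.2) (fun p p' e => Prod.ext ((C.eq ..).1 e).1 ((C.eq ..).1 e).2.2)
      (fun _ => LT ..) g.sT (fun x => by rw [Prod.exists]; rfl), Nat.card_prod, cK]
  · rw [card_two (fun p : K × K × K => L p.1 p.2.1 p.2.2) (fun p p' e => Prod.ext ((C.eq ..).1 e).1
      (Prod.ext ((C.eq ..).1 e).2.1 ((C.eq ..).1 e).2.2)) (fun _ => LT ..) g.sT mS, Nat.card_prod, Nat.card_prod, cK]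
  · rw [hE]
    rintro _ ⟨a, b, rfl | rfl⟩
    exacts [g.le (LT ..), mul_mem (g.le (LT ..)) g.sS]
  · intro x hx e he
    rw [hE] at he ⊢
    obtain ⟨u, e', he', rfl⟩ := dec x hx
    have := C.nv u _ (mul_mem (mul_mem he' he) (inv_mem he'))
    rw [ev]
    simpa only [mul_inv_rev, mul_assoc] using this
  · rw [hE, ey]; exact C.com
  · intro x hx
    obtain ⟨⟨a, u, b⟩, rfl | rfl⟩ := (mS x).1 hx <;>
    · simp only [ey, mul_assoc, C.mul, C.mul', C.sL, mul_left_inj, C.eq]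
      grind
  · intro x hx h
    obtain ⟨b, c, rfl⟩ := (B.memY x).1 hx
    rw [hL, C.sL, mul_left_inj, C.eq] at h
    rw [hL, ey]
    exact C.key _ _ _ rfl rfl (by grind)
  · intro u a
    rw [vw, vw, ev]; exact C.act u a
  · intro e he i
    rw [hE] at he
    rw [show e * qq v w y s ω i * e⁻¹ = ⁅e, qq v w y s ω i⁆ * qq v w y s ω i by rw [commutatorElement_def]; group]
    rcases C.com e he _ (qE i) with h | h
    · exact .inl (by rw [h, one_mul])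
    · exact .inr (by rw [h, ← ey, qg.cz])

end CL.HK.J
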