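/-
Project HK (S5175), case (c): an automorphism of order three of the extraspecial group extends to `S`.
-/
import Cfsg.Agent.HK.JDefs

set_option autoImplicit false

open Cfsg Subgroup Equiv
open scoped commutatorElement

namespace CL.HK.J

open CL.Fus CL.Grp CL.J23

universe u

theorem jex (h1 : JXS.{u}) : JEX.{u} := by
  intro Ω _ S _ F K _ _ ε θ T v w y z s ω hS hF G B Q E f hf hi hσ
  have := Fact.mk Nat.prime_two
  have nE : S ≤ normalizer (Es v w y s : Set Ω) := le_normalizer_iff.2 E.nE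
  obtain ⟨g, hg, e⟩ := hf.extend (hi.symm ▸ receptive_of_fullyNormalized hS hF
    (isFullyNormalized_of_normalizerIn_eq F E.le nE))
  refine ⟨g, hg.mono fun x hx => ?_, e⟩
  obtain ⟨u, x', hx', rfl⟩ := E.dec x hx
  refine mul_mem ?_ (hf.le_extenderF hx')
  have vS : ∀ a, v a ∈ S := fun a => G.le (G.vT a)
  obtain ⟨φ, -, hφ⟩ := hf.exists_aut hi
  obtain ⟨π, p1, -, p3⟩ := h1 Ω _ _ _ E.qg E.qE E.card
  have πφ : π φ = swap 2 4 * swap 2 3 := Equiv.ext fun i =>
    E.qg.pm_unique (p1 φ i) (by rw [hφ _ (E.qE i)]; exact hσ i)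
  let t : Fin 5 → K := ![0, 0, 1, ω, ω + 1]
  have qt : ∀ i, i ≠ 0 → qq v w y s ω i = v (t i) * w (t i ^ 2) * s := fun i hi => by
    fin_cases i
    · exact absurd rfl hi
    · change s = v 0 * w (0 ^ 2) * s
      rw [zero_pow two_ne_zero, B.ev, B.ew, B.one, one_mul, one_mul]
    · change v 1 * w 1 * s = v 1 * w (1 ^ 2) * s
      rw [one_pow]
    · rfl
    · rfl
  have pc : ∀ (u : K) (σ : Perm (Fin 5)) (a b c d : Fin 5), σ 0 = 0 ∧ σ 1 = a ∧ σ 2 = b ∧ σ 3 = c ∧ σ 4 = d →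
      t a = 0 + u → t b = 1 + u → t c = ω + u → t d = ω + 1 + u → π (conjAut _ (nE (vS u))) = σ := by
    rintro u σ _ _ _ _ ⟨h0, rfl, rfl, rfl, rfl⟩ k1 k2 k3 k4
    refine Equiv.ext fun i => ?_
    refine E.qg.pm_unique (p1 _ i) (.inl ?_)
    rw [autFun_conjAut _ (E.qE i)]
    rcases eq_or_ne i 0 with rfl | hi
    · rw [h0]
      exact mul_inv_eq_iff_eq_mul.2 (G.yc _ _ (G.vT u)).symm
    · rw [qt i hi, E.act, qt (σ i) fun k => hi (σ.injective (k.trans h0.symm))]
      have : t (σ i) = t i + u := by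
        fin_cases i
        exacts [absurd rfl hi, k1, k2, k3, k4]
      rw [this]
  have t1 := B.two 1
  have t2 := B.two ω
  have c0 := pc 0 1 1 2 3 4 (by decide) (add_zero _).symm (add_zero _).symm (add_zero _).symm (add_zero _).symm
  have c1 := pc 1 (swap 1 2 * swap 3 4) 2 1 4 3 (by decide) (zero_add _).symm t1.symm rfl
    (by change ω = _; linear_combination -t1)
  have c2 := pc ω (swap 1 3 * swap 2 4) 3 4 1 2 (by decide) (zero_add _).symm (add_comm _ _) t2.symm
    (by change 1 = _; linear_combination -t2)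
  have c3 := pc (ω + 1) (swap 1 4 * swap 2 3) 4 3 2 1 (by decide) (zero_add _).symm
    (by change ω = _; linear_combination -t1) (by change 1 = _; linear_combination -t2) (B.two _).symm
  obtain ⟨u', hu⟩ : ∃ u', π φ * π (conjAut _ (nE (vS u))) * (π φ)⁻¹ * (π (conjAut _ (nE (vS u'))))⁻¹ = 1 := by
    rw [πφ]
    rcases Q.all u with rfl | rfl | rfl | rfl
    · exact ⟨0, by rw [c0]; decide⟩
    · exact ⟨ω, by rw [c1, c2]; decide⟩
    · exact ⟨_ + 1, by rw [c2, c3]; decide⟩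
    · exact ⟨1, by rw [c3, c1]; decide⟩
  rw [← map_inv, ← map_inv, ← map_mul, ← map_mul, ← map_mul, ← MonoidHom.mem_ker, p3, mem_Inn_iff] at hu
  obtain ⟨a, ha, k⟩ := hu
  refine mem_extenderF.2 ⟨vS u, nE (vS u), a * v u', mul_mem (E.le ha) (vS u'), fun x hx => ?_⟩
  have m := autFun_mem φ hx
  have m' := autFun_mem (conjAut _ (nE (vS u'))) m
  have := k _ m'
  rw [autFun_mul _ _ m', autFun_inv_apply _ m, autFun_mul _ _ m, autFun_inv_apply _ hx, autFun_mul _ _ hx,
    autFun_conjAut _ hx, autFun_conjAut _ m, hφ _ hx, hφ _ (E.nE _ (vS u) _ hx)] at this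
  rw [this]
  group

end CL.HK.J
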