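/-
Project HK (S5175), case (c): the essential subgroup whose intersection with `T` is not invariant.
-/
import Cfsg.Agent.HK.JDefs
import Cfsg.Agent.Fus.Iso2

set_option autoImplicit false

open Cfsg Subgroup
open scoped commutatorElement

namespace CL.HK.J

open CL.Fus CL.Grp CL.J23

universe u

namespace JESCx

theorem gi {Ω : Type u} [Group Ω] (S : Subgroup Ω) :
    GIso S (⊤ : Subgroup S) (Fus.ext (MonoidHom.id S)) Subtype.val :=
  ⟨homOn_ext _, fun _ _ => trivial, fun y _ => y.2, fun x hx => by rw [ext_apply _ hx]; rfl, fun y _ => ext_coe _ y⟩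

theorem top (h0 : JBAS.{u}) (h1 : JTRI.{u}) (h2 : JE4.{u}) (h3 : JII.{u}) (h4 : JIA.{u}) (h5 : JIB1.{u})
    (h6 : JIB2.{u}) (h7 : JIC.{u}) {U : Type u} [Group U] [Finite U] {F : FusionSystem (⊤ : Subgroup U)} {K : Type}
    [Field K] [Fintype K] {ε : Bool} {θ : K ≃+* K} {T : Subgroup U} {v w y z : K → U} {s : U} {E : Subgroup U}
    (hU : IsPGroup 2 U) (hF : F.IsSaturated 2) (g : GD ⊤ ε θ T v w y z s) (hE : F.IsEssential 2 E) (hN : NI F E T) :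
    (∃ ω, Q4 ε θ ω) ∧ E = Es v w y s := by
  obtain ⟨B, hB⟩ := U5.cri U 2 hU F hF E hE
  obtain ⟨f, m, e, x, hx⟩ := hN
  have b := h0 _ _ _ _ _ _ _ _ _ _ _ g
  have t := h1 _ _ _ _ _ _ _ _ _ _ _ g b
  have hY := h3 _ _ _ _ _ _ _ _ _ _ _ _ _ g b hB
    (t.imp_right (Or.imp_right fun ⟨ω, q⟩ => ⟨ω, q, h2 _ _ _ _ _ _ _ _ _ _ _ _ g b q⟩))
  rcases t with t | ⟨rfl, t⟩ | ⟨ω, q⟩
  · exact absurd t (h4 _ _ _ _ _ _ _ _ _ _ _ _ _ g b hB hY ⟨f, ⟨m, e⟩, x, hx⟩)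
  · exact absurd (h6 _ _ _ _ _ _ _ _ _ _ _ _ g b hB hY t (h5 _ _ _ _ _ _ _ _ _ _ _ _ g b hB hY t)
      (hB.mem (f := f) ⟨m, e⟩ x hx.1)) hx.2.2
  · exact ⟨⟨ω, q⟩, h7 _ _ _ _ _ _ _ _ _ _ _ _ _ _ g b hB hY ⟨f, ⟨m, e⟩, x, hx⟩ q (h2 _ _ _ _ _ _ _ _ _ _ _ _ g b q)⟩

variable {Ω : Type u} [Group Ω] {S : Subgroup Ω} {K : Type} [Field K] [Fintype K] {ε : Bool} {θ : K ≃+* K}
  {T : Subgroup Ω} {v w y z : K → Ω} {s : Ω}

theorem gd (g : GD S ε θ T v w y z s) : GD ⊤ ε θ (T.subgroupOf S) (fun a => ⟨v a, g.le (g.vT a)⟩)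
    (fun a => ⟨w a, g.le (g.wT a)⟩) (fun a => ⟨y a, g.le (g.yT a)⟩) (fun a => ⟨z a, g.le (g.zT a)⟩) ⟨s, g.sS⟩ where
  vT := g.vT
  wT := g.wT
  yT := g.yT
  zT := g.zT
  v_add a b := Subtype.ext (g.v_add a b)
  w_add a b := Subtype.ext (g.w_add a b)
  y_add a b := Subtype.ext (g.y_add a b)
  z_add a b := Subtype.ext (g.z_add a b)
  yc b t ht := Subtype.ext (g.yc b t ht)
  zc b t ht := Subtype.ext (g.zc b t ht)
  com a u := Subtype.ext (g.com a u)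
  z1 h c := Subtype.ext (g.z1 h c)
  nf t ht := let ⟨a, u, b, c, e⟩ := g.nf t ht; ⟨a, u, b, c, Subtype.ext e⟩
  uniq a u b c e := g.uniq a u b c (congrArg Subtype.val e)
  chr := g.chr
  four := g.four
  le := le_top
  sS := trivial
  sT := g.sT
  s2 := Subtype.ext g.s2
  gen x _ := g.gen x x.2
  θθ := g.θθ
  sv a := Subtype.ext (g.sv a)
  sw a := Subtype.ext (g.sw a)
  sy a := Subtype.ext (by cases ε <;> exact g.sy a)
  sh a := Subtype.ext (by cases ε <;> exact g.sh a)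

end JESCx

open JESCx

theorem jesc (h0 : JBAS.{u}) (h1 : JTRI.{u}) (h2 : JE4.{u}) (h3 : JII.{u}) (h4 : JIA.{u}) (h5 : JIB1.{u})
    (h6 : JIB2.{u}) (h7 : JIC.{u}) : JESC.{u} := by
  intro Ω _ S _ F K _ _ ε θ T v w y z s E hS hF g hE ⟨f, m, e, x, hx, hxT, hfx⟩
  have i := (gi S).fIso_transport F
  have hle : E ≤ S := IsEssential.le hE
  have eE : img (Fus.ext (MonoidHom.id S)) E = E.subgroupOf S := Subgroup.ext fun a => by
    rw [(gi S).mem_img_iff' hle]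
    exact ⟨fun h => h.2, fun h => ⟨trivial, h⟩⟩
  have m' := i.mor _ _ m
  have hE' := i.isEssential hE
  rw [eE] at m' hE'
  have val : ∀ a ∈ E, (Fus.ext (MonoidHom.id S) (f a)).1 = f a := fun a ha => (gi S).left _ (m.mem ha)
  obtain ⟨q, k⟩ := top h0 h1 h2 h3 h4 h5 h6 h7 hS (i.isSaturated hF) (gd g) hE'
    ⟨_, m', Subgroup.ext fun a => m'.mem_img.trans ⟨fun ⟨b, hb, c⟩ => by
      rw [← c, mem_subgroupOf, val b.1 hb]
      exact e.le (mem_img_of_mem f hb), fun ha => by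
      obtain ⟨b, hb, c⟩ := m.mem_img.1 (e.ge ha)
      exact ⟨⟨b, hle hb⟩, hb, Subtype.ext ((val b hb).trans c)⟩⟩,
      ⟨x, hle hx⟩, hx, hxT, fun c => hfx (val x hx ▸ mem_subgroupOf.1 c)⟩
  refine ⟨q, ?_⟩
  have k' := congrArg (Subgroup.map S.subtype) k
  rw [subgroupOf_map_subtype, inf_eq_left.2 hle, Es, MonoidHom.map_closure, Set.image_union, Set.image_union,
    ← Set.range_comp, ← Set.range_comp, Set.image_singleton] at k'
  exact k'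

end CL.HK.J
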