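/-
Project HK (S5175), case (c): `V` is fully normalized.
-/
import Cfsg.Agent.HK.JDefs

set_option autoImplicit false

open Cfsg Subgroup
open scoped commutatorElement

namespace CL.HK.J

open CL.Fus CL.Grp CL.J23

universe u

namespace JFNx

variable {Ω : Type u} [Group Ω] {K : Type} [Field K] {S : Subgroup Ω} {ε : Bool} {θ : K ≃+* K}
  {T : Subgroup Ω} {v w y z : K → Ω} {s : Ω}

theorem VT (b : Bas S ε θ T v w y z s) : sp v y z ≤ T := fun x hx => by
  obtain ⟨a, c, d, rfl⟩ := (b.memV x).1 hx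
  exact (b.memT _).2 ⟨_, _, _, _, rfl⟩

theorem YV (b : Bas S ε θ T v w y z s) : Yc y z ≤ sp v y z := fun x hx => by
  obtain ⟨c, d, rfl⟩ := (b.memY x).1 hx
  exact (b.memV _).2 ⟨_, _, _, rfl⟩

theorem Vc (b : Bas S ε θ T v w y z s) {x x' : Ω} (hx : x ∈ sp v y z) (hx' : x' ∈ sp v y z) : x * x' = x' * x := by
  obtain ⟨a, c, d, rfl⟩ := (b.memV x).1 hx
  obtain ⟨a', c', d', rfl⟩ := (b.memV x').1 hx'
  rw [b.mul, b.mul]
  congr 1 <;> ring

theorem V2 (b : Bas S ε θ T v w y z s) {x : Ω} (hx : x ∈ sp v y z) : x * x = 1 := by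
  obtain ⟨a, c, d, rfl⟩ := (b.memV x).1 hx
  rw [b.mul, ← b.one]
  congr 1 <;> simp [b.two]

theorem nV (b : Bas S ε θ T v w y z s) {t x : Ω} (ht : t ∈ T) (hx : x ∈ sp v y z) : t * x * t⁻¹ ∈ sp v y z := by
  have := mul_mem (YV b (b.cT t ht x (VT b hx))) hx
  rwa [commutatorElement_def, inv_mul_cancel_right] at this

theorem norm (b : Bas S ε θ T v w y z s) (x : Ω) (hx : x ∈ S) : x ∈ normalizer (sp v y z : Set Ω) ↔ x ∈ T := by
  refine ⟨fun h => by_contra fun k => ?_, fun h => mem_normalizer_iff.2 fun n => ⟨nV b h, fun k => ?_⟩⟩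
  · obtain ⟨b', c', e⟩ := b.xel x hx k 1 0 0 0
    have := (mem_normalizer_iff.1 h _).1 ((b.memV _).2 ⟨1, 0, 0, rfl⟩)
    rw [e] at this
    obtain ⟨a, c, d, e'⟩ := (b.memV _).1 this
    simpa using (b.inj e').2.1
  · have := nV b (inv_mem h) k
    rwa [show x⁻¹ * (x * n * x⁻¹) * x⁻¹⁻¹ = n by group] at this

end JFNx

open JFNx in
theorem jfn : JFN.{u} := by
  intro Ω _ S _ F K _ _ ε θ T v w y z s ω g b q e
  refine ⟨⟨(VT b).trans g.le, ?_⟩, norm b⟩
  rintro Q ⟨φ, hφ, rfl⟩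
  have m := mor_ext hφ
  rw [← img_ext]
  generalize ext φ = f at m
  have w0 : ω ≠ 0 := fun k => by simpa [k] using q.sq
  have w1 : ω + 1 ≠ 0 := fun k => w0 (by simpa [k] using q.sq)
  have fc : ∀ x ∈ sp v y z, ∀ x' ∈ sp v y z, f x * f x' = f x' * f x := fun x hx x' hx' => by
    rw [← m.homOn.map_mul hx hx', Vc b hx hx', m.homOn.map_mul hx' hx]
  have f2 : ∀ x ∈ sp v y z, f x * f x = 1 := fun x hx => by
    rw [← m.homOn.map_mul hx hx, V2 b hx, m.homOn.map_one]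
  have fT : ∀ x ∈ sp v y z, f x ∈ T := by
    intro x0 h0
    by_contra k
    have key : ∀ h : K → Ω, (∀ a, h a ∈ sp v y z) → (∀ a a', h (a + a') = h a * h a') → (∀ a, h a = 1 → a = 0) →
        ∃ a, a ≠ 0 ∧ f (h a) = y 1 := by
      intro h h1 h2 h3
      obtain ⟨a, a0, ha⟩ : ∃ a, a ≠ 0 ∧ f (h a) ∈ T := by
        by_cases k1 : f (h 1) ∈ T
        · exact ⟨1, one_ne_zero, k1⟩
        by_cases k2 : f (h ω) ∈ T
        · exact ⟨ω, w0, k2⟩
        refine ⟨ω + 1, w1, ?_⟩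
        rw [h2, m.homOn.map_mul (h1 _) (h1 _)]
        exact b.idx _ (m.mem (h1 _)) _ (m.mem (h1 _)) k2 k1
      have c1 := fc _ (h1 a) _ h0
      have y1 := b.iY _ (m.mem h0) k _ ha (f2 _ (h1 a)) (by
        rw [commutatorElement_eq_one_iff_mul_comm.2 c1]; exact one_mem _)
      have y2 := b.sY _ (m.mem h0) k _ y1
      rw [← c1, mul_inv_cancel_right, eq_mul_inv_iff_mul_eq] at y2
      refine ⟨a, a0, (e.Y0 _ y1 y2.symm).resolve_left fun k' => a0 (h3 a ?_)⟩
      exact m.injOn (h1 a) (one_mem _) (by rw [k', m.homOn.map_one])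
    have hv : ∀ a, v a ∈ sp v y z := fun a => (b.memV _).2 ⟨_, _, _, b.ev a⟩
    have hy : ∀ a, y a ∈ sp v y z := fun a => (b.memV _).2 ⟨_, _, _, b.ey a⟩
    obtain ⟨a, a0, ha⟩ := key v hv g.v_add fun a k' => (b.inj ((b.ev a).symm.trans (k'.trans b.one.symm))).1
    obtain ⟨c, -, hc⟩ := key y hy g.y_add fun a k' => (b.inj ((b.ey a).symm.trans (k'.trans b.one.symm))).2.2.1
    have := m.injOn (hv a) (hy c) (ha.trans hc.symm)
    rw [b.ev, b.ey] at this
    exact a0 (b.inj this).1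
  have : Finite (FusionSystem.normalizerIn S (sp v y z)) :=
    Finite.of_injective _ (inclusion_injective (inf_le_left : FusionSystem.normalizerIn S (sp v y z) ≤ S))
  refine card_le_of_le fun x hx => ⟨hx.1, (norm b x hx.1).2 (by_contra fun k => ?_)⟩
  have key : ∀ c : K × K, ∃ d, f (el v w y z c.1 0 c.2 0) = el v w y z 0 0 d 0 := by
    intro c
    have h0 : el v w y z c.1 0 c.2 0 ∈ sp v y z := (b.memV _).2 ⟨_, _, _, rfl⟩
    obtain ⟨x', hx', e1⟩ := m.mem_img.1 ((mem_normalizer_iff.1 hx.2 _).1 (mem_img_of_mem f h0))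
    have c1 := fc _ h0 _ hx'
    have c2 := f2 _ h0
    obtain ⟨a, u, d, d', e2⟩ := (b.memT _).1 (fT _ h0)
    obtain ⟨b', c', e3⟩ := b.xel x hx.1 k a u d d'
    rw [e1, e2, e3, b.mul, b.mul] at c1
    rw [e2, b.mul, ← b.one] at c2
    have k1 := (b.inj c1).2.2.1
    have k2 := (b.inj c2).2.2.1
    rw [b.two, zero_add] at k2
    rw [q.th, q.eps, q.th, ex, cond_false, pow_one] at k1
    have k3 : u ^ 3 = a ^ 3 := by linear_combination k1
    have k4 : a = 0 ∧ u = 0 := by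
      rcases mul_eq_zero.1 k2 with k | k
      · exact ⟨k, by simpa [k] using k3⟩
      · exact ⟨by simpa [k] using k3.symm, k⟩
    exact ⟨d, by rw [e2, k4.1, k4.2, b.drop q.eps]⟩
  choose β hβ using key
  have inj : Function.Injective β := fun c c' h => by
    have := b.inj (m.injOn ((b.memV _).2 ⟨_, _, _, rfl⟩) ((b.memV _).2 ⟨_, _, _, rfl⟩) ((hβ c).trans (h ▸ (hβ c').symm)))
    exact Prod.ext this.1 this.2.2.1
  have := Fintype.card_le_of_injective β inj
  rw [Fintype.card_prod, q.card] at this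
  omega

end CL.HK.J
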