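/-
Project HK (S5175), case (c): coordinates from the relations found in `J₃`.
-/
import Cfsg.Agent.HK.JDefs

set_option autoImplicit false

open Cfsg Subgroup
open scoped commutatorElement

namespace CL.HK.J.JGx

universe u

variable {G : Type u} [Group G] {K : Type} [Field K] [Fintype K] [CharP K 2] {θ : K ≃+* K} {ω : K}

omit [Fintype K] in
theorem two (a : K) : a + a = 0 := CharTwo.add_self_eq_zero a

theorem ind (q : Q4 false θ ω) (P : K → Prop) (h1 : P 1) (h2 : P ω) (h : ∀ a b, P a → P b → P (a + b)) (a : K) :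
    P a := by
  rcases q.all a with rfl | rfl | rfl | rfl
  · rw [← two (1 : K)]; exact h _ _ h1 h1
  · exact h1
  · exact h2
  · exact h _ _ h2 h1

theorem exL (q : Q4 false θ ω) {g₁ g₂ : G} (e1 : g₁ * g₁ = 1) (e2 : g₂ * g₂ = 1) (e : g₁ * g₂ = g₂ * g₁) :
    ∃ L : K → G, L 0 = 1 ∧ L 1 = g₁ ∧ L ω = g₂ ∧ L (ω + 1) = g₁ * g₂ ∧ ∀ a b, L (a + b) = L a * L b := by
  classical
  have t : (2 : K) = 0 := CharTwo.two_eq_zero
  have sq := q.sq
  have n0 : ω ≠ 0 := by rintro rfl; simp at sq
  have n1 : ω ≠ 1 := by rintro rfl; simp at sq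
  have n2 : ω + 1 ≠ 0 := fun h => n1 (by linear_combination h - t)
  have n3 : ω + 1 ≠ 1 := fun h => n0 (by linear_combination h)
  have n4 : ω + 1 ≠ ω := fun h => one_ne_zero (α := K) (by linear_combination h)
  let L : K → G := fun a => if a = 0 then 1 else if a = 1 then g₁ else if a = ω then g₂ else g₁ * g₂
  have l0 : L 0 = 1 := by simp [L]
  have l1 : L 1 = g₁ := by simp [L]
  have l2 : L ω = g₂ := by simp [L, n0, n1]
  have l3 : L (ω + 1) = g₁ * g₂ := by simp only [L, if_neg n2, if_neg n3, if_neg n4]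
  refine ⟨L, l0, l1, l2, l3, fun a b => ?_⟩
  have s1 : (1 : K) + (ω + 1) = ω := by linear_combination t
  have s2 : ω + (ω + 1) = 1 := by linear_combination ω * t
  have s3 : ω + 1 + 1 = ω := by linear_combination t
  have s4 : ω + 1 + ω = 1 := by linear_combination ω * t
  have s5 : 1 + ω = ω + 1 := add_comm _ _
  have m1 : g₁ * (g₁ * g₂) = g₂ := by rw [← mul_assoc, e1, one_mul]
  have m2 : g₂ * (g₁ * g₂) = g₁ := by rw [e, ← mul_assoc, e2, one_mul]
  have m3 : g₁ * g₂ * g₁ = g₂ := by rw [mul_assoc, ← e, m1]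
  have m4 : g₁ * g₂ * g₂ = g₁ := by rw [mul_assoc, e2, mul_one]
  have m5 : g₁ * g₂ * (g₁ * g₂) = 1 := by rw [mul_assoc, m2, e1]
  clear_value L
  rcases q.all a with h | h | h | h <;> rcases q.all b with k | k | k | k <;> rw [h, k] <;>
    simp only [two, s1, s2, s3, s4, s5, zero_add, add_zero, l0, l1, l2, l3, e1, e2, m1, m2, m3, m4, m5, one_mul,
      mul_one, ← e]

end CL.HK.J.JGx

namespace CL.HK.J

open JGx

universe u

theorem jg : JG.{u} := by
  intro G _ a₁ a₂ b₁ b₂ c₁ c₂ s n h k r K _ _ _ θ ω q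
  have q1 := r.sq a₁ (by simp)
  have q2 := r.sq a₂ (by simp)
  have q3 := r.sq b₁ (by simp)
  have q4 := r.sq b₂ (by simp)
  have q5 := r.sq c₁ (by simp)
  have q6 := r.sq c₂ (by simp)
  have ss := r.sq s (by simp)
  have x1 := r.cc c₁ (by simp) a₁ (by simp)
  have x2 := r.cc c₁ (by simp) a₂ (by simp)
  have x3 := r.cc c₁ (by simp) b₁ (by simp)
  have x4 := r.cc c₁ (by simp) b₂ (by simp)
  have x6 := r.cc c₁ (by simp) c₂ (by simp)
  have z1 := r.cc c₂ (by simp) a₁ (by simp)
  have z2 := r.cc c₂ (by simp) a₂ (by simp)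
  have z3 := r.cc c₂ (by simp) b₁ (by simp)
  have z4 := r.cc c₂ (by simp) b₂ (by simp)
  obtain ⟨v, v0, v1, v2, v3, va⟩ := exL q q1 q2 r.aa
  obtain ⟨w, w0, w1, w2, w3, wa⟩ := exL q q3 q4 r.bb
  obtain ⟨y, y0, y1, y2, y3, ya⟩ := exL q q5 q6 x6
  have oo : ω * ω = ω + 1 := by rw [← q.sq, pow_two]
  have yv : ∀ b a, Commute (y b) (v a) := ind q _
    (ind q _ (by rw [y1, v1]; exact x1) (by rw [y1, v2]; exact x2) fun a b h1 h2 => by rw [va]; exact h1.mul_right h2)
    (ind q _ (by rw [y2, v1]; exact z1) (by rw [y2, v2]; exact z2) fun a b h1 h2 => by rw [va]; exact h1.mul_right h2)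
    fun a b h1 h2 c => by rw [ya]; exact (h1 c).mul_left (h2 c)
  have yw : ∀ b a, Commute (y b) (w a) := ind q _
    (ind q _ (by rw [y1, w1]; exact x3) (by rw [y1, w2]; exact x4) fun a b h1 h2 => by rw [wa]; exact h1.mul_right h2)
    (ind q _ (by rw [y2, w1]; exact z3) (by rw [y2, w2]; exact z4) fun a b h1 h2 => by rw [wa]; exact h1.mul_right h2)
    fun a b h1 h2 c => by rw [ya]; exact (h1 c).mul_left (h2 c)
  have yy : ∀ b a, Commute (y b) (y a) := fun b a => by rw [Commute, SemiconjBy, ← ya, ← ya, add_comm]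
  obtain ⟨p1, p2, p3, p4⟩ := r.ab
  have ad : ∀ a u u', v a * w u = y (a * u) * w u * v a → v a * w u' = y (a * u') * w u' * v a →
      v a * w (u + u') = y (a * (u + u')) * w (u + u') * v a := fun a u u' h1 h2 => by
    rw [mul_add, wa, ya, ← mul_assoc, h1, mul_assoc _ (v a), h2]
    simp only [mul_assoc]
    rw [(yw (a * u') u).left_comm]
  have P : ∀ a u, v a * w u = y (a * u) * w u * v a := ind q _
    (ind q _ (by rw [mul_one, v1, w1, y1, p1]) (by rw [one_mul, v1, w2, y2, p2]) (ad 1))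
    (ind q _ (by rw [mul_one, v2, w1, y2, p3]) (by rw [oo, v2, w2, y3, p4]) (ad ω))
    fun a b h1 h2 u => by
      rw [add_mul, va, ya, mul_assoc, h2 u, mul_assoc (y (b * u)), ← (yv _ a).left_comm, ← mul_assoc (v a), h1 u]
      simp only [mul_assoc]
      rw [(yy _ _).left_comm]
  have P' : ∀ a u, w u * v a = v a * w u * y (a * u) := fun a u => by
    rw [P, mul_assoc (y _), mul_assoc (y _), ← ((yw (a * u) u).mul_right (yv (a * u) a)).eq, ← mul_assoc, ← ya, two,
      y0, one_mul]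
  have mul : ∀ a u b a' u' b', v a * w u * y b * (v a' * w u' * y b') =
      v (a + a') * w (u + u') * y (b + b' + a' * u) := fun a u b a' u' b' => by
    have e1 : y b * (v a' * w u' * y b') = v a' * w u' * (y b * y b') := by
      rw [← mul_assoc, ((yv b a').mul_right (yw b u')).eq, mul_assoc]
    calc _ = v a * (w u * v a') * w u' * (y b * y b') := by rw [mul_assoc, e1]; simp only [mul_assoc]
      _ = v a * v a' * (w u * (y (a' * u) * w u')) * (y b * y b') := by rw [P']; simp only [mul_assoc]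
      _ = _ := by rw [(yw _ _).eq, va, wa, add_comm (b + b'), ya, ya]; simp only [mul_assoc]
  have one : v 0 * w 0 * y 0 = 1 := by rw [v0, w0, y0, one_mul, one_mul]
  let T : Subgroup G :=
    { carrier := {t | ∃ a u b, t = v a * w u * y b}
      one_mem' := ⟨0, 0, 0, one.symm⟩
      mul_mem' := by
        rintro _ _ ⟨a, u, b, rfl⟩ ⟨a', u', b', rfl⟩
        exact ⟨_, _, _, mul _ _ _ _ _ _⟩
      inv_mem' := by
        rintro _ ⟨a, u, b, rfl⟩
        refine ⟨a, u, b + a * u, inv_eq_of_mul_eq_one_right ?_⟩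
        rw [mul, two, two, add_assoc b, add_assoc b, two, add_zero, two, one] }
  have vT : ∀ a, v a ∈ T := fun a => ⟨a, 0, 0, by rw [w0, y0, mul_one, mul_one]⟩
  have wT : ∀ a, w a ∈ T := fun a => ⟨0, a, 0, by rw [v0, y0, mul_one, one_mul]⟩
  have yT : ∀ a, y a ∈ T := fun a => ⟨0, 0, a, by rw [v0, w0, mul_one, one_mul]⟩
  have yc : ∀ b, ∀ t ∈ T, y b * t = t * y b := by
    rintro b _ ⟨a, u, c, rfl⟩
    exact ((yv b a).mul_right (yw b u)).mul_right (yy b c)
  obtain ⟨r1, r2, r3, r4, r5, r6⟩ := r.rs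
  have θ1 : θ 1 = 1 := map_one θ
  have θ2 : θ ω = ω + 1 := by rw [q.th, q.sq]
  have cj : ∀ f g : K → G, (∀ a b, f (a + b) = f a * f b) → (∀ a b, g (a + b) = g a * g b) → s * f 1 = g 1 * s →
      s * f ω = g (ω + 1) * s → ∀ a, s * f a * s⁻¹ = g (θ a) := fun f g hf hg e1 e2 => ind q _
    (by rw [θ1, e1, mul_inv_cancel_right]) (by rw [θ2, e2, mul_inv_cancel_right]) fun a b h1 h2 => by
      rw [map_add, hf, hg, ← h1, ← h2]; group
  have sv := cj v w va wa (by rw [v1, w1, r1]) (by rw [v2, w3, r2])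
  have sw := cj w v wa va (by rw [v1, w1, r3]) (by rw [w2, v3, r4])
  have sy := cj y y ya ya (by rw [y1, r5]) (by rw [y2, y3, r6])
  have si : s⁻¹ = s := inv_eq_of_mul_eq_one_right ss
  have nT : ∀ t ∈ T, s * t * s⁻¹ ∈ T := by
    rintro _ ⟨a, u, b, rfl⟩
    have : s * (v a * w u * y b) * s⁻¹ = (s * v a * s⁻¹) * (s * w u * s⁻¹) * (s * y b * s⁻¹) := by group
    rw [this, sv, sw, sy]
    exact T.mul_mem (T.mul_mem (wT _) (vT _)) (yT _)
  let S : Subgroup G :=
    { carrier := {x | x ∈ T ∨ x * s ∈ T}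
      one_mem' := .inl T.one_mem
      mul_mem' := by
        rintro x x' (h1 | h1) (h2 | h2)
        · exact .inl (T.mul_mem h1 h2)
        · exact .inr (by rw [mul_assoc]; exact T.mul_mem h1 h2)
        · refine .inr ?_
          have : x * x' * s = x * s * (s * x' * s⁻¹) := by rw [si, ← mul_assoc, ← mul_assoc, mul_assoc x s, ss, mul_one]
          rw [this]; exact T.mul_mem h1 (nT _ h2)
        · refine .inl ?_
          have : x * x' = x * s * (s * (x' * s) * s⁻¹) := by
            rw [mul_assoc s, mul_inv_cancel_right, ← mul_assoc, mul_assoc x s, ss, mul_one]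
          rw [this]; exact T.mul_mem h1 (nT _ h2)
      inv_mem' := by
        rintro x (h1 | h1)
        · exact .inl (T.inv_mem h1)
        · refine .inr ?_
          have : x⁻¹ * s = s * (x * s)⁻¹ * s⁻¹ := by rw [mul_inv_rev, mul_inv_cancel_left, si]
          rw [this]; exact nT _ (T.inv_mem h1) }
  have c2 : s * c₂ ≠ c₂ * s := fun e => r.ne (by
    rw [e, mul_assoc] at r6
    exact (right_eq_mul.1 r6))
  have yi : ∀ b, y b = 1 → b = 0 := fun b hb => by
    rcases q.all b with e | e | e | e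
    · exact e
    · exact absurd (y1 ▸ e ▸ hb) r.ne
    · rw [e, y2] at hb
      exact absurd (by rw [hb, mul_one, one_mul]) c2
    · rw [e, y3] at hb
      rw [hb, one_mul, mul_eq_left] at r6
      exact absurd (by rw [r6, mul_one, one_mul]) c2
  refine ⟨S, T, v, w, y, ⟨⟨vT, wT, yT, fun _ => T.one_mem, va, wa, ya, fun _ _ => (mul_one _).symm, yc,
    fun _ _ _ => by rw [mul_one, one_mul], fun a u => ?_, fun _ _ => rfl, ?_, fun a u b c e => ?_⟩, inferInstance,
    q.card.ge, fun x hx => .inl hx, .inr (ss ▸ T.one_mem), fun e => c2 (y2 ▸ (yc ω s e).symm), ss, fun x hx => hx,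
    fun a => ?_, fun a => ?_, sw, fun a => ?_, sy⟩, v1, v2, w1, w2, y1, y2⟩
  · rw [commutatorElement_def, P]; group
  · rintro _ ⟨a, u, b, rfl⟩
    exact ⟨a, u, b, 0, (mul_one _).symm⟩
  · rw [mul_one] at e
    have ha : a = 0 := by
      have e1 := mul a u b 0 1 0
      have e2 := mul 0 1 0 a u b
      rw [e, one_mul] at e1
      rw [e, mul_one, e1, add_comm 0 a, add_comm 1 u] at e2
      have e3 := mul_left_cancel e2
      rw [zero_mul, add_zero, add_zero, zero_add, mul_one, ya, left_eq_mul] at e3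
      exact yi a e3
    have hu : u = 0 := by
      have e1 := mul a u b 1 0 0
      have e2 := mul 1 0 0 a u b
      rw [e, one_mul] at e1
      rw [e, mul_one, e1, add_comm 1 a, add_comm 0 u] at e2
      have e3 := mul_left_cancel e2
      rw [mul_zero, add_zero, add_zero, zero_add, one_mul, ya, mul_eq_left] at e3
      exact yi u e3
    rw [ha, hu, v0, w0, one_mul, one_mul] at e
    exact ⟨ha, hu, yi b e, fun k => absurd k (by decide)⟩
  · change θ (θ a) ^ 1 = a
    rw [pow_one, q.th, q.th, ← pow_mul]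
    have := FiniteField.pow_card a
    rwa [q.card] at this
  · change _ = w (θ a ^ 1)
    rw [pow_one, sv]
  · change _ = y (θ a ^ 1)
    rw [pow_one, sy]

end CL.HK.J
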