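/-
Project HK (S5175), case (c): the given maps from the relations.
-/
import Cfsg.Agent.HK.JDefs

set_option autoImplicit false

open Cfsg Subgroup

namespace CL.HK.J

open CL.Fus CL.Grp CL.J23

universe u

namespace JGVx

variable {G : Type u} [Group G] {K : Type} [Field K]

theorem zero {v : K → G} (hv : ∀ a b, v (a + b) = v a * v b) : v 0 = 1 := by
  have := hv 0 0
  rw [add_zero] at this
  exact mul_eq_left.1 this.symm

theorem ext2 {v v' : K → G} (hv : ∀ a b, v (a + b) = v a * v b) (hv' : ∀ a b, v' (a + b) = v' a * v' b) {ω : K}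
    (all : ∀ a : K, a = 0 ∨ a = 1 ∨ a = ω ∨ a = ω + 1) {g : G} (p : K) (h1 : g * v 1 = v' p * g)
    (h2 : g * v ω = v' (p * ω) * g) (a : K) : g * v a * g⁻¹ = v' (p * a) := by
  have e1 : g * v 1 * g⁻¹ = v' p := by rw [h1]; simp
  have e2 : g * v ω * g⁻¹ = v' (p * ω) := by rw [h2]; simp
  rcases all a with rfl | rfl | rfl | rfl
  · rw [mul_zero, zero hv, zero hv']; simp
  · rw [mul_one, e1]
  · exact e2
  · rw [mul_add, mul_one, hv, hv', ← e1, ← e2]; group

/-- conjugation by `g` is monomial -/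
abbrev MC (v w y : K → G) (p r : Kˣ) (g : G) : Prop :=
  Mon v w y (fun _ => 1) p r (RingEquiv.refl K) fun x => g * x * g⁻¹

variable {v w y : K → G}

theorem MC.one : MC v w y 1 1 1 := ⟨by simp, by simp, by simp, by simp⟩

theorem MC.mul {p r p' r' : Kˣ} {g g' : G} (h : MC v w y p r g) (h' : MC v w y p' r' g') :
    MC v w y (p * p') (r * r') (g * g') := by
  have e : ∀ x : G, g * g' * x * (g * g')⁻¹ = g * (g' * x * g'⁻¹) * g⁻¹ := fun x => by group
  refine ⟨fun a => ?_, fun a => ?_, fun a => ?_, fun a => by simp⟩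
  · have h1 := h'.v a
    have h2 := h.v (p' * a)
    simp only [RingEquiv.refl_apply, Units.val_mul] at h1 h2 ⊢
    rw [e, h1, h2, mul_assoc]
  · have h1 := h'.w a
    have h2 := h.w (r' * a)
    simp only [RingEquiv.refl_apply, Units.val_mul] at h1 h2 ⊢
    rw [e, h1, h2, mul_assoc]
  · have h1 := h'.y a
    have h2 := h.y (p' * r' * a)
    simp only [RingEquiv.refl_apply, Units.val_mul] at h1 h2 ⊢
    rw [e, h1, h2]
    congr 1
    ring

theorem MC.pow {p r : Kˣ} {g : G} (h : MC v w y p r g) (n : ℕ) : MC v w y (p ^ n) (r ^ n) (g ^ n) := by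
  induction n with
  | zero => simpa using MC.one
  | succ n ih => rw [pow_succ, pow_succ, pow_succ]; exact ih.mul h

theorem MC.mem {p r : Kˣ} {g : G} {T : Subgroup G} (c : Co false T v w y fun _ => 1) (h : MC v w y p r g) :
    ∀ t ∈ T, g * t * g⁻¹ ∈ T := by
  intro t ht
  obtain ⟨a, u, b, c', rfl⟩ := c.nf t ht
  have : g * (v a * w u * y b * 1) * g⁻¹ = (g * v a * g⁻¹) * (g * w u * g⁻¹) * (g * y b * g⁻¹) := by group
  rw [this, h.v, h.w, h.y]
  exact T.mul_mem (T.mul_mem (c.vT _) (c.wT _)) (c.yT _)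

end JGVx

open JGVx in
theorem jgv : JGV.{u} := by
  intro G _ a₁ a₂ b₁ b₂ c₁ c₂ s n h k R K _ _ θ ω S T v w y Q D B ⟨v1, v2, w1, w2, y1, y2⟩
  subst v1 v2 w1 w2 y1 y2
  have o1 : ω * (ω + 1) = 1 := by
    rw [mul_add, ← pow_two, Q.sq, mul_one, add_right_comm, B.two, zero_add]
  have o2 : ω * ω = ω + 1 := by rw [← pow_two, Q.sq]
  have o3 : (ω + 1) * ω = 1 := by rw [mul_comm, o1]
  let om : Kˣ := Units.mkOfMulEqOne ω (ω + 1) o1
  have omv : (om : K) = ω := rfl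
  have om2 : ((om ^ 2 : Kˣ) : K) = ω + 1 := by rw [Units.val_pow_eq_pow_val, omv, Q.sq]
  have om3 : om ^ 3 = 1 := Units.ext (by rw [pow_succ, Units.val_mul, om2, omv, o3, Units.val_one])
  have hall : ∀ p : Kˣ, ∃ i : ℕ, p = om ^ i := fun p => by
    rcases Q.all p with e | e | e | e
    · exact (p.ne_zero e).elim
    · exact ⟨0, Units.ext (by simpa using e)⟩
    · exact ⟨1, Units.ext (by rw [pow_one, e, omv])⟩
    · exact ⟨2, Units.ext (by rw [om2, e])⟩
  have sw : ∀ {v : K → G}, (∀ a b, v (a + b) = v a * v b) → v (ω + 1) = v 1 * v ω := fun hv => by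
    rw [add_comm, hv]
  obtain ⟨h1, h2, h3, h4, h5, h6⟩ := R.rh
  obtain ⟨k1, k2, k3, k4, k5, k6, k7⟩ := R.rk
  obtain ⟨n1, n2, n3, n4⟩ := R.rn
  have Mh : MC v w y om om h :=
    ⟨ext2 D.v_add D.v_add Q.all _ h1 (by rw [omv, o2, sw D.v_add, h2]),
      ext2 D.w_add D.w_add Q.all _ h3 (by rw [omv, o2, sw D.w_add, h4]),
      ext2 D.y_add D.y_add Q.all _ (by rw [omv, o2, sw D.y_add, h5]) (by rw [omv, o2, o3, h6]), by simp⟩
  have Mk : MC v w y om (om ^ 2) k :=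
    ⟨ext2 D.v_add D.v_add Q.all _ k1 (by rw [omv, o2, sw D.v_add, k2]),
      ext2 D.w_add D.w_add Q.all _ (by rw [om2, sw D.w_add, k3]) (by rw [om2, o3, k4]),
      ext2 D.y_add D.y_add Q.all _ (by rw [om2, omv, o1, k5]) (by rw [om2, omv, o1, one_mul, k6]), by simp⟩
  have nv : ∀ a, n * v a * n⁻¹ = y a := fun a => by
    simpa using ext2 D.v_add D.y_add Q.all 1 n1 (by rw [one_mul, n2]) a
  have ny : ∀ a, n * y a * n⁻¹ = v a := fun a => by
    simpa using ext2 D.y_add D.v_add Q.all 1 n3 (by rw [one_mul, n4]) a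
  have hV : ∀ x ∈ sp v y fun _ => 1, ∃ a b, x = v a * y b := fun x hx => by
    obtain ⟨a, b, c, e⟩ := (B.memV x).1 hx
    exact ⟨a, b, by rw [e, el, zero D.w_add]; simp⟩
  refine ⟨⟨fun x => n * x * n⁻¹, mor_group_iff.2 ⟨fun x hx => ?_, fun x hx => ?_, n, fun _ _ => rfl⟩, nv, ny,
    by simp⟩, fun p r => ?_, fun p => ?_⟩
  · obtain ⟨a, b, rfl⟩ := hV x hx
    exact D.le (T.mul_mem (D.vT a) (D.yT b))
  · obtain ⟨a, b, rfl⟩ := hV x hx
    have : n * (v a * y b) * n⁻¹ = (n * v a * n⁻¹) * (n * y b * n⁻¹) := by group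
    rw [this, nv, ny]
    exact D.le (T.mul_mem (D.yT a) (D.vT b))
  · obtain ⟨i, rfl⟩ := hall p
    obtain ⟨j, rfl⟩ := hall r
    have M := (Mh.pow (2 * i + 2 * j)).mul (Mk.pow (j + 2 * i))
    have e1 : om ^ (2 * i + 2 * j) * om ^ (j + 2 * i) = om ^ i := by
      rw [← pow_add, show 2 * i + 2 * j + (j + 2 * i) = 3 * (i + j) + i by ring, pow_add, pow_mul, om3, one_pow,
        one_mul]
    have e2 : om ^ (2 * i + 2 * j) * (om ^ 2) ^ (j + 2 * i) = om ^ j := by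
      rw [← pow_mul, ← pow_add, show 2 * i + 2 * j + 2 * (j + 2 * i) = 3 * (2 * i + j) + j by ring, pow_add, pow_mul,
        om3, one_pow, one_mul]
    rw [e1, e2] at M
    exact ⟨_, mor_group_iff.2 ⟨D.le, fun x hx => D.le (M.mem D.toCo x hx), _, fun _ _ => rfl⟩, M⟩
  · obtain ⟨j, rfl⟩ := hall p
    have M := Mk.pow j
    rw [← pow_mul, mul_comm, pow_mul] at M
    have hs : k ^ j * s * (k ^ j)⁻¹ = s := by
      rw [(Commute.pow_left k7 j).eq]; simp
    refine ⟨_, mor_group_iff.2 ⟨le_rfl, fun x hx => ?_, _, fun _ _ => rfl⟩, M, hs⟩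
    by_cases hT : x ∈ T
    · exact D.le (M.mem D.toCo x hT)
    · obtain ⟨t, ht, rfl⟩ := B.out x hx hT
      have : k ^ j * (t * s) * (k ^ j)⁻¹ = (k ^ j * t * (k ^ j)⁻¹) * (k ^ j * s * (k ^ j)⁻¹) := by group
      show k ^ j * (t * s) * (k ^ j)⁻¹ ∈ S
      rw [this, hs]
      exact S.mul_mem (D.le (M.mem D.toCo t ht)) D.sS

end CL.HK.J
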