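/-
Project HK (S5175), part J: the first case.
-/
import Cfsg.Agent.HK.JDefs

set_option autoImplicit false

open Cfsg Subgroup
open scoped commutatorElement

namespace CL.HK.J

open CL.Fus CL.Grp CL.J23

universe u

theorem jia : JIA.{u} := by
  classical
  intro U _ _ K _ _ ε θ T v w y z s E M B g b h YE ⟨f, hf, x0, hx0, x0T, fx0⟩ ⟨a, ha, c, hc, na, nc, nac⟩
  obtain ⟨x1, hx1, x1T, fx1, al⟩ : ∃ x1 ∈ E, x1 ∈ T ∧ f x1 ∉ T ∧ ∀ x ∈ Yc y z, f x ∉ T → x1 ∈ Yc y z := by
    by_cases k : ∃ x ∈ Yc y z, f x ∉ T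
    · obtain ⟨x, hx, k⟩ := k
      exact ⟨x, YE hx, b.YT hx, k, fun _ _ _ => hx⟩
    · exact ⟨x0, hx0, x0T, fx0, fun x hx l => absurd ⟨x, hx, l⟩ k⟩
  set Y0 : Subgroup U := Yc y z ⊓ centralizer {s} with hY0
  have c1 : ∀ x ∈ Yc y z, f x ∈ T → f x ∈ Y0 := fun x hx k => by
    have cm : f x * f x1 = f x1 * f x := by
      rw [← h.mul hf _ (YE hx) _ hx1, b.Yz x hx x1 x1T, h.mul hf _ hx1 _ (YE hx)]
    have m : f x ∈ Yc y z := b.iY _ trivial fx1 _ k (h.map_sq hf (YE hx) (b.Y2 x hx))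
      (by rw [commutatorElement_eq_one_iff_mul_comm.2 cm]; exact one_mem _)
    have := b.sY _ trivial fx1 _ m
    rw [← cm, mul_inv_cancel_right] at this
    exact mem_inf.2 ⟨m, mem_centralizer_singleton_iff.2 (mul_inv_eq_iff_eq_mul.1 this.symm).symm⟩
  have l1 : Nat.card (Yc y z) ≤ Nat.card (Y0 × Bool) := by
    refine Nat.card_le_card_of_injective (fun x => if k : f x ∈ T then (⟨f x, c1 x x.2 k⟩, false) else
      (⟨f (x * x1), c1 _ (mul_mem x.2 (al x x.2 k)) (by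
        rw [h.mul hf _ (YE x.2) _ hx1]; exact b.idx _ trivial _ trivial k fx1)⟩, true)) fun x x' e => ?_
    by_cases k : f x ∈ T <;> by_cases k' : f x' ∈ T <;> simp only [k, k', dif_pos, dif_neg, not_false_eq_true,
      Prod.mk.injEq, Subtype.mk.injEq, and_true, Bool.false_eq_true, Bool.true_eq_false, and_false] at e
    · exact Subtype.ext (h.inj hf (YE x.2) (YE x'.2) e)
    · exact Subtype.ext (mul_right_cancel (h.inj hf (mul_mem (YE x.2) hx1) (mul_mem (YE x'.2) hx1) e))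
  have m : ∀ i : Fin 3, ![1, a, c] i ∈ Yc y z := fun i => by
    fin_cases i
    exacts [one_mem _, ha, hc]
  have l2 : Nat.card (Y0 × Fin 3) ≤ Nat.card (Yc y z) := by
    refine Nat.card_le_card_of_injective (fun p => ⟨p.1 * ![1, a, c] p.2, mul_mem (mem_inf.1 p.1.2).1 (m _)⟩) ?_
    rintro ⟨x, i⟩ ⟨x', j⟩ e
    have e : (x : U) * ![1, a, c] i = x' * ![1, a, c] j := congrArg Subtype.val e
    have k : s * (![1, a, c] i * ![1, a, c] j) = ![1, a, c] i * ![1, a, c] j * s := by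
      have : ![1, a, c] i * ![1, a, c] j = (x⁻¹ * x' : Y0) := by
        rw [eq_inv_mul_iff_mul_eq.2 e, mul_assoc, mul_assoc, b.Y2 _ (m j), mul_one]; rfl
      rw [this]
      exact (mem_centralizer_singleton_iff.1 (mem_inf.1 (x⁻¹ * x').2).2).symm
    have ac : c * a = a * c := b.Yz c hc a (b.YT ha)
    obtain rfl : i = j := by
      fin_cases i <;> fin_cases j <;> first | rfl | simp [ac, na, nc, nac] at k
    rw [Subtype.ext (mul_right_cancel e)]
  have := Nat.card_pos (α := Y0)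
  simp only [Nat.card_prod, Nat.card_eq_fintype_card, Fintype.card_bool, Fintype.card_fin] at l1 l2
  omega

end CL.HK.J
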