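/-
Project HK (S5175), case (c): the second case, `Y` is not moved out of `T`.
-/
import Cfsg.Agent.HK.JDefs

set_option autoImplicit false

open Cfsg Subgroup
open scoped commutatorElement

namespace CL.HK.J

open CL.Fus CL.Grp CL.J23

universe u

namespace JIB1x

variable {U : Type u} [Group U] {K : Type} [Field K] {θ : K ≃+* K} {T : Subgroup U} {v w y z : K → U} {s : U}

theorem el_congr (h : Bas ⊤ false θ T v w y z s) {a u b c a' u' b' c' : K} (h1 : a = a') (h2 : u = u') (h3 : b = b') :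
    el v w y z a u b c = el v w y z a' u' b' c' := by
  rw [h1, h2, h3, h.drop rfl a' u' b' c, h.drop rfl a' u' b' c']

theorem sel (h : Bas ⊤ false θ T v w y z s) (hθ : ∀ a, θ a = a) (a u b c : K) :
    s * el v w y z a u b c * s⁻¹ = el v w y z u a (b + u * a) 0 := by
  rw [h.sel0 rfl, hθ, hθ, hθ]

theorem central (h : Bas ⊤ false θ T v w y z s) (hθ : ∀ a, θ a = a) {x : U} (hx : x ∈ Yc y z) (g : U) :
    x * g = g * x := by
  by_cases hg : g ∈ T
  · exact h.Yz x hx g hg
  obtain ⟨t, ht, rfl⟩ := h.out g (mem_top g) hg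
  have h1 : s * x * s⁻¹ = x := by
    obtain ⟨b, c, rfl⟩ := (h.memY x).1 hx
    rw [sel h hθ]
    exact el_congr h rfl rfl (by ring)
  rw [← mul_assoc, h.Yz x hx t ht, mul_assoc, mul_assoc, mul_inv_eq_iff_eq_mul.1 h1]

/-- the action of an outer involution on the diagonal elements -/
theorem conj_diag (h : Bas ⊤ false θ T v w y z s) (hθ : ∀ a, θ a = a) (hs : s * s = 1) {c : U} (hc : c ∉ T)
    (hc2 : c * c = 1) (a b d : K) : c * el v w y z a a b d * c⁻¹ = el v w y z a a (b + a * a) 0 := by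
  obtain ⟨t, ht, rfl⟩ := h.out c (mem_top c) hc
  obtain ⟨a₀, u₀, b₀, c₀, rfl⟩ := (h.memT t).1 ht
  have h1 : el v w y z a₀ u₀ b₀ c₀ * (s * el v w y z a₀ u₀ b₀ c₀ * s⁻¹) = 1 := by
    rw [← hc2, inv_eq_of_mul_eq_one_right hs]; group
  rw [sel h hθ, h.mul, ← h.one] at h1
  have h2 : a₀ = u₀ := by linear_combination (h.inj h1).1 - h.two u₀
  subst h2
  rw [show el v w y z a₀ a₀ b₀ c₀ * s * el v w y z a a b d * (el v w y z a₀ a₀ b₀ c₀ * s)⁻¹ =
    el v w y z a₀ a₀ b₀ c₀ * (s * el v w y z a a b d * s⁻¹) * (el v w y z a₀ a₀ b₀ c₀)⁻¹ by group,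
    sel h hθ, h.inv, h.mul, h.mul]
  exact el_congr h (by linear_combination h.two a₀) (by linear_combination h.two a₀)
    (by linear_combination h.two b₀ + h.two (a * a₀) + h.two (a₀ * a₀))

theorem comm_diag (h : Bas ⊤ false θ T v w y z s) (hθ : ∀ a, θ a = a) (hs : s * s = 1) {c : U} (hc : c ∉ T)
    (hc2 : c * c = 1) (a : K) : ⁅c, el v w y z a a 0 0⁆ = y (a * a) := by
  rw [commutatorElement_def, conj_diag h hθ hs hc hc2, h.inv, h.mul, h.ey]
  exact el_congr h (h.two a) (h.two a) (by linear_combination h.two (a * a))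

theorem yY (h : Bas ⊤ false θ T v w y z s) (a : K) : y a ∈ Yc y z := (h.memY _).2 ⟨a, 0, h.ey a⟩

theorem y_add (h : Bas ⊤ false θ T v w y z s) (a b : K) : y (a + b) = y a * y b := by
  rw [h.ey, h.ey, h.ey, h.mul]
  exact el_congr h (by ring) (by ring) (by ring)

end JIB1x

open JIB1x in
theorem jib1 : JIB1.{u} := by
  intro U _ _ K _ _ θ T v w y z s E M B hG h hC hY hθ f hf x hx
  by_contra hc
  have hcE := hC.mem hf x (hY hx)
  have hc2 := hC.map_sq hf (hY hx) (h.Y2 x hx)
  have hcc : ∀ e ∈ E, f x * e = e * f x := by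
    intro e he
    obtain ⟨e, he', rfl⟩ := hC.surj hf he
    rw [← hC.mul hf _ (hY hx) _ he', ← hC.mul hf _ he' _ (hY hx), central h hθ hx]
  generalize f x = c at hc hcE hc2 hcc
  have hET : ∀ e ∈ E, e ∈ T → e ∈ Yc y z := by
    intro e he ht
    obtain ⟨a, u, b, d, rfl⟩ := (h.memT e).1 ht
    have h1 := mul_inv_eq_iff_eq_mul.2 (hcc _ he)
    obtain ⟨b', c', h2⟩ := h.xel c (mem_top c) hc a u b d
    have h3 : a = u := by rw [← hθ u]; exact (h.inj (h1.symm.trans h2)).1
    subst h3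
    rw [conj_diag h hθ hG.s2 hc hc2] at h1
    have h4 : a = 0 := mul_self_eq_zero.1 (by linear_combination (h.inj h1).2.2.1)
    subst h4
    exact (h.memY _).2 ⟨b, d, rfl⟩
  have hdE : ∀ a : K, a ≠ 0 → el v w y z a a 0 0 ∉ E := by
    intro a ha he
    obtain ⟨b, d, h1⟩ := (h.memY _).1 (hET _ he ((h.memT _).2 ⟨_, _, _, _, rfl⟩))
    exact ha (h.inj h1).1
  have hcom : ∀ a : K, ∀ e ∈ E, ⁅e, el v w y z a a 0 0⁆ = 1 ∨ ⁅e, el v w y z a a 0 0⁆ = y (a * a) := by
    intro a e he
    by_cases ht : e ∈ T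
    · exact Or.inl (commutatorElement_eq_one_iff_mul_comm.2 (central h hθ (hET e he ht) _))
    · right
      have h1 := central h hθ (hET _ (mul_mem he hcE) (h.idx e (mem_top e) c (mem_top c) ht hc))
      have h2 : e = e * c * c := by rw [mul_assoc, hc2, mul_one]
      rw [← comm_diag h hθ hG.s2 hc hc2 a, h2]
      generalize e * c = m at h1
      rw [commutatorElement_def, commutatorElement_def,
        show m * c * el v w y z a a 0 0 * (m * c)⁻¹ = m * (c * el v w y z a a 0 0 * c⁻¹) * m⁻¹ by group, h1,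
        mul_inv_cancel_right]
  have hcY : ∀ a : K, ∀ e ∈ E, ⁅e, el v w y z a a 0 0⁆ ∈ Yc y z := fun a e he => by
    rcases hcom a e he with h1 | h1 <;> rw [h1]
    · exact one_mem _
    · exact yY h _
  have hN : ∀ a : K, U5.Nm E (el v w y z a a 0 0) := fun a e he => hY (hcY a e he)
  obtain ⟨g, hg, hgB⟩ := hC.out
  have hout : ∀ a : K, a ≠ 0 → g (y (a * a)) ∉ T := by
    intro a ha ht
    refine hC.pair hg hgB (hN 1) (hdE 1 one_ne_zero) (hN a) (hdE a ha) hC.inv_bot
      (fun n hn => by rw [mem_bot.1 hn, commutatorElement_one_left])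
      (fun e he => mem_bot.2 (commutatorElement_eq_one_iff_mul_comm.2 (central h hθ (hcY 1 e he) _)))
      fun e he => mem_bot.2 ?_
    rcases hcom a e he with h1 | h1 <;> rw [h1]
    · rw [hC.map_one hg, commutatorElement_one_left]
    · exact commutatorElement_eq_one_iff_mul_comm.2
        (central h hθ (hET _ (hC.mem hg _ (hY (yY h _))) ht) _)
  obtain ⟨t, ht0, ht1⟩ := h.three
  refine hout (1 + t) (fun e => ht1 (by linear_combination h.two t - e)) ?_
  rw [show (1 + t) * (1 + t) = 1 * 1 + t * t by linear_combination h.two t, y_add h,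
    hC.mul hg _ (hY (yY h _)) _ (hY (yY h _))]
  exact h.idx _ (mem_top _) _ (mem_top _) (hout 1 one_ne_zero) (hout t ht0)

end CL.HK.J
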