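/-
Project HK (S5175), part J: the second case, `Y` stays in `T`.
-/
import Cfsg.Agent.HK.JDefs

set_option autoImplicit false

open Cfsg Subgroup
open scoped commutatorElement

namespace CL.HK.J

open CL.Fus CL.Grp CL.J23

universe u

namespace JIB2x

variable {U : Type u} [Group U] {K : Type} [Field K] {θ : K ≃+* K} {T : Subgroup U} {v w y z : K → U} {s : U}

/-- diagonal elements -/
def Dg (v w y z : K → U) (t : U) : Prop := ∃ a b c, t = el v w y z a a b c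

variable (h : Bas ⊤ false θ T v w y z s) (hθ : ∀ a, θ a = a)
include h

theorem dgT {t : U} (d : Dg v w y z t) : t ∈ T := let ⟨a, b, c, e⟩ := d; (h.memT t).2 ⟨a, a, b, c, e⟩

theorem dgY {t : U} (m : t ∈ Yc y z) : Dg v w y z t := let ⟨b, c, e⟩ := (h.memY t).1 m; ⟨0, b, c, e⟩

theorem split (a b c : K) : el v w y z a a b c = el v w y z a a 0 0 * el v w y z 0 0 b c := by
  rw [h.mul]; simp

include hθ

theorem cen {x : U} (m : x ∈ Yc y z) (g : U) : ⁅x, g⁆ = 1 := by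
  rw [commutatorElement_eq_one_iff_mul_comm]
  by_cases hg : g ∈ T
  · exact h.Yz x m g hg
  · refine (mul_inv_eq_iff_eq_mul.1 ?_).symm
    rw [h.sY g trivial hg x m]
    obtain ⟨b, c, rfl⟩ := (h.memY x).1 m
    rw [h.sel0 rfl, h.drop rfl 0 0 b c, hθ, hθ, mul_zero, add_zero]

theorem com {x : U} (hx : x ∉ T) (a u b c : K) :
    ∃ b' c', ⁅x, el v w y z a u b c⁆ = el v w y z (u + a) (u + a) b' c' := by
  obtain ⟨b', c', e⟩ := h.xel x trivial hx a u b c
  rw [commutatorElement_def, e, h.inv, h.mul, hθ, hθ, show ex false = 1 from rfl, pow_one, add_comm a u]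
  exact ⟨_, _, rfl⟩

theorem tc {t : U} (ht : t ∈ T) (x : U) : Dg v w y z ⁅x, t⁆ := by
  by_cases hx : x ∈ T
  · exact dgY h (h.cT x hx t ht)
  · obtain ⟨a, u, b, c, rfl⟩ := (h.memT t).1 ht
    exact ⟨_, com h hθ hx a u b c⟩

theorem dc {t : U} (d : Dg v w y z t) (x : U) : ⁅x, t⁆ ∈ Yc y z := by
  by_cases hx : x ∈ T
  · exact h.cT x hx t (dgT h d)
  · obtain ⟨a, b, c, rfl⟩ := d
    obtain ⟨b', c', e⟩ := com h hθ hx a a b c
    rw [e, h.two]
    exact (h.memY _).2 ⟨_, _, rfl⟩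

theorem cd {x t : U} (hx : x ∉ T) (ht : t ∈ T) (m : ⁅x, t⁆ ∈ Yc y z) : Dg v w y z t := by
  obtain ⟨a, u, b, c, rfl⟩ := (h.memT t).1 ht
  obtain ⟨b', c', e⟩ := com h hθ hx a u b c
  obtain ⟨b1, c1, e1⟩ := (h.memY _).1 m
  have : u = a := by linear_combination (h.inj (e.symm.trans e1)).1 - h.two a
  exact ⟨a, b, c, by rw [this]⟩

end JIB2x

open JIB2x U5 in
theorem jib2 : JIB2.{u} := by
  intro U _ _ K _ _ θ T v w y z s E M B _ h C hY hθ hf
  by_contra hn
  obtain ⟨s', s1, s2⟩ := SetLike.not_le_iff_exists.1 hn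
  have : (Yc y z).Normal := ⟨fun x hx g => h.nY g trivial x hx⟩
  have iY : Inv E M (Yc y z) := ⟨hY, fun f mf x hx => h.iY s' trivial s2 _ (hf f mf x hx)
    (C.map_sq mf (hY hx) (h.Y2 x hx)) (by
      obtain ⟨e, he, rfl⟩ := C.surj mf s1
      rw [← C.map_comm mf (hY hx) he, cen h hθ hx, C.map_one mf]
      exact one_mem _)⟩
  have iC := C.inv_czm C.inv_top C.inv_top iY
  by_cases hC : czm E E (Yc y z) ≤ T
  · have TE : T ≤ E := C.grow T ⟨fun x hx g => h.nT g trivial x hx⟩ fun t ht nm => C.mem2 iC iY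
      (fun e he => mem_czm.2 ⟨nm e he, fun e' _ => dc h hθ (tc h hθ ht e) e'⟩) (fun e he => h.cT e (hC he) t ht)
      fun e he => cen h hθ he t
    refine C.ne (eq_top_iff.2 fun x _ => ?_)
    by_cases hx : x ∈ T
    · exact TE hx
    · simpa using mul_mem (TE (h.idx x trivial s'⁻¹ trivial hx (mt inv_mem_iff.1 s2))) s1
  obtain ⟨r, r1, r2⟩ := SetLike.not_le_iff_exists.1 hC
  have ED : ∀ e ∈ E, e ∈ T → Dg v w y z e := fun e he ht => cd h hθ r2 ht (comm_symm ((mem_czm.1 r1).2 e he))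
  have DE : ∀ t, Dg v w y z t → t ∈ E := fun t d => C.mem1 iY (fun e _ => dc h hθ d e) fun e he => cen h hθ he t
  have vT : ∀ a, v a ∈ T := fun a => (h.memT _).2 ⟨_, _, _, _, h.ev a⟩
  have vE : ∀ a, a ≠ 0 → v a ∉ E := fun a ha m => by
    obtain ⟨a', b, c, e⟩ := ED _ m (vT a)
    obtain ⟨e1, e2, -⟩ := h.inj ((h.ev a).symm.trans e)
    exact ha (e1.trans e2.symm)
  have vN : ∀ a, Nm E (v a) := fun a e _ => DE _ (tc h hθ (vT a) e)
  obtain ⟨g, mg, ng⟩ := C.out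
  have sp : ∀ a b c, g (el v w y z a a b c) ∈ T ↔ g (el v w y z a a 0 0) ∈ T := fun a b c => by
    have m : el v w y z 0 0 b c ∈ Yc y z := (h.memY _).2 ⟨_, _, rfl⟩
    rw [split h, C.mul mg _ (DE _ ⟨_, _, _, rfl⟩) _ (hY m), mul_mem_cancel_right (hf g mg _ m)]
  have key : ∀ a, a ≠ 0 → g (el v w y z a a 0 0) ∉ T := fun a ha m =>
    C.pair mg ng (vN 1) (vE 1 one_ne_zero) (vN a) (vE a ha) iY (fun n hn => cen h hθ hn _)
      (fun e _ => h.cT _ (dgT h (tc h hθ (vT 1) e)) _ (vT 1)) fun e _ => h.cT _ (by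
        by_cases he : e ∈ T
        · exact hf g mg _ (h.cT e he _ (vT a))
        · obtain ⟨b, c, e1⟩ := com h hθ he a 0 0 0
          rw [h.ev, e1, zero_add]
          exact (sp a b c).2 m) _ (vT 1)
  obtain ⟨t, t0, t1⟩ := h.three
  have := h.idx _ trivial _ trivial (key 1 one_ne_zero) (key t t0)
  rw [← C.mul mg _ (DE _ ⟨_, _, _, rfl⟩) _ (DE _ ⟨_, _, _, rfl⟩), h.mul, sp] at this
  exact key _ (fun e => t1 (by linear_combination e - h.two 1)) this

end CL.HK.J
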