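/-
Project HK, part J: the third case.
-/
import Cfsg.Agent.HK.JDefs

set_option autoImplicit false

open Cfsg Subgroup
open scoped commutatorElement

namespace CL.HK.J

open CL.Fus CL.Grp CL.J23

universe u

theorem jic : JIC.{u} := by
  intro U _ _ K _ _ ε θ T v w y z s ω E M B h b k hY ⟨f0, hf0, x0, x0E, x0T, x0n⟩ q e4
  obtain rfl := q.eps
  have yY : ∀ a, y a ∈ Yc y z := fun a => (b.memY _).2 ⟨a, 0, b.ey a⟩
  have yE : ∀ a, y a ∈ E := fun a => hY (yY a)
  have yi : ∀ {a a'}, y a = y a' → a = a' := fun e => (b.inj ((b.ey _).symm.trans (e.trans (b.ey _)))).2.2.1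
  have y0 : y 0 = 1 := (b.ey 0).trans b.one
  have ym : ∀ a a', y a * y a' = y (a + a') := fun a a' => by simp [b.ey, b.mul]
  have sy : ∀ a, s * y a * s⁻¹ = y (a ^ 2) := fun a => by rw [b.ey, b.sel0 rfl, b.ey]; simp [q.th]
  have o1 : ω ≠ 1 := fun e => by
    have := q.sq
    rw [e, b.two] at this
    simp at this
  have o0 : ω ≠ 0 := fun e => by simpa [e] using q.sq
  have yS : ∀ a, y a ∈ Es v w y s := fun a => subset_closure (.inl (.inr ⟨a, rfl⟩))
  have c1 : ∀ c ∉ T, ∀ t ∈ T, t * t = 1 → t * c = c * t → t = 1 ∨ t = y 1 := fun c hc t ht t2 e => by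
    have m := b.iY c trivial hc t ht t2 (by rw [commutatorElement_eq_one_iff_mul_comm.2 e]; exact one_mem _)
    have := b.sY c trivial hc t m
    rw [← e, mul_inv_cancel_right, eq_mul_inv_iff_mul_eq] at this
    exact e4.Y0 t m this.symm
  obtain ⟨f, hf, x, hx, cT⟩ : ∃ f, M f ∧ ∃ x ∈ Yc y z, f x ∉ T := by
    by_contra hn
    push Not at hn
    have : ∀ r, r ≠ 0 → f0 (y r) = y 1 := fun r hr =>
      (c1 _ x0n _ (hn f0 hf0 _ (yY r)) (k.map_sq hf0 (yE r) (b.Y2 _ (yY r))) (by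
        rw [← k.mul hf0 _ (yE r) _ x0E, b.Yz _ (yY r) _ x0T, k.mul hf0 _ x0E _ (yE r)])).resolve_left fun e =>
          hr (yi ((k.inj hf0 (yE r) (one_mem _) (e.trans (k.map_one hf0).symm)).trans y0.symm))
    exact o1 (yi (k.inj hf0 (yE _) (yE _) ((this ω o0).trans (this 1 one_ne_zero).symm)))
  have cE : f x ∈ E := k.mem hf x (hY hx)
  have c2 : f x * f x = 1 := k.map_sq hf (hY hx) (b.Y2 x hx)
  obtain ⟨g, hg, gf⟩ := k.inv hf
  have i1 : ∀ e ∈ E, g e ∈ T → f x * e = e * f x := fun e he m => by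
    have := congrArg f (b.Yz x hx _ m)
    rwa [k.mul hf _ (hY hx) _ (k.mem hg e he), k.mul hf _ (k.mem hg e he) _ (hY hx), (gf e he).2] at this
  generalize f x = c at cT cE c2 i1
  have lA : ∀ t ∈ T, c * t = t * c → t ∈ Es v w y s := fun t ht e => by
    obtain ⟨a, u, b', c', rfl⟩ := (b.memT t).1 ht
    obtain ⟨b1, c1, e1⟩ := b.xel c trivial cT a u b' c'
    rw [e, mul_inv_cancel_right] at e1
    have := (b.inj e1).2.1
    rw [q.th, show ex false = 1 from rfl, pow_one] at this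
    exact (e4.mem _).2 ⟨a, b', .inl (by rw [b.drop rfl, this])⟩
  have cS : c ∈ Es v w y s := by
    obtain ⟨t, ht, rfl⟩ := b.out c trivial cT
    obtain ⟨a, u, b', c', rfl⟩ := (b.memT t).1 ht
    have e : el v w y z a u b' c' * (s * el v w y z a u b' c' * s⁻¹) = 1 := by
      rw [← c2, inv_eq_of_mul_eq_one_right h.s2]; simp only [mul_assoc]
    rw [b.sel0 rfl, b.mul, ← b.one] at e
    have := (b.inj e).2.1
    rw [q.th, ← b.two (a ^ 2), add_left_inj] at this
    exact (e4.mem _).2 ⟨a, b', .inr (by rw [b.drop rfl, this])⟩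
  have cy : c * y ω * c⁻¹ = y 1 * y ω := by rw [b.sY c trivial cT _ (yY ω), sy, q.sq, ym, add_comm]
  have i2 : g (y ω) ∉ T := fun m => by
    rw [i1 _ (yE ω) m, mul_inv_cancel_right, ym] at cy
    simpa using yi cy
  have i3 : ∀ e ∈ E, e ∈ T → e ∈ Es v w y s := fun e he ht => by
    by_cases m : g e ∈ T
    · exact lA e ht (i1 e he m)
    · refine (mul_mem_cancel_right (yS ω)).1 (lA _ (mul_mem ht (b.YT (yY ω))) (i1 _ (mul_mem he (yE ω)) ?_))
      rw [k.mul hg _ he _ (yE ω)]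
      exact b.idx _ trivial _ trivial m i2
  have le : E ≤ Es v w y s := fun e he => by
    by_cases ht : e ∈ T
    · exact i3 e he ht
    · exact (mul_mem_cancel_right cS).1 (i3 _ (mul_mem he cE) (b.idx _ trivial _ trivial ht cT))
  have cz : ∀ e ∈ Es v w y s, ∀ e' ∈ Es v w y s, ⁅e, e'⁆ ∈ zpowers (y 1) := fun e he e' he' => by
    rcases e4.com e he e' he' with r | r <;> rw [r]
    exacts [one_mem _, mem_zpowers _]
  have iv : U5.Inv E M (zpowers (y 1)) := by
    rw [zpowers_eq_closure]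
    refine k.inv_closure (by rintro _ rfl; exact yE 1) ?_
    rintro f' hf' _ rfl
    have : f' (y 1) = ⁅f' c, f' (y ω)⁆ := by
      rw [← k.map_comm hf' cE (yE ω), commutatorElement_def, cy, mul_inv_cancel_right]
    rw [← zpowers_eq_closure, this]
    exact cz _ (le (k.mem hf' _ cE)) _ (le (k.mem hf' _ (yE ω)))
  refine le_antisymm le fun r hr => k.mem1 iv (fun e he => cz e (le he) r hr) ?_
  rintro _ ⟨n, rfl⟩
  exact commutatorElement_eq_one_iff_commute.2 (Commute.zpow_left (e4.yz r trivial) n)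

end CL.HK.J
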