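/-
Project HK (S5175), case (c): a critical subgroup contains `Y`.
-/
import Cfsg.Agent.HK.JDefs

set_option autoImplicit false

open Cfsg Subgroup
open scoped commutatorElement

namespace CL.HK.J

open CL.Fus CL.Grp CL.J23

universe u

namespace JIIx

variable {U : Type u} [Group U] {K : Type} [Field K] {ε : Bool} {θ : K ≃+* K} {T : Subgroup U} {v w y z : K → U}
  {s x : U} (b : Bas ⊤ ε θ T v w y z s)
include b

theorem dY (hx : x ∈ Yc y z) : ⁅s, x⁆ ∈ Yc y z := mul_mem (b.nY s trivial x hx) (inv_mem hx)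

theorem dS (s2 : s * s = 1) (hx : x ∈ Yc y z) : s * ⁅s, x⁆ = ⁅s, x⁆ * s := by
  nth_rw 2 [← inv_eq_of_mul_eq_one_left (b.Y2 _ (dY b hx))]
  rw [commutatorElement_inv, commutatorElement_def, commutatorElement_def, inv_mul_cancel_right,
    inv_eq_of_mul_eq_one_left s2]
  simp only [← mul_assoc, s2, one_mul]

theorem cen (hx : x ∈ Yc y z) (k : s * x = x * s) (e : U) : Commute x e := by
  by_cases he : e ∈ T
  · exact b.Yz x hx e he
  · obtain ⟨t, ht, rfl⟩ := b.out e trivial he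
    exact Commute.mul_right (b.Yz x hx t ht) k.symm

theorem com (hx : x ∈ Yc y z) (e : U) : ⁅e, x⁆ = 1 ∨ ⁅e, x⁆ = ⁅s, x⁆ := by
  by_cases he : e ∈ T
  · exact .inl (commutatorElement_eq_one_iff_mul_comm.2 (b.Yz x hx e he).symm)
  · exact .inr (by rw [commutatorElement_def, b.sY e trivial he x hx, commutatorElement_def])

theorem dmul {a : U} (ha : a ∈ Yc y z) (hx : x ∈ Yc y z) : ⁅s, a * x⁆ = ⁅s, a⁆ * ⁅s, x⁆ := by
  rw [show ⁅s, a * x⁆ = ⁅s, a⁆ * (a * ⁅s, x⁆) * a⁻¹ by simp only [commutatorElement_def]; group,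
    b.Yz a ha _ (b.YT (dY b hx)), ← mul_assoc, mul_inv_cancel_right]

end JIIx

open JIIx

theorem jii : JII.{u} := by
  intro U _ _ K _ _ ε θ T v w y z s E M B g b h k x hx
  by_contra hE
  obtain ⟨f, f1, f2⟩ := h.out
  have dE : ∀ x ∈ Yc y z, ⁅s, x⁆ ∈ E := fun x hx => h.cen _ fun e _ => cen b (dY b hx) (dS b g.s2 hx) e
  have nm : ∀ x ∈ Yc y z, U5.Nm E x := fun x hx e _ =>
    (com b hx e).elim (fun j => j ▸ one_mem _) fun j => j ▸ dE x hx
  have o1 : f 1 ∈ T := by rw [h.map_one f1]; exact one_mem _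
  have st : ∀ x ∈ Yc y z, x ∉ E → f ⁅s, x⁆ ∉ T := fun x hx hE j => by
    have t : ∀ a ∈ T, ⁅a, x⁆ ∈ (⊥ : Subgroup U) := fun a ha =>
      commutatorElement_eq_one_iff_mul_comm.2 (b.Yz x hx a ha).symm
    exact h.pair f1 f2 (nm x hx) hE (nm x hx) hE h.inv_bot (fun n hn => t n (bot_le (a := T) hn))
      (fun e _ => t _ ((com b hx e).elim (fun i => i ▸ one_mem _) fun i => i ▸ b.YT (dY b hx)))
      fun e _ => t _ ((com b hx e).elim (fun i => i ▸ o1) fun i => i ▸ j)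
  have c1 := st x hx hE
  have c2 := h.mem f1 _ (dE x hx)
  have c3 := h.map_sq f1 (dE x hx) (b.Y2 _ (dY b hx))
  have c4 : ∀ e ∈ E, f ⁅s, x⁆ * e * (f ⁅s, x⁆)⁻¹ = e := fun e' he' => by
    obtain ⟨e, he, rfl⟩ := h.surj f1 he'
    rw [← h.mul f1 _ (dE x hx) _ he, (cen b (dY b hx) (dS b g.s2 hx) e).eq, h.mul f1 _ he _ (dE x hx),
      mul_inv_cancel_right]
  rcases k with ⟨a, ha, c, hc, k1, k2, k3⟩ | ⟨k1, k2⟩ | ⟨ω, q, e4⟩
  · have n : ∀ x ∈ Yc y z, s * x ≠ x * s → x ∉ E := fun x' hx' j m =>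
      j (mul_inv_eq_iff_eq_mul.1 ((b.sY _ trivial c1 x' hx').symm.trans (c4 x' m)))
    refine st _ (mul_mem ha hc) (n _ (mul_mem ha hc) k3) ?_
    rw [dmul b ha hc, h.mul f1 _ (dE a ha) _ (dE c hc)]
    exact b.idx _ trivial _ trivial (st a ha (n a ha k1)) (st c hc (n c hc k2))
  · refine hE (h.cen _ fun e _ => cen b hx (mul_inv_eq_iff_eq_mul.1 ?_) e)
    obtain ⟨p, r, rfl⟩ := (b.memY x).1 hx
    rw [b.sel0 k1, b.drop k1 0 0 p r, k2, k2, mul_zero, add_zero]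
  haveI := g.chr
  have d1 : ⁅s, x⁆ = y 1 := (e4.Y0 _ (dY b hx) (dS b g.s2 hx)).resolve_left fun j => c1 (j ▸ o1)
  by_cases m : ∀ r ∈ E, r ∈ T → r ∈ Yc y z
  · obtain ⟨t, ht, e⟩ := b.out _ trivial c1
    obtain ⟨a, u, p, p', rfl⟩ := (b.memT t).1 ht
    have u1 : u = a ^ 2 := by
      rw [e, show el v w y z a u p p' * s * (el v w y z a u p p' * s) =
        el v w y z a u p p' * (s * el v w y z a u p p' * s⁻¹) * (s * s) by group, g.s2, mul_one, b.sel0 q.eps, b.mul,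
        ← b.one] at c3
      have := (b.inj c3).2.1
      rw [q.th] at this
      exact CharTwo.add_eq_zero.1 this
    obtain ⟨n, hn⟩ : ∃ n : K, n ^ 2 + 1 + a ^ 2 = n + a := by
      have := q.sq
      rcases q.all a with j | j | j | j
      exacts [⟨ω, by grind⟩, ⟨ω, by grind⟩, ⟨0, by grind⟩, ⟨0, by grind⟩]
    have r1 : el v w y z 1 1 n 0 ∈ T := (b.memT _).2 ⟨_, _, _, _, rfl⟩
    have r2 : Commute (el v w y z 1 1 n 0) (f ⁅s, x⁆) := by
      rw [e, commute_iff_eq, show el v w y z a u p p' * s * el v w y z 1 1 n 0 =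
        el v w y z a u p p' * (s * el v w y z 1 1 n 0 * s⁻¹) * s by group, b.sel0 q.eps, ← mul_assoc, b.mul, b.mul,
        b.drop q.eps, b.drop q.eps (a + _), map_one, q.th n, add_comm a, add_comm u, u1]
      congr 2
      linear_combination -hn
    obtain ⟨p, p', j⟩ := (b.memY _).1 (m _ (h.cen _ fun d hd => by
      by_cases i : d ∈ T
      · exact (b.Yz d (m d hd i) _ r1).symm
      · rw [← mul_inv_cancel_right d (f ⁅s, x⁆)]
        exact Commute.mul_right (b.Yz _ (m _ (mul_mem hd c2) (b.idx _ trivial _ trivial i c1)) _ r1).symm r2.inv_right) r1)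
    exact one_ne_zero (b.inj j).1
  · simp only [not_forall] at m
    obtain ⟨r, r1, r2, r3⟩ := m
    obtain ⟨a, u, p, p', rfl⟩ := (b.memT r).1 r2
    obtain ⟨n, n', j⟩ := b.xel _ trivial c1 a u p p'
    rw [c4 _ r1, q.th, q.th, q.eps] at j
    obtain ⟨j1, j2, -⟩ := b.inj j
    replace j2 : u = a ^ 2 := j2.trans (pow_one _)
    have a0 : a ≠ 0 := fun i => r3 ((b.memY _).2 ⟨p, p', by rw [j2, i, zero_pow two_ne_zero]⟩)
    have a1 : a * u = 1 := mul_left_cancel₀ a0 (by rw [mul_one]; nth_rw 3 [j1]; rw [j2]; ring)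
    refine c1 ?_
    rw [d1, show y 1 = el v w y z a u p p' * el v w y z a u p p' by
      rw [b.mul, b.drop q.eps, b.two, b.two, b.two, zero_add, a1, b.ey], h.mul f1 _ r1 _ r1]
    exact b.sq _ trivial

end CL.HK.J
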