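/-
Project HK (S5175): the Thompson subgroup acts on a linear block like `T ∩ L` and contains `O₂(L)`.
-/
import Cfsg.Agent.HK.Core

set_option autoImplicit false

open Cfsg Subgroup
open scoped commutatorElement

namespace CL.HK

open CL.Fus CL.Loc CL.Grp CL.Even Matrix

universe u

theorem jl_count {G X : Type*} [Group G] [Finite G] [Finite X] {W C : Subgroup G} {S : Set X} (f : G → X)
    (hS : ∀ x ∈ W, f x ∈ S) (h : ∀ x ∈ W, ∀ y ∈ W, f x = f y → x⁻¹ * y ∈ C) :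
    Nat.card W ≤ Nat.card S * Nat.card C := by
  classical
  let F : W → S := fun x => ⟨f x, hS x x.2⟩
  have hF : ∀ x : W, F (Function.invFun F (F x)) = F x := fun x => Function.invFun_eq ⟨x, rfl⟩
  rw [← Nat.card_prod]
  refine Nat.card_le_card_of_injective (fun x : W => (F x, (⟨((Function.invFun F (F x) : W) : G)⁻¹ * x,
    h _ (Function.invFun F (F x)).2 _ x.2 (congrArg Subtype.val (hF x))⟩ : C))) fun x y hxy => ?_
  have h1 : F x = F y := congrArg Prod.fst hxy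
  have h2 : ((Function.invFun F (F x) : W) : G)⁻¹ * x = ((Function.invFun F (F y) : W) : G)⁻¹ * y :=
    congrArg (fun z : S × C => (z.2 : G)) hxy
  rw [h1] at h2
  exact Subtype.ext (mul_left_cancel h2)

section field
variable {K : Type} [Field K] [Fintype K]

theorem jl_cyc (F : Type) [Field F] [Finite F] : IsCyclic (F ≃+* F) := by
  obtain ⟨p, hp⟩ := CharP.exists F
  have : Fact p.Prime := ⟨CharP.char_is_prime F p⟩
  let _ := ZMod.algebra F p
  refine isCyclic_of_surjective (MulSemiringAction.toRingAut (F ≃ₐ[ZMod p] F) F) fun σ => ?_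
  exact ⟨AlgEquiv.ofRingEquiv (f := σ) fun x =>
    DFunLike.congr_fun (Subsingleton.elim ((σ : F →+* F).comp (algebraMap (ZMod p) F)) _) x, rfl⟩

theorem jl_inv_uniq {σ τ : K ≃+* K} (h1 : σ ≠ RingEquiv.refl K) (h2 : τ ≠ RingEquiv.refl K)
    (h3 : ∀ x, σ (σ x) = x) (h4 : ∀ x, τ (τ x) = x) : σ = τ := by
  classical
  have := jl_cyc K
  have : Finite (K ≃+* K) := Finite.of_injective (fun e : K ≃+* K => (e : K → K)) DFunLike.coe_injective
  have := Fintype.ofFinite (K ≃+* K)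
  by_contra hne
  have h5 := IsCyclic.card_pow_eq_one_le (α := K ≃+* K) (n := 2) two_pos
  have h6 : ({1, σ, τ} : Finset (K ≃+* K)) ⊆ Finset.univ.filter fun a => a ^ 2 = 1 := by
    intro a ha
    simp only [Finset.mem_insert, Finset.mem_singleton] at ha
    rw [Finset.mem_filter]
    refine ⟨Finset.mem_univ _, ?_⟩
    rcases ha with rfl | rfl | rfl
    · exact one_pow 2
    · rw [sq]; exact RingEquiv.ext h3
    · rw [sq]; exact RingEquiv.ext h4
  have h7 := Finset.card_le_card h6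
  rw [Finset.card_eq_three.2 ⟨1, σ, τ, h1.symm, h2.symm, hne, rfl⟩] at h7
  omega

theorem jl_fix_sq {σ : K ≃+* K} (h : σ ≠ RingEquiv.refl K) :
    Nat.card {x : K | σ x = x} * Nat.card {x : K | σ x = x} ≤ Nat.card K := by
  obtain ⟨u, hu⟩ : ∃ u, σ u ≠ u := by
    by_contra hc
    push Not at hc
    exact h (RingEquiv.ext hc)
  rw [← Nat.card_prod]
  refine Nat.card_le_card_of_injective (fun z => z.1.1 + z.2.1 * u) ?_
  rintro ⟨⟨x, hx⟩, ⟨y, hy⟩⟩ ⟨⟨x', hx'⟩, ⟨y', hy'⟩⟩ he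
  simp only [Set.mem_ofPred_eq] at hx hy hx' hy' he
  have h1 := congrArg σ he
  rw [map_add, map_add, map_mul, map_mul, hx, hy, hx', hy'] at h1
  have h2 : (y - y') * (σ u - u) = 0 := by linear_combination h1 - he
  have h3 : y = y' := sub_eq_zero.1 ((mul_eq_zero.1 h2).resolve_right (sub_ne_zero.2 hu))
  subst h3
  have h4 : x = x' := add_right_cancel he
  subst h4
  rfl

theorem jl_fix0 (σ : K ≃+* K) {a : K} (ha : a ≠ 0) (d : K) :
    Nat.card {c : K | a * σ c = d * c} ≤ Nat.card {x : K | σ x = x} := by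
  by_cases h : ∃ c0 : K, c0 ≠ 0 ∧ a * σ c0 = d * c0
  · obtain ⟨c0, h0, h1⟩ := h
    refine Nat.card_le_card_of_injective (fun c => ⟨c.1 / c0, ?_⟩) fun c c' he => ?_
    · have h2 : a * σ c.1 = d * c.1 := c.2
      have h3 : σ c0 ≠ 0 := by simpa using h0
      change σ (c.1 / c0) = c.1 / c0
      rw [map_div₀, div_eq_div_iff h3 h0]
      refine mul_left_cancel₀ ha ?_
      linear_combination c0 * h2 - c.1 * h1
    · exact Subtype.ext ((div_left_inj' h0).1 (congrArg Subtype.val he))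
  · push Not at h
    refine Nat.card_le_card_of_injective (fun _ => ⟨0, map_zero σ⟩) fun c c' _ => Subtype.ext ?_
    have h1 : ∀ c : {c : K | a * σ c = d * c}, c.1 = 0 := fun c => by
      by_contra hc
      exact h c.1 hc c.2
    rw [h1 c, h1 c']

theorem jl_fix1 (σ : K ≃+* K) {a : K} (ha : a ≠ 0) (b : K) :
    Nat.card {c : K | a * σ c + b = c} ≤ Nat.card {x : K | σ x = x} := by
  by_cases h : ∃ c0 : K, a * σ c0 + b = c0
  · obtain ⟨c0, h0⟩ := h
    refine le_trans ?_ (jl_fix0 σ ha 1)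
    refine Nat.card_le_card_of_injective (fun c => ⟨c.1 - c0, ?_⟩) fun c c' he => ?_
    · have h2 : a * σ c.1 + b = c.1 := c.2
      change a * σ (c.1 - c0) = 1 * (c.1 - c0)
      rw [map_sub]
      linear_combination h2 - h0
    · exact Subtype.ext (sub_left_inj.1 (congrArg Subtype.val he))
  · have : IsEmpty {c : K | a * σ c + b = c} := ⟨fun c => h ⟨c.1, c.2⟩⟩
    rw [Nat.card_of_isEmpty]
    exact Nat.zero_le _

theorem jl_fix2 (σ : K ≃+* K) {a d : K} (ha : a ≠ 0) (hd : d ≠ 0) (b : K) :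
    Nat.card {v : Fin 2 → K | a * σ (v 0) + b * σ (v 1) = v 0 ∧ d * σ (v 1) = v 1} ≤
      Nat.card {x : K | σ x = x} * Nat.card {x : K | σ x = x} := by
  classical
  have h1 : Nat.card {v : Fin 2 → K | a * σ (v 0) + b * σ (v 1) = v 0 ∧ d * σ (v 1) = v 1} ≤
      Nat.card (Σ y : {c : K | d * σ c = 1 * c}, {c : K | a * σ c + b * σ y.1 = c}) := by
    refine Nat.card_le_card_of_injective
      (fun v => ⟨⟨v.1 1, v.2.2.trans (one_mul _).symm⟩, ⟨v.1 0, v.2.1⟩⟩) fun v w he => ?_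
    have e1 : v.1 1 = w.1 1 := congrArg (fun z => z.1.1) he
    have e0 : v.1 0 = w.1 0 := congrArg (fun z => z.2.1) he
    refine Subtype.ext (funext fun i => ?_)
    fin_cases i
    · exact e0
    · exact e1
  refine h1.trans ?_
  have := Fintype.ofFinite {c : K | d * σ c = 1 * c}
  rw [Nat.card_sigma]
  refine (Finset.sum_le_card_nsmul _ _ _ fun y _ => jl_fix1 σ ha (b * σ y.1)).trans ?_
  rw [smul_eq_mul, Finset.card_univ, ← Nat.card_eq_fintype_card]
  exact Nat.mul_le_mul_right _ (jl_fix0 σ hd 1)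

theorem jl_line (S : Set K) : Nat.card {v : Fin 2 → K | v 0 ∈ S ∧ v 1 = 0} ≤ Nat.card S := by
  refine Nat.card_le_card_of_injective (fun v => ⟨v.1 0, v.2.1⟩) fun v w he => Subtype.ext (funext fun i => ?_)
  fin_cases i
  · exact congrArg Subtype.val he
  · exact v.2.2.trans w.2.2.symm

end field

section
variable {M : Type u} [Group M] {K : Type} [Field K] {T L : Subgroup M}

/-- `x` acts like the unitriangular matrix with entry `c` -/
def JlC (N : NS K L) (x : M) (c : K) : Prop := ∃ t ∈ L, x * t⁻¹ ∈ 𝒞(pCoreOf 2 L) ∧ sl2Up c = N.r t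

theorem JlC.act {N : NS K L} {x : M} {c : K} (h : JlC N x c) {v : M} (hv : v ∈ pCoreOf 2 L) :
    N.ψ (x * v * x⁻¹) = ![N.ψ v 0 + c * N.ψ v 1, N.ψ v 1] := by
  obtain ⟨t, ht, h1, h2⟩ := h
  have e : x * v * x⁻¹ = x * t⁻¹ * (t * v * t⁻¹) * (x * t⁻¹)⁻¹ := by group
  rw [e, conj_eq_of_mem h1 (conj_mem (N.norm ht) hv), N.ψ_conj t ht v hv, ← h2, sl2Up_mulVec]

/-- the subgroup of the elements acting like `T ∩ L` -/
def jlX (T L : Subgroup M) : Subgroup M where
  carrier := {x | In T L x}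
  one_mem' := ⟨1, one_mem _, by simp⟩
  mul_mem' := by
    rintro x y ⟨t, ht, hx⟩ ⟨s, hs, hy⟩
    refine ⟨t * s, mul_mem ht hs, ?_⟩
    have e : x * y * (t * s)⁻¹ = x * t⁻¹ * (t * (y * s⁻¹) * t⁻¹) := by group
    rw [e]
    exact mul_mem hx (conj_mem (norm_le_norm_cent _ (self_le_norm_core L ht.2)) hy)
  inv_mem' := by
    rintro x ⟨t, ht, hx⟩
    refine ⟨t⁻¹, inv_mem ht, ?_⟩
    have e : x⁻¹ * t⁻¹⁻¹ = t⁻¹ * (x * t⁻¹)⁻¹ * t := by group
    rw [e]
    exact conj_mem' (norm_le_norm_cent _ (self_le_norm_core L ht.2)) (inv_mem hx)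

variable [Fintype K] {N : NS K L}

theorem jl_ex (h : LN T L N) {x : M} (hx : In T L x) : JlC N x (Classical.epsilon (JlC N x)) := by
  obtain ⟨t, ht, h1⟩ := hx
  obtain ⟨h2, c, hc⟩ := N.mem_up.1 (h.up ▸ ht)
  exact Classical.epsilon_spec ⟨c, t, h2, h1, hc⟩

theorem jl_eq (h : LN T L N) {x y : M} {c : K} (hx : JlC N x c) (hy : JlC N y c) : x⁻¹ * y ∈ 𝒞(pCoreOf 2 L) := by
  obtain ⟨t, ht, h1, h2⟩ := hx
  obtain ⟨s, hs, h3, h4⟩ := hy
  have h5 : t * s⁻¹ ∈ 𝒞(pCoreOf 2 L) :=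
    ea_le_centralizer h.ea (h.ker ▸ (N.r_eq_iff ht hs).1 (h2.symm.trans h4))
  have e : x⁻¹ * y = s⁻¹ * ((t * s⁻¹)⁻¹ * (x * t⁻¹)⁻¹ * (y * s⁻¹)) * s := by group
  rw [e]
  exact conj_mem' (norm_le_norm_cent _ (N.norm hs)) (mul_mem (mul_mem (inv_mem h5) (inv_mem h1)) h3)

theorem jl_zero (h : LN T L N) {x : M} (hx : JlC N x 0) : x ∈ 𝒞(pCoreOf 2 L) := by
  have := jl_eq h (x := 1) ⟨1, one_mem _, by simp, by rw [N.r_one, sl2Up_zero]⟩ hx
  rwa [inv_one, one_mul] at this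

variable [Finite M]

theorem jl_VT (h : LN T L N) : pCoreOf 2 L ≤ T := (core_le_syl h.sylL).trans inf_le_left

theorem jl_cnt (N : NS K L) {W : Subgroup M} (hW : W ≤ pCoreOf 2 L) {S : Set (Fin 2 → K)}
    (hS : ∀ x ∈ W, N.ψ x ∈ S) : Nat.card W ≤ Nat.card S * Nat.card (pCoreOf 2 L ⊓ 𝒞(L) : Subgroup M) :=
  jl_count N.ψ hS fun x hx y hy he => by
    rw [← N.ψ_eq_zero _ (mul_mem (inv_mem (hW hx)) (hW hy)), N.ψ_mul _ (inv_mem (hW hx)) _ (hW hy),
      N.ψ_inv (hW hx), he, neg_add_cancel]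

theorem jl_star (h : LN T L N) {A : Subgroup M} (hA : A ∈ meaIn 2 T) :
    IsElementaryAbelian 2 (pCoreOf 2 L ⊔ (A ⊓ 𝒞(pCoreOf 2 L)) : Subgroup M) ∧
      pCoreOf 2 L ⊔ (A ⊓ 𝒞(pCoreOf 2 L)) ≤ T ∧
      Nat.card (pCoreOf 2 L ⊔ (A ⊓ 𝒞(pCoreOf 2 L)) : Subgroup M) *
        Nat.card (pCoreOf 2 L ⊓ (A ⊓ 𝒞(pCoreOf 2 L)) : Subgroup M) =
      Nat.card K ^ 2 * Nat.card (pCoreOf 2 L ⊓ 𝒞(L) : Subgroup M) *
        Nat.card (A ⊓ 𝒞(pCoreOf 2 L) : Subgroup M) := by
  have h1 : pCoreOf 2 L ≤ 𝒞(A ⊓ 𝒞(pCoreOf 2 L)) := le_centralizer_iff.1 inf_le_right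
  refine ⟨ea_sup h.ea (ea_mono (meaIn_ea hA) inf_le_left) h1,
    sup_le (jl_VT h) (inf_le_left.trans (meaIn_le hA)), ?_⟩
  rw [card_sup_mul_card_inf (h1.trans (cent_le_norm _)), N.card_U]

theorem jl_in (h : LN T L N) {A : Subgroup M} (hA : A ∈ meaIn 2 T) (hn : A ≤ 𝒩(L))
    (hd : ∀ x ∈ A, In T L x ∨ Fd N x) : A ≤ jlX T L := by
  classical
  intro a ha
  by_contra hna
  have hV : A ≤ 𝒩(pCoreOf 2 L) := le_norm_core hn
  have hE := meaIn_ea hA
  -- field parts are involutions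
  have sq : ∀ x ∈ A, ∀ (σ : K ≃+* K) (α β δ : K), (∀ v ∈ pCoreOf 2 L,
      N.ψ (x * v * x⁻¹) = ![α * σ (N.ψ v 0) + β * σ (N.ψ v 1), δ * σ (N.ψ v 1)]) → ∀ y, σ (σ y) = y := by
    intro x hx σ α β δ hf
    have key : ∀ y : K, δ * σ (δ * σ y) = y := fun y => by
      obtain ⟨v, hv, e⟩ := N.ψ_surj ![0, y]
      have h1 := congrFun (hf _ (conj_mem (hV hx) hv)) 1
      have e2 : x * (x * v * x⁻¹) * x⁻¹ = x ^ 2 * v * (x ^ 2)⁻¹ := by rw [pow_two]; group
      rw [e2, ea_pow hE hx, one_mul, inv_one, mul_one, hf v hv, e] at h1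
      simpa using h1.symm
    intro y
    have h1 := key 1
    have h2 := key y
    rw [map_one, mul_one] at h1
    rw [map_mul, ← mul_assoc, h1, one_mul] at h2
    exact h2
  obtain ⟨σ, α, β, δ, hσ, hα, hδ, hf⟩ := (hd a ha).resolve_left hna
  have two : ∀ x ∈ A, ¬ In T L x → In T L (x * a) := fun x hx hnx => by
    obtain ⟨τ, α', β', δ', hτ, -, hδ', hg⟩ := (hd x hx).resolve_left hnx
    obtain rfl : σ = τ := jl_inv_uniq hσ hτ (sq a ha σ _ _ _ hf) (sq x hx τ _ _ _ hg)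
    refine (hd _ (mul_mem hx ha)).resolve_right ?_
    rintro ⟨ρ, α'', β'', δ'', hρ, -, hδ'', hk⟩
    have key : ∀ y : K, δ'' * ρ y = δ' * σ δ * y := fun y => by
      obtain ⟨v, hv, e⟩ := N.ψ_surj ![0, y]
      have h1 := congrFun (hk v hv) 1
      have e2 : x * a * v * (x * a)⁻¹ = x * (a * v * a⁻¹) * x⁻¹ := by group
      rw [e2, hg _ (conj_mem (hV ha) hv), hf v hv, e] at h1
      simp only [cons_val_one, cons_val_zero, cons_val_fin_one, map_mul, sq a ha σ _ _ _ hf] at h1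
      rw [← h1, mul_assoc]
    have h1 := key 1
    rw [map_one, mul_one, mul_one] at h1
    exact hρ (RingEquiv.ext fun y => mul_left_cancel₀ hδ'' (by rw [key y, ← h1]; rfl))
  -- the index of the centralizer
  have idx : ∀ S : Set K, (∀ x ∈ A, ∀ c, JlC N x c → c ∈ S) →
      Nat.card A ≤ 2 * Nat.card S * Nat.card (A ⊓ 𝒞(pCoreOf 2 L) : Subgroup M) := fun S hS => by
    have := jl_count (W := A) (C := A ⊓ 𝒞(pCoreOf 2 L)) (S := (Set.univ : Set Bool) ×ˢ S)
      (fun x => if In T L x then (true, Classical.epsilon (JlC N x))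
        else (false, Classical.epsilon (JlC N (x * a)))) (fun x hx => ?_) fun x hx y hy he => ?_
    · rwa [Nat.card_congr (Equiv.Set.prod _ _), Nat.card_prod, Nat.card_univ,
        Nat.card_eq_fintype_card (α := Bool), Fintype.card_bool] at this
    · by_cases hi : In T L x
      · rw [if_pos hi]
        exact ⟨trivial, hS x hx _ (jl_ex h hi)⟩
      · rw [if_neg hi]
        exact ⟨trivial, hS _ (mul_mem hx ha) _ (jl_ex h (two x hx hi))⟩
    · refine ⟨A.mul_mem (A.inv_mem hx) hy, ?_⟩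
      by_cases hi : In T L x <;> by_cases hj : In T L y <;> simp only [hi, hj, if_true, if_false, Prod.mk.injEq] at he
      · exact jl_eq h (jl_ex h hi) (he.2 ▸ jl_ex h hj)
      · exact absurd he.1 (by decide)
      · exact absurd he.1 (by decide)
      · have h1 := jl_eq h (jl_ex h (two x hx hi)) (he.2 ▸ jl_ex h (two y hy hj))
        have e : x⁻¹ * y = a * ((x * a)⁻¹ * (y * a)) * a⁻¹ := by group
        rw [e]
        exact conj_mem (norm_le_norm_cent _ (hV ha)) h1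
  obtain ⟨s1, s2, s3⟩ := jl_star h hA
  have s4 := meaIn_card_le hA s2 s1
  have hq := jl_fix_sq hσ
  have h4 : 4 ≤ Nat.card K := Nat.card_eq_fintype_card (α := K) ▸ h.four
  have fixv : ∀ x ∈ A, ∀ v ∈ pCoreOf 2 L ⊓ (A ⊓ 𝒞(pCoreOf 2 L)), x * v * x⁻¹ = v := fun x hx v hv => by
    rw [ea_mul_comm hE hx hv.2.1, mul_inv_cancel_right]
  have fin : Nat.card A * Nat.card (pCoreOf 2 L ⊓ (A ⊓ 𝒞(pCoreOf 2 L)) : Subgroup M) ≤
      2 * (Nat.card {x : K | σ x = x} * Nat.card {x : K | σ x = x}) *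
        (Nat.card (pCoreOf 2 L ⊓ 𝒞(L) : Subgroup M) * Nat.card (A ⊓ 𝒞(pCoreOf 2 L) : Subgroup M)) := by
    by_cases h0 : ∀ x ∈ A, ∀ c, JlC N x c → c = 0
    · have h1 := idx {0} h0
      have h2 := jl_cnt N (W := pCoreOf 2 L ⊓ (A ⊓ 𝒞(pCoreOf 2 L))) inf_le_left
        (S := {v | α * σ (v 0) + β * σ (v 1) = v 0 ∧ δ * σ (v 1) = v 1}) fun v hv => by
          have h3 := hf v hv.1
          rw [fixv a ha v hv] at h3
          exact ⟨(congrFun h3 0).symm, (congrFun h3 1).symm⟩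
      have h3 := jl_fix2 σ hα hδ β
      rw [Nat.card_unique (α := ({0} : Set K)), mul_one] at h1
      refine (Nat.mul_le_mul h1 (h2.trans (Nat.mul_le_mul_right _ h3))).trans (le_of_eq ?_)
      ring
    · push Not at h0
      obtain ⟨x, hx, c, hc, hc0⟩ := h0
      have h1 := idx {c | α * σ c = δ * c} fun y hy e he => by
        obtain ⟨v, hv, ev⟩ := N.ψ_surj ![0, 1]
        have e2 : a * (y * v * y⁻¹) * a⁻¹ = y * (a * v * a⁻¹) * y⁻¹ := by
          have := ea_mul_comm hE ha hy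
          calc a * (y * v * y⁻¹) * a⁻¹ = (a * y) * v * (a * y)⁻¹ := by group
            _ = (y * a) * v * (y * a)⁻¹ := by rw [this]
            _ = _ := by group
        have h2 := hf _ (conj_mem (hV hy) hv)
        rw [e2, he.act (conj_mem (hV ha) hv), he.act hv, hf v hv, ev] at h2
        have h3 := congrFun h2 0
        simp only [cons_val_one, cons_val_zero, cons_val_fin_one, map_one, map_zero, mul_one, mul_zero,
          zero_add] at h3
        change α * σ e = δ * e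
        linear_combination -h3
      have h2 := jl_cnt N (W := pCoreOf 2 L ⊓ (A ⊓ 𝒞(pCoreOf 2 L))) inf_le_left
        (S := {v | v 0 ∈ {c | α * σ c = 1 * c} ∧ v 1 = 0}) fun v hv => by
          have h3 := hf v hv.1
          rw [fixv a ha v hv] at h3
          have h5 := hc.act hv.1
          rw [fixv x hx v hv] at h5
          have h6 : N.ψ v 0 = N.ψ v 0 + c * N.ψ v 1 := congrFun h5 0
          have h7 : N.ψ v 1 = 0 := (mul_eq_zero.1 (by linear_combination -h6)).resolve_left hc0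
          have h8 : N.ψ v 0 = α * σ (N.ψ v 0) + β * σ (N.ψ v 1) := congrFun h3 0
          refine ⟨?_, h7⟩
          rw [h7, map_zero, mul_zero, add_zero] at h8
          exact h8.symm.trans (one_mul _).symm
      have h3 := (jl_line _).trans (jl_fix0 σ hα 1)
      have h5 := h1.trans (Nat.mul_le_mul_right _ (Nat.mul_le_mul_left 2 (jl_fix0 σ hα δ)))
      refine (Nat.mul_le_mul h5 (h2.trans (Nat.mul_le_mul_right _ h3))).trans (le_of_eq ?_)
      ring
  have s5 := (s3.symm.le.trans (Nat.mul_le_mul_right _ s4)).trans fin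
  rw [mul_assoc] at s5
  have s6 := Nat.le_of_mul_le_mul_right s5 (Nat.mul_pos Nat.card_pos Nat.card_pos)
  nlinarith

theorem jl_mem (h : LN T L N) {A : Subgroup M} (hA : A ∈ meaIn 2 T) (hX : A ≤ jlX T L)
    (hc : ¬ A ≤ 𝒞(pCoreOf 2 L)) : pCoreOf 2 L ≤ 𝐉[2] T := by
  obtain ⟨x, hx, hxc⟩ := SetLike.not_le_iff_exists.1 hc
  have h1 := jl_ex h (hX hx)
  have hc0 : Classical.epsilon (JlC N x) ≠ 0 := fun h0 => hxc (jl_zero h (h0 ▸ h1))
  obtain ⟨s1, s2, s3⟩ := jl_star h hA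
  have h2 := jl_count (W := A) (C := A ⊓ 𝒞(pCoreOf 2 L)) (S := (Set.univ : Set K))
    (fun x => Classical.epsilon (JlC N x)) (fun _ _ => trivial) fun x hx y hy he =>
      ⟨A.mul_mem (A.inv_mem hx) hy, jl_eq h (jl_ex h (hX hx)) (by
        have := jl_ex h (hX hy)
        rwa [← show Classical.epsilon (JlC N x) = Classical.epsilon (JlC N y) from he] at this)⟩
  have h3 := jl_cnt N (W := pCoreOf 2 L ⊓ (A ⊓ 𝒞(pCoreOf 2 L))) inf_le_left
    (S := {v | v 0 ∈ Set.univ ∧ v 1 = 0}) fun v hv => by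
      have h5 := h1.act hv.1
      rw [ea_mul_comm (meaIn_ea hA) hx hv.2.1, mul_inv_cancel_right] at h5
      have h6 : N.ψ v 0 = N.ψ v 0 + _ * N.ψ v 1 := congrFun h5 0
      exact ⟨trivial, (mul_eq_zero.1 (by linear_combination -h6)).resolve_left hc0⟩
  have h4 := h3.trans (Nat.mul_le_mul_right _ (jl_line _))
  rw [Nat.card_univ] at h2 h4
  refine le_sup_left.trans (le_thompsonSubgroupOf (mem_meaIn_of_card_le hA s2 s1 (h2.trans ?_)))
  refine Nat.le_of_mul_le_mul_right ?_ (Nat.mul_pos (Nat.card_pos (α := K))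
    (Nat.card_pos (α := (pCoreOf 2 L ⊓ 𝒞(L) : Subgroup M))))
  refine le_trans (le_of_eq ?_) (s3.symm.le.trans (Nat.mul_le_mul_left _ h4))
  ring

end

theorem jl (h1 : LA.{u}) (h2 : LC.{u}) : JL.{u} := by
  intro M _ _ K _ _ T L N h
  have hJ := (h2 M K T L).2.2.2 h.toBk
  have hX : ∀ A ∈ meaIn 2 T, A ≤ jlX T L := fun A hA =>
    have hn := (le_thompsonSubgroupOf hA).trans hJ
    jl_in h hA hn fun x hx => (h1 M K T L N h).1 x (meaIn_le hA hx) (hn hx)
  refine ⟨?_, thompsonSubgroupOf_le_iff.2 hX⟩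
  by_contra hc
  have h3 : 𝐉[2] T ≤ 𝒞(pCoreOf 2 L) := thompsonSubgroupOf_le_iff.2 fun A hA => by
    by_contra hA'
    exact hc (jl_mem h hA (hX A hA) hA')
  have h4 := bau_le_cent_of (jl_VT h) h.ea (le_centralizer_iff.1 h3)
  have h5 : L ≤ 𝒞(pCoreOf 2 L) := h.bau.symm.le.trans ((commutator_mono le_rfl h4).trans
    (commutator_le_of_le_norm' (le_norm_cent N.norm)))
  exact h.ne (h.comm.symm.trans (commutator_eq_bot_iff'.2 h5))

end CL.HK
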