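/-
Project HK (S5175), case (c): the relations hold in `J₃` (elements found by tools/hkj/jm.py).
-/
import Cfsg.Agent.HK.JDefs
import Cfsg.Agent.Fus.LRmJ3

set_option autoImplicit false
set_option maxRecDepth 100000

open Cfsg Subgroup

namespace CL.HK.J

open CL.PG CL.LRb CL.LRb.J3

universe u

namespace JMx

noncomputable def ds : List ℕ := [0xa9875b875a0a25028204e379d528ce46402850f503b4e3aaa513c84100f1b84a9273228814423a975,
 0xbe2d28b32c18213b9a47e8ab8615c40dccb57f03969c8991dc118bcd41f452d30cf607bb5a94c1cf0,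
 0x330058c5b97aa25e404623d4cd3f684aee9dfee6802672da755187205bd1e03699d425ff4efab3467,
 0x5f0b7b07f09a89fbd6a3294498542ee366e1fee685a933fe9d44b1eb4ad4be3c2e87713d70d4b3467,
 0x72a2d3f75ca2a7e4cd34a27d371b32874b0033ff1166ebafa9533d66cfd12e0b8a6143c780297f99b,
 0xd710bb401f547eb0126819f4644ac96573706db5085ec00f6e3ef509528ceb72279cb300b8725a80f,
 0x38a43cd5b912874048486316cb64806c8c8ce2b1120e1adaf54383247a3191c5b000368b463298901,
 0xa9354b4e6073b588f327cb39535f346c7832c3c7dab87732f1dae3798de59639abfe36fd1903a3e98,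
 0x56c0820240e2440f5d4ae4480810921e25abee56a05af120d1228daed6b230440b050e95d5ae6b486,
 0x379459afc28ae91c85e2390349484af02411e6960a23e7e0c574eb4282dc9204a23979b50880cb195]
noncomputable def prog : List Mx.Ins := [.mul 1 2, .mul 2 3, .mul 1 4, .mul 13 5, .mul 0 1, .mul 5 9, .mul 16 8, .mul 7 8, .mul 18 8, .mul 19 7]

def R : List (List ℕ × List ℕ) := [
  ([0, 0], []), ([2, 2], []), ([4, 4], []), ([6, 6], []),
  ([8, 8], []), ([10, 10], []), ([12, 12], []), ([0, 2], [2, 0]),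
  ([4, 6], [6, 4]), ([8, 0], [0, 8]), ([8, 2], [2, 8]), ([8, 4], [4, 8]),
  ([8, 6], [6, 8]), ([8, 8], [8, 8]), ([8, 10], [10, 8]), ([10, 0], [0, 10]),
  ([10, 2], [2, 10]), ([10, 4], [4, 10]), ([10, 6], [6, 10]), ([10, 8], [8, 10]),
  ([10, 10], [10, 10]), ([0, 4], [8, 4, 0]), ([0, 6], [10, 6, 0]), ([2, 4], [10, 4, 2]),
  ([2, 6], [8, 10, 6, 2]), ([12, 0], [4, 12]), ([12, 2], [4, 6, 12]), ([12, 4], [0, 12]),
  ([12, 6], [0, 2, 12]), ([12, 8], [8, 12]), ([12, 10], [8, 10, 12]), ([14, 0], [8, 14]),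
  ([14, 2], [10, 14]), ([14, 8], [0, 14]), ([14, 10], [2, 14]), ([16, 0], [2, 16]),
  ([16, 2], [0, 2, 16]), ([16, 4], [6, 16]), ([16, 6], [4, 6, 16]), ([16, 8], [8, 10, 16]),
  ([16, 10], [8, 16]), ([18, 0], [2, 18]), ([18, 2], [0, 2, 18]), ([18, 4], [4, 6, 18]),
  ([18, 6], [4, 18]), ([18, 8], [8, 18]), ([18, 10], [10, 18]), ([18, 12], [12, 18])]

theorem slp : (Mx.ops2 18).slp [] cs prog ds [11, 12, 4, 14, 0, 15, 6, 17, 20, 8] [] [] = true := by
  decide +kernel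

theorem rel : relB (Mx.ops2 18) ds R = true := by decide +kernel

theorem ne : (Mx.ops2 18).neOff 18 (Mx.one2 18) (Mx.one2 18) [(1, wc (Mx.ops2 18) ds [8])] [] 0 0 1 = true := by
  decide +kernel

theorem of_rels {G : Type u} [Group G] {a₁ a₂ b₁ b₂ c₁ c₂ s n h k : G} (r : Rels [a₁, a₂, b₁, b₂, c₁, c₂, s, n, h, k] R)
    (hc : c₁ ≠ 1) : JRel a₁ a₂ b₁ b₂ c₁ c₂ s n h k := by
  simp only [Rels, R, List.forall_mem_cons, wordG_cons, wordG_nil, letG, List.getD_cons_succ, List.getD_cons_zero,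
    Nat.reduceMod, Nat.reduceDiv, if_true, mul_one, ← mul_assoc] at r
  obtain ⟨r1, r2, r3, r4, r5, r6, r7, r8, r9, c1, c2, c3, c4, c5, c6, c7, c8, c9, c10, c11, c12, d1, d2, d3, d4,
    s1, s2, s3, s4, s5, s6, n1, n2, n3, n4, h1, h2, h3, h4, h5, h6, k1, k2, k3, k4, k5, k6, k7, -⟩ := r
  refine ⟨?_, r8, r9, ?_, ⟨d1, d2, d3, d4⟩, ⟨s1, s2, s3, s4, s5, s6⟩, ⟨n1, n2, n3, n4⟩, ⟨h1, h2, h3, h4, h5, h6⟩,
    ⟨k1, k2, k3, k4, k5, k6, k7⟩, hc⟩
  · simp only [List.forall_mem_cons]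
    exact ⟨r1, r2, r3, r4, r5, r6, r7, by simp⟩
  · simp only [List.forall_mem_cons]
    exact ⟨⟨c1, c2, c3, c4, trivial, c6, by simp⟩, ⟨c7, c8, c9, c10, c11, trivial, by simp⟩, by simp⟩

theorem map {G : Type*} {H : Type u} [Group G] [Group H] {L : Subgroup G} (π : L →* H) {gs : List G}
    (hL : ∀ g ∈ gs, g ∈ L) {R : List (List ℕ × List ℕ)} (r : Rels gs R) : Rels (gs.map (CL.Fus.ext π)) R := by
  have key : ∀ w, wordG (gs.map (CL.Fus.ext π)) w = CL.Fus.ext π (wordG gs w) := fun w => by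
    induction w with
    | nil => exact (CL.Fus.homOn_ext π).map_one.symm
    | cons c w ih =>
      have m : gs.getD (c / 2) 1 ∈ L := by
        by_cases e : c / 2 < gs.length
        · rw [List.getD_eq_getElem _ _ e]; exact hL _ (List.getElem_mem e)
        · rw [List.getD_eq_default _ _ (not_lt.1 e)]; exact one_mem _
      have e : letG (gs.map (CL.Fus.ext π)) c = CL.Fus.ext π (letG gs c) := by
        unfold letG
        rw [← (CL.Fus.homOn_ext π).map_one, List.getD_map]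
        split_ifs
        · rfl
        · exact ((CL.Fus.homOn_ext π).map_inv m).symm
      have m' : letG gs c ∈ L := by
        unfold letG
        split_ifs
        exacts [m, inv_mem m]
      rw [wordG_cons, wordG_cons, ih, e, (CL.Fus.homOn_ext π).map_mul m' (wordG_mem hL w)]
  intro p hp
  rw [key, key, r p hp]

end JMx

open JMx in
theorem jm : JM.{u} := by
  intro G _ ⟨F, _, _, ω, hF, hω, ⟨f₀⟩⟩
  let D : Mx.F4 F := ⟨ω, hω, by rw [Nat.card_eq_fintype_card, hF]⟩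
  have h1 := Mx.J3.faith9 D
  have h2 := Mx.J3.a_top D Mx.J3.σ9
  have key : ∀ K, Spor.threeJ3 F ω = K → Nonempty (G ≃* K ⧸ center K) := fun _ e => e ▸ ⟨f₀⟩
  obtain ⟨f⟩ := key _ (Mx.J3.threeJ3_eq D)
  have hb := Mx.Model.slp_mem (Mx.Model.slp_mem (Mx.Model.slp_mem h2.gen FusC.J3.slp) LRb.J3.slp) JMx.slp
  have hb' := hb.mono le_top
  let π := f.symm.toMonoidHom.comp (QuotientGroup.mk' _)
  have hL := List.forall_mem_map.2 fun b h => (hb b h).2
  have r0 := rels_of hb' rel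
  have r := map π hL r0
  have w := wc_val hb' [8] (by simp)
  have n1 := w.2 ▸ Mx.Model.ne_one_of_neOff w.1 ne
  have sq := r0 ([8, 8], []) (by simp [R])
  have m := wordG_mem hL [8]
  simp only [ds, List.map_cons, List.map_nil] at r n1 sq m
  refine ⟨_, _, _, _, _, _, _, _, _, _, of_rels r fun e => n1 ?_⟩
  simp only [wordG_cons, wordG_nil, letG, List.getD_cons_succ, List.getD_cons_zero, Nat.reduceMod, Nat.reduceDiv,
    if_true, mul_one] at sq m ⊢
  rw [CL.Fus.ext_apply _ m] at e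
  have h3 := (QuotientGroup.eq_one_iff _).1 ((map_eq_one_iff _ f.symm.injective).1 e)
  have h4 := congrArg (fun y : center _ => y.1.1)
    (Mx.J3.card_center h1 h2 ▸ pow_card_eq_one' (x := (⟨_, h3⟩ : center _)))
  simp only [OneMemClass.coe_one, pow_succ, pow_zero, one_mul, Subgroup.coe_mul] at h4
  rwa [sq, one_mul] at h4

end CL.HK.J
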