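/-
Project HK (S5175), part J, job JMON: automorphisms of `T` are monomial up to inner ones.
-/
import Cfsg.Agent.HK.JDefs

set_option autoImplicit false

open Cfsg Subgroup
open scoped commutatorElement

namespace CL.HK.J

open CL.Fus CL.Grp CL.J23

universe u

namespace JMONx

variable {Ω : Type u} [Group Ω] {K : Type} [Field K]

theorem comm_l {a b x : Ω} (h : x * b = b * x) : ⁅a * x, b⁆ = ⁅a, b⁆ := by
  calc ⁅a * x, b⁆ = a * (x * b) * x⁻¹ * a⁻¹ * b⁻¹ := by simp only [commutatorElement_def]; group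
    _ = _ := by rw [h]; simp only [commutatorElement_def]; group

theorem comm_r {a b x : Ω} (h : x * a = a * x) : ⁅a, b * x⁆ = ⁅a, b⁆ := by
  rw [← commutatorElement_inv, comm_l h, commutatorElement_inv]

theorem zero_of_add {v : K → Ω} (h : ∀ a b, v (a + b) = v a * v b) : v 0 = 1 := by simpa using h 0 0

/-- the square of a map that fixes `v 1` modulo `Y` is trivial modulo `Y` -/
theorem half {T Y : Subgroup Ω} {v : K → Ω} {f : Ω → Ω} {ω : K} (two : ∀ a : K, a + a = 0) (hω : ω ^ 2 = ω + 1)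
    (all : ∀ a : K, a = 0 ∨ a = 1 ∨ a = ω ∨ a = ω + 1) (YT : Y ≤ T) (Yz : ∀ x ∈ Y, ∀ t ∈ T, x * t = t * x)
    (vT : ∀ a, v a ∈ T) (add : ∀ a b, v (a + b) = v a * v b) (v0 : ∀ a, v a ∈ Y → a = 0) (hf : HomOn T f)
    (fY : ∀ x ∈ Y, f x ∈ Y) (fY' : ∀ x ∈ T, f x ∈ Y → x ∈ Y) (fV : ∀ a, ∃ a', ∃ x ∈ Y, f (v a) = v a' * x)
    (f1 : ∃ x ∈ Y, f (v 1) = v 1 * x) (a : K) : ∃ x ∈ Y, f (f (v a)) = v a * x := by
  let R : K → K → Prop := fun a a' => ∃ x ∈ Y, f (v a) = v a' * x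
  have Radd : ∀ {a a' b b'}, R a a' → R b b' → R (a + b) (a' + b') := by
    rintro a a' b b' ⟨x, hx, e⟩ ⟨x', hx', e'⟩
    refine ⟨x * x', mul_mem hx hx', ?_⟩
    rw [add, hf.map_mul (vT _) (vT _), e, e', add, mul_assoc, ← mul_assoc x, Yz x hx _ (vT _)]
    group
  have R0 : ∀ {a}, R a 0 → a = 0 := by
    rintro a ⟨x, hx, e⟩
    exact v0 a (fY' _ (vT a) (by rwa [e, zero_of_add add, one_mul]))
  have Rc : ∀ {a a'}, R a a' → R a' a → ∃ x ∈ Y, f (f (v a)) = v a * x := by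
    rintro a a' ⟨x, hx, e⟩ ⟨x', hx', e'⟩
    exact ⟨x' * f x, mul_mem hx' (fY x hx), by rw [e, hf.map_mul (vT _) (YT hx), e', mul_assoc]⟩
  have r0 : R 0 0 := ⟨1, one_mem _, by rw [zero_of_add add, hf.map_one, one_mul]⟩
  have r1 : R 1 1 := f1
  have key : (R ω ω ∧ R (ω + 1) (ω + 1)) ∨ (R ω (ω + 1) ∧ R (ω + 1) ω) := by
    obtain ⟨a', h⟩ := fV ω
    change R ω a' at h
    rcases all a' with e | e | e | e <;> rw [e] at h
    · have := R0 h
      rw [this] at hω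
      simp at hω
    · have := R0 (two 1 ▸ Radd h r1)
      have h1 : ω = 1 := by linear_combination this - two 1
      rw [this, h1] at hω
      simp at hω
    · exact .inl ⟨h, Radd h r1⟩
    · have := Radd h r1
      rw [add_assoc, two 1, add_zero] at this
      exact .inr ⟨h, this⟩
  rcases all a with e | e | e | e <;> rw [e]
  · exact Rc r0 r0
  · exact Rc r1 r1
  · exact key.elim (fun k => Rc k.1 k.1) fun k => Rc k.1 k.2
  · exact key.elim (fun k => Rc k.2 k.2) fun k => Rc k.2 k.1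

variable {S : Subgroup Ω} {F : FusionSystem S} {ε : Bool} {θ : K ≃+* K} {T : Subgroup Ω} {v w y z : K → Ω} {s : Ω}
  {f : Ω → Ω}

/-- automorphisms of `T` in `F` that leave `V` invariant -/
structure Aut (F : FusionSystem S) (T : Subgroup Ω) (v y z : K → Ω) (f : Ω → Ω) : Prop where
  mor : Mor F T f
  mT : ∀ x ∈ T, f x ∈ T
  mV : ∀ x ∈ sp v y z, f x ∈ sp v y z

theorem yz_mem (b c : K) : y b * z c ∈ Yc y z :=
  mul_mem (subset_closure (.inl ⟨b, rfl⟩)) (subset_closure (.inr ⟨c, rfl⟩))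

theorem elV (C : Co ε T v w y z) (a b c : K) : el v w y z a 0 b c = v a * (y b * z c) := by
  rw [el, zero_of_add C.w_add, mul_one, mul_assoc]

theorem elW (C : Co ε T v w y z) (a b c : K) : el v w y z 0 a b c = w a * (y b * z c) := by
  rw [el, zero_of_add C.v_add, one_mul, mul_assoc]

theorem mon_el (C : Co ε T v w y z) {p r : Kˣ} (hf : HomOn T f) (h : Mon v w y z p r (RingEquiv.refl K) f)
    (a u b c : K) : f (el v w y z a u b c) = el v w y z (p * a) (r * u) (p * r * b) (p ^ 2 * r * c) := by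
  rw [el, hf.map_mul (mul_mem (mul_mem (C.vT _) (C.wT _)) (C.yT _)) (C.zT _),
    hf.map_mul (mul_mem (C.vT _) (C.wT _)) (C.yT _), hf.map_mul (C.vT _) (C.wT _), h.v, h.w, h.y, h.z]
  rfl

variable (B : Bas S ε θ T v w y z s)
include B

theorem VT : sp v y z ≤ T := fun x hx => by
  obtain ⟨a, b, c, e⟩ := (B.memV x).1 hx
  exact (B.memT x).2 ⟨a, 0, b, c, e⟩

theorem vV (a : K) : v a ∈ sp v y z := (B.memV _).2 ⟨a, 0, 0, B.ev a⟩

theorem v0 (a : K) (h : v a ∈ Yc y z) : a = 0 := by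
  obtain ⟨b, c, e⟩ := (B.memY _).1 h
  exact (B.inj ((B.ev a).symm.trans e)).1

theorem w0 (a : K) (h : w a ∈ Yc y z) : a = 0 := by
  obtain ⟨b, c, e⟩ := (B.memY _).1 h
  exact (B.inj ((B.ew a).symm.trans e)).2.1

theorem mon_aut (C : Co ε T v w y z) {p r : Kˣ} (hf : Mor F T f) (h : Mon v w y z p r (RingEquiv.refl K) f) :
    Aut F T v y z f where
  mor := hf
  mT x hx := by
    obtain ⟨a, u, b, c, rfl⟩ := (B.memT x).1 hx
    exact (B.memT _).2 ⟨_, _, _, _, mon_el C hf.homOn h a u b c⟩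
  mV x hx := by
    obtain ⟨a, b, c, rfl⟩ := (B.memV x).1 hx
    exact (B.memV _).2 ⟨_, _, _, by rw [mon_el C hf.homOn h, mul_zero]⟩

variable [Finite S]

theorem Aut.mY (h : Aut F T v y z f) (x : Ω) (hx : x ∈ Yc y z) : f x ∈ Yc y z :=
  B.zY _ (h.mT x (B.YT hx)) fun t ht => by
    obtain ⟨t', ht', rfl⟩ := h.mor.mem_img.1 ((h.mor.img_eq_self le_rfl h.mT).ge ht)
    rw [← h.mor.homOn.map_mul (B.YT hx) ht', B.Yz x hx t' ht', h.mor.homOn.map_mul ht' (B.YT hx)]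

theorem Aut.mY' (h : Aut F T v y z f) (x : Ω) (hx : x ∈ T) (hf : f x ∈ Yc y z) : x ∈ Yc y z :=
  h.mor.mem_of_mem_img B.YT hx ((h.mor.img_eq_self B.YT (h.mY B)).ge hf)

theorem Aut.fV (C : Co ε T v w y z) (h : Aut F T v y z f) (a : K) : ∃ a', ∃ x ∈ Yc y z, f (v a) = v a' * x := by
  obtain ⟨a', b, c, e⟩ := (B.memV _).1 (h.mV _ (vV B a))
  exact ⟨a', _, yz_mem b c, e.trans (elV C a' b c)⟩

theorem Aut.fW (C : Co ε T v w y z) (h : Aut F T v y z f) (a : K) : ∃ a', ∃ x ∈ Yc y z, f (w a) = w a' * x := by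
  have h2 : f (w a) * f (w a) = 1 := by
    rw [← h.mor.homOn.map_mul (C.wT a) (C.wT a), ← C.w_add, B.two, zero_of_add C.w_add, h.mor.homOn.map_one]
  rcases B.iVW _ (h.mT _ (C.wT a)) h2 with k | k
  · obtain ⟨a', b, c, e⟩ := (B.memV _).1
      (h.mor.mem_of_mem_img (VT B) (C.wT a) ((h.mor.img_eq_self (VT B) h.mV).ge k))
    rw [(B.inj ((B.ew a).symm.trans e)).2.1, zero_of_add C.w_add, h.mor.homOn.map_one]
    exact ⟨0, 1, one_mem _, by rw [zero_of_add C.w_add, one_mul]⟩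
  · obtain ⟨a', b, c, e⟩ := (B.memW _).1 k
    exact ⟨a', _, yz_mem b c, e.trans (elW C a' b c)⟩

theorem Aut.four (C : Co ε T v w y z) [Fintype K] {ω : K} (hQ : Q4 ε θ ω) (h : Aut F T v y z f)
    (h1 : ∃ x ∈ Yc y z, f (v 1) = v 1 * x) (h2 : ∃ x ∈ Yc y z, f (w 1) = w 1 * x) (t : Ω) (ht : t ∈ T) :
    f (f (f (f t))) = t := by
  have hv := half B.two hQ.sq hQ.all B.YT B.Yz C.vT C.v_add (v0 B) h.mor.homOn (h.mY B) (h.mY' B) (h.fV B C) h1
  have hw := half B.two hQ.sq hQ.all B.YT B.Yz C.wT C.w_add (w0 B) h.mor.homOn (h.mY B) (h.mY' B) (h.fW B C) h2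
  have hk : HomOn T fun x => f (f x) := h.mor.homOn.comp h.mor.homOn h.mT
  have hk4 : HomOn T fun x => f (f (f (f x))) := hk.comp hk fun x hx => h.mT _ (h.mT x hx)
  have z1 := C.z1 hQ.eps
  have hy : ∀ b, f (f (y b)) = y b := fun b => by
    have e : y b = ⁅v b, w 1⁆ := by rw [C.com, z1, mul_one, mul_one]
    obtain ⟨x, hx, e1⟩ := hv b
    obtain ⟨x', hx', e2⟩ := hw 1
    have := hk.map_commutator (C.vT b) (C.wT 1)
    rw [e, this, e1, e2, comm_l (B.Yz x hx _ (mul_mem (C.wT 1) (B.YT hx'))), comm_r (B.Yz x' hx' _ (C.vT b))]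
  have hY : ∀ x ∈ Yc y z, f (f x) = x := fun x hx => by
    obtain ⟨b, c, rfl⟩ := (B.memY x).1 hx
    rw [elV C, zero_of_add C.v_add, one_mul, z1, mul_one, hy]
  have key : ∀ a ∈ T, (∃ x ∈ Yc y z, f (f a) = a * x) → f (f (f (f a))) = a := by
    rintro a ha ⟨x, hx, e⟩
    have := hk.map_mul ha (B.YT hx)
    rw [e, this, e, hY x hx, mul_assoc, B.Y2 x hx, mul_one]
  obtain ⟨a, u, b, c, rfl⟩ := C.nf t ht
  have e1 := hk4.map_mul (mul_mem (C.vT a) (C.wT u)) (C.yT b)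
  have e2 := hk4.map_mul (C.vT a) (C.wT u)
  rw [z1, mul_one, e1, e2, key _ (C.vT a) (hv a), key _ (C.wT u) (hw u), hy, hy]

end JMONx

open JMONx in
theorem jmon (h : JTWO.{u}) : JMON.{u} := by
  intro Ω _ S _ F K _ _ ε θ T v w y z s ω hS hF G B hQ hm g hg gT gV
  have C := G.toCo
  have A : Aut F T v y z g := ⟨hg, gT, gV⟩
  obtain ⟨p, x₁, hx₁, e₁⟩ := A.fV B C 1
  obtain ⟨r, x₂, hx₂, e₂⟩ := A.fW B C 1
  have hp : p ≠ 0 := fun e => one_ne_zero (v0 B 1 (A.mY' B _ (C.vT 1) (by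
    rwa [e₁, e, zero_of_add C.v_add, one_mul])))
  have hr : r ≠ 0 := fun e => one_ne_zero (w0 B 1 (A.mY' B _ (C.wT 1) (by
    rwa [e₂, e, zero_of_add C.w_add, one_mul])))
  obtain ⟨m, hm1, hm2⟩ := hm (Units.mk0 p hp)⁻¹ (Units.mk0 r hr)⁻¹
  obtain ⟨m', hm1', hm2'⟩ := hm (Units.mk0 p hp) (Units.mk0 r hr)
  have M := mon_aut B C hm1 hm2
  have M' := mon_aut B C hm1' hm2'
  have inv : ∀ t ∈ T, m' (m t) = t := fun t ht => by
    obtain ⟨a, u, b, c, rfl⟩ := (B.memT t).1 ht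
    rw [mon_el C hm1.homOn hm2, mon_el C hm1'.homOn hm2']
    congr 1 <;> simp only [Units.val_inv_eq_inv_val, Units.val_mk0] <;> field_simp
  have A1 : Aut F T v y z fun x => m (g x) :=
    ⟨hg.comp hm1 gT, fun x hx => M.mT _ (gT x hx), fun x hx => M.mV _ (gV x hx)⟩
  obtain ⟨x, hx, e⟩ := h Ω S F K ε θ T v w y z s hS hF G B _ A1.mor A1.mT A1.mV (A1.four B C hQ
    ⟨m x₁, M.mY B _ hx₁, by
      rw [e₁, hm1.homOn.map_mul (C.vT _) (B.YT hx₁), hm2.v]; simp [hp]⟩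
    ⟨m x₂, M.mY B _ hx₂, by
      rw [e₂, hm1.homOn.map_mul (C.wT _) (B.YT hx₂), hm2.w]; simp [hr]⟩)
  have key : ∀ t ∈ T, (m' x)⁻¹ * g t * (m' x)⁻¹⁻¹ = m' t := fun t ht => by
    rw [← inv _ (gT t ht), e t ht, hm1'.homOn.map_conj hx ht]; group
  exact ⟨(m' x)⁻¹, inv_mem (M'.mT x hx), _, _, _, fun a => (key _ (C.vT a)).trans (hm2'.v a),
    fun a => (key _ (C.wT a)).trans (hm2'.w a), fun a => (key _ (C.yT a)).trans (hm2'.y a),
    fun a => (key _ (C.zT a)).trans (hm2'.z a)⟩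

end CL.HK.J
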