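/-
Project HK (S5175), case (c): the parameters of the monomial maps.
-/
import Cfsg.Agent.HK.JDefs

set_option autoImplicit false

open Cfsg Subgroup

namespace CL.HK.J

open CL.Fus CL.Grp CL.J23

universe u

namespace JPARx

variable {Ω : Type u} [Group Ω] {K : Type} [Field K]

/-- a monomial map keeps `T` -/
theorem mon_mem {S T : Subgroup Ω} {F : FusionSystem S} {ε : Bool} {v w y z : K → Ω} (h : Co ε T v w y z)
    {p r : Kˣ} {τ : K ≃+* K} {g : Ω → Ω} (hg : Mor F T g) (hm : Mon v w y z p r τ g) : ∀ t ∈ T, g t ∈ T := by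
  intro t ht
  obtain ⟨a, u, b, c, rfl⟩ := h.nf t ht
  have H := hg.homOn
  rw [H.map_mul (T.mul_mem (T.mul_mem (h.vT a) (h.wT u)) (h.yT b)) (h.zT c),
    H.map_mul (T.mul_mem (h.vT a) (h.wT u)) (h.yT b), H.map_mul (h.vT a) (h.wT u), hm.v, hm.w, hm.y, hm.z]
  exact T.mul_mem (T.mul_mem (T.mul_mem (h.vT _) (h.wT _)) (h.yT _)) (h.zT _)

/-- products of linear parameters -/
theorem par_mul {S T : Subgroup Ω} {F : FusionSystem S} {ε : Bool} {v w y z : K → Ω} (h : Co ε T v w y z)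
    {p r p' r' : Kˣ} (h1 : (p, r, RingEquiv.refl K) ∈ Par F T v w y z)
    (h2 : (p', r', RingEquiv.refl K) ∈ Par F T v w y z) : (p * p', r * r', RingEquiv.refl K) ∈ Par F T v w y z := by
  obtain ⟨g, hg, hm⟩ := h1
  obtain ⟨g', hg', hm'⟩ := h2
  refine ⟨fun x => g (g' x), hg'.comp hg (mon_mem h hg' hm'), ?_, ?_, ?_, ?_⟩
  · intro a
    show g (g' (v a)) = _
    rw [hm'.v, hm.v]
    congr 1
    simp only [RingEquiv.refl_apply, Units.val_mul]
    ring
  · intro a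
    show g (g' (w a)) = _
    rw [hm'.w, hm.w]
    congr 1
    simp only [RingEquiv.refl_apply, Units.val_mul]
    ring
  · intro a
    show g (g' (y a)) = _
    rw [hm'.y, hm.y]
    congr 1
    simp only [RingEquiv.refl_apply, Units.val_mul]
    ring
  · intro a
    show g (g' (z a)) = _
    rw [hm'.z, hm.z]
    congr 1
    simp only [RingEquiv.refl_apply, Units.val_mul]
    ring

/-- signs are kept by conjugation -/
theorem pm_conj {z : Ω} {q q' : Fin 5 → Ω} {x e : Ω} {j : Fin 5} (hz : z * z = 1) (he : z * e = e * z)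
    (hx : Pm z q x j) (hq : Pm z q' (e * q j * e⁻¹) j) : Pm z q' (e * x * e⁻¹) j := by
  have h1 : z * e⁻¹ = e⁻¹ * z := by
    calc z * e⁻¹ = e⁻¹ * (e * z) * e⁻¹ := by group
      _ = e⁻¹ * (z * e) * e⁻¹ := by rw [he]
      _ = e⁻¹ * z := by group
  rcases hx with rfl | rfl
  · exact hq
  · have h2 : e * (q j * z) * e⁻¹ = e * q j * e⁻¹ * z := by
      calc e * (q j * z) * e⁻¹ = e * q j * (z * e⁻¹) := by group
        _ = e * q j * e⁻¹ * z := by rw [h1]; group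
    rw [h2]
    rcases hq with hq | hq
    · right; rw [hq]
    · left; rw [hq, mul_assoc, hz, mul_one]

/-- the first coordinate -/
def Fc (v w y z : K → Ω) (a : K) (x : Ω) : Prop := ∃ u b c, x = el v w y z a u b c

section
variable {S T : Subgroup Ω} {ε : Bool} {θ : K ≃+* K} {v w y z : K → Ω} {s : Ω}

theorem fc_mul (hB : Bas S ε θ T v w y z s) {a a' : K} {x x' : Ω} (h : Fc v w y z a x) (h' : Fc v w y z a' x') :
    Fc v w y z (a + a') (x * x') := by
  obtain ⟨u, b, c, rfl⟩ := h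
  obtain ⟨u', b', c', rfl⟩ := h'
  exact ⟨_, _, _, hB.mul _ _ _ _ _ _ _ _⟩

theorem fc_eq (hB : Bas S ε θ T v w y z s) {a a' : K} {x : Ω} (h : Fc v w y z a x) (h' : Fc v w y z a' x) :
    a = a' := by
  obtain ⟨u, b, c, rfl⟩ := h
  obtain ⟨u', b', c', h'⟩ := h'
  exact (hB.inj h').1

theorem fc_v (hB : Bas S ε θ T v w y z s) (a : K) : Fc v w y z a (v a) := ⟨_, _, _, hB.ev a⟩

theorem fc_w (hB : Bas S ε θ T v w y z s) (a : K) : Fc v w y z 0 (w a) := ⟨_, _, _, hB.ew a⟩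

theorem fc_y (hB : Bas S ε θ T v w y z s) (a : K) : Fc v w y z 0 (y a) := ⟨_, _, _, hB.ey a⟩

theorem fc_one (hB : Bas S ε θ T v w y z s) : Fc v w y z 0 1 := ⟨_, _, _, hB.one.symm⟩

/-- the image of `V` is in `V` or in `W` -/
theorem vw (hB : Bas S ε θ T v w y z s) {g : Ω → Ω} (hg : HomOn T g) (hT : ∀ t ∈ T, g t ∈ T) :
    (∀ x ∈ sp v y z, g x ∈ sp v y z) ∨ ∀ x ∈ sp v y z, g x ∈ sp w y z := by
  have hV : ∀ x ∈ sp v y z, x ∈ T := by
    intro x hx
    obtain ⟨a, b, c, rfl⟩ := (hB.memV x).1 hx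
    exact (hB.memT _).2 ⟨_, _, _, _, rfl⟩
  have hi : ∀ x ∈ sp v y z, g x ∈ sp v y z ∨ g x ∈ sp w y z := by
    intro x hx
    refine hB.iVW _ (hT x (hV x hx)) ?_
    rw [← hg.map_mul (hV x hx) (hV x hx)]
    obtain ⟨a, b, c, rfl⟩ := (hB.memV x).1 hx
    rw [hB.mul, hB.two, hB.two, hB.two, hB.two, mul_zero, mul_zero, add_zero, hB.one, hg.map_one]
  by_contra hc
  rw [not_or] at hc
  obtain ⟨h1, h2⟩ := hc
  push Not at h1 h2
  obtain ⟨x, hx, hx'⟩ := h1
  obtain ⟨x', hy, hy'⟩ := h2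
  have h3 := (hi x hx).resolve_left hx'
  have h4 := (hi x' hy).resolve_right hy'
  have h5 := hi (x * x') (mul_mem hx hy)
  rw [hg.map_mul (hV x hx) (hV x' hy)] at h5
  rcases h5 with h5 | h5
  · exact hx' ((Subgroup.mul_mem_cancel_right _ h4).1 h5)
  · exact hy' ((Subgroup.mul_mem_cancel_left _ h3).1 h5)

end

/-- the parameter of the automorphism of order three -/
theorem key (h2 : JP0.{u}) {S : Subgroup Ω} [Finite S] {F : FusionSystem S} [Fintype K] {ε : Bool} {θ : K ≃+* K}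
    {T : Subgroup Ω} {v w y z : K → Ω} {s : Ω} {ω : K} (hS : IsPGroup 2 S) (hF : F.IsSaturated 2)
    (hQ : QD F ε θ T v w y z s) (hB : Bas S ε θ T v w y z s) (h4 : Q4 ε θ ω) (hE : E4 S T v w y z s ω)
    {g : Ω → Ω} (hg : Mor F S g) (hT : ∀ t ∈ T, g t ∈ T) (hV : ∀ x ∈ sp v y z, g x ∈ sp v y z)
    (hEs : ∀ x ∈ Es v w y s, g x ∈ Es v w y s) (p1 : Pm (y 1) (qq v w y s ω) (g (qq v w y s ω 1)) 1)
    (p2 : Pm (y 1) (qq v w y s ω) (g (qq v w y s ω 2)) 3) :
    ∃ p : Kˣ, p ≠ 1 ∧ (p, p ^ 2, RingEquiv.refl K) ∈ Par F T v w y z := by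
  obtain ⟨t, ht, p, r, τ, hm⟩ := hQ.mon g (hg.mono hQ.le) hT hV
  have htS : t ∈ S := hQ.le ht
  have hg' : Mor F S fun x => t * g x * t⁻¹ := hg.comp (mor_conj F le_rfl htS) fun x hx => hg.mem hx
  have hτ : τ = RingEquiv.refl K := h2 Ω S F K ε θ T v w y z s ω hS hF hQ.jgd hB h4 p r τ _ (hg'.mono hQ.le) hm
  subst hτ
  have hvS : ∀ a, v a ∈ S := fun a => hQ.le (hQ.vT a)
  have hwS : ∀ a, w a ∈ S := fun a => hQ.le (hQ.wT a)
  have hvw : t * g (v 1 * w 1) * t⁻¹ = v p * w r := by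
    have h := hg'.homOn.map_mul (hvS 1) (hwS 1)
    have h1 := hm.v 1
    have h2 := hm.w 1
    simp only [RingEquiv.refl_apply, mul_one] at h h1 h2
    rw [h, h1, h2]
  have hr : r = p ^ 2 := by
    have h1 : v 1 * w 1 ∈ Es v w y s := by
      refine subset_closure (Or.inl (Or.inl ⟨1, ?_⟩))
      simp only [one_pow]
    have h3 : v p * w r ∈ Es v w y s := by
      rw [← hvw]
      exact hE.nE t htS _ (hEs _ h1)
    obtain ⟨a, b, h5⟩ := (hE.memT _).1 ⟨h3, T.mul_mem (hQ.vT _) (hQ.wT _)⟩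
    rw [hB.ev, hB.ew, hB.mul] at h5
    obtain ⟨h6, h7, -⟩ := hB.inj h5
    apply Units.ext
    rw [Units.val_pow_eq_pow_val]
    rw [add_zero] at h6
    rw [zero_add] at h7
    rw [h7, h6]
  subst hr
  refine ⟨p, ?_, _, hg'.mono hQ.le, hm⟩
  rintro rfl
  obtain ⟨u, e, he, hte⟩ := hE.dec t htS
  have heS : e ∈ S := hE.le he
  have hy0 : y 0 = 1 := by rw [hB.ey, hB.one]
  have hv0 : v 0 = 1 := by rw [hB.ev, hB.one]
  have hw0 : w 0 = 1 := by rw [hB.ew, hB.one]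
  have hzz : y 1 * y 1 = 1 := by rw [← hQ.y_add, hB.two, hy0]
  have hconj : ∀ x, t * x * t⁻¹ = v u * (e * x * e⁻¹) * (v u)⁻¹ := by
    intro x
    rw [hte]
    group
  have hsg : ∀ x j, Pm (y 1) (qq v w y s ω) x j →
      Pm (y 1) (fun i => v u * qq v w y s ω i * (v u)⁻¹) (t * x * t⁻¹) j := by
    intro x j hx
    rw [hconj]
    exact pm_conj hzz (hE.yz _ (hvS u)) (pm_conj hzz (hE.yz _ heS) hx (hE.pmE e he j)) (Or.inl rfl)
  have q1 : qq v w y s ω 1 = s := rfl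
  have q2 : qq v w y s ω 2 = v 1 * w 1 * s := rfl
  have q3 : qq v w y s ω 3 = v ω * w (ω ^ 2) * s := rfl
  have a1 : v u * qq v w y s ω 1 * (v u)⁻¹ = v (0 + u) * w ((0 + u) ^ 2) * s := by
    rw [← hE.act, q1, hv0, zero_pow two_ne_zero, hw0, one_mul, one_mul]
  have a3 : v u * qq v w y s ω 3 * (v u)⁻¹ = v (ω + u) * w ((ω + u) ^ 2) * s := by
    rw [← hE.act, q3]
  have hys : s * y 1 = y 1 * s := (hE.yz s hQ.sS).symm
  have hfc : ∀ x a j, Pm (y 1) (fun i => v u * qq v w y s ω i * (v u)⁻¹) x j →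
      v u * qq v w y s ω j * (v u)⁻¹ = v a * w (a ^ 2) * s → Fc v w y z a (x * s⁻¹) := by
    intro x a j hx ha
    have h0 := fc_mul hB (fc_v hB a) (fc_w hB (a ^ 2))
    rw [add_zero] at h0
    rcases hx with hx | hx
    · rw [hx]
      simp only [ha, mul_inv_cancel_right]
      exact h0
    · rw [hx]
      simp only [ha]
      have h1 := fc_mul hB h0 (fc_y hB 1)
      rw [add_zero] at h1
      rw [mul_assoc _ s, hys, ← mul_assoc, mul_inv_cancel_right]
      exact h1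
  have f1 := hfc _ _ _ (hsg _ _ p1) a1
  have f3 := hfc _ _ _ (hsg _ _ p2) a3
  have hmul : t * g (qq v w y s ω 2) * t⁻¹ * s⁻¹ = v 1 * w 1 * (t * g (qq v w y s ω 1) * t⁻¹ * s⁻¹) := by
    have h := hg'.homOn.map_mul (S.mul_mem (hvS 1) (hwS 1)) hQ.sS
    rw [q1, q2, h, hvw]
    simp only [Units.val_one, one_pow]
    group
  rw [hmul] at f3
  have f4 := fc_eq hB f3 (fc_mul hB (fc_mul hB (fc_v hB 1) (fc_w hB 1)) f1)
  have hω : ω = 1 := by linear_combination f4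
  have h5 := h4.sq
  rw [hω, hB.two, one_pow] at h5
  exact one_ne_zero h5

end JPARx

open JPARx in
theorem jpar (h1 : JCH.{u}) (h2 : JP0.{u}) : JPAR.{u} := by
  intro Ω _ S _ F K _ _ ε θ T v w y z s ω hS hF hQ hB h4 hE g hg hEs hP
  have hT : ∀ t ∈ T, g t ∈ T := h1 Ω S F K ε θ T v w y z s hQ.jgd hB g hg
  have p1 : Pm (y 1) (qq v w y s ω) (g (qq v w y s ω 1)) 1 := hP 1
  have p2 : Pm (y 1) (qq v w y s ω) (g (qq v w y s ω 2)) 3 := hP 2
  have hy0 : y 0 = 1 := by rw [hB.ey, hB.one]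
  have hzz : y 1 * y 1 = 1 := by rw [← hQ.y_add, hB.two, hy0]
  have hkey : ∃ p : Kˣ, p ≠ 1 ∧ (p, p ^ 2, RingEquiv.refl K) ∈ Par F T v w y z := by
    rcases vw hB (hg.mono hQ.le).homOn hT with hV | hV
    · exact key h2 hS hF hQ hB h4 hE hg hT hV hEs p1 p2
    · have hsE : s ∈ Es v w y s := hE.qE 1
      refine key h2 hS hF hQ hB h4 hE (g := fun x => s * g x * s⁻¹)
        (hg.comp (mor_conj F le_rfl hQ.sS) fun x hx => hg.mem hx) (fun t ht => hB.nT s hQ.sS _ (hT t ht)) ?_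
        (fun x hx => hE.nE s hQ.sS _ (hEs x hx)) (pm_conj hzz (hE.yz s hQ.sS) p1 (hE.pmE s hsE 1))
        (pm_conj hzz (hE.yz s hQ.sS) p2 (hE.pmE s hsE 3))
      intro x hx
      obtain ⟨u, b, c, h5⟩ := (hB.memW _).1 (hV x hx)
      obtain ⟨b', c', h6⟩ := hB.sel 0 u b c
      refine (hB.memV _).2 ⟨θ u, b', c', ?_⟩
      have h7 : ex ε ≠ 0 := by cases ε <;> simp [ex]
      rw [map_zero, zero_pow h7] at h6
      show s * g x * s⁻¹ = _
      rw [h5, h6]
  obtain ⟨p, hp, hpp⟩ := hkey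
  have h3 : ∀ c : Kˣ, c ^ 3 = 1 := by
    intro c
    apply Units.ext
    have h5 := FiniteField.pow_card_sub_one_eq_one (c : K) c.ne_zero
    rw [h4.card] at h5
    rw [Units.val_pow_eq_pow_val, Units.val_one]
    exact h5
  have hd : ∀ c : Kˣ, (c, c, RingEquiv.refl K) ∈ Par F T v w y z := by
    intro c
    have h5 := hQ.tor c⁻¹
    have h6 : c⁻¹ ^ 2 = c := by
      calc c⁻¹ ^ 2 = c⁻¹ ^ 2 * c ^ 3 := by rw [h3, mul_one]
        _ = c := by group
    rwa [inv_inv, h6] at h5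
  have hp1 : (1, p, RingEquiv.refl K) ∈ Par F T v w y z := by
    have h5 := par_mul hQ.toCo hpp (hd p⁻¹)
    have h6 : p ^ 2 * p⁻¹ = p := by group
    rwa [mul_inv_cancel, h6] at h5
  have hall : ∀ m : Kˣ, (1, m, RingEquiv.refl K) ∈ Par F T v w y z := by
    intro m
    have hp' : (p : K) - 1 ≠ 0 := fun h => hp (Units.ext (sub_eq_zero.1 h))
    have e1 : (p : K) ^ 3 = 1 := by rw [← Units.val_pow_eq_pow_val, h3, Units.val_one]
    have e2 : (m : K) ^ 3 = 1 := by rw [← Units.val_pow_eq_pow_val, h3, Units.val_one]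
    have e3 : (p : K) ^ 2 + p + 1 = 0 := by
      apply mul_left_cancel₀ hp'
      linear_combination e1
    have e4 : ((m : K) - 1) * ((m - p) * (m - p * p)) = 0 := by
      linear_combination e2 - ((m : K) ^ 2 - m * p) * e3 - e1
    rcases mul_eq_zero.1 e4 with h | h
    · have h5 : m = 1 := Units.ext (sub_eq_zero.1 h)
      rw [h5]
      exact hd 1
    rcases mul_eq_zero.1 h with h | h
    · have h5 : m = p := Units.ext (sub_eq_zero.1 h)
      rw [h5]
      exact hp1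
    · have h5 : m = p * p := Units.ext (by rw [Units.val_mul]; exact sub_eq_zero.1 h)
      have h6 := par_mul hQ.toCo hp1 hp1
      rw [mul_one] at h6
      rw [h5]
      exact h6
  ext ⟨p', r', τ⟩
  constructor
  · rintro ⟨g', hg', hm⟩
    exact h2 Ω S F K ε θ T v w y z s ω hS hF hQ.jgd hB h4 _ _ _ g' hg' hm
  · intro h
    have h5 : τ = RingEquiv.refl K := h
    subst h5
    have h6 := par_mul hQ.toCo (hd p') (hall (p'⁻¹ * r'))
    rwa [mul_one, mul_inv_cancel_left] at h6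

end CL.HK.J
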