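/-
Project HK (S5175), case (c): the standard form from the given maps.
-/
import Cfsg.Agent.HK.JDefs

set_option autoImplicit false
set_option linter.unusedSectionVars false

open Cfsg Subgroup
open scoped commutatorElement

namespace CL.HK.J

open CL.Fus CL.Grp CL.J23

universe u

namespace JQDx

variable {Ω : Type u} [Group Ω] {K : Type} [Field K] {S T : Subgroup Ω} {ε : Bool} {θ : K ≃+* K} {v w y z : K → Ω}
  {s : Ω}

theorem vV (a : K) : v a ∈ sp v y z := subset_closure (.inl (.inl ⟨a, rfl⟩))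
theorem yV (a : K) : y a ∈ sp v y z := subset_closure (.inl (.inr ⟨a, rfl⟩))
theorem zV (a : K) : z a ∈ sp v y z := subset_closure (.inr ⟨a, rfl⟩)
theorem yY (a : K) : y a ∈ Yc y z := subset_closure (.inl ⟨a, rfl⟩)

theorem cw (B : Bas S ε θ T v w y z s) (u a b c : K) :
    w u * el v w y z a 0 b c * (w u)⁻¹ = el v w y z a 0 (b + a * u) (c + a ^ 2 * u) := by
  rw [B.ew, B.inv, B.mul, B.mul]
  congr 1 <;> simp [B.two]

theorem elV (B : Bas S ε θ T v w y z s) (a b c : K) : el v w y z a 0 b c = v a * y b * z c := by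
  rw [el, B.ew, B.one, mul_one]

end JQDx

open JQDx in
theorem jqd (h0 : JBAS.{u}) (h1 : JE4.{u}) (h2 : JFN.{u}) (h3 : JTI.{u}) (h4 : JBO.{u}) (h5 : JMON.{u})
    (h6 : JP0.{u}) : JQD.{u} := by
  intro Ω _ S _ F K _ _ ε θ T v w y z s ω hS hF g q giv
  have B := h0 Ω K S ε θ T v w y z s g
  obtain ⟨fn, nT⟩ := h2 Ω S F K ε θ T v w y z s ω g B q (h1 Ω K S ε θ T v w y z s ω g B q)
  have ext : ∀ f, Mor F (sp v y z) f → (∀ x ∈ sp v y z, f x ∈ sp v y z) → ∀ a, a ≠ 0 → f (y a) = y 1 →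
      ∃ g, Mor F T g ∧ (∀ x ∈ T, g x ∈ T) ∧ ∀ x ∈ sp v y z, f x = g x := fun f hf m a a0 e =>
    h4 Ω S F K ε θ T v w y z s hS hF g B fn nT f hf m
      (h3 Ω S F K ε θ T v w y z s ω hS hF g B q fn nT f hf m a a0 (e ▸ yY 1))
  refine ⟨g.toCo, g.chr, g.four, g.le, g.sS, g.sT, g.s2, g.gen, g.θθ, g.sv, g.sw, g.sy, g.sh, ?_,
    h5 Ω S F K ε θ T v w y z s ω hS hF g B q giv.m, fun c => giv.m _ _, fun p r τ f hf m c => ?_⟩
  · obtain ⟨n, hn, n1, n2, n3⟩ := giv.n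
    refine ⟨n, hn, n1, n2, n3, fun f hf m => ?_⟩
    have nel : ∀ a b c, n (v a * y b * z c) = y a * v b * z c := fun a b c => by
      rw [hn.homOn.map_mul (mul_mem (vV a) (yV b)) (zV c), hn.homOn.map_mul (vV a) (yV b), n1, n2, n3]
    have nV : ∀ x ∈ sp v y z, n x ∈ sp v y z ∧ n (n x) = x := fun x hx => by
      obtain ⟨a, b, c, rfl⟩ := (B.memV x).1 hx
      rw [elV B, nel]
      refine ⟨mul_mem (mul_mem (yV a) (vV b)) (zV c), ?_⟩
      rw [g.yc a _ (g.vT b), nel, g.yc b _ (g.vT a)]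
    obtain ⟨x, hx, e⟩ := hf.mem_img.1 ((hf.img_eq_self le_rfl m).ge (yV 1))
    obtain ⟨a, b, c, rfl⟩ := (B.memV x).1 hx
    by_cases a0 : a = 0
    · rw [a0, B.drop q.eps, ← B.ey] at e
      obtain ⟨k, k1, k2, k3⟩ := ext f hf m b (fun b0 => by
        rw [b0, B.ey, B.one, hf.homOn.map_one, ← B.one, B.ey] at e
        exact zero_ne_one (B.inj e).2.2.1) e
      exact ⟨k, 0, k1, k2, .inl k3⟩
    · have cV : ∀ x ∈ sp v y z, w (b / a) * x * (w (b / a))⁻¹ ∈ sp v y z ∧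
          w (b / a) * (w (b / a) * x * (w (b / a))⁻¹) * (w (b / a))⁻¹ = x := fun x hx => by
        obtain ⟨a', b', c', rfl⟩ := (B.memV x).1 hx
        rw [cw B, cw B]
        exact ⟨(B.memV _).2 ⟨_, _, _, rfl⟩, by rw [add_assoc, add_assoc, B.two, B.two, add_zero, add_zero]⟩
      obtain ⟨k, k1, k2, k3⟩ := ext (fun x => f (w (b / a) * n x * (w (b / a))⁻¹))
        ((hn.comp (mor_conj F hf.le (g.le (g.wT (b / a)))) fun x hx => (nV x hx).1).comp hf
          fun x hx => (cV _ (nV x hx).1).1) (fun x hx => m _ (cV _ (nV x hx).1).1) a a0 (by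
          rw [n2, B.ev, cw B, B.drop q.eps, ← e, B.drop q.eps a 0 b c, zero_add, mul_div_cancel₀ _ a0])
      refine ⟨k, b / a, k1, k2, .inr fun x hx => ?_⟩
      rw [← k3 _ (nV _ (cV x hx).1).1, (nV _ (cV x hx).1).2, (cV x hx).2]
  · obtain rfl := h6 Ω S F K ε θ T v w y z s ω hS hF g B q p r τ f hf m
    have e := c _ (g.vT 1)
    rw [g.sv, m.w, m.v, g.sv, B.ew, B.ew, q.eps] at e
    have e' : r = p ^ 2 := Units.ext (by simpa [ex, q.th] using (B.inj e).2.1)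
    obtain ⟨f', hf', m', fs⟩ := giv.x p
    refine ⟨f', hf', fun t ht => ?_, fs⟩
    obtain ⟨a, u, b, c, rfl⟩ := g.nf t ht
    have k : ∀ {j : Ω → Ω}, HomOn T j → j (v a * w u * y b * z c) = j (v a) * j (w u) * j (y b) * j (z c) := fun hj => by
      rw [hj.map_mul (mul_mem (mul_mem (g.vT a) (g.wT u)) (g.yT b)) (g.zT c),
        hj.map_mul (mul_mem (g.vT a) (g.wT u)) (g.yT b), hj.map_mul (g.vT a) (g.wT u)]
    rw [k hf.homOn, k (hf'.homOn.mono g.le), m.v, m.w, m.y, m.z, m'.v, m'.w, m'.y, m'.z, e']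

end CL.HK.J
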