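/-
Project HK (S5175), case (c): the subgroups of `S₅` containing a four-group and moving its fixed point.
-/
import Cfsg.Agent.HK.JDefs

set_option autoImplicit false

open Cfsg Subgroup Equiv Equiv.Perm MulAction

namespace CL.HK.J

namespace JS5x

abbrev pa : Perm (Fin 5) := swap 1 2 * swap 3 4
abbrev pb : Perm (Fin 5) := swap 1 3 * swap 2 4

theorem tr : ∀ j k : Fin 5, j ≠ 0 → k = 0 ∨ j = k ∨ pa j = k ∨ pb j = k ∨ (pa * pb) j = k := by decide

theorem three : ∀ h : Perm (Fin 5), h 0 ≠ 0 → (pa * (h * pa * h⁻¹)).support.card = 3 ∨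
    (pb * (h * pa * h⁻¹)).support.card = 3 ∨ (pa * pb * (h * pa * h⁻¹)).support.card = 3 := by decide +kernel

end JS5x

open JS5x in
theorem js5 : JS5 := by
  rintro H ha hb ⟨h, hh, h0⟩ h8
  have : IsPretransitive H (Fin 5) := (isPretransitive_iff_base 0).2 fun k => by
    rcases tr _ k h0 with e | e | e | e | e
    exacts [⟨1, e.symm⟩, ⟨⟨h, hh⟩, e⟩, ⟨⟨_, mul_mem ha hh⟩, e⟩, ⟨⟨_, mul_mem hb hh⟩, e⟩,
      ⟨⟨_, mul_mem (mul_mem ha hb) hh⟩, e⟩]
  have hp : IsPreprimitive H (Fin 5) := .of_prime_card (by rw [Nat.card_fin]; decide)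
  have hc := mul_mem (mul_mem hh ha) (inv_mem hh)
  have le : alternatingGroup (Fin 5) ≤ H := by
    rcases three h h0 with e | e | e <;>
      refine alternatingGroup_le_of_isPreprimitive_of_isThreeCycle_mem hp (card_support_eq_three_iff.1 e) ?_
    exacts [mul_mem ha hc, mul_mem hb hc, mul_mem (mul_mem ha hb) hc]
  have d := index_dvd_of_le le
  rw [alternatingGroup.index_eq_two] at d
  rcases (Nat.dvd_prime Nat.prime_two).1 d with e | e
  · rw [index_eq_one.1 e, card_top, Nat.card_perm, Nat.card_fin] at h8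
    exact absurd (by decide) h8
  · exact eq_alternatingGroup_of_index_eq_two e

end CL.HK.J
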