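/-
Project HK (S5175), case (c), job JTI: conjugates of `Y` in `V` meet trivially.
-/
import Cfsg.Agent.HK.JDefs

set_option autoImplicit false

open Cfsg Subgroup
open scoped commutatorElement

namespace CL.HK.J

open CL.Fus CL.Grp CL.J23

universe u

namespace JTIx

variable {Ω : Type u} [Group Ω]

/-- an automorphism stabilising a chain that is invariant under a Sylow subgroup lies in this Sylow subgroup -/
theorem key {V Y H X : Subgroup Ω} [Finite V] (hV : IsPGroup 2 V) {A P : Subgroup (MulAut V)} (hP : SylIn 2 P A)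
    (YV : Y ≤ V) (HV : H ≤ V) (p1 : ∀ π ∈ P, ∀ x ∈ Y, autFun π x = x) (p2 : ∀ π ∈ P, ∀ x ∈ V, x⁻¹ * autFun π x ∈ Y)
    {γ δ : MulAut V} (hγ : γ ∈ A) (hδ : δ ∈ A) (g1 : ∀ x ∈ Y, autFun γ x ∈ H)
    (g2 : ∀ x ∈ X, ∃ x' ∈ Y, autFun γ x' = x) (d0 : ∀ x ∈ X, x⁻¹ * autFun δ x = 1)
    (d1 : ∀ x ∈ H, x⁻¹ * autFun δ x ∈ X) (d2 : ∀ x ∈ V, x⁻¹ * autFun δ x ∈ H) :
    ∀ x ∈ Y, autFun δ (autFun γ x) = autFun γ x := by
  have XH : X ≤ H := fun x hx => by obtain ⟨x', h, rfl⟩ := g2 x hx; exact g1 x' h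
  have : Finite H := finite_of_le HV
  have : Finite X := finite_of_le XH
  have c1 : ∀ π ∈ P, ∀ x ∈ Y, autFun (γ * π * γ⁻¹) (autFun γ x) = autFun γ x := fun π hπ x hx => by
    rw [← autFun_mul _ _ (YV hx), inv_mul_cancel_right, autFun_mul _ _ (YV hx), p1 π hπ x hx]
  have PΓ : P.map (MulAut.conj γ).toMonoidHom ≤ A ⊓ stabAut V H ⊓ stabAut V X := by
    rintro _ ⟨π, hπ, rfl⟩
    refine ⟨⟨A.mul_mem (A.mul_mem hγ (hP.le hπ)) (A.inv_mem hγ), mem_stabAut_of_finite HV fun x hx => ?_⟩,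
      mem_stabAut_of_finite (XH.trans HV) fun x hx => ?_⟩
    · have h1 := autFun_mem γ⁻¹ (HV hx)
      have h2 := g1 _ (p2 π hπ _ h1)
      rw [(homOn_autFun γ).map_mul (inv_mem h1) (autFun_mem π h1), (homOn_autFun γ).map_inv h1,
        autFun_apply_inv γ (HV hx)] at h2
      show autFun (γ * π * γ⁻¹) x ∈ H
      rw [autFun_mul _ _ (HV hx), autFun_mul _ _ h1]
      simpa using H.mul_mem hx h2
    · obtain ⟨x', h, rfl⟩ := g2 x hx
      show autFun (γ * π * γ⁻¹) _ ∈ X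
      rwa [c1 π hπ x' h]
  have δΓ : δ ∈ A ⊓ stabAut V H ⊓ stabAut V X :=
    ⟨⟨hδ, mem_stabAut_of_finite HV fun x hx => by simpa using H.mul_mem hx (d2 x (HV hx))⟩,
      mem_stabAut_of_finite (XH.trans HV) fun x hx => by simpa using X.mul_mem hx (d1 x (XH hx))⟩
  have hc := mem_pCore_of_chain hV (A ⊓ stabAut V H ⊓ stabAut V X) 3
    (fun i => [⊥, X, H].getD i V) (fun i β hβ z hz h => match i, h with
      | 0, h => by rw [Subgroup.mem_bot.1 h, (homOn_autFun β).map_one]; exact one_mem _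
      | 1, h => (hβ.2 z hz).2 h
      | 2, h => (hβ.1.2 z hz).2 h
      | _ + 3, _ => autFun_mem β hz) le_rfl (fun z _ h => Subgroup.mem_bot.1 h) (α := ⟨_, δΓ⟩)
    fun i hi z hz h => match i, hi, h with
      | 0, _, h => Subgroup.mem_bot.2 (d0 z h)
      | 1, _, h => d1 z h
      | 2, _, _ => d2 z hz
  obtain ⟨π, hπ, e⟩ := (hP.conj_of_mem hγ).le_of_normalizes (isPGroup_pCore'.map (Subgroup.subtype _))
    ((Subgroup.map_subtype_le _).trans (inf_le_left.trans inf_le_left))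
    (PΓ.trans (le_normalizer_map_subtype _)) ⟨_, hc, rfl⟩
  intro x hx
  rw [show δ = γ * π * γ⁻¹ from e.symm, c1 π hπ x hx]

theorem four {K : Type} [Field K] [Fintype K] (two : ∀ a : K, a + a = 0) (h4 : Fintype.card K = 4) {a a1 : K}
    (h0 : a ≠ 0) (h1 : a1 ≠ 0) (h2 : a ≠ a1) (b : K) : b = 0 ∨ b = a ∨ b = a1 ∨ b = a + a1 := by
  classical
  have h3 : (0 : K) ≠ a + a1 := fun e => h2 (by linear_combination -e - two a1)
  have h : ({0, a, a1, a + a1} : Finset K) = Finset.univ := Finset.eq_univ_of_card _ (by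
    rw [h4, Finset.card_insert_of_notMem (by simp [h0.symm, h1.symm, h3]),
      Finset.card_insert_of_notMem (by simp [h1, h2]), Finset.card_pair (by simp [h0])])
  have k := Finset.mem_univ b
  rw [← h] at k
  simpa using k

variable {K : Type} [Field K] {S T : Subgroup Ω} {θ : K ≃+* K} {v w y z : K → Ω} {s : Ω}

theorem e_mul (h : Bas S false θ T v w y z s) (a b a' b' : K) :
    el v w y z a 0 b 0 * el v w y z a' 0 b' 0 = el v w y z (a + a') 0 (b + b') 0 := by rw [h.mul]; simp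

theorem e_inv (h : Bas S false θ T v w y z s) (a b : K) : (el v w y z a 0 b 0)⁻¹ = el v w y z a 0 b 0 := by
  rw [h.inv]; simp

theorem e_conj (h : Bas S false θ T v w y z s) (a' u b' c' a b : K) :
    el v w y z a' u b' c' * el v w y z a 0 b 0 * (el v w y z a' u b' c')⁻¹ = el v w y z a 0 (b + a * u) 0 := by
  rw [h.inv, h.mul, h.mul, h.drop rfl]
  congr 1
  · linear_combination h.two a'
  · linear_combination h.two u
  · linear_combination h.two b' + h.two (a' * u)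

theorem e_del (h : Bas S false θ T v w y z s) (a b c : K) :
    (el v w y z a 0 b 0)⁻¹ * el v w y z a 0 (b + c) 0 = el v w y z 0 0 c 0 := by
  rw [e_inv h, e_mul h, h.two, ← add_assoc, h.two, zero_add]

theorem mV (h : Bas S false θ T v w y z s) {x : Ω} : x ∈ sp v y z ↔ ∃ a b, x = el v w y z a 0 b 0 :=
  (h.memV x).trans ⟨fun ⟨a, b, _, e⟩ => ⟨a, b, e.trans (h.drop rfl ..)⟩, fun ⟨a, b, e⟩ => ⟨a, b, 0, e⟩⟩

theorem mY (h : Bas S false θ T v w y z s) {x : Ω} : x ∈ Yc y z ↔ ∃ b, x = el v w y z 0 0 b 0 :=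
  (h.memY x).trans ⟨fun ⟨b, _, e⟩ => ⟨b, e.trans (h.drop rfl ..)⟩, fun ⟨b, e⟩ => ⟨b, 0, e⟩⟩

/-- subgroups of `V` given by conditions on the coordinates -/
def Gp (h : Bas S false θ T v w y z s) (p q : AddSubmonoid K) : Subgroup Ω where
  carrier := {x | ∃ a ∈ p, ∃ b ∈ q, x = el v w y z a 0 b 0}
  mul_mem' := by
    rintro _ _ ⟨a, ha, b, hb, rfl⟩ ⟨a', ha', b', hb', rfl⟩
    exact ⟨_, add_mem ha ha', _, add_mem hb hb', e_mul h ..⟩
  one_mem' := ⟨0, zero_mem _, 0, zero_mem _, h.one.symm⟩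
  inv_mem' := by rintro _ ⟨a, ha, b, hb, rfl⟩; exact ⟨a, ha, b, hb, e_inv h ..⟩

/-- `{0, c}` -/
def pr (two : ∀ a : K, a + a = 0) (c : K) : AddSubmonoid K where
  carrier := {a | a = 0 ∨ a = c}
  add_mem' := by rintro _ _ (rfl | rfl) (rfl | rfl) <;> simp [two]
  zero_mem' := .inl rfl

end JTIx

open JTIx

theorem jti : JTI.{u} := by
  intro Ω _ S _ F K _ _ ε θ T v w y z s ω hS hF hG h q fn nV f hf fV a a0 fa x hx
  obtain rfl := q.eps
  by_contra nx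
  have VS : sp v y z ≤ S := hf.le
  have : Finite (sp v y z) := finite_of_le VS
  have eV : ∀ a b, el v w y z a 0 b 0 ∈ sp v y z := fun a b => (mV h).2 ⟨a, b, rfl⟩
  have YV : Yc y z ≤ sp v y z := fun x hx => by obtain ⟨b, rfl⟩ := (mY h).1 hx; exact eV _ _
  obtain ⟨γ, hγ, e⟩ := hf.exists_aut' le_rfl fV
  obtain ⟨a1, rfl⟩ := (mY h).1 hx
  rw [h.ey] at fa
  obtain ⟨b0, e0⟩ := (mY h).1 fa
  obtain ⟨a2, b2, e2⟩ := (mV h).1 (fV _ (eV 0 a1))
  have f1 : f (el v w y z 0 0 0 0) = el v w y z 0 0 0 0 := by rw [h.one, hf.homOn.map_one]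
  have a20 : a2 ≠ 0 := fun k => nx ((mY h).2 ⟨b2, by rw [e2, k]⟩)
  have b00 : b0 ≠ 0 := fun k => a0 (h.inj (hf.injOn (eV 0 a) (eV 0 0) (by rw [e0, k, f1]))).2.2.1
  have a10 : a1 ≠ 0 := fun k => nx (by rw [k, f1]; exact (mY h).2 ⟨0, rfl⟩)
  have a1a : a ≠ a1 := fun k => nx (k ▸ fa)
  have wT : el v w y z 0 (b0 / a2) 0 0 ∈ T := (h.memT _).2 ⟨_, _, _, _, rfl⟩
  have wN := (nV _ (hG.le wT)).2 wT
  have cw : ∀ a b, autFun (conjAut _ wN) (el v w y z a 0 b 0) = el v w y z a 0 (b + a * (b0 / a2)) 0 :=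
    fun a b => by rw [autFun_conjAut wN (eV a b), e_conj h]
  have cP : ∀ π ∈ autInducedBy S (sp v y z), ∃ u, ∀ a b,
      autFun π (el v w y z a 0 b 0) = el v w y z a 0 (b + a * u) 0 := fun π hπ => by
    obtain ⟨t, ht, k⟩ := mem_autInducedBy'.1 hπ
    obtain ⟨a', u, b', c', rfl⟩ := (h.memT t).1 ((nV t ht.1).1 ht.2)
    exact ⟨u, fun a b => by rw [k _ (eV a b), e_conj h]⟩
  have k := key (H := Gp h (pr h.two a2) ⊤) (X := Gp h ⊥ (pr h.two b0)) (hS.to_le VS)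
    (sylIn_of_fullyNormalized hS hF fn) YV (by rintro _ ⟨a, -, b, -, rfl⟩; exact eV a b)
    (fun π hπ x hx => by
      obtain ⟨u, k⟩ := cP π hπ
      obtain ⟨b, rfl⟩ := (mY h).1 hx
      rw [k, zero_mul, add_zero])
    (fun π hπ x hx => by
      obtain ⟨u, k⟩ := cP π hπ
      obtain ⟨a, b, rfl⟩ := (mV h).1 hx
      rw [k, e_del h]; exact (mY h).2 ⟨_, rfl⟩)
    hγ (conjAut_mem_autGroup F VS wN (hG.le wT))
    (fun x hx => by
      obtain ⟨b, rfl⟩ := (mY h).1 hx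
      rw [e _ (eV 0 b)]
      rcases four h.two q.card a0 a10 a1a b with k | k | k | k <;> rw [k]
      · exact ⟨0, .inl rfl, 0, trivial, f1⟩
      · exact ⟨0, .inl rfl, b0, trivial, e0⟩
      · exact ⟨a2, .inr rfl, b2, trivial, e2⟩
      · refine ⟨a2, .inr rfl, b0 + b2, trivial, ?_⟩
        rw [← zero_add a2, ← e_mul h, ← e0, ← e2, ← hf.homOn.map_mul (eV 0 a) (eV 0 a1), e_mul h, add_zero])
    (by
      rintro _ ⟨a', ha', b, hb | hb, rfl⟩ <;> rw [AddSubmonoid.mem_bot.1 ha', hb]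
      · exact ⟨_, (mY h).2 ⟨0, rfl⟩, by rw [e _ (eV 0 0), f1]⟩
      · exact ⟨_, (mY h).2 ⟨a, rfl⟩, by rw [e _ (eV 0 a), e0]⟩)
    (by
      rintro _ ⟨a', ha', b, -, rfl⟩
      rw [cw, e_del h, AddSubmonoid.mem_bot.1 ha', zero_mul, h.one])
    (by
      rintro _ ⟨a', ha' | ha', b, -, rfl⟩ <;> rw [cw, e_del h, ha']
      · exact ⟨0, zero_mem _, 0, .inl rfl, by rw [zero_mul]⟩
      · exact ⟨0, zero_mem _, b0, .inr rfl, by rw [mul_div_cancel₀ _ a20]⟩)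
    (fun x hx => by
      obtain ⟨a', b, rfl⟩ := (mV h).1 hx
      rw [cw, e_del h]; exact ⟨0, .inl rfl, _, trivial, rfl⟩) _ hx
  rw [e _ (eV 0 a1), e2, cw, mul_div_cancel₀ _ a20] at k
  exact b00 (by simpa using (h.inj k).2.2.1)

end CL.HK.J
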