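/-
Project HK, part J: three cases (job HK-JTRI).
-/
import Cfsg.Agent.HK.JDefs

set_option autoImplicit false

open Cfsg Subgroup

namespace CL.HK.J

open CL.Fus CL.Grp CL.J23

universe u

namespace JTRIx

theorem fld {K : Type} [Field K] [Fintype K] (θ : K ≃+* K) (two : ∀ a : K, a + a = 0) (four : 4 ≤ Fintype.card K)
    {b : K} (hb : θ b ≠ b) (h : ∀ a c : K, θ a ≠ a → θ c ≠ c → θ (a + c) = a + c) : Q4 false θ b := by
  classical
  have fx : ∀ k : K, θ k = k → k = 0 ∨ k = 1 := fun k hk => by
    by_contra n
    rw [not_or] at n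
    have h1 : θ (k * b) ≠ k * b := fun e => hb (mul_left_cancel₀ n.1 (by rwa [map_mul, hk] at e))
    have h2 := h _ _ h1 hb
    have h3 : k + 1 ≠ 0 := fun e => n.2 (by linear_combination e - two 1)
    refine hb (mul_left_cancel₀ h3 ?_)
    rw [map_add, map_mul, hk] at h2
    linear_combination h2
  have all : ∀ a : K, a = 0 ∨ a = 1 ∨ a = b ∨ a = b + 1 := fun a => by
    by_cases ha : θ a = a
    · rcases fx a ha with e | e
      · exact .inl e
      · exact .inr (.inl e)
    · rcases fx _ (h a b ha hb) with e | e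
      · exact .inr (.inr (.inl (by linear_combination e - two b)))
      · exact .inr (.inr (.inr (by linear_combination e - two b)))
  have b0 : b ≠ 0 := fun e => hb (by rw [e, map_zero])
  have b1 : b ≠ 1 := fun e => hb (by rw [e, map_one])
  have sq : b ^ 2 = b + 1 := by
    rcases all (b ^ 2) with e | e | e | e
    · exact absurd (pow_eq_zero_iff two_ne_zero |>.1 e) b0
    · refine absurd ?_ b1
      have : (b - 1) ^ 2 = 0 := by linear_combination e - two b + two 1
      exact sub_eq_zero.1 (pow_eq_zero_iff two_ne_zero |>.1 this)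
    · exact absurd (mul_left_cancel₀ b0 (by linear_combination e : b * b = b * 1)) b1
    · exact e
  have tb : θ b = b + 1 := by
    rcases all (θ b) with e | e | e | e
    · exact absurd (θ.injective (e.trans (map_zero θ).symm)) b0
    · exact absurd (θ.injective (e.trans (map_one θ).symm)) b1
    · exact absurd e hb
    · exact e
  refine ⟨rfl, le_antisymm ?_ four, fun a => ?_, sq, all⟩
  · have : (Finset.univ : Finset K) ⊆ {0, 1, b, b + 1} := fun a _ => by simpa using all a
    exact (Finset.card_le_card this).trans Finset.card_le_four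
  · rcases all a with rfl | rfl | rfl | rfl
    · simp
    · simp
    · rw [tb, sq]
    · rw [map_add, map_one, tb]
      linear_combination -sq - two b

end JTRIx

theorem jtri : JTRI.{u} := by
  intro Ω _ K _ _ S ε θ T v w y z s G B
  have yY : ∀ a, y a ∈ Yc y z := fun a => subset_closure (.inl ⟨a, rfl⟩)
  have cj : ∀ r, s * y r = y r * s → hz ε y z (θ r ^ ex ε) = y r := fun r e => by
    rw [← G.sy, e, mul_inv_cancel_right]
  cases ε
  · have k : ∀ r, θ r ≠ r → s * y r ≠ y r * s := fun r n e => by
      have := cj r e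
      simp only [hz, ex, cond_false, pow_one] at this
      rw [B.ey, B.ey r] at this
      exact n (B.inj this).2.2.1
    by_cases h1 : ∀ a, θ a = a
    · exact .inr (.inl ⟨rfl, h1⟩)
    obtain ⟨b, hb⟩ := not_forall.1 h1
    by_cases h2 : ∀ a c : K, θ a ≠ a → θ c ≠ c → θ (a + c) = a + c
    · exact .inr (.inr ⟨b, JTRIx.fld θ B.two G.four hb h2⟩)
    push Not at h2
    obtain ⟨a, c, ha, hc, hs⟩ := h2
    exact .inl ⟨_, yY a, _, yY c, k a ha, k c hc, by rw [← G.y_add]; exact k _ hs⟩
  · have k : ∀ r, r ≠ 0 → s * y r ≠ y r * s := fun r n e => by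
      have := cj r e
      simp only [hz, cond_true] at this
      rw [B.ez, B.ey r] at this
      exact n (B.inj this).2.2.1.symm
    obtain ⟨t, t0, t1⟩ := B.three
    refine .inl ⟨_, yY 1, _, yY t, k 1 one_ne_zero, k t t0, ?_⟩
    rw [← G.y_add]
    exact k _ fun e => t1 (by linear_combination e - B.two 1)

end CL.HK.J
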