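import Cfsg.Agent.HK.JDefs

/-! # HK, part J: 2-elements of `Aut_F(T)` fixing `V` are inner; no field automorphisms -/

set_option autoImplicit false

open Cfsg Subgroup
open scoped commutatorElement

namespace CL.HK.J

open CL.Fus CL.Grp CL.J23

universe u

namespace JTWOx

variable {Ω : Type u} [Group Ω] {K : Type} [Field K] {S : Subgroup Ω} {ε : Bool} {θ : K ≃+* K} {T : Subgroup Ω}
  {v w y z : K → Ω} {s : Ω} (hB : Bas S ε θ T v w y z s)
include hB

theorem VT : sp v y z ≤ T := fun x hx => by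
  obtain ⟨a, b, c, e⟩ := (hB.memV x).1 hx
  exact (hB.memT x).2 ⟨_, _, _, _, e⟩

theorem WT : sp w y z ≤ T := fun x hx => by
  obtain ⟨a, b, c, e⟩ := (hB.memW x).1 hx
  exact (hB.memT x).2 ⟨_, _, _, _, e⟩

theorem Vc {x x' : Ω} (h : x ∈ sp v y z) (h' : x' ∈ sp v y z) : x * x' = x' * x := by
  obtain ⟨a, b, c, rfl⟩ := (hB.memV x).1 h
  obtain ⟨a', b', c', rfl⟩ := (hB.memV x').1 h'
  rw [hB.mul, hB.mul]
  congr 1 <;> ring

theorem Wc {x x' : Ω} (h : x ∈ sp w y z) (h' : x' ∈ sp w y z) : x * x' = x' * x := by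
  obtain ⟨a, b, c, rfl⟩ := (hB.memW x).1 h
  obtain ⟨a', b', c', rfl⟩ := (hB.memW x').1 h'
  rw [hB.mul, hB.mul]
  congr 1 <;> ring

theorem W2 {x : Ω} (h : x ∈ sp w y z) : x * x = 1 := by
  obtain ⟨a, b, c, rfl⟩ := (hB.memW x).1 h
  rw [hB.mul, ← hB.one, hB.two, hB.two, hB.two, hB.two]
  congr 1 <;> ring

theorem v2 : v 1 * v 1 = 1 := by
  rw [hB.ev, hB.mul, ← hB.one, hB.two]
  congr 1 <;> ring

end JTWOx

open JTWOx

theorem jtwo : JTWO.{u} := by
  intro Ω _ S _ F K _ _ ε θ T v w y z s hS hF hG hB g hg hT hV h4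
  have : Fact (Nat.Prime 2) := ⟨Nat.prime_two⟩
  have : Finite T := finite_of_le hG.le
  have : Finite (MulAut T) := DFunLike.finite _
  have hW : ∀ e ∈ sp w y z, g e ∈ sp w y z := fun e he => by
    have eT := WT hB he
    refine (hB.iVW _ (hT e eT) (by rw [← hg.homOn.map_mul eT eT, W2 hB he, hg.homOn.map_one])).elim
      (fun k => ?_) id
    have eV : e ∈ sp v y z := hg.mem_of_mem_img (VT hB) eT (by rwa [hg.img_eq_self (VT hB) hV])
    obtain ⟨a, b, c, e1⟩ := (hB.memV e).1 eV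
    obtain ⟨a', b', c', e2⟩ := (hB.memW e).1 he
    have eY : e ∈ Yc y z := (hB.memY e).2 ⟨b, c, by rw [e1, (hB.inj (e1.symm.trans e2)).1]⟩
    obtain ⟨b'', c'', e3⟩ := (hB.memY _).1 (hB.zY _ (hT e eT) fun t ht => by
      obtain ⟨t', ht', rfl⟩ := hg.mem_img.1 ((hg.img_eq_self le_rfl hT).ge ht)
      rw [← hg.homOn.map_mul eT ht', ← hg.homOn.map_mul ht' eT, hB.Yz e eY t' ht'])
    exact (hB.memW _).2 ⟨0, _, _, e3⟩
  have key : ∀ i ∈ T, i * i = 1 → g i * i = i * g i := fun i hi h2 =>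
    (hB.iVW i hi h2).elim (fun k => Vc hB (hV i k) k) fun k => Wc hB (hW i k) k
  obtain ⟨γ, hγ, eγ⟩ := hg.exists_aut' le_rfl hT
  have hγ4 : γ ^ 2 ^ 2 = 1 := aut_ext fun x hx => by
    rw [show γ ^ 2 ^ 2 = γ * (γ * (γ * γ)) by simp only [pow_succ, pow_zero, one_mul]; rfl,
      autFun_mul _ _ hx, autFun_mul _ _ hx, autFun_mul _ _ hx, autFun_one hx, eγ x hx, eγ _ (hT x hx),
      eγ _ (hT _ (hT x hx)), eγ _ (hT _ (hT _ (hT x hx))), h4 x hx]
  have hn : S ≤ normalizer (T : Set Ω) := fun a ha => mem_normalizer_iff.2 fun t =>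
    ⟨hB.nT a ha t, fun k => by simpa [mul_assoc] using hB.nT _ (inv_mem ha) _ k⟩
  obtain ⟨β, -, hβ⟩ := (sylIn_of_fullyNormalized hS hF (isFullyNormalized_of_normalizerIn_eq F hG.le hn)).exists_conj_le
    (isPGroup_zpowers_of_pow_eq_one hγ4) (zpowers_le.2 hγ)
  obtain ⟨x, hx, ex'⟩ := mem_autInducedBy.1 (hβ γ (mem_zpowers γ))
  have eb : ∀ i ∈ T, autFun β (g i) = x * autFun β i * x⁻¹ := fun i hi => by
    rw [← ex' _ (autFun_mem β hi), autFun_mul _ _ (autFun_mem β hi), autFun_inv_apply β hi, autFun_mul _ _ hi, eγ i hi]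
  have hxT : x ∈ T := by
    by_contra hxT
    have h1 := hG.vT 1
    have hi := autFun_mem β⁻¹ h1
    have k := congrArg (autFun β) (key _ hi (by
      rw [← (homOn_autFun β⁻¹).map_mul h1 h1, v2 hB, (homOn_autFun β⁻¹).map_one]))
    rw [(homOn_autFun β).map_mul (hT _ hi) hi, (homOn_autFun β).map_mul hi (hT _ hi), eb _ hi,
      autFun_apply_inv β h1, hB.ev] at k
    obtain ⟨b', c', e⟩ := hB.xel x hx hxT 1 0 0 0
    rw [e, hB.mul, hB.mul] at k
    have := (hB.inj k).2.2.1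
    simp at this
  refine ⟨autFun β⁻¹ x, autFun_mem _ hxT, fun t ht => ?_⟩
  rw [← autFun_inv_apply β (hT t ht), eb t ht, (homOn_autFun β⁻¹).map_conj hxT (autFun_mem β ht),
    autFun_inv_apply β ht]

theorem jp0 (h : JTWO.{u}) : JP0.{u} := by
  intro Ω _ S _ F K _ _ ε θ T v w y z s ω hS hF hG hB hq p r τ g hg hm
  have h11 := hB.two 1
  have hsq := hq.sq
  rcases hq.all (τ ω) with e | e | e | e
  · rw [map_eq_zero_iff τ τ.injective] at e
    rw [e] at hsq
    simp at hsq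
  · have e' : ω = 1 := τ.injective (by rw [e, map_one])
    rw [e', h11] at hsq
    simp at hsq
  · ext a
    rcases hq.all a with rfl | rfl | rfl | rfl <;> simp [e]
  exfalso
  have hτ : ∀ a, τ a = a ^ 2 := fun a => by
    rcases hq.all a with rfl | rfl | rfl | rfl
    · simp
    · simp
    · rw [e, hsq]
    · rw [map_add, e, map_one]
      linear_combination -hsq - hB.two ω
  have h4 : ∀ a : K, a ^ 4 = a := fun a => by rw [← hq.card]; exact FiniteField.pow_card a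
  have h3 : ∀ c : Kˣ, (c : K) ^ 3 = 1 := fun c => by
    have := FiniteField.pow_card_sub_one_eq_one (c : K) c.ne_zero
    rwa [hq.card] at this
  have hc : ∀ (c : Kˣ) (a : K), c * τ (c * τ a) = a := fun c a => by
    rw [hτ, hτ]
    linear_combination a ^ 4 * h3 c + h4 a
  have gel : ∀ a u b c, g (el v w y z a u b c) = el v w y z (p * τ a) (r * τ u) (p * r * τ b) (p ^ 2 * r * τ c) :=
    fun a u b c => by
      rw [el, el, hg.homOn.map_mul (mul_mem (mul_mem (hG.vT a) (hG.wT u)) (hG.yT b)) (hG.zT c),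
        hg.homOn.map_mul (mul_mem (hG.vT a) (hG.wT u)) (hG.yT b), hg.homOn.map_mul (hG.vT a) (hG.wT u),
        hm.v, hm.w, hm.y, hm.z]
  have hT : ∀ t ∈ T, g t ∈ T := fun t ht => by
    obtain ⟨a, u, b, c, rfl⟩ := (hB.memT t).1 ht
    exact (hB.memT _).2 ⟨_, _, _, _, gel a u b c⟩
  have g2 : ∀ t ∈ T, g (g t) = t := fun t ht => by
    obtain ⟨a, u, b, c, rfl⟩ := (hB.memT t).1 ht
    rw [gel, gel, hc, hc, ← Units.val_mul, hc, hB.drop hq.eps, ← hB.drop hq.eps a u b c]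
  obtain ⟨x, hx, ex'⟩ := h Ω S F K ε θ T v w y z s hS hF hG hB g hg hT (fun x hx => by
    obtain ⟨a, b, c, rfl⟩ := (hB.memV x).1 hx
    exact (hB.memV _).2 ⟨_, _, _, by rw [gel, map_zero, mul_zero]⟩) fun t ht => by rw [g2 _ (hT _ (hT t ht)), g2 t ht]
  have hy : ∀ b, p * r * τ b = b := fun b => by
    have k := ex' _ (hG.yT b)
    rw [hm.y, ← hG.yc b x hx, mul_inv_cancel_right, hB.ey, hB.ey] at k
    exact (hB.inj k).2.2.1
  have k1 := hy 1
  have k2 := hy ω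
  rw [map_one, mul_one] at k1
  rw [k1, e] at k2
  simp at k2

end CL.HK.J
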