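/-
Project HK (S5175), case (c): the action of `Aut(2^{1+4}_-)` on the five singular points.
-/
import Cfsg.Agent.HK.JDefs

set_option autoImplicit false

open Cfsg Subgroup

namespace CL.HK.J

open CL.Fus CL.Grp CL.J23 CL.TC

universe u

namespace JXSx

variable {G : Type u} [Group G] [Finite G] {z : G} {q : Fin 5 → G} (hg : QG z q) (hc : Nat.card G = 32)
include hg hc

omit hg [Finite G] in
theorem cardT : Nat.card (⊤ : Subgroup G) = 32 := by rw [Subgroup.card_top, hc]

theorem gen (H : Subgroup G) (hH : ∀ i, q i ∈ H) (b : G) : b ∈ H := by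
  obtain ⟨v, hv⟩ := MT.exists_pre (M := MQ) J23Q.valid rfl (MQ.all_spec MQ_ok) _ hg.invgQ hg.relQ
  obtain ⟨h1, h2⟩ := hg.pre_q hv le_rfl tbQ (fun i => by fin_cases i <;> rfl) zQm
  have R := hv.rep_of_toZ (MQ.all_spec MQ_z) (h2 ▸ hg.z1) (H := ⊤) (fun i _ => mem_top _) (cardT hc)
  obtain ⟨n, -, rfl⟩ := R.surj b (mem_top _)
  refine hv.mem H (fun i hi => ?_) n
  have : i < 5 := hi
  interval_cases i <;> exact hH _

theorem zc (b : G) : b * z = z * b :=
  mem_centralizer_singleton_iff.1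
    (gen hg hc (centralizer {z}) (fun i => mem_centralizer_singleton_iff.2 (hg.cz i)) b)

omit hc [Finite G] in
theorem nc {u : G} {j : Fin 5} (hu : Pm z q u j) (h : ∀ b, b * u = u * b) : False := by
  obtain ⟨k, hk⟩ := exists_ne j
  have h1 : Commute (q k) (q j) := by
    have h2 : Commute (q k) u := h _
    have h3 : Commute (q k) z := hg.cz k
    rcases hu with rfl | rfl
    · exact h2
    · have := h2.mul_right h3
      rwa [mul_assoc, hg.z2, mul_one] at this
  have := hg.anti k j hk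
  rw [h1.eq, left_eq_mul] at this
  exact hg.z1 this

theorem invs (u : G) (hu : u * u = 1) : u = 1 ∨ u = z ∨ ∃ j, Pm z q u j := by
  obtain ⟨v, R, hv, hz⟩ := hg.repQ (Q := ⊤) (fun _ => mem_top _) (cardT hc)
  exact inv_mem_Q R hv hz u (mem_top _) hu

theorem az (α : MulAut G) : α z = z := by
  rcases invs hg hc (α z) (by rw [← map_mul, hg.z2, map_one]) with e | e | ⟨j, e⟩
  · exact absurd (α.injective (e.trans (map_one α).symm)) hg.z1
  · exact e
  · refine (nc hg e fun b => ?_).elim
    obtain ⟨a, rfl⟩ := α.surjective b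
    rw [← map_mul, ← map_mul, zc hg hc]

theorem aq (α : MulAut G) (i : Fin 5) : ∃ j, Pm z q (α (q i)) j := by
  rcases invs hg hc (α (q i)) (by rw [← map_mul, hg.sq, map_one]) with e | e | e
  · have e' : q i = 1 := α.injective (e.trans (map_one α).symm)
    exact (nc hg (u := q i) (.inl rfl) fun b => by rw [e', mul_one, one_mul]).elim
  · have e' : q i = z := α.injective (e.trans (az hg hc α).symm)
    exact (nc hg (u := q i) (.inl rfl) fun b => by rw [e', zc hg hc]).elim
  · exact e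

theorem pm_map (α : MulAut G) {u : G} {j k : Fin 5} (hu : Pm z q u j) (hk : Pm z q (α (q j)) k) :
    Pm z q (α u) k := by
  rcases hu with rfl | rfl
  · exact hk
  · rw [map_mul, az hg hc]
    rcases hk with e | e <;> rw [e]
    · exact .inr rfl
    · exact .inl (by rw [mul_assoc, hg.z2, mul_one])

theorem inner (e : G) (i : Fin 5) : Pm z q (e * q i * e⁻¹) i := by
  let H : Subgroup G :=
    { carrier := {e | ∀ i, Pm z q (e * q i * e⁻¹) i}
      one_mem' := fun i => .inl (by simp)
      mul_mem' := fun {a b} ha hb i => by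
        have := hg.pm_conj (zc hg hc a) (hb i) (ha i)
        rwa [show a * (b * q i * b⁻¹) * a⁻¹ = a * b * q i * (a * b)⁻¹ by group] at this
      inv_mem' := fun {a} ha i => by
        obtain ⟨j, hj⟩ := aq hg hc (MulAut.conj a⁻¹) i
        rw [MulAut.conj_apply] at hj
        have := hg.pm_conj (zc hg hc a) hj (ha j)
        rw [show a * (a⁻¹ * q i * a⁻¹⁻¹) * a⁻¹ = q i by group] at this
        rwa [← hg.pm_unique (u := q i) (.inl rfl) this] at hj }
  refine gen hg hc H (fun k j => ?_) e i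
  rw [← hg.inv_q k]
  by_cases hkj : k = j
  · subst hkj
    exact .inl (by rw [hg.sq, one_mul])
  · refine .inr ?_
    rw [hg.anti k j hkj, mul_assoc (q j * q k), ← hg.cz, mul_assoc (q j), ← mul_assoc (q k), hg.sq, one_mul]

theorem main : ∃ π : MulAut G →* Equiv.Perm (Fin 5), (∀ α i, Pm z q (α (q i)) (π α i)) ∧
    ∀ α, π α = 1 ↔ ∃ a, α = MulAut.conj a := by
  choose p hp using aq hg hc
  let _ : MulAction (MulAut G) (Fin 5) :=
    { smul := p
      one_smul := fun i => hg.pm_unique (hp 1 i) (.inl rfl)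
      mul_smul := fun a b i => hg.pm_unique (hp (a * b) i) (pm_map hg hc a (hp b i) (hp a (p b i))) }
  refine ⟨MulAction.toPermHom (MulAut G) (Fin 5), hp, fun α => ⟨fun h => ?_, ?_⟩⟩
  · obtain ⟨v, R, hv, hz⟩ := hg.repQ (Q := ⊤) (fun _ => mem_top _) (cardT hc)
    have h1 : ∀ i, p α i = i := fun i => congrArg (fun σ : Equiv.Perm (Fin 5) => σ i) h
    obtain ⟨c, -, hc2⟩ := correct R hv hz (σ := id) corr1 (u := fun i => α (q i))
      (fun i => by have := hp α i; rwa [h1] at this)
      (by simp only [← map_mul, hg.prod, map_one])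
    refine ⟨c⁻¹, MulEquiv.ext fun b => ?_⟩
    refine gen hg hc ((α : G →* G).eqLocus (MulAut.conj c⁻¹ : MulAut G)) (fun i => ?_) b
    show α (q i) = c⁻¹ * q i * c⁻¹⁻¹
    have : c * α (q i) * c⁻¹ = q i := hc2 i
    conv_rhs => rw [← this]
    group
  · rintro ⟨a, rfl⟩
    exact Equiv.ext fun i => hg.pm_unique (hp _ i) (inner hg hc a i)

end JXSx

theorem jxs : JXS.{u} := by
  intro Ω _ z q E hg hq hc
  have : Finite E := Nat.finite_of_card_ne_zero (by rw [hc]; norm_num)
  have hz : z ∈ E := by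
    have := hg.zz (i := 0) (j := 1) (by decide) 1
    rw [mul_one z] at this
    rw [← this]
    exact E.mul_mem (hq _) (E.mul_mem (hq _) (E.mul_mem (hq _) (E.mul_mem (hq _) E.one_mem)))
  have hg' : QG (⟨z, hz⟩ : E) (fun i => ⟨q i, hq i⟩) :=
    ⟨Subtype.ext hg.z2, fun e => hg.z1 (congrArg Subtype.val e), fun i => Subtype.ext (hg.cz i),
      fun i => Subtype.ext (hg.sq i), fun i j h => Subtype.ext (hg.anti i j h), Subtype.ext hg.prod⟩
  obtain ⟨π, h1, h2⟩ := JXSx.main hg' hc
  refine ⟨π, fun α i => ?_, fun α => ?_, ?_⟩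
  · rw [autFun_apply α (hq i)]
    rcases h1 α i with e | e
    · exact .inl (congrArg Subtype.val e)
    · exact .inr (congrArg Subtype.val e)
  · rw [autFun_apply α hz, JXSx.az hg' hc]
  · ext α
    rw [MonoidHom.mem_ker, h2]
    exact ⟨fun ⟨a, e⟩ => ⟨a, e.symm⟩, fun ⟨a, e⟩ => ⟨a, e.symm⟩⟩

end CL.HK.J
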