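/-
Project HK: a pair of `A₃`-blocks.
-/
import Cfsg.Agent.HK.Core

set_option autoImplicit false

open Cfsg Subgroup
open scoped commutatorElement

namespace CL.HK

open CL.Fus CL.Loc CL.Grp CL.Even

universe u

namespace K3ax

variable {T M : Type u} [Group T] [Group M] [Finite M]

theorem card_le_two {X : Type*} [Group X] {A B : Subgroup X} (h : A ≤ B) (hne : ¬ B ≤ A) (h4 : Nat.card B = 4) :
    Nat.card A ≤ 2 := by
  have : Finite B := Nat.finite_of_card_ne_zero (by omega)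
  have k := card_dvd_of_le h
  have k2 : Nat.card A ≠ 4 := fun e => hne (Subgroup.eq_of_le_of_card_ge h (by omega)).ge
  rw [h4] at k
  have k3 := Nat.le_of_dvd (by norm_num) k
  generalize Nat.card A = n at k k2 k3
  interval_cases n <;> simp_all

structure Cx (R : Subgroup M) (i j : T →* M) (L : Subgroup M) : Prop where
  inj : Function.Injective i
  inj' : Function.Injective j
  rng : i.range = R
  rng' : j.range = R
  hJ : (𝐉[2] R).comap j = (𝐉[2] R).comap i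
  bk : Bk R L
  f3 : ∀ g, F3 R (cj g L)
  a3 : ∀ g, A3 (cj g L)
  jn : ∀ g, 𝐉[2] R ≤ 𝒩(cj g L)
  ne : ⁅Vv i L, Vv j L⁆ ≠ ⊥

namespace Cx

variable {R L : Subgroup M} {i j : T →* M} (h : Cx R i j L)
include h

omit [Finite M] in
theorem symm : Cx R j i L :=
  { h with
    inj := h.inj', inj' := h.inj, rng := h.rng', rng' := h.rng, hJ := h.hJ.symm
    ne := by rw [commutator_comm]; exact h.ne }

omit [Finite M] in
theorem f1 : F3 R L := by simpa only [cj_one] using h.f3 1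

omit [Finite M] in
theorem card (g : M) : Nat.card (Vv i (cj g L)) = 4 := by
  rw [← (h.a3 g).1, ← card_map_of_injective h.inj, map_comap_eq_self]
  exact h.rng ▸ (h.f3 g).J.trans (thompsonSubgroupOf_le _)

omit [Finite M] in
theorem card1 : Nat.card (Vv i L) = 4 := by simpa only [cj_one] using h.card 1

omit [Finite M] in
theorem jJ {g : M} {v : T} (hv : v ∈ Vv i (cj g L)) : j v ∈ 𝐉[2] R :=
  (h.hJ.ge ((h.f3 g).J hv) :)

omit [Finite M] in
theorem jJ1 {v : T} (hv : v ∈ Vv i L) : j v ∈ 𝐉[2] R := h.jJ (g := 1) (by rwa [cj_one])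

omit [Finite M] in
theorem jn1 : 𝐉[2] R ≤ 𝒩(L) := by simpa only [cj_one] using h.jn 1

omit [Finite M] in
theorem comm_mem {L' : Subgroup M} {v x : T} (hv : v ∈ Vv i L') (hx : i x ∈ 𝒩(L')) : ⁅v, x⁆ ∈ Vv i L' := by
  rw [mem_comap, map_commutatorElement, commutatorElement_def, mul_assoc, mul_assoc, ← mul_assoc (i x)]
  exact mul_mem hv (conj_mem (norm_le_norm_core _ hx) (inv_mem hv))

omit [Finite M] in
theorem comm {v v' : T} (hv : v ∈ Vv i L) (hv' : v' ∈ Vv i L) : v * v' = v' * v :=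
  h.inj (by rw [map_mul, map_mul]; exact ea_mul_comm h.bk.ea hv hv')

omit [Finite M] in
theorem le : ⁅Vv i L, Vv j L⁆ ≤ Vv i L ⊓ Vv j L := commutator_le.2 fun v hv w hw =>
  ⟨h.comm_mem hv (h.jn1 (h.symm.jJ1 hw)), by
    rw [← commutatorElement_inv]
    exact (Vv j L).inv_mem (h.symm.comm_mem hw (h.jn1 (h.jJ1 hv)))⟩

omit [Finite M] in
theorem ex : ∃ v ∈ Vv i L, ∃ w ∈ Vv j L, ⁅v, w⁆ ≠ 1 := by
  by_contra hn
  push Not at hn
  exact h.ne (le_bot_iff.1 (commutator_le.2 hn))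

theorem cY : ⁅Vv i L, Vv j L⁆ = Vv i L ⊓ Vv j L ∧ Nat.card (Vv i L ⊓ Vv j L : Subgroup T) = 2 ∧
    Vv i L ⊓ 𝒞(Vv j L) ≤ Vv j L := by
  have : Finite T := Finite.of_injective _ h.inj
  obtain ⟨v, hv, w, hw, k⟩ := h.ex
  have k1 : Vv i L ⊓ Vv j L ≤ Vv i L ⊓ 𝒞(Vv j L) := fun x hx => ⟨hx.1, fun y hy => h.symm.comm hy hx.2⟩
  have k2 := card_le_two (inf_le_left (b := 𝒞(Vv j L))) (fun e =>
    k (commutatorElement_eq_one_iff_mul_comm.2 ((e hv).2 w hw).symm)) h.card1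
  have k3 := (one_lt_card_iff_ne_bot _).2 h.ne
  have k4 := card_le_of_le h.le
  have k5 := card_le_of_le k1
  exact ⟨Subgroup.eq_of_le_of_card_ge h.le (by omega), by omega,
    (Subgroup.eq_of_le_of_card_ge k1 (by omega)).ge.trans inf_le_right⟩

omit [Finite M] in
theorem DV {x : T} (hx : x ∈ Dd i L) (hv : x ∈ Vv i L) : x = 1 :=
  h.inj ((mem_bot.1 (h.f1.z ▸ ⟨hv, hx⟩ : i x ∈ (⊥ : Subgroup M))).trans (map_one i).symm)

omit [Finite M] in
theorem Dc {x v : T} (hx : x ∈ Dd i L) (hv : v ∈ Vv i L) : v * x = x * v :=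
  h.inj (by rw [map_mul, map_mul]; exact hx _ (core_le L hv))

theorem DV' {x : T} (hx : x ∈ Dd j L) (hv : x ∈ Vv i L) : x = 1 :=
  h.symm.DV hx (h.cY.2.2 ⟨hv, fun _ hw => h.symm.Dc hx hw⟩)

omit [Finite M] in
theorem tr {v w z : T} (hv : v ∈ Vv i L) (hw : w ∈ Vv j L) (k : v * w ≠ w * v) (hz : z ∈ Vv i L ⊓ Vv j L)
    (hz1 : z ≠ 1) : ∃ g ∈ L, i v = g * i z * g⁻¹ := by
  obtain ⟨g, hg, e, -⟩ := h.f1.tr _ hz.1 _ hv (fun e => hz1 (h.inj (e.trans (map_one i).symm)))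
    (fun e => k (by rw [h.inj (e.trans (map_one i).symm), one_mul, mul_one]))
    fun e => k (h.symm.comm (h.inj e ▸ hz.2) hw)
  exact ⟨g, hg, e.symm⟩

theorem norm (hD : Dd i L ⊓ Dd j L = ⊥) (g : M) (dis : ⁅cj g L, L⁆ = ⊥) : False := by
  have : Finite T := Finite.of_injective _ h.inj
  obtain ⟨v, hv, w, hw, k⟩ := h.ex
  have hz := h.le (commutator_mem_commutator hv hw)
  have a1 : ∀ x ∈ Vv i (cj g L), x ∈ Dd i L := fun x hx =>
    commutator_eq_bot_iff_le_centralizer.1 dis (core_le _ hx)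
  have mR : ∀ x, j x ∈ R := fun x => h.rng' ▸ ⟨x, rfl⟩
  have a2 : ∀ x ∈ Vv i (cj g L), j x ∈ 𝒞(pCoreOf 2 L) := fun x hx => by
    by_contra hn
    have k1 := h.f1.two _ (mR x) _ (mR v) (h.jn1 (h.jJ hx)) (h.jn1 (h.jJ1 hv)) hn fun e =>
      k (commutatorElement_eq_one_iff_mul_comm.2 (h.inj' (by rw [map_mul, map_mul]; exact (e _ hw).symm)))
    have k2 := conj_eq_of_mem k1 (conj_mem (norm_le_norm_core _ (h.jn1 (h.jJ1 hv))) hw)
    have k3 : ⁅x, w⁆ = ⁅v, w⁆ := h.inj' (by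
      simp only [commutatorElement_def, map_mul, map_inv]
      rw [← k2]
      group)
    exact k (h.DV (a1 _ (k3 ▸ h.comm_mem hx (h.jn g (h.symm.jJ1 hw)))) hz.1)
  have a3 : ∀ x : Vv i (cj g L), ∃ y : (Vv i L ⊓ Vv j L : Subgroup T), x * (y : T)⁻¹ ∈ Dd j L := fun ⟨x, hx⟩ => by
    obtain ⟨u, hu, e⟩ := h.f1.g _ (mR x) (h.jn1 (h.jJ hx)) (a2 x hx)
    obtain ⟨y, rfl⟩ : u ∈ j.range := h.rng' ▸ thompsonSubgroupOf_le _ (h.f1.J hu)
    have e' : x * y⁻¹ ∈ Dd j L := by simpa using e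
    refine ⟨⟨y, h.symm.cY.2.2 ⟨hu, fun a ha => ?_⟩, hu⟩, e'⟩
    have m1 : ⁅a, x * y⁻¹⁆ ∈ Vv i L := h.comm_mem ha (h.jn1 (by
      rw [map_mul, map_inv]
      exact mul_mem ((h.f3 g).J hx) (inv_mem (h.symm.jJ1 hu))))
    have m2 : ⁅a, x * y⁻¹⁆ ∈ Dd j L := by
      rw [commutatorElement_def]
      refine mul_mem ?_ (inv_mem e')
      rw [mem_comap, map_mul, map_mul, map_inv]
      exact conj_mem (norm_le_norm_cent _ (h.jn1 (h.jJ1 ha))) e'
    have c1 : Commute a (x * y⁻¹) := commutatorElement_eq_one_iff_commute.1 (h.DV' m2 m1)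
    have c2 : Commute a x := h.Dc (a1 x hx) ha
    have c3 := c1.inv_right.mul_right c2
    rwa [mul_inv_rev, inv_inv, inv_mul_cancel_right] at c3
  choose f hf using a3
  have k4 := Nat.card_le_card_of_injective f fun a b e => Subtype.ext (by
    have m := mul_mem (hf a) (inv_mem (hf b))
    rw [e, mul_inv_rev, inv_inv, mul_assoc, inv_mul_cancel_left] at m
    exact mul_inv_eq_one.1 (mem_bot.1 (hD ▸ ⟨(Dd i L).mul_mem (a1 _ a.2) ((Dd i L).inv_mem (a1 _ b.2)), m⟩ :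
      (a : T) * (b : T)⁻¹ ∈ (⊥ : Subgroup T))))
  rw [h.card, h.cY.2.1] at k4
  omega

end Cx

end K3ax

theorem k3a (h1 : SH.{u}) (h2 : LC.{u}) : K3a.{u} := by
  intro T M _ _ _ i Γ L γ c hγ a3 f3 ne
  obtain ⟨c', rng, hJ, -⟩ := h1 T M i Γ L γ c hγ
  have h : K3ax.Cx i.range i (em i γ) L := ⟨c.inj, c'.inj, rfl, rng, hJ, by simpa only [cj_one] using c.bk 1, f3,
    fun g => (h2 M (ZMod 2) i.range L).2.2.1 g a3, fun g => (h2 M (ZMod 2) i.range _).2.2.2 (c.bk g), ne⟩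
  have hD : Dd i L ⊓ Dd (em i γ) L = ⊥ := by
    refine le_bot_iff.1 fun x hx => ?_
    by_contra hx1
    obtain ⟨l, hl, k⟩ := c.chain x hx1
    obtain ⟨v, hv, w, hw, k1⟩ := h.ex
    have k2 : v * w ≠ w * v := fun e => k1 (commutatorElement_eq_one_iff_mul_comm.2 e)
    have hz := h.le (commutator_mem_commutator hv hw)
    have m : ∀ a ∈ Vv i L, a ∈ centralizer ({x} : Set T) := fun a ha =>
      mem_centralizer_singleton_iff.2 (h.Dc hx.1 ha)
    obtain ⟨g, hg, e⟩ := h.tr hv hw k2 hz k1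
    obtain ⟨g', hg', e'⟩ := h.symm.tr hw hv k2.symm ⟨hz.2, hz.1⟩ k1
    have l1 := k 1 (one_mem _) g (hx.1 g hg) _ (m _ hz.1) v e
    have l2 := k γ hγ g' (hx.2 g' hg') _ (m _ hz.1) w e'
    have l3 := hl.com v (m v hv) w (mem_centralizer_singleton_iff.2 (h.symm.Dc hx.2 hw)) k1
    rw [l1, l2, max_self] at l3
    exact lt_irrefl _ l3
  exact ⟨hD, fun g _ => cj_eq_iff_mem.1 ((c.dis g).resolve_right (h.norm hD g)), h.cY.1, h.cY.2.1⟩

end CL.HK
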