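/-
Project HK (S5175): the structure of `T` for a pair of `A₃`-blocks.
-/
import Cfsg.Agent.HK.Core

set_option autoImplicit false

open Cfsg Subgroup
open scoped commutatorElement

namespace CL.HK

open CL.Fus CL.Loc CL.Grp CL.Even

universe u

namespace K3bx

variable {T M : Type u} [Group T] [Group M]

/-- one side of the pair -/
structure Sd (V D : Subgroup T) : Prop where
  nV : V.Normal
  nD : D.Normal
  card : Nat.card V = 4
  sq : ∀ v ∈ V, v * v = 1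
  cm : ∀ a ∈ V, ∀ b ∈ V, a * b = b * a
  DV : ∀ d ∈ D, ∀ v ∈ V, v * d = d * v
  z : ∀ v ∈ V, v ∈ D → v = 1
  g : ∀ x ∈ 𝒞(V), ∃ v ∈ V, x * v⁻¹ ∈ D
  two : ∀ x y, x ∉ 𝒞(V) → y ∉ 𝒞(V) → x * y⁻¹ ∈ 𝒞(V)

theorem Sd.cen {V D : Subgroup T} (h : Sd V D) : 𝒞(V) ≤ V ⊔ D := fun x hx => by
  obtain ⟨v, hv, e⟩ := h.g x hx
  simpa using mul_mem (mem_sup_right (S := V) e) (mem_sup_left hv)

theorem side [Finite M] {k : T →* M} {Γ : Subgroup (MulAut T)} {L : Subgroup M} (h : Core k Γ L) (a : A3 L)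
    (f : F3 k.range L) (n : k.range ≤ 𝒩(L)) : Sd (Vv k L) (Dd k L) ∧ Uu k = Vv k L ⊔ Dd k L ∧
      Nat.card (Uu k) = Nat.card (pCore 2 M) := by
  have := Fact.mk Nat.prime_two
  have := Finite.of_injective k h.inj
  have bk : Bk k.range L := by simpa only [cj_one] using h.bk 1
  have h1 : pCore 2 M ≤ k.range :=
    bk.syl.le_of_normalized (pCore_isPGroup 2 M) le_top (by rw [normalizer_eq_top])
  have h2 := bk.core.trans h1
  have cd : ∀ X ≤ k.range, Nat.card (X.comap k) = Nat.card X := fun X hX => by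
    rw [CL.Grp.card_comap, (MonoidHom.ker_eq_bot_iff k).2 h.inj, card_bot, one_mul, inf_eq_left.2 hX]
  have c : ∀ x, x ∈ 𝒞(Vv k L) ↔ k x ∈ 𝒞(pCoreOf 2 L) := fun x =>
    ⟨fun e y hy => by
      obtain ⟨y, rfl⟩ := h2 hy
      rw [← map_mul, ← map_mul, e y hy], fun e y hy => h.inj (by rw [map_mul, map_mul, e _ hy])⟩
  have nr : ∀ X : Subgroup M, 𝒩(L) ≤ 𝒩(X) → (X.comap k).Normal := fun X hX => ⟨fun x hx g => by
    rw [mem_comap, map_mul, map_mul, map_inv]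
    exact conj_mem (hX (n ⟨g, rfl⟩)) hx⟩
  have s : Sd (Vv k L) (Dd k L) :=
    { nV := nr _ (normalizer_le_normalizer_pCoreOf 2 L)
      nD := nr _ (norm_le_norm_cent L)
      card := (cd _ h2).trans a.1
      sq := fun v hv => h.inj (by rw [map_mul, map_one, ← pow_two, bk.ea.2 _ hv])
      cm := fun a ha b hb => h.inj (by
        rw [map_mul, map_mul]
        exact congrArg Subtype.val (bk.ea.1.is_comm.comm ⟨k a, ha⟩ ⟨k b, hb⟩))
      DV := fun d hd v hv => h.inj (by rw [map_mul, map_mul]; exact hd _ (map_subtype_le _ hv))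
      z := fun v hv hd => h.inj (by rw [map_one]; exact f.z.le ⟨hv, hd⟩)
      g := fun x hx => by
        obtain ⟨v, hv, e⟩ := f.g _ ⟨x, rfl⟩ (n ⟨x, rfl⟩) ((c x).1 hx)
        obtain ⟨v, rfl⟩ := h2 hv
        exact ⟨v, hv, by rwa [mem_comap, map_mul, map_inv]⟩
      two := fun x y hx hy => (c _).2 (by
        rw [map_mul, map_inv]
        exact f.two _ ⟨x, rfl⟩ _ ⟨y, rfl⟩ (n ⟨x, rfl⟩) (n ⟨y, rfl⟩) (fun e => hx ((c x).2 e)) fun e => hy ((c y).2 e)) }
  refine ⟨s, eq_of_le_of_card_ge (fun x hx => s.cen ((c x).2 (f.core _ hx (n ⟨x, rfl⟩)))) ?_, cd _ h1⟩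
  have := s.nV
  have := s.nD
  rw [cd _ h1]
  refine h.mx _ (fun e => ?_) inferInstance ?_
  · have := s.card
    rw [le_bot_iff.1 (le_sup_left.trans e.le), card_bot] at this
    omega
  · rw [Subgroup.map_sup, map_comap_eq_self h2]
    exact le_norm_sup (le_normalizer_pCoreOf 2 L)
      ((le_centralizer_iff.1 (map_comap_le k 𝒞(L))).trans (cent_le_norm _))

theorem uniq [Finite T] {X : Subgroup T} (h : Nat.card X ≤ 2) {a b : T} (ha : a ∈ X) (hb : b ∈ X) (a1 : a ≠ 1)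
    (b1 : b ≠ 1) : a = b := by
  by_contra e
  have := Nat.card_le_card_of_injective (![1, ⟨a, ha⟩, ⟨b, hb⟩] : Fin 3 → X) fun i j => by
    fin_cases i <;> fin_cases j <;> simp [Subtype.ext_iff, a1, b1, a1.symm, b1.symm, e, Ne.symm e]
  rw [Nat.card_fin] at this
  omega

/-- the pair -/
structure Pr (V D W D' : Subgroup T) : Prop where
  s : Sd V D
  s' : Sd W D'
  disj : ∀ d ∈ D, d ∈ D' → d = 1
  nc : ¬ W ≤ 𝒞(V)
  card : Nat.card (V ⊓ W : Subgroup T) = 2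

variable [Finite T] {V D W D' : Subgroup T}

omit [Finite T] in
theorem Pr.symm (h : Pr V D W D') : Pr W D' V D :=
  ⟨h.s', h.s, fun d a b => h.disj d b a, fun e => h.nc (le_centralizer_iff.1 e), inf_comm V W ▸ h.card⟩

theorem Pr.mid (h : Pr V D W D') {X : Subgroup T} (h1 : V ⊓ W ≤ X) {v : T} (hv : v ∈ V) (vX : v ∈ X) (vW : v ∉ W) :
    V ≤ X := by
  have a : Nat.card (V ⊓ X : Subgroup T) ∣ 2 ^ 2 := (card_dvd_of_le inf_le_left).trans h.s.card.dvd
  obtain ⟨i, hi, e⟩ := (Nat.dvd_prime_pow Nat.prime_two).1 a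
  rcases Nat.lt_or_ge i 2 with k | k
  · refine absurd ((eq_of_le_of_card_ge (le_inf inf_le_left h1) ?_).ge (⟨hv, vX⟩ : v ∈ V ⊓ X)).2 vW
    rw [e, h.card]
    interval_cases i <;> decide
  · refine (eq_of_le_of_card_ge (inf_le_left (b := X)) ?_).ge.trans inf_le_right
    rw [e, h.s.card, le_antisymm hi k]
    rfl

theorem Pr.cV (h : Pr V D W D') {v : T} (hv : v ∈ V) (c : v ∈ 𝒞(W)) : v ∈ W := by_contra fun e =>
  h.symm.nc (h.mid (fun y hy w hw => h.s'.cm w hw y hy.2) hv c e)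

theorem Pr.nd (h : Pr V D W D') {v w : T} (hv : v ∈ V) (hw : w ∈ W) (c : v * w = w * v) : v ∈ W ∨ w ∈ V :=
  or_iff_not_imp_left.2 fun e => h.symm.cV hw fun y hy => mem_centralizer_singleton_iff.1
    (h.mid (fun y hy => mem_centralizer_singleton_iff.2 (h.s'.cm y hy.2 w hw)) hv
      (mem_centralizer_singleton_iff.2 c) e hy)

theorem Pr.DW (h : Pr V D W D') {d : T} (hd : d ∈ D) (hw : d ∈ W) : d = 1 :=
  h.s.z d (h.symm.cV hw (h.s.DV d hd)) hd

theorem Pr.cW (h : Pr V D W D') {d : T} (hd : d ∈ D) : d ∈ 𝒞(W) := fun w hw =>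
  (commute_of_normal_of_disjoint W D h.s'.nV h.s.nD (disjoint_def.2 fun a b => h.DW b a) w d hw hd).eq

theorem Pr.dec (h : Pr V D W D') {d : T} (hd : d ∈ D) : ∃ y ∈ V ⊓ W, d * y⁻¹ ∈ D' := by
  obtain ⟨w, hw, e⟩ := h.s'.g d (h.cW hd)
  refine ⟨w, ⟨h.symm.cV hw ?_, hw⟩, e⟩
  simpa using mul_mem (inv_mem (h.symm.cW e)) (show d ∈ 𝒞(V) from h.s.DV d hd)

theorem Pr.le (h : Pr V D W D') : D ≤ (V ⊓ W) ⊔ D' := fun d hd => by
  obtain ⟨y, hy, e⟩ := h.dec hd
  simpa using mul_mem (mem_sup_right (S := V ⊓ W) e) (mem_sup_left hy)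

theorem Pr.cardD (h : Pr V D W D') : Nat.card D ≤ 2 := by
  choose y h1 h2 using fun d : D => h.dec d.2
  refine h.card ▸ Nat.card_le_card_of_injective (fun d => (⟨y d, h1 d⟩ : (V ⊓ W : Subgroup T))) fun a b e => ?_
  have e' : y a = y b := congrArg Subtype.val e
  refine Subtype.ext (mul_inv_eq_one.1 (h.disj _ (mul_mem a.2 (inv_mem b.2)) ?_))
  simpa [e'] using mul_mem (h2 a) (inv_mem (h2 b))

theorem Pr.Dc (h : Pr V D W D') : D ≤ center T := fun d hd => mem_center_iff.2 fun g => by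
  by_cases e : d = 1
  · simp [e]
  · exact mul_inv_eq_iff_eq_mul.1 (uniq h.cardD (h.s.nD.conj_mem d hd g) hd (by simpa using e) e)

theorem Pr.Dsq (h : Pr V D W D') {d : T} (hd : d ∈ D) : d * d = 1 := by
  by_cases e : d = 1
  · simp [e]
  · exact mul_eq_one_iff_eq_inv.2 (uniq h.cardD hd (inv_mem hd) e (by simpa using e))

theorem Pr.top (h : Pr V D W D') : V ⊔ W ⊔ D = ⊤ := (eq_top_iff' _).2 fun x => by
  have l : 𝒞(V) ≤ V ⊔ W ⊔ D := h.s.cen.trans (sup_le_sup_right le_sup_left _)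
  obtain ⟨w, hw, e⟩ := SetLike.not_le_iff_exists.1 h.nc
  by_cases c : x ∈ 𝒞(V)
  · exact l c
  · simpa using mul_mem (l (h.s.two x w c e)) (mem_sup_left (mem_sup_right hw))

theorem ea (s : Sd V D') (c : D ≤ center T) (q : ∀ d ∈ D, d * d = 1) (n : D.Normal) : IsElementaryAbelian 2 (V ⊔ D) := by
  have sq : ∀ x ∈ V ⊔ D, x * x = 1 := fun x hx => by
    obtain ⟨v, hv, d, hd, rfl⟩ := mem_sup_of_normal_right.1 hx
    rw [mul_assoc, ← mul_assoc d, ← mem_center_iff.1 (c hd) v, mul_assoc, q d hd, mul_one, s.sq v hv]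
  refine ⟨⟨⟨fun a b => Subtype.ext ?_⟩⟩, fun a ha => (pow_two a).trans (sq a ha)⟩
  have i : ∀ x ∈ V ⊔ D, x⁻¹ = x := fun x hx => inv_eq_of_mul_eq_one_right (sq x hx)
  change (a : T) * b = b * a
  rw [← i _ (mul_mem a.2 b.2), mul_inv_rev, i _ a.2, i _ b.2]

end K3bx

open K3bx

theorem k3b (h1 : SH.{u}) : K3b.{u} := by
  intro T M _ _ _ i Γ L γ h hγ a f dd n hY cY
  have := Finite.of_injective i h.inj
  obtain ⟨h', r, -, -⟩ := h1 T M i Γ L γ h hγ
  obtain ⟨s, U, c⟩ := side h a f n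
  obtain ⟨s', U', c'⟩ := side h' a (r ▸ f) (r ▸ n)
  generalize em i γ = j at *
  have p : Pr (Vv i L) (Dd i L) (Vv j L) (Dd j L) := ⟨s, s', fun d a b => dd.le ⟨a, b⟩, fun e => by
    rw [← hY, commutator_comm, commutator_eq_bot_iff_le_centralizer.2 e, card_bot] at cY
    omega, cY⟩
  have U2 : Uu j = Vv j L ⊔ Dd i L := U'.trans (le_antisymm
    (sup_le le_sup_left (p.symm.le.trans (sup_le_sup_right inf_le_left _)))
    (sup_le le_sup_left (p.le.trans (sup_le_sup_right inf_le_right _))))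
  have := s.nV
  have := s'.nV
  have := s.nD
  refine ⟨⟨U, U2, p.top, p.cardD, p.Dc, dd, eq_bot_iff.2 fun d hd => ?_, inf_comm (Vv j L) _ ▸ p.symm.le, hY, cY⟩,
    U ▸ ea s p.Dc (fun _ => p.Dsq) s.nD, U2 ▸ ea s' p.Dc (fun _ => p.Dsq) s.nD, inferInstance, inferInstance,
    c.trans c'.symm, fun e => p.nc ?_, fun x hx => ?_⟩
  · obtain ⟨v, hv, w, hw, e⟩ := mem_sup_of_normal_right.1 hd.2
    refine p.DW hd.1 (e ▸ mul_mem (p.cV hv ?_) hw)
    rw [eq_mul_inv_of_mul_eq e]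
    exact mul_mem (p.cW hd.1) (inv_mem fun y hy => s'.cm y hy w hw)
  · refine (le_sup_left.trans (U2.symm.trans (e.symm.trans U)).le).trans (sup_le (fun y hy v hv => s.cm v hv y hy) s.DV)
  · obtain ⟨y, hy, d, hd, rfl⟩ := mem_sup_of_normal_right.1 (p.top.ge (mem_top x))
    obtain ⟨v, hv, w, hw, rfl⟩ := mem_sup_of_normal_right.1 hy
    rw [mul_assoc, ← mul_assoc d, ← mem_center_iff.1 (p.Dc hd), mul_assoc _ d, p.Dsq hd, mul_one] at hx
    have e : v * w = w * v := by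
      rw [← inv_eq_of_mul_eq_one_right hx, mul_inv_rev, inv_eq_of_mul_eq_one_right (s.sq v hv),
        inv_eq_of_mul_eq_one_right (s'.sq w hw)]
    rw [U, U2]
    rcases p.nd hv hw e with k | k
    · exact .inr (mul_mem_sup (mul_mem k hw) hd)
    · exact .inl (mul_mem_sup (mul_mem hv k) hd)

end CL.HK
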