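/-
Project HK (S5175): a pair of non-commuting `A₅`-blocks is impossible.
-/
import Cfsg.Agent.HK.Core

set_option autoImplicit false

open Cfsg Subgroup
open scoped commutatorElement

namespace CL.HK

open CL.Fus CL.Loc CL.Grp CL.Even Equiv

universe u

namespace K5x

def E (a b : Fin 5) : Fin 5 → ZMod 2 := fun k => if k = a ∨ k = b then 1 else 0

def ac (x : Fin 5 → ZMod 2) (s : Perm (Fin 5)) : Fin 5 → ZMod 2 := fun k => x (s⁻¹ k)

def K4 (a b c d : Fin 5) (s : Perm (Fin 5)) : Prop :=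
  s = 1 ∨ s = swap a b ∨ s = swap c d ∨ s = swap a b * swap c d

theorem f0 : ∀ a b c d : Fin 5, [a, b, c, d].Nodup → ∃ e, [a, b, c, d, e].Nodup := by decide +kernel

set_option synthInstance.maxSize 4000 in
set_option synthInstance.maxHeartbeats 200000 in
theorem f1 : ∀ a b c d e : Fin 5, [a, b, c, d, e].Nodup → [c, d, a, b, e].Nodup ∧
    swap a b * swap c d = swap c d * swap a b ∧ swap a c * swap b d = swap c a * swap d b ∧
    E a e + ac (E a e) (swap a b) = E a b ∧ E a e + ac (E a e) (swap c d) = 0 ∧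
    E a e + ac (E a e) (swap a b * swap c d) = E a b ∧ E a b ≠ 0 ∧ E a b ≠ E c d ∧ ∑ k, E a e k = 0 ∧
    swap b e * swap c d ∈ alternatingGroup (Fin 5) ∧ ac (E a b) (swap b e * swap c d) = E a e ∧
    ac (E c d) (swap b e * swap c d) = E c d ∧ ac (E a b) (swap a c * swap b d) = E c d := by
  simp only [Perm.mem_alternatingGroup]
  decide +kernel

theorem f2 : ∀ (a b : Fin 5) (x : Fin 5 → ZMod 2), x + ac x 1 = 0 ∧
    (x + ac x (swap a b) = 0 ∨ x + ac x (swap a b) = E a b) := by decide +kernel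

theorem f3 : ∀ x y : ZMod 2, x + y = 0 → x = y := by decide

variable {a b c d e a' b' c' d' e' : Fin 5} {s : Perm (Fin 5)}

theorem K4.symm (n : [a, b, c, d, e].Nodup) (h : K4 a b c d s) : K4 c d a b s := by
  rw [K4, ← (f1 a b c d e n).2.1]
  rw [K4] at h
  tauto

theorem K4.ae (n : [a, b, c, d, e].Nodup) (h : K4 a b c d s) : E a e + ac (E a e) s = 0 ∨ E a e + ac (E a e) s = E a b := by
  obtain ⟨-, -, -, h1, h2, h3, -⟩ := f1 a b c d e n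
  rcases h with rfl | rfl | rfl | rfl
  exacts [.inl (f2 a b _).1, .inr h1, .inl h2, .inr h3]

theorem K4.cases (n : [a, b, c, d, e].Nodup) (h : K4 a b c d s) :
    (s = 1 ∨ s = swap a b) ∨ E c e + ac (E c e) s = E c d := by
  obtain ⟨n', k, -⟩ := f1 a b c d e n
  obtain ⟨-, -, -, h1, -, h3, -⟩ := f1 c d a b e n'
  rcases h with rfl | rfl | rfl | rfl
  exacts [.inl (.inl rfl), .inl (.inr rfl), .inr h1, .inr (k ▸ h3)]

theorem two (h : s = 1 ∨ s = swap a b) (x : Fin 5 → ZMod 2) : x + ac x s = 0 ∨ x + ac x s = E a b := by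
  rcases h with rfl | rfl
  exacts [.inl (f2 a b x).1, (f2 a b x).2]

variable {T M : Type u} [Group T] [Group M] {i j : T →* M} {L : Subgroup M} {π : M → Perm (Fin 5)}
  {ψ : M → Fin 5 → ZMod 2} {v w : T}

theorem ψ_one (P : P5 L π ψ) : ψ 1 = 0 := by
  have := P.ψ_mul 1 (one_mem _) 1 (one_mem _)
  rwa [mul_one, left_eq_add] at this

theorem ψ_inv (P : P5 L π ψ) {x : M} (hx : x ∈ pCoreOf 2 L) : ψ x⁻¹ = ψ x := funext fun k => f3 _ _ (by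
  have := congrFun (P.ψ_mul _ (inv_mem hx) _ hx) k
  rw [inv_mul_cancel, ψ_one P] at this
  exact this.symm)

theorem ψ_eq (P : P5 L π ψ) {x y : M} (hx : x ∈ pCoreOf 2 L) (hy : y ∈ pCoreOf 2 L) (h : ψ x = ψ y) : x = y :=
  mul_inv_eq_one.1 (P.ψ_inj _ (mul_mem hx (inv_mem hy)) (by
    rw [P.ψ_mul _ hx _ (inv_mem hy), ψ_inv P hy, h]
    exact funext fun k => CharTwo.add_self_eq_zero _))

theorem ψ_cj (P : P5 L π ψ) {m x : M} (hm : m ∈ 𝒩(L)) (hx : x ∈ pCoreOf 2 L) :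
    m * x * m⁻¹ ∈ pCoreOf 2 L ∧ ψ (m * x * m⁻¹) = ac (ψ x) (π m) :=
  ⟨conj_mem (norm_le_norm_core L hm) hx, funext (P.ψ_conj m hm x hx)⟩

theorem cm (P : P5 L π ψ) (hv : v ∈ Vv i L) (hw : i w ∈ 𝒩(L)) :
    ⁅v, w⁆ ∈ Vv i L ∧ ψ (i ⁅v, w⁆) = ψ (i v) + ac (ψ (i v)) (π (i w)) := by
  have e : i ⁅v, w⁆ = i v * (i w * (i v)⁻¹ * (i w)⁻¹) := by
    simp only [commutatorElement_def, map_mul, map_inv, mul_assoc]
  obtain ⟨h1, h2⟩ := ψ_cj P hw (inv_mem hv : (i v)⁻¹ ∈ pCoreOf 2 L)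
  exact ⟨show i ⁅v, w⁆ ∈ pCoreOf 2 L from e ▸ mul_mem hv h1, by rw [e, P.ψ_mul _ hv _ h1, h2, ψ_inv P hv]⟩

theorem cm' (P : P5 L π ψ) (hv : v ∈ Vv i L) (hw : i w ∈ 𝒩(L)) :
    ⁅w, v⁆ ∈ Vv i L ∧ ψ (i ⁅w, v⁆) = ψ (i v) + ac (ψ (i v)) (π (i w)) := by
  obtain ⟨h1, h2⟩ := cm P hv hw
  rw [← commutatorElement_inv]
  exact ⟨inv_mem h1, by rw [map_inv, ψ_inv P h1, h2]⟩

theorem ne0 (P : P5 L π ψ) (hi : Function.Injective i) (hv : v ∈ Vv i L) (h : v ≠ 1) : ψ (i v) ≠ 0 := fun k =>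
  h (hi ((P.ψ_inj _ hv k).trans i.map_one.symm))

theorem ne1 (P : P5 L π ψ) (h : ψ (i v) ≠ 0) : v ≠ 1 := by
  rintro rfl
  exact h (by rw [map_one, ψ_one P])

theorem main {Γ : Subgroup (MulAut T)} {γ : MulAut T} (C : Core i Γ L) (hγ : γ ∈ Γ) (hj : j = em i γ)
    (ji : Function.Injective j) (ea : pCoreOf 2 L ≤ 𝒞(pCoreOf 2 L)) (P : P5 L π ψ)
    (ex : ∀ x : Fin 5 → ZMod 2, ∑ k, x k = 0 → ∃ v ∈ Vv i L, ψ (i v) = x)
    (n : [a, b, c, d, e].Nodup) (n' : [a', b', c', d', e'].Nodup)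
    (hW : ∀ w ∈ Vv j L, i w ∈ 𝒩(L) ∧ K4 a b c d (π (i w))) (hV : ∀ v ∈ Vv i L, j v ∈ 𝒩(L) ∧ K4 a' b' c' d' (π (j v)))
    {t : T} (ht : i t ∈ L) (πt : π (i t) = swap a c * swap b d) (hv : v ∈ Vv i L) (ψv : ψ (i v) = E a e)
    (hw : w ∈ Vv j L) (ψw : ψ (j w) = E a' e') (hne : ⁅v, w⁆ ≠ 1) : False := by
  obtain ⟨m, -, -, -, -, -, p0, p1, -, p2, p3, p4, p5⟩ := f1 a b c d e n
  obtain ⟨m', -, -, -, -, -, q0, -, -, q2, q3, q4, -⟩ := f1 a' b' c' d' e' n'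
  obtain ⟨-, -, -, -, -, -, r0, -, r1, -⟩ := f1 c d a b e m
  obtain ⟨zV, z1⟩ := cm P hv (hW w hw).1
  obtain ⟨zW, z2⟩ := cm' P hw (hV v hv).1
  rw [ψv] at z1
  rw [ψw] at z2
  have z1 : ψ (i ⁅v, w⁆) = E a b := z1.trans (((hW w hw).2.ae n).resolve_left (z1 ▸ ne0 P C.inj zV hne))
  have z2 : ψ (j ⁅v, w⁆) = E a' b' := z2.trans (((hV v hv).2.ae n').resolve_left (z2 ▸ ne0 P ji zW hne))
  obtain ⟨g, hg, πg⟩ := P.π_surj _ p2
  obtain ⟨g', hg', πg'⟩ := P.π_surj _ q2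
  have cV : ∀ x ∈ Vv i L, ∀ y ∈ Vv i L, y ∈ centralizer ({x} : Set T) := fun x hx y hy =>
    mem_centralizer_singleton_iff.2 (C.inj (by rw [map_mul, map_mul]; exact comm_of_mem (ea hx) hy))
  have fin : ∀ x ∈ Vv i L, ψ (i x) = E c d → j w * j x = j x * j w → g' * j x = j x * g' → False := by
    intro x hx ψx c1 c2
    obtain ⟨l, hl, k⟩ := C.chain x (ne1 P (ψx ▸ r0))
    have cw : w ∈ centralizer ({x} : Set T) :=
      mem_centralizer_singleton_iff.2 (ji (by rw [map_mul, map_mul]; exact c1))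
    obtain ⟨a1, a2⟩ := ψ_cj P (le_normalizer hg) hx
    obtain ⟨b1, b2⟩ := ψ_cj P (le_normalizer hg) zV
    obtain ⟨d1, d2⟩ := ψ_cj P (le_normalizer hg') zW
    have e1 : g * i x = i x * g := mul_inv_eq_iff_eq_mul.1 (ψ_eq P a1 hx (by rw [a2, πg, ψx, p4]))
    have e2 : i v = g * i ⁅v, w⁆ * g⁻¹ := ψ_eq P hv b1 (by rw [b2, πg, z1, p3, ψv])
    have l1 := k 1 (one_mem _) g e1 _ (cV x hx _ zV) v e2
    have l2 := k γ hγ g' (hj ▸ c2) _ (cV x hx _ zV) w (hj ▸ ψ_eq P hw d1 (by rw [d2, πg', z2, q3, ψw]))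
    have := hl.com v (cV x hx v hv) w cw hne
    omega
  by_cases h : ∀ w ∈ Vv j L, π (i w) = 1 ∨ π (i w) = swap a b
  · obtain ⟨x1, x2⟩ := ψ_cj P (le_normalizer ht) zV
    rw [πt, z1, p5, ← map_inv, ← map_mul, ← map_mul] at x2
    rw [← map_inv, ← map_mul, ← map_mul] at x1
    rcases C.dis (j t) with k | k
    · have t1 : t * v * t⁻¹ ∈ Vv i L := by
        simpa only [mem_comap, map_mul, map_inv] using (ψ_cj P (le_normalizer ht) hv).1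
      have t2 : t * w * t⁻¹ ∈ Vv j L := by
        simpa only [mem_comap, map_mul, map_inv] using (ψ_cj P (cj_eq_iff_mem.1 k) hw).1
      have := (cm P t1 (hW _ t2).1).2
      rw [← conjugate_commutatorElement, x2] at this
      rcases two (h _ t2) (ψ (i (t * v * t⁻¹))) with k' | k'
      exacts [r0 (this.trans k'), p1 (this.trans k').symm]
    · have : j (t * ⁅v, w⁆ * t⁻¹) ∈ cj (j t) L := by
        rw [map_mul, map_mul, map_inv]
        exact conj_mem_cj _ (core_le L zW)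
      exact fin _ x1 x2 (comm_of_mem (commutator_eq_bot_iff'.1 k (core_le L hw)) this).symm
        (comm_of_mem (commutator_eq_bot_iff'.1 k hg') this).symm
  · push Not at h
    obtain ⟨w', hw', h⟩ := h
    obtain ⟨v', hv', ψv'⟩ := ex _ r1
    obtain ⟨x1, x2⟩ := cm P hv' (hW w' hw').1
    obtain ⟨y1, y2⟩ := cm' P hw' (hV v' hv').1
    rw [ψv', ((hW w' hw').2.cases n).resolve_left (not_or.2 h)] at x2
    refine fin _ x1 x2 (comm_of_mem (ea y1) hw) ?_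
    rcases ((hV v' hv').2.symm n').cases m' with k | k
    · obtain ⟨a1, a2⟩ := ψ_cj P (le_normalizer hg') y1
      refine mul_inv_eq_iff_eq_mul.1 (ψ_eq P a1 y1 ?_)
      rw [a2, πg', y2]
      rcases two k (ψ (j w')) with k' | k' <;> rw [k']
      exacts [rfl, q4]
    · obtain ⟨u1, u2⟩ := cm' P hw (hV v' hv').1
      have e1 : ⁅v', w⁆ = ⁅v, w⁆ := ji (ψ_eq P u1 zW (by rw [u2, ψw, k, z2]))
      have := (cm P hv' (hW w hw).1).2
      rw [e1, z1, ψv'] at this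
      rcases ((hW w hw).2.symm n).ae m with k' | k'
      exacts [absurd (this.trans k') p0, absurd (this.trans k') p1]

/-- a non-trivial action is seen by one of two vectors -/
theorem see (P : P5 L π ψ) (n : [a, b, c, d, e].Nodup) (hv : v ∈ Vv i L) (hw : i w ∈ 𝒩(L))
    (k : K4 a b c d (π (i w))) (hi : Function.Injective i) (hne : ⁅v, w⁆ ≠ 1) :
    (∀ v ∈ Vv i L, ψ (i v) = E a e → ⁅v, w⁆ ≠ 1) ∨ ∀ v ∈ Vv i L, ψ (i v) = E c e → ⁅v, w⁆ ≠ 1 := by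
  obtain ⟨m, -, -, h1, -, -, p0, -⟩ := f1 a b c d e n
  obtain ⟨-, -, -, -, -, -, r0, -⟩ := f1 c d a b e m
  rcases k.cases n with (k | k) | k
  · exact absurd ((cm P hv hw).2.trans (k ▸ (f2 a b _).1)) (ne0 P hi (cm P hv hw).1 hne)
  · exact .inl fun v hv e => ne1 (i := i) P (by rw [(cm P hv hw).2, e, k, h1]; exact p0)
  · exact .inr fun v hv e => ne1 (i := i) P (by rw [(cm P hv hw).2, e, k]; exact r0)

end K5x

open K5x in
theorem k5 (h1 : SH.{u}) (h2 : LC.{u}) : K5.{u} := by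
  rintro T M _ _ _ i Γ L γ π ψ C hγ P ⟨hJ, a, b, c, d, n, hK, _, ⟨⟨t, rfl⟩, ht⟩, πt⟩ hne
  obtain ⟨C', rng, Je, -⟩ := h1 T M i Γ L γ C hγ
  obtain ⟨e, n⟩ := f0 a b c d n
  obtain ⟨m, -, sw, -, -, -, -, -, s1, -⟩ := f1 a b c d e n
  obtain ⟨-, -, -, -, -, -, -, -, s2, -⟩ := f1 c d a b e m
  have B : Bk i.range L := by simpa only [cj_one] using C.bk 1
  have JN := (h2 M (ZMod 2) i.range L).2.2.2 B
  have le : pCoreOf 2 L ≤ i.range := B.core.trans (core_top (p := 2) (G := M) ▸ core_le_syl B.syl)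
  have ex : ∀ j : T →* M, j.range = i.range → ∀ x : Fin 5 → ZMod 2, ∑ k, x k = 0 → ∃ v ∈ Vv j L, ψ (j v) = x :=
    fun j hj x hx => by
      obtain ⟨y, hy, rfl⟩ := P.ψ_surj x hx
      obtain ⟨v, rfl⟩ := hj.ge (le hy)
      exact ⟨v, hy, rfl⟩
  have hW : ∀ w ∈ Vv (em i γ) L, i w ∈ 𝒩(L) ∧ K4 a b c d (π (i w)) := fun w hw =>
    have k : i w ∈ 𝐉[2] i.range := Je.le (hJ hw); ⟨JN k, hK _ k⟩
  have hV : ∀ v ∈ Vv i L, em i γ v ∈ 𝒩(L) ∧ K4 a b c d (π (em i γ v)) := fun v hv =>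
    have k : em i γ v ∈ 𝐉[2] i.range := Je.ge (hJ hv); ⟨JN k, hK _ k⟩
  have hW' := fun w hw => And.intro (hW w hw).1 ((hW w hw).2.symm n)
  have hV' := fun v hv => And.intro (hV v hv).1 ((hV v hv).2.symm n)
  have ea := (elem_iff.1 B.ea).1
  have inv : ∀ {x y : T}, ⁅x, y⁆ ≠ 1 → ⁅y, x⁆ ≠ 1 := fun h k => h (by rw [← commutatorElement_inv, k, inv_one])
  obtain ⟨v, hv, w, hw, k⟩ : ∃ v ∈ Vv i L, ∃ w ∈ Vv (em i γ) L, ⁅v, w⁆ ≠ 1 := by
    by_contra k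
    push Not at k
    exact hne (le_bot_iff.1 (commutator_le.2 k))
  obtain ⟨v1, hv1, p1⟩ := ex i rfl _ s1
  obtain ⟨v2, hv2, p2⟩ := ex i rfl _ s2
  obtain ⟨w1, hw1, q1⟩ := ex _ rng _ s1
  obtain ⟨w2, hw2, q2⟩ := ex _ rng _ s2
  rcases see P n hv (hW w hw).1 (hW w hw).2 C.inj k with k | k
  · rcases see P n hw (hV v1 hv1).1 (hV v1 hv1).2 C'.inj (inv (k v1 hv1 p1)) with k' | k'
    · exact main C hγ rfl C'.inj ea P (ex i rfl) n n hW hV ht πt hv1 p1 hw1 q1 (inv (k' w1 hw1 q1))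
    · exact main C hγ rfl C'.inj ea P (ex i rfl) n m hW hV' ht πt hv1 p1 hw2 q2 (inv (k' w2 hw2 q2))
  · rcases see P n hw (hV v2 hv2).1 (hV v2 hv2).2 C'.inj (inv (k v2 hv2 p2)) with k' | k'
    · exact main C hγ rfl C'.inj ea P (ex i rfl) m n hW' hV ht (πt.trans sw) hv2 p2 hw1 q1 (inv (k' w1 hw1 q1))
    · exact main C hγ rfl C'.inj ea P (ex i rfl) m m hW' hV' ht (πt.trans sw) hv2 p2 hw2 q2 (inv (k' w2 hw2 q2))

end CL.HK
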