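/-
Project HK (S5175): the analysis of a pair of linear blocks that do not commute.
-/
import Cfsg.Agent.HK.Core
import Cfsg.Agent.Even.NatSL2b

set_option autoImplicit false

open Cfsg Subgroup
open scoped commutatorElement

namespace CL.HK

open CL.Fus CL.Loc CL.Grp CL.Even Matrix

universe u

namespace KL1x

section
variable {M : Type u} [Group M] {K : Type} [Field K] [Fintype K] {R L : Subgroup M} {N : NS K L}

theorem A_comm (h : LN R L N) {a b : M} (ha : a ∈ pCoreOf 2 L) (hb : b ∈ pCoreOf 2 L) : a * b = b * a :=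
  have := h.ea.1
  congrArg Subtype.val (mul_comm' (⟨a, ha⟩ : pCoreOf 2 L) ⟨b, hb⟩)

theorem A_le (h : LN R L N) : pCoreOf 2 L ≤ R := by
  have := N.ker_le_up
  rw [h.ker, h.up] at this
  exact this.trans inf_le_left

/-- `x` acts on `O₂(L)` as an element of `L` with matrix `sl2Up c` -/
def Act (N : NS K L) (x : M) (c : K) : Prop :=
  ∃ t ∈ L, sl2Up c = N.r t ∧ ∀ u ∈ pCoreOf 2 L, x * u * x⁻¹ = t * u * t⁻¹

theorem act_of_in (h : LN R L N) {x : M} (hx : In R L x) : ∃ c, Act N x c := by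
  obtain ⟨t, ht, hc⟩ := hx
  rw [← h.up] at ht
  obtain ⟨h1, c, e⟩ := N.mem_up.1 ht
  refine ⟨c, t, h1, e, fun u hu => ?_⟩
  have := conj_eq_of_mem hc (conj_mem (N.norm h1) hu)
  rw [← this]
  group

omit [Fintype K] in
theorem Act.mul {x y : M} {c d : K} (hx : Act N x c) (hy : Act N y d) : Act N (x * y) (c + d) := by
  obtain ⟨t, ht, e, h⟩ := hx
  obtain ⟨s, hs, e', h'⟩ := hy
  refine ⟨t * s, L.mul_mem ht hs, by rw [sl2Up_add, e, e', N.r_mul _ ht _ hs], fun u hu => ?_⟩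
  calc x * y * u * (x * y)⁻¹ = x * (y * u * y⁻¹) * x⁻¹ := by group
    _ = t * (s * u * s⁻¹) * t⁻¹ := by rw [h' u hu, h _ (conj_mem (N.norm hs) hu)]
    _ = _ := by group

omit [Fintype K] in
theorem Act.unique {x : M} {c d : K} (hx : Act N x c) (hy : Act N x d) : c = d := by
  obtain ⟨t, ht, e, h⟩ := hx
  obtain ⟨s, hs, e', h'⟩ := hy
  refine sl2Up_injective (sl2_ext fun v => ?_)
  obtain ⟨u, hu, rfl⟩ := N.ψ_surj v
  rw [e, e', ← N.ψ_conj t ht u hu, ← N.ψ_conj s hs u hu, ← h u hu, h' u hu]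

theorem act_zero_iff (h : LN R L N) {x : M} : Act N x 0 ↔ x ∈ 𝒞(pCoreOf 2 L) := by
  constructor
  · rintro ⟨t, ht, e, h1⟩
    have h2 : t ∈ pCoreOf 2 L := h.ker ▸ N.mem_ker.2 ⟨ht, by rw [← e, sl2Up_zero]⟩
    refine mem_centralizer_iff.2 fun u hu => ?_
    have := h1 u hu
    rw [A_comm h h2 hu, mul_inv_cancel_right, mul_inv_eq_iff_eq_mul] at this
    exact this.symm
  · intro hx
    exact ⟨1, L.one_mem, by rw [sl2Up_zero, N.r_one], fun u hu => by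
      rw [conj_eq_of_mem hx hu]; group⟩

theorem Act.div (h : LN R L N) {x t : M} {c : K} (hx : Act N x c) (ht : t ∈ L) (e : sl2Up c = N.r t) :
    x * t⁻¹ ∈ 𝒞(pCoreOf 2 L) := by
  have h1 : Act N t⁻¹ (-c) := ⟨t⁻¹, L.inv_mem ht, by rw [N.r_inv ht, ← e, sl2Up_inv], fun _ _ => rfl⟩
  have := hx.mul h1
  rwa [add_neg_cancel, act_zero_iff h] at this

omit [Fintype K] in
theorem Act.ψ_comm {x u : M} {c : K} (hx : Act N x c) (hu : u ∈ pCoreOf 2 L) :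
    ⁅x, u⁆ ∈ pCoreOf 2 L ∧ N.ψ ⁅x, u⁆ = ![c * N.ψ u 1, 0] := by
  obtain ⟨t, ht, e, h⟩ := hx
  have : ⁅x, u⁆ = ⁅t, u⁆ := by rw [commutatorElement_def, commutatorElement_def, h u hu]
  rw [this]
  exact ⟨N.comm_mem ht hu, N.ψ_comm_up ht e hu⟩

/-- the elements `g` of `L` with `[g, O₂(L)] ≤ X` -/
def cm (N : NS K L) (X : Subgroup M) : Subgroup M where
  carrier := {g | g ∈ L ∧ ∀ v ∈ pCoreOf 2 L, ⁅g, v⁆ ∈ X}
  mul_mem' := by
    rintro g k ⟨hg, h1⟩ ⟨hk, h2⟩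
    refine ⟨L.mul_mem hg hk, fun v hv => ?_⟩
    have : ⁅g * k, v⁆ = ⁅g, k * v * k⁻¹⁆ * ⁅k, v⁆ := by simp only [commutatorElement_def]; group
    rw [this]
    exact X.mul_mem (h1 _ (conj_mem (N.norm hk) hv)) (h2 v hv)
  one_mem' := ⟨L.one_mem, fun v _ => by rw [commutatorElement_one_left]; exact X.one_mem⟩
  inv_mem' := by
    rintro g ⟨hg, h1⟩
    refine ⟨L.inv_mem hg, fun v hv => ?_⟩
    have : ⁅g⁻¹, v⁆ = ⁅g, g⁻¹ * v * g⁆⁻¹ := by simp only [commutatorElement_def]; group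
    rw [this]
    exact X.inv_mem (h1 _ (conj_mem' (N.norm hg) hv))

/-- the antidiagonal matrix -/
def aw (K : Type) [Field K] : SL2 K := ⟨!![0, 1; -1, 0], by simp [det_fin_two]⟩

omit [Fintype K] in
theorem aw_up (c : K) : aw K * sl2Up (-c) = sl2Lo c * aw K := by
  refine Subtype.ext ?_
  rw [Matrix.SpecialLinearGroup.coe_mul, Matrix.SpecialLinearGroup.coe_mul]
  simp [aw, sl2Up_coe, sl2Lo_coe]

omit [Fintype K] in
theorem le_of_up {H : Subgroup M} {n : M} (hn : n ∈ L) (e : N.r n = aw K) (h1 : N.up ≤ H)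
    (h2 : ∀ t ∈ N.up, n * t * n⁻¹ ∈ H) : L ≤ H := by
  have h3 : (H.subgroupOf L).map N.ρ = ⊤ := by
    refine eq_top_of_sl2Up_sl2Lo_mem _ (fun c => ?_) fun c => ?_
    · obtain ⟨t, ht, e1⟩ := N.r_surj (sl2Up c)
      exact ⟨⟨t, ht⟩, h1 (N.mem_up.2 ⟨ht, c, e1.symm⟩), e1⟩
    · obtain ⟨t, ht, e1⟩ := N.r_surj (sl2Up (-c))
      refine ⟨⟨n * t * n⁻¹, conj_mem (le_normalizer hn) ht⟩, h2 t (N.mem_up.2 ⟨ht, -c, e1.symm⟩), ?_⟩
      change N.r (n * t * n⁻¹) = _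
      rw [N.r_conj hn ht, e, e1, aw_up, mul_inv_cancel_right]
  intro g hg
  obtain ⟨k, hk, e1⟩ : N.r g ∈ (H.subgroupOf L).map N.ρ := h3 ▸ mem_top _
  have h4 := h1 (N.ker_le_up ((N.r_eq_iff hg k.2).1 e1.symm))
  have := H.mul_mem h4 (show (k : M) ∈ H from hk)
  rwa [inv_mul_cancel_right] at this

theorem line_le (h : LN R L N) : N.line ≤ ⁅pCoreOf 2 L, N.up⁆ := by
  obtain ⟨n, hn, e⟩ := N.r_surj (aw K)
  have hn' : n ∉ 𝒩(N.line) := fun h1 => by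
    rw [N.mem_norm_line_iff hn, e] at h1
    simp [aw] at h1
  have hC : ⁅pCoreOf 2 L, N.up⁆ ≤ N.line := N.commutator_le_line le_rfl
  have h0 : ∀ t ∈ N.up, ∀ v ∈ pCoreOf 2 L, ⁅t, v⁆ ∈ ⁅pCoreOf 2 L, N.up⁆ := fun t ht v hv =>
    Subgroup.commutator_comm N.up (pCoreOf 2 L) ▸ commutator_mem_commutator ht hv
  have h1 : L ≤ cm N (⁅pCoreOf 2 L, N.up⁆ ⊔ cj n ⁅pCoreOf 2 L, N.up⁆) := by
    refine le_of_up hn e (fun t ht => ⟨N.up_le ht, fun v hv => mem_sup_left (h0 t ht v hv)⟩)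
      fun t ht => ⟨conj_mem (le_normalizer hn) (N.up_le ht), fun v hv => mem_sup_right ?_⟩
    have : ⁅n * t * n⁻¹, v⁆ = n * ⁅t, n⁻¹ * v * n⁆ * n⁻¹ := by simp only [commutatorElement_def]; group
    rw [this]
    exact conj_mem_cj n (h0 t ht _ (conj_mem' (N.norm hn) hv))
  have h2 : pCoreOf 2 L ≤ ⁅pCoreOf 2 L, N.up⁆ ⊔ cj n ⁅pCoreOf 2 L, N.up⁆ := by
    conv_lhs => rw [← h.comm, Subgroup.commutator_comm]
    exact commutator_le.2 fun g hg v hv => (h1 hg).2 v hv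
  have h3 : ⁅pCoreOf 2 L, N.up⁆ ≤ 𝒩(cj n ⁅pCoreOf 2 L, N.up⁆) := fun x hx =>
    cent_le_norm _ (mem_centralizer_iff.2 fun y hy =>
      A_comm h (N.cj_line_le hn (cj_mono n hC hy)) (N.line_le (hC hx)))
  intro u hu
  obtain ⟨a, ha, b, hb, rfl⟩ := (mem_sup_nr h3).1 (h2 (N.line_le hu))
  have h4 : b ∈ N.line ⊓ cj n N.line :=
    ⟨by simpa using N.line.mul_mem (N.line.inv_mem (hC ha)) hu, cj_mono n hC hb⟩
  rw [N.line_inf_cj hn hn'] at h4
  have h5 := mem_cj.1 hb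
  rw [mul_assoc, ← comm_of_mem h4.2 hn, inv_mul_cancel_left] at h5
  exact mul_mem ha h5

end

section
variable {T M : Type u} [Group T] [Group M] {K : Type} [Field K] [Fintype K] {R L : Subgroup M} {N : NS K L}
  {i j : T →* M}

/-- the symmetric hypotheses -/
structure Hy (R : Subgroup M) (i j : T →* M) (L : Subgroup M) (N : NS K L) : Prop where
  inj : Function.Injective i
  inj' : Function.Injective j
  rng : i.range = R
  rng' : j.range = R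
  ln : LN R L N
  act : ∀ w ∈ Vv j L, i w ∈ 𝒩(L) ∧ In R L (i w)
  act' : ∀ v ∈ Vv i L, j v ∈ 𝒩(L) ∧ In R L (j v)
  ne : ⁅Vv i L, Vv j L⁆ ≠ ⊥

theorem Hy.symm (h : Hy R i j L N) : Hy R j i L N :=
  ⟨h.inj', h.inj, h.rng', h.rng, h.ln, h.act', h.act, Subgroup.commutator_comm (Vv i L) (Vv j L) ▸ h.ne⟩

theorem Hy.pre (h : Hy R i j L N) {u : M} (hu : u ∈ pCoreOf 2 L) : ∃ v ∈ Vv i L, i v = u := by
  obtain ⟨v, rfl⟩ : u ∈ i.range := h.rng ▸ A_le h.ln hu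
  exact ⟨v, hu, rfl⟩

theorem Hy.cent_iff (h : Hy R i j L N) {x : T} : x ∈ 𝒞(Vv i L) ↔ i x ∈ 𝒞(pCoreOf 2 L) := by
  constructor
  · intro hx
    refine mem_centralizer_iff.2 fun u hu => ?_
    obtain ⟨v, hv, rfl⟩ := h.pre hu
    rw [← map_mul, comm_of_mem hx hv, map_mul]
  · intro hx
    exact mem_centralizer_iff.2 fun v hv => h.inj (by rw [map_mul, map_mul]; exact comm_of_mem hx hv)

theorem Hy.le_cent (h : Hy R i j L N) : Vv i L ≤ 𝒞(Vv i L) := fun _ hx =>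
  h.cent_iff.2 (mem_centralizer_iff.2 fun _ hu => A_comm h.ln hu hx)

theorem Hy.comm_le (h : Hy R i j L N) : ⁅Vv j L, Vv i L⁆ ≤ Vv i L :=
  commutator_le.2 fun w hw v hv => by
    obtain ⟨c, hc⟩ := act_of_in h.ln (h.act w hw).2
    rw [mem_comap, map_commutatorElement]
    exact (hc.ψ_comm hv).1

theorem Hy.dich (h : Hy R i j L N) {v w : T} (hv : v ∈ Vv i L) (hw : w ∈ Vv j L) (hc : ⁅i w, i v⁆ ∈ 𝒞(L)) :
    w ∈ 𝒞(Vv i L) ∨ i v ∈ N.line := by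
  obtain ⟨c, h1⟩ := act_of_in h.ln (h.act w hw).2
  obtain ⟨h2, h3⟩ := h1.ψ_comm hv
  rw [(N.ψ_eq_zero _ h2).2 ⟨h2, hc⟩] at h3
  rcases mul_eq_zero.1 (congrFun h3 0).symm with h4 | h4
  · exact Or.inl (h.cent_iff.2 ((act_zero_iff h.ln).1 (h4 ▸ h1)))
  · exact Or.inr (N.mem_line.2 ⟨hv, h4⟩)

theorem Hy.le_line (h : Hy R i j L N) : Vv i L ⊓ 𝒞(Vv j L) ≤ N.line.comap i := by
  obtain ⟨w, hw, h1⟩ := SetLike.not_le_iff_exists.1 (mt commutator_eq_bot_iff'.2 h.ne)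
  intro x hx
  refine (h.dich hx.1 hw ?_).resolve_left h1
  rw [← map_commutatorElement, commutatorElement_eq_one_iff_mul_comm.2 (comm_of_mem hx.2 hw), map_one]
  exact one_mem _

theorem Hy.card_comap (h : Hy R i j L N) {X : Subgroup M} (hX : X ≤ pCoreOf 2 L) :
    Nat.card (X.comap i) = Nat.card X := by
  rw [← Subgroup.card_map_of_injective (K := X.comap i) h.inj,
    Subgroup.map_comap_eq_self (h.rng ▸ hX.trans (A_le h.ln))]

theorem Hy.count [Finite M] (h : Hy R i j L N) :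
    (∀ c, ∃ v ∈ Vv i L, Act N (j v) c) ∧ Vv i L ⊓ 𝒞(Vv j L) = N.line.comap i := by
  have : Finite T := Finite.of_injective i h.inj
  choose b hb using fun v : Vv i L => act_of_in h.ln (h.act' v v.2).2
  let β : Vv i L →* Multiplicative K := MonoidHom.mk' (fun v => Multiplicative.ofAdd (b v)) fun v w =>
    congrArg Multiplicative.ofAdd ((hb (v * w)).unique (by
      rw [Subgroup.coe_mul, map_mul]; exact (hb v).mul (hb w)))
  have h1 : β.ker = (Vv i L ⊓ 𝒞(Vv j L)).subgroupOf (Vv i L) := by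
    ext v
    rw [MonoidHom.mem_ker, mem_subgroupOf, mem_inf, h.symm.cent_iff, ← act_zero_iff h.ln]
    exact ⟨fun h2 => ⟨v.2, (show b v = 0 from h2) ▸ hb v⟩, fun h2 => (hb v).unique h2.2⟩
  have h2 := β.ker.index_mul_card
  rw [Subgroup.index_ker, h.card_comap le_rfl, N.card_U, h1,
    Nat.card_congr (Subgroup.subgroupOfEquivOfLe inf_le_left).toEquiv] at h2
  have h3 : Nat.card β.range ≤ Nat.card K := β.range.card_le_card_group
  have h4 : Nat.card (Vv i L ⊓ 𝒞(Vv j L) : Subgroup T) ≤ Nat.card (N.line.comap i) :=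
    Subgroup.card_le_of_le h.le_line
  have h5 := h.card_comap N.line_le
  rw [N.card_line] at h5
  have hq : 0 < Nat.card K := Nat.card_pos
  have hz : 0 < Nat.card (pCoreOf 2 L ⊓ 𝒞(L) : Subgroup M) := Nat.card_pos
  have h6 : Nat.card K ≤ Nat.card β.range := by
    refine Nat.le_of_mul_le_mul_right ?_ (Nat.mul_pos hq hz)
    rw [← mul_assoc, ← pow_two, ← h2, ← h5]
    exact Nat.mul_le_mul_left _ h4
  have h7 : Nat.card (N.line.comap i) ≤ Nat.card (Vv i L ⊓ 𝒞(Vv j L) : Subgroup T) := by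
    refine Nat.le_of_mul_le_mul_left ?_ hq
    rw [h5, ← mul_assoc, ← pow_two, ← h2]
    exact Nat.mul_le_mul_right _ h3
  refine ⟨fun c => ?_, Subgroup.eq_of_le_of_card_ge h.le_line h7⟩
  obtain ⟨v, hv⟩ : Multiplicative.ofAdd c ∈ β.range :=
    β.range.eq_top_of_le_card h6 ▸ mem_top _
  exact ⟨v, v.2, (show b v = c from hv) ▸ hb v⟩

theorem Hy.surj [Finite M] (h : Hy R i j L N) {t : M} (ht : t ∈ R ⊓ L) :
    ∃ w ∈ Vv j L, i w * t⁻¹ ∈ 𝒞(pCoreOf 2 L) := by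
  rw [← h.ln.up] at ht
  obtain ⟨h1, c, e⟩ := N.mem_up.1 ht
  obtain ⟨w, hw, h2⟩ := h.symm.count.1 c
  exact ⟨w, hw, h2.div h.ln h1 e⟩

theorem Hy.line_le [Finite M] (h : Hy R i j L N) : N.line.comap i ≤ ⁅Vv i L, Vv j L⁆ := by
  have h1 : ⁅pCoreOf 2 L, N.up⁆ ≤ ⁅Vv i L, Vv j L⁆.map i := by
    rw [Subgroup.commutator_comm, Subgroup.commutator_comm (Vv i L)]
    refine commutator_le.2 fun t ht u hu => ?_
    obtain ⟨w, hw, h2⟩ := h.surj (h.ln.up ▸ ht)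
    obtain ⟨v, hv, rfl⟩ := h.pre hu
    refine ⟨⁅w, v⁆, commutator_mem_commutator hw hv, ?_⟩
    rw [map_commutatorElement, commutatorElement_def, commutatorElement_def,
      ← conj_eq_of_mem h2 (conj_mem (N.norm (N.up_le ht)) hu)]
    group
  intro x hx
  exact (Subgroup.mem_map_iff_mem h.inj).1 (h1 (KL1x.line_le h.ln hx))

theorem Hy.comm_le_inf (h : Hy R i j L N) : ⁅Vv i L, Vv j L⁆ ≤ Vv i L ⊓ Vv j L :=
  le_inf (Subgroup.commutator_comm (Vv j L) (Vv i L) ▸ h.comm_le) h.symm.comm_le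

theorem Hy.inf_le (h : Hy R i j L N) : Vv i L ⊓ Vv j L ≤ N.line.comap i :=
  (inf_le_inf_left _ h.symm.le_cent).trans h.le_line

theorem Hy.line [Finite M] (h : Hy R i j L N) (x : T) (hx : x ∈ Vv i L) : x ∈ Vv j L ↔ i x ∈ N.line :=
  ⟨fun h1 => h.inf_le ⟨hx, h1⟩, fun h1 => (h.comm_le_inf (h.line_le h1)).2⟩

theorem Hy.nd [Finite M] (h : Hy R i j L N) {v w : T} (hv : v ∈ Vv i L) (hw : w ∈ Vv j L)
    (hc : ⁅w, v⁆ ∈ Dd i L) : v ∈ Vv j L ∨ w ∈ Vv i L := by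
  rcases h.dich hv hw (by rw [← map_commutatorElement]; exact hc) with h1 | h1
  · exact Or.inr ((h.symm.line w hw).2 (h.symm.le_line ⟨hw, h1⟩))
  · exact Or.inl ((h.line v hv).2 h1)

end

end KL1x

theorem kl1 : KL1.{u} := by
  intro T M _ _ _ K _ _ i j L N hi hj hr hl ha ha' hne
  have h : KL1x.Hy i.range i j L N := ⟨hi, hj, rfl, hr, hl, ha, ha', hne⟩
  exact ⟨hi, hj, hr, hl, le_antisymm (h.inf_le.trans h.line_le) h.comm_le_inf, h.line, h.symm.line, ha, ha',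
    fun t ht => h.surj ht, fun t ht => h.symm.surj ht,
    fun v hv w hw hc => h.nd hv hw (by rw [← commutatorElement_inv]; exact inv_mem hc),
    fun v hv w hw hc => (h.symm.nd hw hv hc).symm⟩

end CL.HK
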