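/-
Project HK (S5175): the centralizers of a pair of linear blocks meet trivially.
-/
import Cfsg.Agent.HK.Core

set_option autoImplicit false

open Cfsg Subgroup
open scoped commutatorElement

namespace CL.HK

open CL.Fus CL.Loc CL.Grp CL.Even Matrix

universe u

/-- the elements of level below `n` -/
def kl2Lev {X : Type*} [Group X] {C : Subgroup X} {l : X → ℕ} (h : Lv C l) (n : ℕ) : Subgroup X where
  carrier := {a | a ∈ C ∧ (a = 1 ∨ l a < n)}
  one_mem' := ⟨one_mem _, .inl rfl⟩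
  mul_mem' := fun {a b} ha hb => ⟨mul_mem ha.1 hb.1, by
    rcases ha.2 with rfl | h1
    · simpa using hb.2
    rcases hb.2 with rfl | h2
    · simpa using Or.inr h1
    exact .inr ((h.mul a ha.1 b hb.1).trans_lt (max_lt h1 h2))⟩
  inv_mem' := fun {a} ha => ⟨inv_mem ha.1, ha.2.imp (fun e => by rw [e, inv_one]) fun e => by rwa [h.inv a ha.1]⟩

theorem kl2_comm {X : Type*} [Group X] {C : Subgroup X} {l : X → ℕ} (h : Lv C l) (n : ℕ) :
    ⁅kl2Lev h (n + 1), kl2Lev h (n + 1)⁆ ≤ kl2Lev h n := by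
  refine commutator_le.2 fun a ha b hb => ⟨C.mul_mem (C.mul_mem (C.mul_mem ha.1 hb.1) (C.inv_mem ha.1))
    (C.inv_mem hb.1), or_iff_not_imp_left.2 fun e => ?_⟩
  rcases ha.2 with rfl | h1
  · exact (e (commutatorElement_one_left b)).elim
  rcases hb.2 with rfl | h2
  · exact (e (commutatorElement_one_right a)).elim
  exact (h.com a ha.1 b hb.1 e).trans_le (max_le (Nat.le_of_lt_succ h1) (Nat.le_of_lt_succ h2))

section
variable {T M : Type u} [Group T] [Group M] [Finite M] {K : Type} [Field K] {k : T →* M} {L R : Subgroup M}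

omit [Finite M] in
theorem kl2_cent {x a : T} (inj : Function.Injective k) (hx : x ∈ Dd k L) (ha : a ∈ Vv k L) :
    a ∈ centralizer ({x} : Set T) :=
  mem_centralizer_singleton_iff.2 (inj (by rw [map_mul, map_mul]; exact comm_of_mem hx (core_le L ha)))

theorem kl2_ex (bk : Bk R L) (hr : k.range = R) (N : NS K L) :
    ∃ y ∈ Vv k L, k y ∈ N.line ∧ y ∉ Dd k L := by
  haveI : Fact (Nat.Prime 2) := ⟨Nat.prime_two⟩
  obtain ⟨w, hw, h0⟩ := SetLike.not_le_iff_exists.1 N.not_line_le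
  obtain ⟨y, rfl⟩ : w ∈ k.range := hr ▸ (core_le_syl bk.sylL (N.line_le hw)).1
  exact ⟨y, N.line_le hw, hw, fun e => h0 ⟨N.line_le hw, e⟩⟩

theorem kl2_key (inj : Function.Injective k) (bk : Bk R L) (hr : k.range = R) (N : NS K L) {x : T}
    (hx : x ∈ Dd k L) {l : T → ℕ} (hl : Lv (centralizer {x}) l)
    (hc : ∀ g : M, g * k x = k x * g → ∀ a ∈ centralizer ({x} : Set T), ∀ b, k b = g * k a * g⁻¹ → l b = l a)
    {n : ℕ} {y : T} (hy : y ∈ Vv k L) (hD : y ∉ Dd k L) (hn : y ∈ kl2Lev hl n) : Vv k L ≤ kl2Lev hl n := by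
  haveI : Fact (Nat.Prime 2) := ⟨Nat.prime_two⟩
  set U : Subgroup M := (kl2Lev hl n).map k ⊓ pCoreOf 2 L with hU
  have hN : L ≤ 𝒩(U) := le_norm_of_cj_le fun g hg => by
    rintro _ ⟨_, ⟨⟨a, ha, rfl⟩, hV⟩, rfl⟩
    have h1 : g * k a * g⁻¹ ∈ pCoreOf 2 L := conj_mem (N.norm hg) hV
    obtain ⟨b, hb⟩ : g * k a * g⁻¹ ∈ k.range := hr ▸ (core_le_syl bk.sylL h1).1
    refine ⟨⟨b, ⟨kl2_cent inj hx (show k b ∈ pCoreOf 2 L from hb ▸ h1), ?_⟩, hb⟩, h1⟩
    refine ha.2.imp (fun e => inj ?_) fun e => ?_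
    · rw [hb, e, map_one]; group
    · rwa [hc g (comm_of_mem hx hg) a ha.1 b hb]
  have h1 : pCoreOf 2 L ≤ U ⊔ (pCoreOf 2 L ⊓ 𝒞(L)) :=
    N.le_of_norm le_sup_right (le_norm_sup hN N.norm₀) fun e =>
      hD (e ⟨mem_sup_left ⟨⟨y, hn, rfl⟩, hy⟩, hy⟩).2
  have h2 : pCoreOf 2 L ≤ U := by
    rw [← bk.comm]
    refine commutator_le.2 fun v hv g hg => ?_
    obtain ⟨a, ha, z, hz, rfl⟩ := (mem_sup_nr (inf_le_right.trans N.self_norm₀)).1 (h1 hv)
    have e : ⁅a * z, g⁆ = ⁅a, g⁆ := by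
      rw [commutatorElement_def, commutatorElement_def, mul_assoc a z, ← comm_of_mem hz.2 hg]; group
    rw [e]
    exact commutator_le_of_le_norm hN (commutator_mem_commutator ha hg)
  intro v hv
  obtain ⟨a, ha, e⟩ := (h2 hv).1
  exact inj e ▸ ha

end

theorem kl2 : KL2.{u} := by
  intro T M _ _ _ K _ _ i Γ L γ N c hγ p
  refine (eq_bot_iff_forall _).2 fun x hx => by_contra fun h1 => ?_
  obtain ⟨l, hl, hc⟩ := c.chain x h1
  have bk := p.ln.toBk
  obtain ⟨y, hy, hyl, hyD⟩ := kl2_ex bk rfl N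
  obtain ⟨y', hy', hyl', hyD'⟩ := kl2_ex bk p.rng N
  have hV : Vv i L ≤ kl2Lev hl (l y + 1) :=
    kl2_key p.inj bk rfl N hx.1 hl (hc 1 (one_mem _)) hy hyD
      ⟨kl2_cent p.inj hx.1 hy, .inr (Nat.lt_succ_self _)⟩
  have hW : Vv (em i γ) L ≤ kl2Lev hl (l y + 1) :=
    kl2_key p.inj' bk p.rng N hx.2 hl (hc γ hγ) hy' hyD' (hV ((p.line' y' hy').2 hyl'))
  have h2 : y ∈ kl2Lev hl (l y) :=
    kl2_comm hl _ (commutator_mono hV hW (p.Y.le ⟨hy, (p.line y hy).2 hyl⟩))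
  exact h2.2.elim (fun e => hyD (e ▸ one_mem _)) (lt_irrefl _)

end CL.HK
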