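/-
Project HK (S5175): a linear block that has a partner is normal.
-/
import Cfsg.Agent.HK.Core

set_option autoImplicit false

open Cfsg Subgroup
open scoped commutatorElement

namespace CL.HK

open CL.Fus CL.Loc CL.Grp CL.Even Matrix

universe u

theorem kl3_cent {T M : Type u} [Group T] [Group M] {j : T →* M} (hj : Function.Injective j) {U : Subgroup M} {x : T}
    (h : j x ∈ 𝒞(U)) : x ∈ 𝒞(U.comap j) := by
  rw [mem_centralizer_iff]
  intro w hw
  apply hj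
  rw [map_mul, map_mul]
  exact comm_of_mem h hw

theorem kl3 (h1 : GL2m.{u}) (h2 : LC.{u}) : KL3.{u} := by
  intro T M _ _ _ K _ _ i j L N p hd hb hdis hJ hIn hJe
  rw [← normalizer_eq_top_iff, eq_top_iff]
  intro g _
  rw [← cj_eq_iff_mem]
  refine (hdis g).resolve_right fun hc => ?_
  have hc' : cj g L ≤ 𝒞(L) := commutator_eq_bot_iff'.1 (by rwa [commutator_comm])
  have nL : 𝐉[2] i.range ≤ 𝒩(L) := (h2 M K i.range L).2.2.2 p.ln.toBk
  have nL2 : 𝐉[2] i.range ≤ 𝒩(cj g L) := (h2 M K i.range (cj g L)).2.2.2 (hb g)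
  have vJ : pCoreOf 2 L ≤ 𝐉[2] i.range := by simpa only [cj_one] using hJ 1
  obtain ⟨w, hw, hwV⟩ : ∃ w ∈ Vv j L, w ∉ Vv i L := by
    obtain ⟨u, hu, hl⟩ := SetLike.not_le_iff_exists.1 N.not_le_line
    obtain ⟨w, rfl⟩ : u ∈ j.range := p.rng ▸ thompsonSubgroupOf_le _ (vJ hu)
    exact ⟨w, hu, fun k => hl ((p.line' w hu).1 k)⟩
  have wN : i w ∈ 𝒩(pCoreOf 2 (cj g L)) := norm_le_norm_core _ (nL2 (by
    have : w ∈ (𝐉[2] i.range).comap j := vJ hw
    rwa [hJe] at this))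
  have key : ∀ u : pCoreOf 2 (cj g L), ∃ x y : T, i x = u ∧ y ∈ Vv i L ⊓ Vv j L ∧ x * y⁻¹ ∈ Dd j L := by
    rintro ⟨u, hu⟩
    obtain ⟨x, rfl⟩ : u ∈ i.range := thompsonSubgroupOf_le _ (hJ g hu)
    have xJ : j x ∈ 𝐉[2] i.range := by
      have : x ∈ (𝐉[2] i.range).comap i := hJ g hu
      rwa [← hJe] at this
    have xD : i x ∈ 𝒞(L) := hc' (pCoreOf_le _ _ hu)
    have xV : x ∈ 𝒞(Vv i L) := kl3_cent p.inj (cent_mono (pCoreOf_le _ _) xD)
    obtain ⟨t, ht, e1⟩ := hIn _ xJ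
    obtain ⟨v, hv, e2⟩ := p.surj' t ht
    have cW : x * v⁻¹ ∈ 𝒞(Vv j L) := kl3_cent p.inj' (by
      have := mul_mem e1 (inv_mem e2)
      rwa [_root_.mul_inv_rev, inv_inv, mul_assoc, inv_mul_cancel_left, ← map_inv, ← map_mul] at this)
    have e3 : ⁅v, w⁆ = ⁅x, w⁆ := by
      have a1 := comm_of_mem xV hv
      have a2 := comm_of_mem cW hw
      have a3 : x = v * (x * v⁻¹) := by rw [← mul_assoc, a1, mul_inv_cancel_right]
      generalize x * v⁻¹ = c at a2 a3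
      rw [a3, commutatorElement_def, commutatorElement_def, mul_assoc v c w, ← a2]
      group
    have e4 : ⁅v, w⁆ ∈ Dd i L := by
      rw [e3]
      change i ⁅x, w⁆ ∈ 𝒞(L)
      refine hc' (pCoreOf_le 2 _ ?_)
      rw [map_commutatorElement, commutatorElement_def, mul_assoc, mul_assoc, ← mul_assoc (i w)]
      exact mul_mem hu ((mem_normalizer_iff.1 wN _).1 (inv_mem hu))
    have vW : v ∈ Vv j L := (p.nd v hv w hw e4).resolve_right hwV
    have vC : v ∈ 𝒞(Vv j L) := kl3_cent p.inj' (mem_centralizer_iff.2 fun a ha =>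
      congrArg Subtype.val (p.ln.ea.1.is_comm.comm ⟨a, ha⟩ ⟨j v, vW⟩))
    obtain ⟨y, hy, e5⟩ := (h1 T M K i j L N p).2 x (nL xJ) xV (by simpa using mul_mem cW vC)
    exact ⟨x, y, rfl, hy, e5⟩
  choose x y hx hy hxy using key
  have inj : Function.Injective fun u => N.ψ (j (y u)) 0 := by
    intro a b hab
    have l1 := N.mem_line.1 ((p.line' _ (hy a).2).1 (hy a).1)
    have l2 := N.mem_line.1 ((p.line' _ (hy b).2).1 (hy b).1)
    have e1 : N.ψ (j (y a)) = N.ψ (j (y b)) := by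
      ext k
      fin_cases k
      · exact hab
      · exact l1.2.trans l2.2.symm
    have e2 : y a * (y b)⁻¹ ∈ Dd j L := by
      change j (y a * (y b)⁻¹) ∈ 𝒞(L)
      rw [map_mul, map_inv]
      exact ((N.ψ_eq_iff l1.1 l2.1).1 e1).2
    have e3 : x a * (x b)⁻¹ ∈ Dd i L ⊓ Dd j L := by
      refine ⟨?_, ?_⟩
      · change i (x a * (x b)⁻¹) ∈ 𝒞(L)
        rw [map_mul, map_inv, hx, hx]
        exact hc' (pCoreOf_le _ _ (mul_mem a.2 (inv_mem b.2)))
      · have := mul_mem (mul_mem (hxy a) e2) (inv_mem (hxy b))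
        rwa [show x a * (y a)⁻¹ * (y a * (y b)⁻¹) * (x b * (y b)⁻¹)⁻¹ = x a * (x b)⁻¹ by group] at this
    rw [hd, mem_bot, mul_inv_eq_one] at e3
    exact Subtype.ext (by rw [← hx, ← hx, e3])
  have c1 := Nat.card_le_card_of_injective _ inj
  rw [← cj_core, card_cj, N.card_U, Nat.card_eq_fintype_card] at c1
  have c2 : 0 < Nat.card (pCoreOf 2 L ⊓ 𝒞(L) : Subgroup M) := Nat.card_pos
  have c3 := p.ln.four
  nlinarith

end CL.HK
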