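/-
Project HK (S5175): the centralizers of a pair of normal linear blocks.
-/
import Cfsg.Agent.HK.Core

set_option autoImplicit false

open Cfsg Subgroup
open scoped commutatorElement

namespace CL.HK

open CL.Fus CL.Loc CL.Grp CL.Even Matrix

universe u

section
variable {T M : Type u} [Group T] [Group M] [Finite M] {i j : T →* M} {L : Subgroup M}

theorem kl4_le {R : Subgroup M} (b : Bk R L) : pCore 2 M ≤ R := core_top (p := 2) (G := M) ▸ core_le_syl b.syl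

theorem kl4_cent (hi : Function.Injective i) (b : Bk i.range L) {x : T} :
    x ∈ 𝒞(Vv i L) ↔ i x ∈ 𝒞(pCoreOf 2 L) := by
  refine ⟨fun h => mem_centralizer_iff.2 fun u hu => ?_, fun h => mem_centralizer_iff.2 fun v hv => hi ?_⟩
  · obtain ⟨v, rfl⟩ := kl4_le b (b.core hu)
    rw [← map_mul, ← map_mul, comm_of_mem (H := Vv i L) h hu]
  · rw [map_mul, map_mul]; exact comm_of_mem h hv

omit [Finite M] in
theorem kl4_ab {R : Subgroup M} (b : Bk R L) : pCoreOf 2 L ≤ 𝒞(pCoreOf 2 L) := b.cent.ge.trans inf_le_right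

theorem kl4_half {K : Type} [Field K] [Fintype K] {N : NS K L} (h2 : LA.{u}) (h3 : GL2m.{u}) (p : Lp i j L N)
    (hL : L.Normal)
    (mx : ∀ R : Subgroup T, R ≠ ⊥ → R.Normal → L ≤ 𝒩(R.map i) → Nat.card R ≤ Nat.card (pCore 2 M)) :
    Dd i L ≤ (Vv i L ⊓ Vv j L) ⊔ Dd j L ∧ Dd i L ≤ 𝒞(Vv j L) ∧ 𝒞(Vv i L) = Vv i L ⊔ Dd i L ∧
      Uu i = Vv i L ⊔ Dd i L := by
  obtain ⟨p', g1⟩ := h3 T M K i j L N p
  obtain ⟨-, g2⟩ := h3 T M K j i L N p'
  obtain ⟨a1, a2, a3⟩ := h2 M K i.range L N p.ln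
  have b : Bk i.range L := p.ln.toBk
  have b' : Bk j.range L := p'.ln.toBk
  have nL : ∀ m : M, m ∈ 𝒩(L) := fun m => by rw [normalizer_eq_top]; exact mem_top m
  have nV : ∀ m : M, m ∈ 𝒩(pCoreOf 2 L) := fun m => norm_le_norm_core L (nL m)
  have hV : (pCoreOf 2 L).Normal := ⟨fun n hn g => conj_mem (nV g) hn⟩
  have hC : (𝒞(L)).Normal := ⟨fun n hn g => conj_mem (norm_le_norm_cent L (nL g)) hn⟩
  have jr : ∀ x : T, j x ∈ i.range := fun x => p.rng ▸ ⟨x, rfl⟩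
  have aV : Vv i L ≤ 𝒞(Vv i L) := fun v hv => (kl4_cent p.inj b).2 (kl4_ab b hv)
  have aW : Vv j L ≤ 𝒞(Vv j L) := fun v hv => (kl4_cent p.inj' b').2 (kl4_ab b hv)
  have star : ∀ x ∈ 𝒞(Vv i L), ∃ v ∈ Vv i L, x * v⁻¹ ∈ 𝒞(Vv j L) := fun x hx => by
    rcases a1 (j x) (jr x) (nL _) with ⟨t, ht, e⟩ | e
    · obtain ⟨v, hv, e'⟩ := p.surj' t ht
      refine ⟨v, hv, (kl4_cent p.inj' b').2 ?_⟩
      have := mul_mem e (inv_mem e')
      rwa [show j x * t⁻¹ * (j v * t⁻¹)⁻¹ = j (x * v⁻¹) by rw [map_mul, map_inv]; group] at this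
    · obtain ⟨t, ht, u, hu, ne⟩ := a3 (j x) (nL _) e
      obtain ⟨v, hv, e'⟩ := p.surj' t ht
      refine absurd ?_ ne
      have c : j v * j x = j x * j v := by rw [← map_mul, ← map_mul, comm_of_mem hx hv]
      have u' := conj_mem (nV (j v)) hu
      have e1 := conj_eq_of_mem (inv_mem e') u'
      have e2 := conj_eq_of_mem (conj_mem (norm_le_norm_cent _ (nV (j x))) (inv_mem e')) u'
      congr 1
      calc j x * t * (j x)⁻¹ * u * (j x * t * (j x)⁻¹)⁻¹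
          = j x * (j v * t⁻¹)⁻¹ * (j x)⁻¹ * (j x * j v * (j x)⁻¹ * u * (j x * j v * (j x)⁻¹)⁻¹) *
            (j x * (j v * t⁻¹)⁻¹ * (j x)⁻¹)⁻¹ := by group
        _ = j v * u * (j v)⁻¹ := by rw [← c, mul_inv_cancel_right, e2]
        _ = _ := by rw [← e1]; group
  have DV : Dd i L ≤ 𝒞(Vv i L) := fun d hd => (kl4_cent p.inj b).2 (cent_mono (core_le L) hd)
  obtain ⟨w, hw, hwV⟩ : ∃ w ∈ Vv j L, w ∉ Vv i L := by
    obtain ⟨u, hu, e⟩ := N.ψ_surj ![0, 1]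
    obtain ⟨w, rfl⟩ := kl4_le b' (b'.core hu)
    refine ⟨w, hu, fun h => ?_⟩
    have := (N.mem_line.1 ((p.line' w hu).1 h)).2
    rw [e] at this
    exact one_ne_zero this
  have DW : Dd i L ≤ 𝒞(Vv j L) := fun d hd => by
    obtain ⟨v, hv, e⟩ := star d (DV hd)
    have e1 := conj_eq_of_mem (inv_mem e) ((hV.comap j).conj_mem w hw d)
    have e2 : ⁅v, w⁆ = d * (w * d⁻¹ * w⁻¹) :=
      calc ⁅v, w⁆ = (d * v⁻¹)⁻¹ * (d * w * d⁻¹) * (d * v⁻¹)⁻¹⁻¹ * w⁻¹ := by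
            simp only [commutatorElement_def]; group
        _ = _ := by rw [e1]; group
    have hvW := (p.nd v hv w hw (e2 ▸ mul_mem hd ((hC.comap i).conj_mem _ (inv_mem hd) w))).resolve_right hwV
    simpa using mul_mem e (aW hvW)
  have cV : 𝒞(Vv i L) = Vv i L ⊔ Dd i L := le_antisymm (fun x hx => by
    obtain ⟨v, hv, e⟩ := star x hx
    obtain ⟨y, hy, e'⟩ := g2 (x * v⁻¹) (nL _) e (mul_mem hx (inv_mem (aV hv)))
    simpa using mul_mem (mul_mem (mem_sup_right (S := Vv i L) e') (mem_sup_left hy.2)) (mem_sup_left hv))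
    (sup_le aV DV)
  refine ⟨fun d hd => ?_, DW, cV, ?_⟩
  · obtain ⟨y, hy, e⟩ := g1 d (nL _) (DV hd) (DW hd)
    simpa using mul_mem (mem_sup_right (S := Vv i L ⊓ Vv j L) e) (mem_sup_left hy)
  · haveI : Finite T := Finite.of_injective i p.inj
    haveI := hV.comap i
    haveI := hC.comap i
    have mV : (Vv i L).map i = pCoreOf 2 L := map_comap_eq_self (b.core.trans (kl4_le b))
    refine eq_of_le_of_card_ge (fun x hx => cV ▸ (kl4_cent p.inj b).2 (a2 _ hx (nL _))) ?_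
    have := mx (Vv i L ⊔ Dd i L) (fun e => b.ne (by rw [← mV, le_bot_iff.1 (le_sup_left.trans e.le), Subgroup.map_bot]))
      inferInstance (by
        rw [Subgroup.map_sup, mV]
        exact le_norm_sup (fun m _ => nV m)
          ((le_centralizer_iff.1 (map_comap_le i 𝒞(L))).trans (cent_le_norm _)))
    rwa [← map_comap_eq_self (kl4_le b), card_map_of_injective p.inj] at this

end

theorem kl4 (h1 : SH.{u}) (h2 : LA.{u}) (h3 : GL2m.{u}) : KL4.{u} := by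
  intro T M _ _ _ K _ _ i Γ L γ N c hγ p d hL
  obtain ⟨a1, a2, a3, a4⟩ := kl4_half h2 h3 p hL c.mx
  obtain ⟨b1, b2, b3, b4⟩ := kl4_half h2 h3 (h3 T M K i _ L N p).1 hL (h1 T M i Γ L γ c hγ).1.mx
  exact ⟨hL, d, a1, inf_comm (Vv (em i γ) L) _ ▸ b1, a2, b2, a3, b3, a4, b4⟩

end CL.HK
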