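/-
Project HK (S5175): the torus of one linear block normalizes the centralizer of the other one.
-/
import Cfsg.Agent.HK.Core

set_option autoImplicit false

open Cfsg Subgroup
open scoped commutatorElement

namespace CL.HK

open CL.Fus CL.Loc CL.Grp CL.Even Matrix

universe u

namespace KL5aJ

variable {T M : Type u} [Group T] [Group M] {K : Type} [Field K] [Fintype K] {i j : T →* M} {L : Subgroup M}
  {N : NS K L} {a v w d x : T}

theorem sq (i : T →* M) (hi : Function.Injective i) (h : IsElementaryAbelian 2 (pCoreOf 2 L)) (hv : v ∈ Vv i L) :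
    v * v = 1 := hi (by rw [map_mul, map_one, ← pow_two]; exact h.2 _ hv)

theorem D_le (i : T →* M) (hi : Function.Injective i) : Dd i L ≤ 𝒞(Vv i L) := fun _ hd =>
  mem_centralizer_iff.2 fun _ hv => hi (by rw [map_mul, map_mul]; exact comm_of_mem hd (pCoreOf_le 2 L hv))

variable (p : Lp i j L N) (q : Lq i j L)
include p q

theorem sq' (hd : d ∈ Dd j L) : d * d = 1 := by
  have h1 : Dd i L ≤ 𝒞(Vv i L ⊓ Vv j L) := q.c.trans (cent_mono inf_le_right)
  obtain ⟨y, hy, e, he, rfl⟩ := (mem_sup_nl (h1.trans (cent_le_norm _))).1 (q.le' hd)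
  have h2 : y * e * (y * e) = e * e := by
    rw [mul_assoc, ← mul_assoc e, ← comm_of_mem (h1 he) hy, mul_assoc, ← mul_assoc y, sq i p.inj p.ln.ea hy.1, one_mul]
  have h3 : y * e * (y * e) ∈ Dd i L ⊓ Dd j L := ⟨h2 ▸ mul_mem he he, mul_mem hd hd⟩
  rwa [q.disj, mem_bot] at h3

theorem sq3 (hv : v ∈ Vv i L) (hw : w ∈ Vv j L) (hd : d ∈ Dd j L) : v * (w * d) * (v * (w * d)) = ⁅v, w⁆ := by
  have h1 := comm_of_mem (q.c' hd) hv
  have h2 := comm_of_mem (D_le j p.inj' hd) hw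
  rw [commutatorElement_def, inv_eq_of_mul_eq_one_right (sq i p.inj p.ln.ea hv),
    inv_eq_of_mul_eq_one_right (sq j p.inj' p.ln.ea hw)]
  calc v * (w * d) * (v * (w * d)) = v * w * (d * v) * w * d := by group
    _ = v * w * v * (d * w) * d := by rw [← h1]; group
    _ = v * w * v * w * (d * d) := by rw [← h2]; group
    _ = _ := by rw [sq' p q hd, mul_one]

omit p in
theorem D'_le : Dd j L ≤ Uu i := q.U ▸ q.le'.trans (sup_le_sup_right inf_le_left _)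

omit p in
theorem decU (ha : a ∈ Uu i) : ∃ v ∈ Vv i L, ∃ d ∈ Dd j L, v * d = a :=
  (mem_sup_nl (q.c'.trans (cent_le_norm _))).1
    ((q.U.le.trans (sup_le le_sup_left (q.le.trans (sup_le_sup_right inf_le_left _)))) ha)

theorem sqU (ha : a ∈ Uu i) : a * a = 1 := by
  obtain ⟨v, hv, d, hd, rfl⟩ := decU q ha
  simpa using sq3 p q hv (one_mem _) hd

theorem inv_mem_or (hv : v ∈ Vv i L) (ha : a ∈ Uu j) (h : v * a * (v * a) = 1) : v * a ∈ Uu i ∨ v * a ∈ Uu j := by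
  obtain ⟨w, hw, d, hd, rfl⟩ := (mem_sup_nl ((D_le j p.inj').trans (cent_le_norm _))).1 (q.U'.le ha)
  rw [sq3 p q hv hw hd] at h
  refine (p.nd v hv w hw (h ▸ one_mem _)).symm.imp (fun h1 => ?_) fun h1 => mul_mem (q.U'.ge (mem_sup_left h1)) ha
  exact mul_mem (q.U.ge (mem_sup_left hv)) (mul_mem (q.U.ge (mem_sup_left h1)) (D'_le q hd))

/-- elements of `T` which centralise the core of the block -/
theorem of_cent {c : M} (h1 : c ∈ i.range) (h2 : c ∈ 𝒞(pCoreOf 2 L)) : c ∈ pCore 2 M := by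
  obtain ⟨x, rfl⟩ := p.rng.ge h1
  exact (q.cW.trans q.U'.symm).le (mem_centralizer_iff.2 fun y hy =>
    p.inj' (by rw [map_mul, map_mul]; exact comm_of_mem h2 hy))

variable [Finite M]

omit q in
theorem core_le : pCore 2 M ≤ i.range :=
  p.ln.syl.le_of_normalized (pCore_isPGroup 2 M) le_top le_normalizer_of_normal

theorem exV : ∃ v ∈ Vv i L, v ∉ Uu j := by
  by_contra! hn
  obtain ⟨y, hy, hy0⟩ := SetLike.not_le_iff_exists.1 N.not_line_le
  obtain ⟨x, rfl⟩ := core_le p (p.ln.core (N.line_le hy))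
  have h1 : x ∈ Vv i L ⊓ Vv j L := ⟨N.line_le hy, (p.line x (N.line_le hy)).2 hy⟩
  rw [p.Y, (commutator_eq_bot_iff_le_centralizer).2 fun v hv => (q.U'.trans q.cW.symm).le (hn v hv), mem_bot] at h1
  exact hy0 (by rw [h1, map_one]; exact one_mem _)

theorem lift {k : M} (hk : k ∈ 𝒩(i.range ⊓ L)) (ha : a ∈ Uu i) :
    ∃ b, j b = k * j a * k⁻¹ ∧ (b ∈ Uu i ∨ b ∈ Uu j) := by
  have hn : (i.range ⊓ L) ≤ 𝒩(pCore 2 M) := le_normalizer_of_normal
  have h1 : j a ∈ (i.range ⊓ L) ⊔ pCore 2 M := by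
    obtain ⟨v, hv, d, hd, rfl⟩ := decU q ha
    obtain ⟨-, t, ht, h2⟩ := p.act' v hv
    rw [map_mul, ← inv_mul_cancel_right (j v) t]
    exact mul_mem (mul_mem (mem_sup_right (of_cent p q (mul_mem (p.rng.le ⟨v, rfl⟩) (inv_mem ht.1)) h2))
      (mem_sup_left ht)) (mem_sup_right (q.U'.ge (mem_sup_right hd)))
  obtain ⟨t, ht, o, ho, e⟩ := (mem_sup_nr hn).1 h1
  have ht' := conj_mem hk ht
  obtain ⟨v, hv, h2⟩ := p.surj' _ ht'
  have h3 := of_cent p q (mul_mem (p.rng.le ⟨v, rfl⟩) (inv_mem ht'.1)) h2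
  have h4 : (j v)⁻¹ * (k * j a * k⁻¹) ∈ pCore 2 M := by
    rw [← e, show (j v)⁻¹ * (k * (t * o) * k⁻¹) =
      (j v)⁻¹ * (j v * (k * t * k⁻¹)⁻¹)⁻¹ * (j v)⁻¹⁻¹ * (k * o * k⁻¹) by group]
    exact mul_mem ((pCore_normal 2 M).conj_mem _ (inv_mem h3) _) ((pCore_normal 2 M).conj_mem _ ho _)
  obtain ⟨c, hc⟩ := p.rng.ge (core_le p h4)
  have h5 : j (v * c) = k * j a * k⁻¹ := by rw [map_mul, hc, mul_inv_cancel_left]
  refine ⟨v * c, h5, inv_mem_or p q hv (show j c ∈ pCore 2 M from hc ▸ h4) (p.inj' ?_)⟩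
  rw [map_mul, h5, map_one, conj_mul, ← map_mul, sqU p q ha, map_one, mul_one, mul_inv_cancel]

theorem lift' {k : M} (hk : k ∈ 𝒩(i.range ⊓ L)) (ha : a ∈ Uu i) : ∃ b, j b = k * j a * k⁻¹ ∧ b ∈ Uu i := by
  obtain ⟨v, hv, hv'⟩ := exV p q
  have hU := q.U.ge (mem_sup_left hv)
  obtain ⟨b, e, hb⟩ := lift p q hk ha
  obtain ⟨b₀, e₀, hb₀⟩ := lift p q hk hU
  obtain ⟨b₁, e₁, hb₁⟩ := lift p q hk (mul_mem ha hU)
  have h0 : b₀ ∉ Uu j := fun h => hv' (by
    have := (pCore_normal 2 M).conj_mem _ (show j b₀ ∈ pCore 2 M from h) k⁻¹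
    rwa [e₀, show k⁻¹ * (k * j v * k⁻¹) * k⁻¹⁻¹ = j v by group] at this)
  obtain rfl : b₁ = b * b₀ := p.inj' (by rw [e₁, map_mul, map_mul, e, e₀, conj_mul])
  refine ⟨b, e, hb.elim id fun h => hb₁.elim (fun h' => ?_) fun h' => (h0 ((mul_mem_cancel_left h).1 h')).elim⟩
  exact (mul_mem_cancel_right (hb₀.resolve_right h0)).1 h'

end KL5aJ

open KL5aJ in
theorem kl5a : KL5a.{u} := by
  intro T M _ _ _ K _ _ i Γ L γ N c hγ p q k _ hk x hx
  classical
  choose! f hf using fun a (ha : a ∈ Uu i) => lift' p q hk ha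
  obtain ⟨m, hm⟩ := c.ext γ hγ 1 (one_mem _) (Uu i) k f le_rfl (fun a ha => (hf a ha).1) fun a ha => (hf a ha).2
  have hU : x ∈ Uu i := q.U.ge (mem_sup_right hx)
  refine ⟨f x, ?_, (hf x hU).1⟩
  have h1 : i (f x) = m * i x * m⁻¹ := hm x hU
  have := q.normal
  change i (f x) ∈ 𝒞(L)
  rw [h1]
  exact conj_mem (norm_le_norm_cent L (le_normalizer_of_normal (mem_top m))) hx

end CL.HK
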