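/-
Project HK (S5175): the centralizer of a linear block lies in its module and has order one or `q`.
-/
import Cfsg.Agent.HK.Core
import Cfsg.Agent.Even.NatSL2b

set_option autoImplicit false

open Cfsg Subgroup
open scoped commutatorElement

namespace CL.HK

open CL.Fus CL.Loc CL.Grp CL.Even Matrix

universe u

section
variable {T M : Type u} [Group T] [Group M] {K : Type} [Field K] [Fintype K] {i j : T →* M}
  {L : Subgroup M} {N : NS K L}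

theorem kl5b_comm (hq : Lq i j L) {y d : T} (hy : y ∈ Vv i L) (hd : d ∈ Dd j L) : y * d = d * y :=
  mem_centralizer_iff.1 (hq.c' hd) y hy

theorem kl5b_ex (hq : Lq i j L) {d : T} (hd : d ∈ Dd i L) :
    ∃ y ∈ Vv i L ⊓ Vv j L, y⁻¹ * d ∈ Dd j L := by
  have hn : Dd j L ≤ 𝒩(Vv i L ⊓ Vv j L) := fun x hx =>
    cent_le_norm _ (mem_centralizer_iff.2 fun y hy => kl5b_comm hq (mem_inf.1 hy).1 hx)
  obtain ⟨a, ha, b, hb, rfl⟩ := (mem_sup_nl hn).1 (hq.le hd)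
  exact ⟨a, ha, by rw [inv_mul_cancel_left]; exact hb⟩

open Classical in
/-- the coordinate of an element of the centralizer -/
noncomputable def kl5bMu (i j : T →* M) (N : NS K L) (d : T) : K :=
  if h : ∃ y ∈ Vv i L ⊓ Vv j L, y⁻¹ * d ∈ Dd j L then N.ψ (j h.choose) 0 else 0

omit [Fintype K] in
theorem kl5b_mu_eq {y d : T} (hy : y ∈ Vv i L ⊓ Vv j L) (hd : y⁻¹ * d ∈ Dd j L) :
    kl5bMu i j N d = N.ψ (j y) 0 := by
  have h : ∃ y ∈ Vv i L ⊓ Vv j L, y⁻¹ * d ∈ Dd j L := ⟨y, hy, hd⟩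
  rw [kl5bMu, dif_pos h]
  obtain ⟨h1, h2⟩ := h.choose_spec
  set z := h.choose
  have h3 : y⁻¹ * z ∈ Dd j L := by
    have := Subgroup.mul_mem _ hd (Subgroup.inv_mem _ h2)
    rwa [show y⁻¹ * d * (z⁻¹ * d)⁻¹ = y⁻¹ * z by group] at this
  have hy' : j y ∈ pCoreOf 2 L := (mem_inf.1 hy).2
  have hz' : j z ∈ pCoreOf 2 L := (mem_inf.1 h1).2
  have h4 : j (y⁻¹ * z) ∈ pCoreOf 2 L := by
    rw [map_mul, map_inv]; exact Subgroup.mul_mem _ (Subgroup.inv_mem _ hy') hz'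
  have h5 : N.ψ (j (y⁻¹ * z)) = 0 := (N.ψ_eq_zero _ h4).2 (mem_inf.2 ⟨h4, h3⟩)
  rw [map_mul, map_inv, N.ψ_mul _ (Subgroup.inv_mem _ hy') _ hz', N.ψ_inv hy', neg_add_eq_zero] at h5
  rw [h5]

omit [Fintype K] in
theorem kl5b_add (hq : Lq i j L) {a b : T} (ha : a ∈ Dd i L) (hb : b ∈ Dd i L) :
    kl5bMu i j N (a * b) = kl5bMu i j N a + kl5bMu i j N b := by
  obtain ⟨y, hy, ha'⟩ := kl5b_ex hq ha
  obtain ⟨z, hz, hb'⟩ := kl5b_ex hq hb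
  have h := kl5b_comm hq (mem_inf.1 hz).1 ha'
  have h1 : (y * z)⁻¹ * (a * b) = (y⁻¹ * a) * (z⁻¹ * b) := by
    calc (y * z)⁻¹ * (a * b) = z⁻¹ * ((y⁻¹ * a) * z) * (z⁻¹ * b) := by group
      _ = z⁻¹ * (z * (y⁻¹ * a)) * (z⁻¹ * b) := by rw [h]
      _ = _ := by group
  rw [kl5b_mu_eq hy ha', kl5b_mu_eq hz hb',
    kl5b_mu_eq (Subgroup.mul_mem _ hy hz) (by rw [h1]; exact Subgroup.mul_mem _ ha' hb'), map_mul,
    N.ψ_mul _ (mem_inf.1 hy).2 _ (mem_inf.1 hz).2, Pi.add_apply]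

theorem kl5b_ker (hp : Lp i j L N) (hq : Lq i j L) {d : T} (hd : d ∈ Dd i L) (h0 : kl5bMu i j N d = 0) :
    d = 1 := by
  obtain ⟨y, hy, hd'⟩ := kl5b_ex hq hd
  rw [kl5b_mu_eq hy hd'] at h0
  have hl : j y ∈ N.line := (hp.line' y (mem_inf.1 hy).2).1 (mem_inf.1 hy).1
  have h1 : N.ψ (j y) = 0 := vec_eq_zero.2 ⟨h0, (N.mem_line.1 hl).2⟩
  have h2 : y ∈ Dd j L := (mem_inf.1 ((N.ψ_eq_zero _ (mem_inf.1 hy).2).1 h1)).2
  have h3 : d ∈ Dd j L := by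
    have := Subgroup.mul_mem _ h2 hd'
    rwa [mul_inv_cancel_left] at this
  have h4 : d ∈ Dd i L ⊓ Dd j L := mem_inf.2 ⟨hd, h3⟩
  rwa [hq.disj, mem_bot] at h4

theorem kl5b_inj (hp : Lp i j L N) (hq : Lq i j L) {a b : T} (ha : a ∈ Dd i L) (hb : b ∈ Dd i L)
    (h : kl5bMu i j N a = kl5bMu i j N b) : a = b := by
  have h1 : a⁻¹ * b ∈ Dd i L := Subgroup.mul_mem _ (Subgroup.inv_mem _ ha) hb
  have h2 := kl5b_add (N := N) hq ha h1
  rw [mul_inv_cancel_left, h, left_eq_add] at h2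
  exact inv_mul_eq_one.1 (kl5b_ker hp hq h1 h2)

theorem kl5b_tor (hp : Lp i j L N) (hq : Lq i j L) (ht : Tor i j L) {c : K} (hc : c ≠ 0) {d : T}
    (hd : d ∈ Dd i L) : ∃ x ∈ Dd i L, kl5bMu i j N x = c * kl5bMu i j N d ∧ x * d⁻¹ ∈ Vv i L := by
  obtain ⟨y, hy, hd'⟩ := kl5b_ex hq hd
  obtain ⟨k, hk, hr⟩ := N.r_surj (sl2Diag hc)
  have h10 : (N.r k).1 1 0 = 0 := by rw [hr]; rfl
  have hkn : k ∈ 𝒩(i.range ⊓ L) := by
    rw [← hp.ln.up]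
    exact (N.mem_norm_up_iff hk).2 ((N.mem_norm_line_iff hk).2 h10)
  obtain ⟨x, hx, hjx⟩ := ht k hk hkn d hd
  have hl : j y ∈ N.line := (hp.line' y (mem_inf.1 hy).2).1 (mem_inf.1 hy).1
  have hcm : k * j (y⁻¹ * d) = j (y⁻¹ * d) * k := mem_centralizer_iff.1 hd' k hk
  have hz : j (x * (y⁻¹ * d)⁻¹) = k * j y * k⁻¹ := by
    have h1 : j d = j y * j (y⁻¹ * d) := by rw [← map_mul, mul_inv_cancel_left]
    rw [map_mul, map_inv, hjx, h1]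
    calc k * (j y * j (y⁻¹ * d)) * k⁻¹ * (j (y⁻¹ * d))⁻¹
        = k * j y * k⁻¹ * (k * j (y⁻¹ * d)) * k⁻¹ * (j (y⁻¹ * d))⁻¹ := by group
      _ = k * j y * k⁻¹ * (j (y⁻¹ * d) * k) * k⁻¹ * (j (y⁻¹ * d))⁻¹ := by rw [hcm]
      _ = _ := by group
  have hl' : j (x * (y⁻¹ * d)⁻¹) ∈ N.line := by rw [hz]; exact N.conj_mem_line hk h10 hl
  have hW : x * (y⁻¹ * d)⁻¹ ∈ Vv j L := N.line_le hl'
  have hV : x * (y⁻¹ * d)⁻¹ ∈ Vv i L := (hp.line' _ hW).2 hl'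
  refine ⟨x, hx, ?_, ?_⟩
  · rw [kl5b_mu_eq (mem_inf.2 ⟨hV, hW⟩) (by
      rw [show (x * (y⁻¹ * d)⁻¹)⁻¹ * x = y⁻¹ * d by group]; exact hd'), kl5b_mu_eq hy hd', hz,
      N.ψ_conj k hk _ (mem_inf.1 hy).2, hr, sl2Diag_mulVec]
    rfl
  · have := Subgroup.mul_mem _ hV (Subgroup.inv_mem _ (mem_inf.1 hy).1)
    rwa [show x * (y⁻¹ * d)⁻¹ * y⁻¹ = x * d⁻¹ by group] at this

end

theorem kl5b : KL5b.{u} := by
  intro T M _ _ _ K _ _ i j L N hp hq ht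
  classical
  refine ⟨fun d hd => ?_, ?_⟩
  · by_cases h1 : d = 1
    · rw [h1]; exact Subgroup.one_mem _
    obtain ⟨c, hc0, hc1⟩ : ∃ c : K, c ≠ 0 ∧ c ≠ 1 := by
      by_contra hcon
      have hsub : (Finset.univ : Finset K) ⊆ {0, 1} := fun c _ => by
        by_contra h
        simp only [Finset.mem_insert, Finset.mem_singleton, not_or] at h
        exact hcon ⟨c, h.1, h.2⟩
      have h2 := Finset.card_le_card hsub
      have h3 : ({0, 1} : Finset K).card ≤ 2 := Finset.card_le_two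
      have h4 := hp.ln.four
      rw [Finset.card_univ] at h2
      omega
    have hc2 : c - 1 ≠ 0 := sub_ne_zero.2 hc1
    obtain ⟨d0, hd0, hm0, -⟩ := kl5b_tor hp hq ht (inv_ne_zero hc2) hd
    obtain ⟨x, hx, hmx, hV⟩ := kl5b_tor hp hq ht hc0 hd0
    have he : x * d0⁻¹ ∈ Dd i L := Subgroup.mul_mem _ hx (Subgroup.inv_mem _ hd0)
    have h2 := kl5b_add (N := N) hq he hd0
    rw [inv_mul_cancel_right, hmx] at h2
    have h3 : kl5bMu i j N (x * d0⁻¹) = kl5bMu i j N d := by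
      have h4 : kl5bMu i j N (x * d0⁻¹) = (c - 1) * kl5bMu i j N d0 := by linear_combination -h2
      rw [h4, hm0, mul_inv_cancel_left₀ hc2]
    rw [← kl5b_inj hp hq he hd h3]
    exact hV
  · by_cases hb : Dd i L = ⊥
    · exact Or.inl hb
    right
    obtain ⟨⟨d, hd⟩, hd1⟩ := (Subgroup.ne_bot_iff_exists_ne_one).1 hb
    have hm : kl5bMu i j N d ≠ 0 := fun h => hd1 (Subtype.ext (kl5b_ker hp hq hd h))
    rw [← Nat.card_eq_fintype_card]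
    refine Nat.card_congr (Equiv.ofBijective (fun x : Dd i L => kl5bMu i j N x.1) ⟨fun a b h =>
      Subtype.ext (kl5b_inj hp hq a.2 b.2 h), fun m => ?_⟩)
    by_cases h0 : m = 0
    · refine ⟨1, ?_⟩
      have := kl5b_add (N := N) hq (Subgroup.one_mem (Dd i L)) (Subgroup.one_mem _)
      rw [mul_one, left_eq_add] at this
      rw [h0]; exact this
    · obtain ⟨x, hx, hmx, -⟩ := kl5b_tor hp hq ht (div_ne_zero h0 hm) hd
      exact ⟨⟨x, hx⟩, by rw [← div_mul_cancel₀ m hm]; exact hmx⟩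

end CL.HK
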