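/-
Project HK (S5175): the action of the normalizer of a linear block.
-/
import Cfsg.Agent.HK.Core
import Cfsg.Agent.Even.NatSL2b

set_option autoImplicit false

open Cfsg Subgroup
open scoped commutatorElement

namespace CL.HK

open CL.Fus CL.Loc CL.Grp CL.Even Matrix

universe u

section
variable {M : Type u} [Group M] {K : Type} [Field K] {T L : Subgroup M} {N : NS K L} {x : M}

theorem la_nV (hx : x ∈ 𝒩(L)) : x ∈ 𝒩(pCoreOf 2 L) := normalizer_le_normalizer_pCoreOf 2 L hx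

theorem la_nZ (hx : x ∈ 𝒩(L)) : x ∈ 𝒩(pCoreOf 2 L ⊓ 𝒞(L)) :=
  le_norm_inf (normalizer_le_normalizer_pCoreOf 2 L) (norm_le_norm_cent L) hx

theorem la_r (hx : x ∈ 𝒩(L)) (h : ∀ v ∈ pCoreOf 2 L, N.ψ (x * v * x⁻¹) = N.ψ v) {l : M} (hl : l ∈ L) :
    N.r (x * l * x⁻¹) = N.r l := sl2_ext fun w => by
  obtain ⟨v, hv, rfl⟩ := N.ψ_surj w
  have h1 := conj_mem' (la_nV hx) hv
  have h2 := h _ h1
  rw [show x * (x⁻¹ * v * x) * x⁻¹ = v by group] at h2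
  rw [← N.ψ_conj _ (conj_mem hx hl) v hv,
    show x * l * x⁻¹ * v * (x * l * x⁻¹)⁻¹ = x * (l * (x⁻¹ * v * x) * l⁻¹) * x⁻¹ by group,
    h _ (conj_mem (N.norm hl) h1), N.ψ_conj _ hl _ h1, h2]

variable [Fintype K]

theorem la_cent (H : LN T L N) (hx : x ∈ 𝒩(L)) (h : ∀ v ∈ pCoreOf 2 L, N.ψ (x * v * x⁻¹) = N.ψ v) :
    x ∈ 𝒞(pCoreOf 2 L) := by
  have : ⁅pCoreOf 2 L, L⁆ ≤ centralizer {x} := commutator_le.2 fun v hv l hl => by
    have hz := (N.ψ_eq_iff (conj_mem (la_nV hx) hv) hv).1 (h v hv)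
    have hk : l⁻¹ * (x * l * x⁻¹) ∈ pCoreOf 2 L := H.ker ▸ N.mem_ker.2 ⟨mul_mem (inv_mem hl) (conj_mem hx hl), by
      rw [N.r_mul _ (inv_mem hl) _ (conj_mem hx hl), la_r hx h hl, N.r_inv hl, inv_mul_cancel]⟩
    have e1 := conj_eq_of_mem (mem_inf.1 hz).2 (mul_mem (mul_mem (pCoreOf_le 2 L hv) (conj_mem hx hl))
      (inv_mem (pCoreOf_le 2 L hv)))
    have e2 := conj_eq_of_mem (elem_le_cent H.ea hk) (inv_mem hv)
    refine mem_centralizer_singleton_iff.2 (mul_inv_eq_iff_eq_mul.1 ?_).symm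
    calc x * ⁅v, l⁆ * x⁻¹ = x * v * x⁻¹ * v⁻¹ * (v * (x * l * x⁻¹) * v⁻¹) * (x * v * x⁻¹ * v⁻¹)⁻¹ *
          (x * l * x⁻¹)⁻¹ := by rw [commutatorElement_def]; group
      _ = v * l * (l⁻¹ * (x * l * x⁻¹) * v⁻¹ * (l⁻¹ * (x * l * x⁻¹))⁻¹) * l⁻¹ := by rw [e1]; group
      _ = ⁅v, l⁆ := by rw [e2, commutatorElement_def]
  rw [H.comm] at this
  exact fun v hv => mem_centralizer_singleton_iff.1 (this hv)

theorem la_three (H : LN T L N) (hx : x ∈ 𝒩(L)) (h : Fd N x) : ∃ t ∈ T ⊓ L, ∃ v ∈ pCoreOf 2 L,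
    N.ψ (x * t * x⁻¹ * v * (x * t * x⁻¹)⁻¹) ≠ N.ψ (t * v * t⁻¹) := by
  obtain ⟨σ, a, b, d, h1, ha, -, h2⟩ := h
  by_contra k
  push Not at k
  have key : ∀ c : K, a * σ c = c * d := fun c => by
    obtain ⟨t, ht, e⟩ := N.r_surj (sl2Up c)
    obtain ⟨w, hw, e'⟩ := N.ψ_surj ![0, 1]
    have := k t (H.up ▸ N.mem_up.2 ⟨ht, c, e.symm⟩) _ (conj_mem (la_nV hx) hw)
    rw [show x * t * x⁻¹ * (x * w * x⁻¹) * (x * t * x⁻¹)⁻¹ = x * (t * w * t⁻¹) * x⁻¹ by group,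
      h2 _ (conj_mem (N.norm ht) hw), N.ψ_conj _ ht _ hw, N.ψ_conj _ ht _ (conj_mem (la_nV hx) hw), h2 _ hw, e, e',
      sl2Up_mulVec, sl2Up_mulVec] at this
    have := congrFun this 0
    simp at this
    linear_combination this
  have e := key 1
  rw [map_one, mul_one, one_mul] at e
  exact h1 (RingEquiv.ext fun c => mul_left_cancel₀ ha (by rw [key, ← e, mul_comm]; rfl))

theorem la_one (hs : SEMI.{u}) (H : LN T L N) (hT : x ∈ T) (hx : x ∈ 𝒩(L)) : In T L x ∨ Fd N x := by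
  have := H.chr
  have := Fact.mk Nat.prime_two
  obtain ⟨σ, A, hA, h⟩ := hs M K L _ _ N x hx (la_nV hx) (la_nZ hx)
  have nu : x ∈ 𝒩(N.up) := H.up ▸ zpowers_le.1 (le_norm_inf (le_norm_of_le (zpowers_le.2 hT)) (zpowers_le.2 hx))
  have h0 : A 1 0 = 0 := by
    obtain ⟨v, hv, e⟩ := N.ψ_surj ![1, 0]
    obtain ⟨t, ht, hk⟩ := SetLike.not_le_iff_exists.1 N.not_up_le_ker
    have m := conj_mem (la_nZ hx) (N.comm_mem_of_line (conj_mem' nu ht) (N.mem_line.2 ⟨hv, by rw [e]; rfl⟩))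
    rw [show x * ⁅x⁻¹ * t * x, v⁆ * x⁻¹ = ⁅t, x * v * x⁻¹⁆ by simp only [commutatorElement_def]; group] at m
    have := (N.mem_line.1 (N.mem_line_of_comm ht hk (conj_mem (la_nV hx) hv) m)).2
    rw [h v hv, e] at this
    simpa [mulVec, dotProduct, Fin.sum_univ_two] using this
  rw [det_fin_two, h0, mul_zero, sub_zero] at hA
  have h' : ∀ v ∈ pCoreOf 2 L, N.ψ (x * v * x⁻¹) =
      ![A 0 0 * σ (N.ψ v 0) + A 0 1 * σ (N.ψ v 1), A 1 1 * σ (N.ψ v 1)] := fun v hv => by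
    rw [h v hv]
    ext i; fin_cases i <;> simp [mulVec, dotProduct, Fin.sum_univ_two, h0]
  by_cases hσ : σ = RingEquiv.refl K
  swap
  · exact Or.inr ⟨σ, _, _, _, hσ, left_ne_zero_of_mul hA, right_ne_zero_of_mul hA, h'⟩
  subst hσ
  simp only [RingEquiv.refl_apply] at h'
  obtain ⟨k, hk⟩ := isPGroup_iff_forall.1 H.syl.isPGroup x hT
  have pw : ∀ v ∈ pCoreOf 2 L, ∀ n : ℕ, N.ψ (x ^ n * v * (x ^ n)⁻¹) 1 = A 1 1 ^ n * N.ψ v 1 ∧
      (N.ψ v 1 = 0 → N.ψ (x ^ n * v * (x ^ n)⁻¹) 0 = A 0 0 ^ n * N.ψ v 0) := fun v hv n => by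
    induction n with
    | zero => simp
    | succ n ih =>
      rw [show x ^ (n + 1) * v * (x ^ (n + 1))⁻¹ = x * (x ^ n * v * (x ^ n)⁻¹) * x⁻¹ by group,
        h' _ (conj_mem (pow_mem (la_nV hx) n) hv)]
      refine ⟨?_, fun e => ?_⟩
      · change A 1 1 * _ = _
        rw [ih.1, pow_succ', mul_assoc]
      · change A 0 0 * _ + A 0 1 * _ = _
        rw [ih.1, ih.2 e, e, pow_succ']; ring
  have one : ∀ a : K, a ^ 2 ^ k = 1 → a = 1 := fun a e =>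
    sub_eq_zero.1 (pow_eq_zero_iff (pow_ne_zero k two_ne_zero) |>.1 (by rw [sub_pow_char_pow, e, one_pow, sub_self]))
  have ha : A 0 0 = 1 := by
    obtain ⟨v, hv, e⟩ := N.ψ_surj ![1, 0]
    have := (pw v hv (2 ^ k)).2 (by rw [e]; rfl)
    rw [hk, one_mul, inv_one, mul_one, e] at this
    exact one _ (by simpa using this.symm)
  have hd : A 1 1 = 1 := by
    obtain ⟨v, hv, e⟩ := N.ψ_surj ![0, 1]
    have := (pw v hv (2 ^ k)).1
    rw [hk, one_mul, inv_one, mul_one, e] at this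
    exact one _ (by simpa using this.symm)
  obtain ⟨t, ht, e⟩ := N.r_surj (sl2Up (A 0 1))
  refine Or.inl ⟨t, H.up ▸ N.mem_up.2 ⟨ht, _, e.symm⟩, la_cent H (mul_mem hx (inv_mem (le_normalizer ht))) fun v hv => ?_⟩
  have m := conj_mem (N.norm (inv_mem ht)) hv
  rw [show x * t⁻¹ * v * (x * t⁻¹)⁻¹ = x * (t⁻¹ * v * t⁻¹⁻¹) * x⁻¹ by group, h' _ m, ha, hd, one_mul, one_mul,
    ← sl2Up_mulVec, N.ψ_conj _ (inv_mem ht) _ hv, N.r_inv ht, e, sl2_mulVec_inv]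

theorem la_two [Finite M] (hs : SEMI.{u}) (H : LN T L N) (hc : x ∈ pCore 2 M) (hx : x ∈ 𝒩(L)) :
    x ∈ 𝒞(pCoreOf 2 L) := by
  have := Fact.mk Nat.prime_two
  obtain ⟨P, hP⟩ := isSylowIn_top_iff.1 H.syl
  have hT : x ∈ T := hP ▸ pCore_le_sylow P hc
  have le : pCore 2 M ⊓ L ≤ pCoreOf 2 L := le_pCoreOf inf_le_right
    (le_norm_inf le_normalizer_of_normal le_normalizer) ((pCore_isPGroup 2 M).to_le inf_le_left)
  have hr : ∀ l ∈ L, N.r (x * l * x⁻¹) = N.r l := fun l hl => (N.r_eq_iff (conj_mem hx hl) hl).2 ((le.trans H.ker.ge)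
    (mem_inf.2 ⟨by simpa only [mul_assoc] using mul_mem hc (Normal.conj_mem inferInstance _ (inv_mem hc) l),
      mul_mem (conj_mem hx hl) (inv_mem hl)⟩))
  rcases la_one hs H hT hx with ⟨t, ht, h⟩ | h
  · have tL := (mem_inf.1 ht).2
    obtain ⟨-, c, e⟩ := N.mem_up.1 (H.up ▸ ht)
    obtain ⟨l, hl, e'⟩ := N.r_surj (sl2Lo 1)
    have k := la_r (N := N) (mul_mem hx (inv_mem (le_normalizer tL))) (fun v hv => by rw [conj_eq_of_mem h hv])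
      (conj_mem (le_normalizer tL) hl)
    rw [show x * t⁻¹ * (t * l * t⁻¹) * (x * t⁻¹)⁻¹ = x * l * x⁻¹ by group, hr l hl, N.r_conj tL hl, ← e, e',
      eq_mul_inv_iff_mul_eq] at k
    have k' := congrArg (fun s : SL2 K => (s.1 *ᵥ ![1, 0]) 0) k
    simp only [sl2_mul_mulVec, sl2Up_mulVec, sl2Lo_mulVec] at k'
    have c0 : c = 0 := by simpa using k'
    have tV : t ∈ pCoreOf 2 L := H.ker ▸ N.mem_ker.2 ⟨tL, by rw [← e, c0, sl2Up_zero]⟩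
    exact (mul_mem_cancel_right (inv_mem (elem_le_cent H.ea tV))).1 h
  · obtain ⟨t, ht, v, hv, k⟩ := la_three H hx h
    have tL := (mem_inf.1 ht).2
    exact (k (by rw [N.ψ_conj _ (conj_mem hx tL) _ hv, N.ψ_conj _ tL _ hv, hr t tL])).elim

end

theorem la (h : SEMI.{u}) : LA.{u} := fun _ _ _ _ _ _ _ _ _ H =>
  ⟨fun _ hT hx => la_one h H hT hx, fun _ hc hx => la_two h H hc hx, fun _ hx k => la_three H hx k⟩

end CL.HK
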