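/-
Project HK (S5175): adapted coordinates of linear blocks; conjugate blocks.
-/
import Cfsg.Agent.HK.Core
import Cfsg.Agent.Even.NatSL2b

set_option autoImplicit false

open Cfsg Subgroup
open scoped commutatorElement

namespace CL.HK

open CL.Fus CL.Loc CL.Grp CL.Even Matrix

universe u

theorem lc_conj {M : Type u} [Group M] {K : Type} [Field K] {E U U₀ E' U' U₀' : Subgroup M} (N : NatSec K E U U₀)
    (hk : N.ker = U) (g : M) (h1 : E' = cj g E) (h2 : U' = cj g U) (h3 : U₀' = cj g U₀) :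
    ∃ N' : NatSec K E' U' U₀', N'.ker = U' := by
  subst h1 h2 h3
  refine ⟨N.map (MulAut.conj g).toMonoidHom fun x hx => ?_, Subgroup.ext fun x => ?_⟩
  · rw [show x = 1 from (MulAut.conj g).map_eq_one_iff.1 hx.1]
    exact one_mem _
  · rw [NatSec.mem_ker_iff, mem_cj, mem_cj (H := U), ← hk, N.mem_ker_iff, hk]
    refine and_congr_right' ⟨fun h u hu => ?_, fun h u hu => mem_cj.2 ?_⟩
    · convert mem_cj.1 (h _ (conj_mem_cj g hu)) using 1
      simp only [commutatorElement_def]
      group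
    · convert h _ (mem_cj.1 hu) using 1
      simp only [commutatorElement_def]
      group

theorem lc : LC.{u} := by
  intro M _ _ K _ _ T L
  have := Fact.mk Nat.prime_two
  refine ⟨fun h ⟨h1, h2, N, h3⟩ => ?_, fun g ⟨h1, h2, N, h3⟩ => ⟨h1, h2, lc_conj N h3 g rfl (cj_core g L).symm
    (by rw [cj_inf, cj_core, cj_cent])⟩, fun g h => ⟨by rw [← cj_core, card_cj, h.1], by rw [card_cj, h.2]⟩,
    fun h => (thom_le_bau T).trans (h.bau ▸ normalizer_commutator_ge_right _ _)⟩
  obtain ⟨N', h4⟩ := N.exists_le_up h.sylL.isPGroup h.sylL.le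
  have h5 : N'.ker = pCoreOf 2 L := (Subgroup.ext fun x => by rw [N'.mem_ker_iff, N.mem_ker_iff]).trans h3
  exact ⟨N', h, h1, h2, h5, h.sylL.eq_of_le (N'.up_isP (by rw [h5]; exact core_isP L)) h4 N'.up_le⟩

end CL.HK
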