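/-
Project HK (S5175), step PE: some conjugate of `V` under `Γ` does not centralize `V`.
-/
import Cfsg.Agent.HK.Core

set_option autoImplicit false

open Cfsg Subgroup
open scoped commutatorElement

namespace CL.HK

open CL.Fus CL.Loc CL.Grp CL.Even

universe u

theorem pe (h1 : SH.{u}) (h2 : LC.{u}) : PE.{u} := by
  intro T M _ _ _ i Γ L c hJ
  haveI : Fact (Nat.Prime 2) := ⟨Nat.prime_two⟩
  by_contra hn
  push Not at hn
  have bk : Bk i.range L := cj_one L ▸ c.bk 1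
  have hVT : pCoreOf 2 L ≤ i.range :=
    bk.core.trans (bk.syl.le_of_normalized pCore_isP le_top le_normalizer_of_normal)
  have hJN := (h2 M (ZMod 2) i.range L).2.2.2 bk
  have hV : pCoreOf 2 L ≤ (⨆ γ ∈ Γ, Vv (em i γ) L).map i := fun v hv => by
    obtain ⟨y, rfl⟩ := hVT hv
    exact mem_map_of_mem i (le_iSup₂ (f := fun γ (_ : γ ∈ Γ) => Vv (em i γ) L) 1 (one_mem Γ) hv)
  have hR : (⨆ γ ∈ Γ, Vv (em i γ) L).map i ≤ 𝒩(L) ⊓ 𝒞(pCoreOf 2 L) := by
    rw [map_le_iff_le_comap]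
    refine iSup₂_le fun γ hγ x hx => ⟨hJN ?_, fun v hv => ?_⟩
    · have : x ∈ (𝐉[2] i.range).comap (em i γ) := hJ hx
      rwa [(h1 T M i Γ L γ c hγ).2.2.1] at this
    · obtain ⟨y, rfl⟩ := hVT hv
      have := commutator_mem_commutator (H₁ := Vv i L) (H₂ := Vv (em i γ) L) (g₁ := y) hv hx
      rw [hn γ hγ, mem_bot, commutatorElement_eq_one_iff_mul_comm] at this
      rw [← map_mul, ← map_mul, this]
  refine c.nc (⨆ γ ∈ Γ, Vv (em i γ) L) (fun e => bk.ne (le_bot_iff.1 (by simpa [e] using hV))) (fun δ hδ => ?_)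
    (le_norm_of_cj_le fun l hl => ?_)
  · have : (⨆ γ ∈ Γ, Vv (em i γ) L) ≤ (⨆ γ ∈ Γ, Vv (em i γ) L).comap δ.toMonoidHom :=
      iSup₂_le fun γ hγ x hx => le_iSup₂ (f := fun γ (_ : γ ∈ Γ) => Vv (em i γ) L) (γ * δ⁻¹)
        (mul_mem hγ (inv_mem hδ)) (by simpa [em] using hx)
    exact fun x hx => this hx
  · rintro _ ⟨x, hx, rfl⟩
    have h3 : l * x * l⁻¹ * x⁻¹ ∈ L ⊓ 𝒞(pCoreOf 2 L) :=
      ⟨by simpa [mul_assoc] using mul_mem hl (conj_mem (hR hx).1 (inv_mem hl)),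
        (𝒞(pCoreOf 2 L)).mul_mem (conj_mem (norm_le_norm_cent _ (self_le_norm_core L hl)) (hR hx).2)
          ((𝒞(pCoreOf 2 L)).inv_mem (hR hx).2)⟩
    rw [bk.cent] at h3
    simpa using mul_mem (hV h3) hx

end CL.HK
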