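/-
Project HK (S5175): the normalizer of an `A₅`-block acts through `S₅`.
-/
import Cfsg.Agent.HK.Core

set_option autoImplicit false

open Cfsg Subgroup
open scoped commutatorElement

namespace CL.HK

open CL.Fus CL.Loc CL.Grp CL.Even

universe u

namespace S5Lh

/-- the vectors of weight four -/
def w (k : Fin 5) : Fin 5 → ZMod 2 := fun i => if i = k then 0 else 1

theorem w_even : ∀ k, ∑ i, w k i = 0 := by decide

theorem w_ne : ∀ k, ∃ i, w k i ≠ 0 := by decide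

theorem w_inj : ∀ k j, (∀ i, w k i = w j i) → k = j := by decide

theorem w_sum : ∀ a b c, ∃ i, w a i + w b i ≠ w c i := by decide

theorem w_perm (σ : Equiv.Perm (Fin 5)) (k i : Fin 5) : w k (σ⁻¹ i) = w (σ k) i := by
  unfold w
  by_cases h : i = σ k
  · subst h; simp
  · have : σ⁻¹ i ≠ k := fun e => h (by rw [← e]; simp)
    rw [if_neg h, if_neg this]

theorem cases1 : ∀ x : Fin 5 → ZMod 2, ∑ i, x i = 0 → (∀ i, x i = 0) ∨ (∃ k, ∀ i, x i = w k i) ∨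
    ∃ a b, ∀ i, x i = w a i + w b i := by decide +kernel

theorem cases2 : ∀ x : Fin 5 → ZMod 2, ∑ i, x i = 0 → (∀ i, x i = 0) ∨ (∃ k, ∀ i, x i = w k i) ∨
    ∃ a b c : Fin 5, a ≠ b ∧ b ≠ c ∧ ∀ i, x i + x (Equiv.swap b c (Equiv.swap a b i)) =
      x (Equiv.swap a b (Equiv.swap b c i)) := by decide +kernel

variable {M : Type u} [Group M]

/-- the data in `M` -/
structure Dt (L V : Subgroup M) (r : M → Equiv.Perm (Fin 5)) (ψ : M → Fin 5 → ZMod 2) : Prop where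
  nV : 𝒩(L) ≤ 𝒩(V)
  alt : ∀ a ∈ L, r a ∈ alternatingGroup (Fin 5)
  surj : ∀ c ∈ alternatingGroup (Fin 5), ∃ a ∈ L, r a = c
  mul : ∀ a ∈ V, ∀ b ∈ V, ψ (a * b) = ψ a + ψ b
  even : ∀ a ∈ V, ∑ k, ψ a k = 0
  onto : ∀ x : Fin 5 → ZMod 2, ∑ k, x k = 0 → ∃ a ∈ V, ψ a = x
  inj : ∀ a ∈ V, ∀ b ∈ V, ψ a = ψ b → a = b
  conj : ∀ m ∈ L, ∀ a ∈ V, ∀ k, ψ (m * a * m⁻¹) k = ψ a ((r m)⁻¹ k)

/-- the intrinsic description of the vectors of weight four -/
def Q (L V : Subgroup M) (a : M) : Prop :=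
  a ∈ V ∧ a ≠ 1 ∧ ∀ e ∈ L, ∀ f ∈ L, a * (e * a * e⁻¹) ≠ f * a * f⁻¹

variable {L V : Subgroup M} {r : M → Equiv.Perm (Fin 5)} {ψ : M → Fin 5 → ZMod 2}

theorem Dt.cm (h : Dt L V r ψ) {m a : M} (hm : m ∈ 𝒩(L)) (ha : a ∈ V) : m * a * m⁻¹ ∈ V :=
  (mem_normalizer_iff.1 (h.nV hm) a).1 ha

theorem Dt.one (h : Dt L V r ψ) : ψ 1 = 0 := by
  have := h.mul 1 (one_mem _) 1 (one_mem _)
  rw [one_mul] at this
  exact add_eq_left.1 this.symm

theorem Dt.q_conj (h : Dt L V r ψ) {m a : M} (hm : m ∈ 𝒩(L)) (ha : Q L V a) : Q L V (m * a * m⁻¹) := by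
  refine ⟨h.cm hm ha.1, fun e => ha.2.1 (by simpa using e), fun e he f hf E => ?_⟩
  have hi := mem_normalizer_iff.1 (inv_mem hm)
  refine ha.2.2 _ ((hi e).1 he) _ ((hi f).1 hf) ?_
  have : m⁻¹ * (m * a * m⁻¹ * (e * (m * a * m⁻¹) * e⁻¹)) * m = m⁻¹ * (f * (m * a * m⁻¹) * f⁻¹) * m := by rw [E]
  calc a * (m⁻¹ * e * m⁻¹⁻¹ * a * (m⁻¹ * e * m⁻¹⁻¹)⁻¹)
      = m⁻¹ * (m * a * m⁻¹ * (e * (m * a * m⁻¹) * e⁻¹)) * m := by group
    _ = _ := this
    _ = _ := by group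

theorem Dt.q_of (h : Dt L V r ψ) {a : M} {k : Fin 5} (ha : a ∈ V) (e : ψ a = w k) : Q L V a := by
  refine ⟨ha, fun e1 => ?_, fun g hg f hf E => ?_⟩
  · obtain ⟨i, hi⟩ := w_ne k
    apply hi
    rw [← e, e1, h.one]
    rfl
  · obtain ⟨i, hi⟩ := w_sum k (r g k) (r f k)
    apply hi
    have := congrFun (congrArg ψ E) i
    rw [h.mul _ ha _ (h.cm (le_normalizer hg) ha), Pi.add_apply, h.conj g hg a ha, h.conj f hf a ha, e, w_perm,
      w_perm] at this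
    exact this

theorem Dt.of_q (h : Dt L V r ψ) {a : M} (ha : Q L V a) : ∃ k, ψ a = w k := by
  rcases cases2 (ψ a) (h.even a ha.1) with h0 | ⟨k, hk⟩ | ⟨x, y, z, hxy, hyz, hs⟩
  · exact absurd (h.inj a ha.1 1 (one_mem _) (by rw [h.one]; exact funext h0)) ha.2.1
  · exact ⟨k, funext hk⟩
  · have hσ : Equiv.swap x y * Equiv.swap y z ∈ alternatingGroup (Fin 5) := by
      rw [Equiv.Perm.mem_alternatingGroup, Equiv.Perm.sign_mul, Equiv.Perm.sign_swap hxy, Equiv.Perm.sign_swap hyz]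
      rfl
    obtain ⟨e, he, ee⟩ := h.surj _ hσ
    obtain ⟨f, hf, ef⟩ := h.surj _ (inv_mem hσ)
    refine absurd ?_ (ha.2.2 e he f hf)
    have m1 := h.cm (le_normalizer he) ha.1
    refine h.inj _ (mul_mem ha.1 m1) _ (h.cm (le_normalizer hf) ha.1) (funext fun i => ?_)
    rw [h.mul _ ha.1 _ m1, Pi.add_apply, h.conj e he a ha.1, h.conj f hf a ha.1, ee, ef, inv_inv]
    simpa using hs i

theorem Dt.main (h : Dt L V r ψ) : ∃ π : M → Equiv.Perm (Fin 5),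
    (∀ a ∈ 𝒩(L), ∀ b ∈ 𝒩(L), π (a * b) = π a * π b) ∧ (∀ a ∈ L, π a = r a) ∧
    ∀ m ∈ 𝒩(L), ∀ a ∈ V, ∀ k, ψ (m * a * m⁻¹) k = ψ a ((π m)⁻¹ k) := by
  classical
  choose u hu eu using fun k => h.onto (w k) (w_even k)
  have uinj : ∀ k j, u k = u j → k = j := fun k j e => w_inj k j fun i => by rw [← eu, ← eu, e]
  have ex : ∀ m ∈ 𝒩(L), ∃ σ : Equiv.Perm (Fin 5), ∀ k, m * u k * m⁻¹ = u (σ k) := by
    intro m hm
    have : ∀ k, ∃ j, m * u k * m⁻¹ = u j := fun k => by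
      obtain ⟨j, hj⟩ := h.of_q (h.q_conj hm (h.q_of (hu k) (eu k)))
      exact ⟨j, h.inj _ (h.cm hm (hu k)) _ (hu j) (by rw [hj, eu])⟩
    choose p hp using this
    have pinj : Function.Injective p := fun k j e => uinj k j (by
      have : m * u k * m⁻¹ = m * u j * m⁻¹ := by rw [hp, hp, e]
      simpa using this)
    exact ⟨Equiv.ofBijective p (Finite.injective_iff_bijective.1 pinj), hp⟩
  choose! π hπ using ex
  refine ⟨π, fun a ha b hb => Equiv.ext fun k => uinj _ _ ?_, fun a ha => Equiv.ext fun k => w_inj _ _ fun i => ?_,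
    fun m hm a ha k => ?_⟩
  · rw [← hπ _ (mul_mem ha hb), Equiv.Perm.mul_apply, ← hπ a ha, ← hπ b hb]
    group
  · rw [← eu, ← hπ a (le_normalizer ha), h.conj a ha _ (hu k), eu, w_perm]
  · have hk : ∀ j, ψ (m * u j * m⁻¹) k = ψ (u j) ((π m)⁻¹ k) := fun j => by rw [hπ m hm, eu, eu, w_perm]
    rcases cases1 (ψ a) (h.even a ha) with h0 | ⟨j, hj⟩ | ⟨i, j, hij⟩
    · have : a = 1 := h.inj a ha 1 (one_mem _) (by rw [h.one]; exact funext h0)
      subst this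
      rw [mul_one, mul_inv_cancel, h.one]
      rfl
    · have : a = u j := h.inj a ha _ (hu j) (by rw [eu]; exact funext hj)
      rw [this]
      exact hk j
    · have : a = u i * u j := h.inj a ha _ (mul_mem (hu i) (hu j)) (by
        rw [h.mul _ (hu i) _ (hu j), eu, eu]; exact funext hij)
      have e2 : m * (u i * u j) * m⁻¹ = m * u i * m⁻¹ * (m * u j * m⁻¹) := by group
      rw [this, e2, h.mul _ (h.cm hm (hu i)) _ (h.cm hm (hu j)), h.mul _ (hu i) _ (hu j), Pi.add_apply,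
        Pi.add_apply, hk, hk]

end S5Lh

open S5Lh in
theorem s5l : S5L.{u} := by
  classical
  intro M _ _ T L _ hA hz
  obtain ⟨⟨-, -, ρ, φ, hr, hev, hon, hker, hcj⟩, -⟩ := hA
  have finj : Function.Injective φ := (injective_iff_map_eq_one φ).2 fun a ha =>
    Subtype.ext (by have := (hker a).1 ha; rwa [hz, mem_bot] at this)
  let ψ : M → Fin 5 → ZMod 2 := fun a => if h : a ∈ pCoreOf 2 L then Multiplicative.toAdd (φ ⟨a, h⟩) else 0
  let r : M → Equiv.Perm (Fin 5) := fun a => if h : a ∈ L then ρ ⟨a, h⟩ else 1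
  have eψ : ∀ a (h : a ∈ pCoreOf 2 L), ψ a = Multiplicative.toAdd (φ ⟨a, h⟩) := fun a h => dif_pos h
  have er : ∀ a (h : a ∈ L), r a = ρ ⟨a, h⟩ := fun a h => dif_pos h
  have D : Dt L (pCoreOf 2 L) r ψ := by
    refine ⟨norm_le_norm_core L, fun a ha => ?_, fun c hc => ?_, fun a ha b hb => ?_, fun a ha => ?_,
      fun x hx => ?_, fun a ha b hb e => ?_, fun m hm a ha k => ?_⟩
    · rw [er a ha, ← hr]
      exact ⟨_, rfl⟩
    · rw [← hr] at hc
      obtain ⟨a, rfl⟩ := hc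
      exact ⟨a, a.2, er a a.2⟩
    · rw [eψ a ha, eψ b hb, eψ _ (mul_mem ha hb), ← toAdd_mul, ← map_mul]
      rfl
    · rw [eψ a ha]
      exact hev _
    · obtain ⟨a, ha⟩ := hon x hx
      exact ⟨a, a.2, by rw [eψ a a.2]; exact ha⟩
    · rw [eψ a ha, eψ b hb] at e
      exact congrArg Subtype.val (finj (Multiplicative.toAdd.injective e))
    · obtain ⟨v, hv, e⟩ := hcj ⟨m, hm⟩ ⟨a, ha⟩
      have : m * a * m⁻¹ = v := hv.symm
      rw [this, eψ _ v.2, eψ a ha, er m hm]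
      exact e k
  obtain ⟨π, h1, h2, h3⟩ := D.main
  exact ⟨π, ψ, h1, fun a ha => h2 a ha ▸ D.alt a ha, fun c hc => by
    obtain ⟨a, ha, e⟩ := D.surj c hc
    exact ⟨a, ha, (h2 a ha).trans e⟩, D.mul, D.even, D.onto,
    fun a ha e => D.inj a ha 1 (one_mem _) (by rw [e, D.one]), h3⟩

end CL.HK
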