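/-
Project HK (S5175): from the setup in the fusion system to the core data.
-/
import Cfsg.Agent.HK.Core

set_option autoImplicit false

open Cfsg Subgroup
open scoped commutatorElement

namespace CL.HK

open CL.Fus CL.Loc CL.Grp CL.Even

universe u

section
variable {Ω : Type u} [Group Ω] {S : Subgroup Ω} {F : FusionSystem S} {T U : Subgroup Ω}
  {M : Type u} [Group M] {ι : T →* M} {H : Subgroup M}

open Classical in
/-- a self-map of `T` as a function on the ambient group -/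
noncomputable def scExt (f : T → T) : Ω → Ω := fun x => if h : x ∈ T then f ⟨x, h⟩ else 1

theorem scExt_coe (f : T → T) (x : T) : scExt f x = f x := by simp [scExt]

theorem sc_tr (hT : T ≤ S) {δ : MulAut T} (hδ : δ ∈ F.autGroup T) {R R' : Subgroup T} {f f' : T → T}
    (hR : ∀ a ∈ R', δ⁻¹ a ∈ R) (hf : ∀ a ∈ R', f' a = δ (f (δ⁻¹ a))) (h : Mor F (R.map T.subtype) (scExt f)) :
    Mor F (R'.map T.subtype) (scExt f') := by
  have m1 := (mor_autFun hT (inv_mem hδ)).mono (map_subtype_le R')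
  have m2 := m1.comp h (by
    rintro _ ⟨a, ha, rfl⟩
    exact ⟨_, hR a ha, (autFun_coe _ a).symm⟩)
  have m3 := m2.comp (mor_autFun hT hδ) (by
    rintro _ ⟨a, ha, rfl⟩
    change scExt f (autFun δ⁻¹ (a : Ω)) ∈ T
    rw [autFun_coe, scExt_coe]; exact Subtype.prop _)
  refine m3.congr ?_
  rintro _ ⟨a, ha, rfl⟩
  change autFun δ (scExt f (autFun δ⁻¹ (a : Ω))) = scExt f' (a : Ω)
  rw [autFun_coe, scExt_coe, autFun_coe, scExt_coe, hf a ha]

theorem sc_key (h : Su F T U ι H) {γ : MulAut T} (hγ : γ ∈ F.autGroup T) {R : Subgroup T} {g : M} {f : T → T}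
    (e : ∀ a ∈ R, em ι γ (f a) = g * em ι γ a * g⁻¹) : Mor F (R.map T.subtype) (scExt f) := by
  refine sc_tr h.le (inv_mem hγ) (R := R.comap (γ⁻¹ : MulAut T).toMonoidHom) (f := fun a => γ (f (γ⁻¹ a)))
    (fun a ha => by simpa using ha) (fun a _ => by simp) (h.mor0 _ _ g (map_subtype_le _) ?_ ?_)
  · rintro _ ⟨a, -, rfl⟩
    change scExt _ (a : Ω) ∈ T
    rw [scExt_coe]; exact Subtype.prop _
  · rintro _ ⟨a, ha, rfl⟩
    change ext ι (scExt _ (a : Ω)) = g * ext ι (a : Ω) * g⁻¹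
    rw [scExt_coe, ext_coe, ext_coe]
    have := e _ ha
    simpa [em] using this

theorem sc_img (ι : T →* M) (R : Subgroup T) : img (ext ι) (R.map T.subtype) = R.map ι := by
  rw [img_ext_of_le ι (map_subtype_le R), subgroupOf, comap_map_eq_self_of_injective T.subtype_injective]

theorem sc_ne {R : Subgroup T} (h : R ≠ ⊥) : R.map T.subtype ≠ ⊥ := fun k =>
  h ((map_eq_bot_iff_of_injective R T.subtype_injective).1 k)

theorem sc_nc [Finite S] (h : Su F T U ι H) {R : Subgroup T} (hR : R ≠ ⊥)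
    (hi : ∀ γ ∈ F.autGroup T, ∀ x ∈ R, γ x ∈ R) : 𝒩(R.map ι) ≤ H := by
  rw [← sc_img]
  refine h.nc _ (map_subtype_le R) (sc_ne hR) fun f hf hT => ?_
  obtain ⟨α, hα, e⟩ := hf.exists_aut' le_rfl hT
  rintro _ ⟨a, ha, rfl⟩
  exact ⟨α a, hi α hα a ha, (autFun_coe α a).symm.trans (e a a.2)⟩

end

theorem sc : SC.{u} := by
  intro Ω _ S _ F T U M _ _ ι H h ch
  refine ⟨fun C hC hne hc => ?_, fun k => h.ne ?_, fun L hL bk dis => ⟨h.inj, bk, dis, fun t => ?_, fun R hR hi k => ?_,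
    fun R hR hn k => ?_, fun γ hγ δ hδ R g f hU e hf => ?_, fun x hx => ?_⟩⟩
  · have e : (C.comap ι).map ι = C := map_comap_eq_self hC
    rw [← e]
    refine sc_nc h (fun k => hne (by rw [← e, k, Subgroup.map_bot])) fun γ _ x hx => ?_
    let θ := MonoidHom.ofInjective h.inj
    have k := characteristic_iff_le_comap.1 hc (MulAut.congr θ γ) (x := θ x) hx
    have k2 : (MulAut.congr θ γ) (θ x) = θ (γ x) := by simp [MulAut.congr_apply]
    have k3 : (MulAut.congr θ γ) (θ x) ∈ C.subgroupOf ι.range := k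
    rw [k2] at k3
    exact k3
  · refine eq_bot_iff.2 fun x hx => ?_
    have : ι ⟨x, h.leU hx⟩ ∈ ι.range := ⟨_, rfl⟩
    rw [k, mem_bot, ← map_one ι] at this
    exact congrArg Subtype.val (h.inj this)
  · exact (mor_conj F h.le (h.le t.2)).mem_autGroup fun x => rfl
  · exact hL (k.trans (sc_nc h hR hi))
  · have : Finite (R.map T.subtype : Set Ω) := finite_of_le ((map_subtype_le R).trans h.le)
    have k1 := h.mx _ (map_subtype_le R) (sc_ne hR) (fun t ht => mem_normalizer_fintype ?_)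
      (fun k2 => hL (k.trans (sc_img ι R ▸ k2)))
    · rw [card_map_of_injective T.subtype_injective] at k1
      refine k1.trans (Nat.card_le_card_of_injective
        (fun x : U => (⟨ext ι x, (h.imU x (h.leU x.2)).1 x.2⟩ : pCore 2 M)) fun x y e => ?_)
      exact Subtype.ext (ext_injOn h.inj (h.leU x.2) (h.leU y.2) (congrArg Subtype.val e))
    · rintro _ ⟨a, ha, rfl⟩
      exact ⟨_, hn.conj_mem a ha ⟨t, ht⟩, rfl⟩
  · have m := sc_tr h.le hδ (R' := R.comap (δ⁻¹ : MulAut T).toMonoidHom) (f' := fun a => δ (f (δ⁻¹ a)))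
      (fun a ha => ha) (fun a _ => rfl) (sc_key h hγ e)
    have u : ∀ x (hx : x ∈ U), δ⁻¹ ⟨x, h.leU hx⟩ ∈ Uu (em ι δ) := fun x hx => by
      have := (h.imU x (h.leU hx)).1 hx
      rw [ext_apply ι (h.leU hx)] at this
      simpa [em] using this
    obtain ⟨m', hm⟩ := h.mor ((R.comap (δ⁻¹ : MulAut T).toMonoidHom).map T.subtype) _
      (fun x hx => ⟨⟨x, h.leU hx⟩, hU (u x hx), rfl⟩) (map_subtype_le _) m
      (by
        rintro _ ⟨a, -, rfl⟩
        change scExt _ (a : Ω) ∈ T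
        rw [scExt_coe]; exact Subtype.prop _)
      (fun x hx => by
        have k := scExt_coe (fun a => δ (f (δ⁻¹ a))) ⟨x, h.leU hx⟩
        change scExt _ x = _ at k
        rw [k, h.imU _ (Subtype.prop _), ext_coe]
        exact hf _ (u x hx))
    refine ⟨m', fun a ha => ?_⟩
    have k := hm (δ a : T) ⟨δ a, by simpa using ha, rfl⟩
    rw [scExt_coe, ext_coe, ext_coe] at k
    simpa [em] using k
  · obtain ⟨l, hl, inv⟩ := ch x (h.le x.2) fun k => hx (Subtype.ext k)
    have c : ∀ a ∈ centralizer ({x} : Set T), (a : Ω) ∈ S ⊓ centralizer ({(x : Ω)} : Set Ω) := fun a ha =>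
      ⟨h.le a.2, mem_centralizer_singleton_iff.2 (congrArg Subtype.val (mem_centralizer_singleton_iff.1 ha))⟩
    refine ⟨fun a => l a, ⟨fun a ha k => Subtype.ext (hl.zero _ (c a ha) k), fun a ha b hb => hl.mul _ (c a ha) _ (c b hb),
      fun a ha => hl.inv _ (c a ha), fun a ha b hb k => hl.com _ (c a ha) _ (c b hb) fun k' => k (Subtype.ext k')⟩,
      fun γ hγ g hg a ha b hb => ?_⟩
    let R : Subgroup T := (ι.range.comap (MulAut.conj g).toMonoidHom).comap (em ι γ)
    have ex : ∀ y : T, ∃ z : T, y ∈ R → em ι γ z = g * em ι γ y * g⁻¹ := fun y => by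
      by_cases k : y ∈ R
      · obtain ⟨w, hw⟩ := k
        exact ⟨γ⁻¹ w, fun _ => by simpa [em] using hw⟩
      · exact ⟨1, fun k' => absurd k' k⟩
    choose f hf using ex
    have inj : Function.Injective (em ι γ) := h.inj.comp γ.injective
    have gx : g * em ι γ x * g⁻¹ = em ι γ x := by rw [hg, mul_inv_cancel_right]
    have xR : x ∈ R := ⟨γ x, gx.symm⟩
    have aR : a ∈ R := ⟨γ b, hb⟩
    have fx : f x = x := inj ((hf x xR).trans gx)
    have fa : f a = b := inj ((hf a aR).trans hb.symm)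
    have k := inv _ _ (sc_key h hγ hf) ⟨x, xR, rfl⟩ (by rw [scExt_coe, fx]) a ⟨a, aR, rfl⟩ (c a ha).2
    rwa [scExt_coe, fa] at k

end CL.HK
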