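/-
Project HK: an element normalising a natural section acts semilinearly (job HK-SEMI).
-/
import Cfsg.Agent.HK.Core

set_option autoImplicit false

open Cfsg Subgroup
open scoped commutatorElement

namespace CL.HK

open CL.Fus CL.Loc CL.Grp CL.Even Matrix

universe u

section
variable {K : Type} [Field K]

theorem semi_scal (f : (Fin 2 → K) →+ (Fin 2 → K)) (h : ∀ (s : SL2 K) x, f (s.1 *ᵥ x) = s.1 *ᵥ f x) :
    ∃ c : K, ∀ x, f x = c • x := by
  have h1 : ∀ x, f ![x, 0] 1 = 0 := fun x => by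
    have := congrFun (h (sl2Up 1) ![x, 0]) 0
    rw [sl2Up_mulVec, sl2Up_mulVec] at this
    simpa using this
  have h2 : ∀ y, f ![0, y] 0 = 0 := fun y => by
    have := congrFun (h (sl2Lo 1) ![0, y]) 1
    rw [sl2Lo_mulVec, sl2Lo_mulVec] at this
    simpa using this
  have sp : ∀ x y : K, f ![x, y] = f ![x, 0] + f ![0, y] := fun x y => by rw [← map_add]; simp
  have h3 : ∀ c y, f ![c * y, 0] 0 = c * f ![0, y] 1 := fun c y => by
    have := congrFun (h (sl2Up c) ![0, y]) 0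
    rw [sl2Up_mulVec, sl2Up_mulVec] at this
    simpa [sp (c * y) y, h2] using this
  refine ⟨f ![0, 1] 1, fun x => ?_⟩
  have a := h3 (x 0) 1
  have b := h3 1 (x 1)
  have c := h3 (x 1) 1
  rw [mul_one] at a c
  rw [one_mul, one_mul, c] at b
  rw [show f x = f ![x 0, x 1] from congrArg f (by ext i; fin_cases i <;> rfl), sp]
  ext i
  fin_cases i <;> simp [h1, h2, a, ← b, mul_comm]

variable {M : Type u} [Group M] {L U U₀ : Subgroup M} (N : NatSec K L U U₀)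

theorem semi_ex {m : M} (hU : m ∈ 𝒩(U)) (h0 : m ∈ 𝒩(U₀)) :
    ∃ φ : (Fin 2 → K) →+ (Fin 2 → K), ∀ v ∈ U, φ (N.ψ v) = N.ψ (m * v * m⁻¹) := by
  choose u hu e using N.ψ_surj
  have k : ∀ v ∈ U, N.ψ (m * u (N.ψ v) * m⁻¹) = N.ψ (m * v * m⁻¹) := fun v hv => by
    rw [N.ψ_eq_iff (conj_mem hU (hu _)) (conj_mem hU hv), show ∀ a b : M, m * a * m⁻¹ * (m * b * m⁻¹)⁻¹ = m * (a * b⁻¹) * m⁻¹ from
      fun a b => by group]
    exact conj_mem h0 ((N.ψ_eq_iff (hu _) hv).1 (e _))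
  refine ⟨AddMonoidHom.mk' (fun x => N.ψ (m * u x * m⁻¹)) fun x y => ?_, k⟩
  rw [← N.ψ_mul _ (conj_mem hU (hu _)) _ (conj_mem hU (hu _)), conj_mul, ← k _ (mul_mem (hu _) (hu _)),
    N.ψ_mul _ (hu _) _ (hu _), e, e]

theorem semi_lin {m : M} (hL : m ∈ 𝒩(L)) (hU : m ∈ 𝒩(U)) {φ φ' : (Fin 2 → K) →+ (Fin 2 → K)}
    (h : ∀ v ∈ U, φ (N.ψ v) = N.ψ (m * v * m⁻¹)) (h' : ∀ v ∈ U, φ' (N.ψ v) = N.ψ (m⁻¹ * v * m⁻¹⁻¹)) :
    (∀ x, φ' (φ x) = x) ∧ ∀ c : K, ∃ d : K, ∀ y, φ (c • y) = d • φ y := by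
  have i1 : ∀ x, φ' (φ x) = x := fun x => by
    obtain ⟨v, hv, rfl⟩ := N.ψ_surj x
    rw [h v hv, h' _ (conj_mem hU hv)]
    congr 1; group
  have i2 : ∀ x, φ (φ' x) = x := fun x => by
    obtain ⟨v, hv, rfl⟩ := N.ψ_surj x
    rw [h' v hv, h _ (conj_mem (inv_mem hU) hv)]
    congr 1; group
  refine ⟨i1, fun c => ?_⟩
  obtain ⟨d, hd⟩ := semi_scal (φ.comp ((DistribSMul.toAddMonoidHom _ c).comp φ')) fun s x => by
    obtain ⟨e, he, rfl⟩ := N.r_surj s
    have k : ∀ y, φ ((N.r (m⁻¹ * e * m)).1 *ᵥ y) = (N.r e).1 *ᵥ φ y := fun y => by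
      obtain ⟨v, hv, rfl⟩ := N.ψ_surj y
      rw [← N.ψ_conj _ (conj_mem' hL he) v hv, h _ (conj_mem (N.norm (conj_mem' hL he)) hv), h v hv,
        ← N.ψ_conj e he _ (conj_mem hU hv)]
      congr 1; group
    change φ (c • φ' _) = _ *ᵥ φ (c • φ' x)
    rw [← k, mulVec_smul, ← i1 (_ *ᵥ φ' x), k, i2]
  exact ⟨d, fun y => by rw [← hd]; change _ = φ (c • φ' _); rw [i1]⟩

end

theorem semi : SEMI.{u} := by
  intro M _ K _ L U U₀ N m hL hU h0
  obtain ⟨φ, h⟩ := semi_ex N hU h0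
  obtain ⟨φ', h'⟩ := semi_ex N (inv_mem hU) (inv_mem h0)
  obtain ⟨i1, k1⟩ := semi_lin N hL hU h h'
  obtain ⟨i2, k2⟩ := semi_lin N (inv_mem hL) (inv_mem hU) h' (by simpa only [inv_inv] using h)
  choose f hf using k1
  choose g hg using k2
  have un : ∀ {a b : K}, a • φ (φ' 1) = b • φ (φ' 1) → a = b := fun e => by simpa [i2] using congrFun e 0
  have fg : ∀ c, f (g c) = c := fun c => un (by rw [← hf, ← hg, i2, i2])
  have gf : ∀ c, g (f c) = c := fun c => by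
    have := hg (f c) (φ 1)
    rw [← hf, i1, i1] at this
    simpa using (congrFun this 0).symm
  let s : K ≃+* K := ⟨⟨f, g, gf, fg⟩, fun a b => un (by rw [← hf, mul_smul, mul_smul, hf, hf]),
    fun a b => un (by rw [← hf, add_smul, add_smul, map_add, hf, hf])⟩
  have key : ∀ y, φ y = (Matrix.of fun i j => φ (Pi.single j 1) i) *ᵥ fun k => s (y k) := fun y => by
    rw [show y = y 0 • Pi.single 0 1 + y 1 • Pi.single 1 1 by ext i; fin_cases i <;> simp, map_add, hf, hf]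
    ext i
    simp [s, mulVec, dotProduct, Fin.sum_univ_two, mul_comm]
  refine ⟨s, _, fun a => ?_, fun v hv => (h v hv).symm.trans (key _)⟩
  obtain ⟨v, v0, hv⟩ := exists_mulVec_eq_zero_iff.2 a
  have := key fun k => s.symm (v k)
  simp only [RingEquiv.apply_symm_apply] at this
  have := (i1 _).symm.trans ((congrArg φ' (this.trans hv)).trans (map_zero _))
  exact v0 (funext fun k => s.symm.map_eq_zero_iff.1 (congrFun this k))

end CL.HK
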