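/-
Project HK (S5175): the choice of `U` (job HK-SET1, helper27).
-/
import Cfsg.Agent.HK.Core

set_option autoImplicit false

open Cfsg Subgroup
open scoped commutatorElement

namespace CL.HK

open CL.Fus CL.Loc CL.Grp CL.Even Cfsg.FusionSystem

universe u

namespace SET1x

theorem ex_max {α : Type*} (p : α → Prop) (m : α → ℕ) (B : ℕ) (hb : ∀ a, p a → m a ≤ B) (hne : ∃ a, p a) :
    ∃ a, p a ∧ ∀ b, p b → m b ≤ m a := by
  obtain ⟨a, ha, h⟩ := (measure fun a => B - m a).wf.has_min {a | p a} hne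
  refine ⟨a, ha, fun b hb' => ?_⟩
  have h1 : ¬ B - m b < B - m a := h b hb'
  have := hb a ha
  have := hb b hb'
  omega

variable {Ω : Type u} [Group Ω] {S : Subgroup Ω} [Finite S] {F N : FusionSystem S} {P R A : Subgroup Ω} {f a : Ω → Ω}
  {t : ℕ}

theorem par (h : Par0 F N) (h0 : R ≠ ⊥) (hR : R ≤ S) (hn : S ≤ 𝒩(R)) (hi : ∀ f, Mor F S f → ∀ x ∈ R, f x ∈ R) :
    ¬ Bad F N R := by
  rintro ⟨P, f, h1, h2, hf, h3, h4⟩
  refine h4 ⟨hf.homOn.toHom, h R h0 hR hn (fun Q φ hφ => ?_) P ?_, fun _ => rfl⟩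
  · obtain ⟨e1, g, hg, e2, -⟩ := (mem_normalizerHom_iff (f := ext φ) fun x => (ext_coe φ x).symm).1 hφ
    exact (mem_normalizerHom_iff (f := ext φ) fun x => (ext_coe φ x).symm).2
      ⟨fun x hx => ⟨(e1 hx).1, hn (e1 hx).1⟩, g, hg.mono (sup_le_sup_left hR Q), e2,
        (hg.mono le_sup_right).img_eq_self hR (hi g (hg.mono le_sup_right))⟩
  · exact (mem_normalizerHom_iff (f := f) fun _ => rfl).2
      ⟨le_inf hf.le h2, f, hf.mono (sup_le le_rfl h1), fun _ _ => rfl, hf.img_eq_self h1 h3⟩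

omit [Finite S] in
theorem aut (h : A ≠ ⊥ → ¬ Bad F N A) (ha : Mor F A a) (hA : ∀ x ∈ A, a x ∈ A) : Mor N A a := by
  by_cases h0 : A = ⊥
  · subst h0
    refine (mor_id N bot_le).congr fun x hx => ?_
    rw [mem_bot.1 hx, ha.homOn.map_one]
  · by_contra hn
    exact h h0 ⟨A, a, le_rfl, le_normalizer, ha, hA, hn⟩

theorem top (h : Par0 F N) (ha : Mor F S a) : Mor N S a :=
  aut (fun h0 => par h h0 le_rfl le_normalizer fun _ hf _ hx => hf.mem hx) ha fun _ hx => ha.mem hx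

/-- all bad subgroups have small normalizers -/
def Sm (F N : FusionSystem S) (t : ℕ) : Prop :=
  ∀ A, A ≠ ⊥ → F.IsFullyNormalized A → Bad F N A → Nat.card (normalizerIn S A) ≤ t

theorem big (hS : IsPGroup 2 S) (hF : F.IsSaturated 2) (h : Par0 F N) (hm : Sm F N t) (hf : Mor F P f)
    (ht : t < Nat.card P) : Mor N P f := by
  haveI : Fact (Nat.Prime 2) := ⟨Nat.prime_two⟩
  refine alperin_induction hS hF (fun f => Mor N P f) (fun g hg => (mor_id N hf.le).congr fun x hx => (hg x hx).symm)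
    (fun f g a A hf hC hA ha hi hfa hg => (hC.comp ?_ hfa).congr fun x hx => (hg x hx).symm) hf
  rcases hA with rfl | hA
  · exact top h ha
  · refine aut (fun h0 hb => ?_) ha (img_le_iff.1 hi.le)
    have := (hf.card_le fun x hx => le_normalizerIn ha.le (hfa x hx)).trans (hm A h0 hA.2.1 hb)
    omega

theorem grow (hS : IsPGroup 2 S) (hP : P ≤ S) (h : Nat.card P < Nat.card S) :
    Nat.card P < Nat.card (normalizerIn S P) :=
  haveI : Fact (Nat.Prime 2) := ⟨Nat.prime_two⟩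
  card_lt_of_lt (lt_normalizerIn hS (hP.lt_of_ne fun e => h.ne (by rw [e])))

theorem big' (hS : IsPGroup 2 S) (hF : F.IsSaturated 2) (hN : N ≤ F) (h : Par0 F N) (hm : Sm F N t) (hf : Mor F P f)
    (ht : t ≤ Nat.card P) : Mor N P f := by
  haveI : Fact (Nat.Prime 2) := ⟨Nat.prime_two⟩
  rcases hf.le.lt_or_eq with hlt | rfl
  swap
  · exact top h hf
  have c := card_lt_of_lt hlt
  obtain ⟨β', hβ', fn⟩ := exists_mor_normalizerIn_fullyNormalized hS hF hf.img_le
  have l1 := le_normalizerIn hf.img_le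
  have l2 := le_normalizerIn hf.le
  have hc := hf.comp_img hβ' l1
  obtain ⟨β, hβ, e⟩ := exists_mor_normalizerIn hS hF fn (isConj_iff.2 ⟨_, hc, hf.img_comp β'⟩)
  have g1 := grow hS hf.le c
  have g2 := grow hS hf.img_le (by rwa [hf.card_img])
  rw [hf.card_img] at g2
  have n1 := (big hS hF h hm hβ (by omega)).mono l2
  have n2 := (big hS hF h hm hβ' (by omega)).mono l1
  obtain ⟨γ, hγ, e1, -, e2⟩ := n1.exists_inv' e
  obtain ⟨δ, hδ, d1, -, -⟩ := n2.exists_inv
  have m1 := img_le_iff.1 e2.le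
  have m2 : ∀ x ∈ P, β' (f x) ∈ img β' (img f P) := fun x hx => mem_img_of_mem _ (mem_img_of_mem _ hx)
  have ha : Mor N (img β' (img f P)) fun y => β' (f (γ y)) :=
    aut (fun h0 hb => by
      have := (hβ'.card_le fun x hx => hβ'.map_normalizerIn hf.img_le hx).trans (hm _ h0 fn hb)
      omega) ((le_iff_mor.1 hN _ _ hγ).comp hc m1) fun y hy => m2 _ (m1 y hy)
  have hb : Mor N P fun x => β' (f x) := (n1.comp_img ha e.le).congr fun x hx => by rw [e1 x hx]
  exact (hb.comp hδ m2).congr fun x hx => d1 _ (mem_img_of_mem _ hx)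

theorem trans (hN : N ≤ F) {α : Ω → Ω} (hα : Mor N (normalizerIn S R) α) (hb : Bad F N R) : Bad F N (img α R) := by
  obtain ⟨P, f, h1, h2, hf, h3, h4⟩ := hb
  have l1 : P ≤ normalizerIn S R := le_inf hf.le h2
  have l2 : ∀ x ∈ P, f x ∈ normalizerIn S R := fun x hx => by
    have := hf.map_mem_normalizerIn h1 hx (h2 hx)
    rwa [hf.img_eq_self h1 h3] at this
  obtain ⟨δ, hδ, d1, -, -⟩ := hα.exists_inv
  have m1 : ∀ y ∈ img α P, δ y ∈ P := fun y hy => by
    obtain ⟨x, hx, rfl⟩ := (hα.mem_img' l1).1 hy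
    rwa [d1 x (l1 hx)]
  refine ⟨img α P, fun y => α (f (δ y)), img_mono α h1,
    img_le_iff.2 fun x hx => (hα.map_mem_normalizerIn (h1.trans l1) (l1 hx) (h2 hx)).2,
    (le_iff_mor.1 hN _ _ (hδ.mono (img_mono α l1))).comp (hf.comp (le_iff_mor.1 hN _ _ hα) l2) m1, fun y hy => ?_,
    fun hn => h4 ?_⟩
  · obtain ⟨x, hx, rfl⟩ := (hα.mem_img' (h1.trans l1)).1 hy
    simpa only [d1 x (l1 (h1 hx))] using mem_img_of_mem α (h3 x hx)
  · have h5 : Mor N P fun x => α (f x) := ((hα.mono l1).comp_img hn le_rfl).congr fun x hx => by rw [d1 x (l1 hx)]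
    exact (h5.comp hδ fun x hx => mem_img_of_mem α (l2 x hx)).congr fun x hx => d1 _ (l2 x hx)

theorem move (hS : IsPGroup 2 S) (hF : F.IsSaturated 2) (hN : N ≤ F) (h : Par0 F N) (hm : Sm F N t) (hR : R ≤ S)
    (h0 : R ≠ ⊥) (hb : Bad F N R) (ht : t ≤ Nat.card (normalizerIn S R)) :
    ∃ R', (R' ≠ ⊥ ∧ F.IsFullyNormalized R' ∧ Bad F N R') ∧ Nat.card R' = Nat.card R ∧
      Nat.card (normalizerIn S R) ≤ Nat.card (normalizerIn S R') := by
  haveI : Fact (Nat.Prime 2) := ⟨Nat.prime_two⟩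
  obtain ⟨α, hα, fn⟩ := exists_mor_normalizerIn_fullyNormalized hS hF hR
  have c := hα.card_img' (le_normalizerIn hR)
  haveI := finite_of_le hR
  exact ⟨img α R, ⟨fun e => h0 (card_eq_one.1 (by rw [← c, e, card_bot])), fn,
    trans hN (big' hS hF hN h hm hα ht) hb⟩, c, hα.card_le fun x hx => hα.map_normalizerIn hR hx⟩

end SET1x

open SET1x in
theorem set1 : SET1.{u} := by
  intro Ω _ S _ F N hS hF hN hne h
  have ex : ∃ U, U ≠ ⊥ ∧ F.IsFullyNormalized U ∧ Bad F N U := by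
    by_contra hn
    refine hne (fusionSystem_le_antisymm hN (le_iff_mor.2 fun P f hf => ?_))
    haveI := hf.finite
    exact big (t := 0) hS hF h (fun A h1 h2 h3 => absurd ⟨A, h1, h2, h3⟩ hn) hf Nat.card_pos
  obtain ⟨U₀, hU₀, m₀⟩ := ex_max _ (fun U => Nat.card (normalizerIn S U)) (Nat.card S)
    (fun U _ => card_le_of_le (normalizerIn_le S U)) ex
  obtain ⟨U, ⟨⟨h1, h2, h3⟩, e⟩, m₁⟩ := ex_max (fun U => (U ≠ ⊥ ∧ F.IsFullyNormalized U ∧ Bad F N U) ∧
    Nat.card (normalizerIn S U) = Nat.card (normalizerIn S U₀)) (fun U => Nat.card U) (Nat.card S)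
    (fun U hU => card_le_of_le hU.1.2.1.1) ⟨U₀, hU₀, rfl⟩
  rw [← e] at m₀ m₁
  have hm : Sm F N (Nat.card (normalizerIn S U)) := fun A a1 a2 a3 => m₀ A ⟨a1, a2, a3⟩
  refine ⟨U, h1, h2, h3, fun R hR h0 hi hb => ?_, fun R hR h0 hn hb => ?_⟩
  · change R ≤ normalizerIn S U at hR
    change ∀ f, Mor F (normalizerIn S U) f → (∀ x ∈ normalizerIn S U, f x ∈ normalizerIn S U) → _ at hi
    have hT := normalizerIn_le S U
    haveI := finite_of_le (hR.trans hT)
    have key : normalizerIn S (normalizerIn S U) ≤ normalizerIn S R := fun s hs =>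
      ⟨hs.1, mem_normalizer_fintype (hi _ (mor_conj F hT hs.1) fun x hx => conj_mem hs.2 hx)⟩
    rcases hT.lt_or_eq with hlt | eT
    · have g := (grow hS hT (card_lt_of_lt hlt)).trans_le (card_le_of_le key)
      obtain ⟨R', r1, -, r2⟩ := move hS hF hN h hm (hR.trans hT) h0 hb g.le
      have := m₀ R' r1
      omega
    · rw [eT] at hi key hR
      exact par h h0 hR (fun s hs => (key (le_normalizerIn le_rfl hs)).2) (fun f hf => hi f hf fun _ hx => hf.mem hx) hb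
  · have g : Nat.card (normalizerIn S U) ≤ Nat.card (normalizerIn S R) := card_le_of_le (le_inf inf_le_left hn)
    obtain ⟨R', r1, r2, r3⟩ := move hS hF hN h hm hR h0 hb g
    exact r2 ▸ m₁ R' ⟨r1, le_antisymm (m₀ R' r1) (g.trans r3)⟩

end CL.HK
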