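/-
Project HK (S5175): shifting the embedding by an automorphism.
-/
import Cfsg.Agent.HK.Core

set_option autoImplicit false

open Cfsg Subgroup
open scoped commutatorElement

namespace CL.HK

open CL.Fus CL.Loc CL.Grp CL.Even Matrix

universe u

section
variable {T M : Type u} [Group T] [Group M]

theorem sh_em_em (i : T →* M) (γ δ : MulAut T) : em (em i γ) δ = em i (γ * δ) := rfl

theorem sh_em_apply (i : T →* M) (γ : MulAut T) (x : T) : em i γ x = i (γ x) := rfl

theorem sh_map_em (i : T →* M) (γ : MulAut T) (R : Subgroup T) : R.map (em i γ) = (R.map γ.toMonoidHom).map i :=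
  (map_map _ _ _).symm

theorem sh_range (i : T →* M) (γ : MulAut T) : (em i γ).range = i.range := by
  rw [MonoidHom.range_eq_map, sh_map_em, map_top_of_surjective _ γ.surjective, ← MonoidHom.range_eq_map]

theorem sh_comap_J {e : T →* M} (he : Function.Injective e) :
    (𝐉[2] e.range).comap e = thompsonSubgroupOf 2 (⊤ : Subgroup T) := by
  rw [MonoidHom.range_eq_map, ← map_thompsonSubgroupOf (by rw [(MonoidHom.ker_eq_bot_iff e).2 he, inf_bot_eq]),
    comap_map_eq_self_of_injective he]

end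

theorem sh : SH.{u} := fun T M _ _ _ i Γ L γ h hγ => by
  have inj : Function.Injective (em i γ) := h.inj.comp γ.injective
  refine ⟨⟨inj, sh_range i γ ▸ h.bk, h.dis, h.inn, fun R hR hinv => ?_, fun R hR hn hL => ?_,
    fun a ha b hb => h.ext _ (Γ.mul_mem hγ ha) _ (Γ.mul_mem hγ hb), fun x hx => ?_⟩, sh_range i γ, ?_, ?_⟩
  · have e : R.map γ.toMonoidHom = R := le_antisymm (by rintro _ ⟨x, hx, rfl⟩; exact hinv γ hγ x hx)
      fun x hx => ⟨γ⁻¹ x, hinv _ (Γ.inv_mem hγ) x hx, MulAut.apply_inv_self T γ x⟩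
    rw [sh_map_em, e]
    exact h.nc R hR hinv
  · rw [← card_map_of_injective (K := R) (f := γ.toMonoidHom) γ.injective]
    exact h.mx _ (fun e => hR ((map_eq_bot_iff_of_injective R γ.injective).1 e)) (hn.map _ γ.surjective)
      (sh_map_em i γ R ▸ hL)
  · obtain ⟨l, h1, h2⟩ := h.chain x hx
    exact ⟨l, h1, fun a ha => h2 _ (Γ.mul_mem hγ ha)⟩
  · rw [sh_comap_J h.inj, ← sh_comap_J inj, sh_range]
  · rw [sh_em_em, mul_inv_cancel]; rfl

end CL.HK
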