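/-
Project HK (S5175): the transition to the endgame over the field with two elements.
-/
import Cfsg.Agent.HK.Core

set_option autoImplicit false

open Cfsg Subgroup
open scoped commutatorElement

namespace CL.HK

open CL.Fus CL.Loc CL.Grp CL.Even

universe u

namespace TR2x

variable {X : Type u} [Group X] [Finite X]

theorem four {V : Subgroup X} (h : Nat.card V = 4) {z v : X} (hz : z ∈ V) (hv : v ∈ V) (z1 : z ≠ 1) (v1 : v ≠ 1)
    (vz : v ≠ z) (z2 : z * z = 1) : ∀ x ∈ V, x = 1 ∨ x = z ∨ x = v ∨ x = v * z := by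
  have e1 : v * z ≠ 1 := fun e => vz (mul_right_cancel (e.trans z2.symm))
  have e : ({1, z, v, v * z} : Set X) = V := by
    refine Set.eq_of_subset_of_ncard_le ?_ ?_ (Set.toFinite _)
    · rintro _ (rfl | rfl | rfl | rfl)
      exacts [one_mem _, hz, hv, mul_mem hv hz]
    · rw [Set.ncard_insert_of_notMem (by simp [z1.symm, v1.symm, e1.symm]),
        Set.ncard_insert_of_notMem (by simp [vz.symm, v1]), Set.ncard_pair (by simpa using z1)]
      exact h.le
  intro x hx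
  have : x ∈ ({1, z, v, v * z} : Set X) := e ▸ hx
  simpa using this

theorem two {D : Subgroup X} (h : Nat.card D ≤ 2) {a b : X} (ha : a ∈ D) (hb : b ∈ D) (a1 : a ≠ 1) (b1 : b ≠ 1) :
    a = b := by
  by_contra k
  have e : ({1, a, b} : Set X).ncard = 3 := Set.ncard_eq_three.2 ⟨_, _, _, a1.symm, b1.symm, k, rfl⟩
  have : ({1, a, b} : Set X).ncard ≤ Nat.card D := Set.ncard_le_ncard (t := (D : Set X)) (by
    rintro _ (rfl | rfl | rfl)
    exacts [one_mem _, ha, hb]) (Set.toFinite _)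
  omega

theorem key {V W D D' : Subgroup X} (δ : MulAut X) (c : X) (hW : ∀ x, x ∈ W ↔ δ x ∈ V) (hD : ∀ x, x ∈ D' ↔ δ x ∈ D)
    (hc : ∀ x, δ (δ x) = c⁻¹ * x * c) (c4 : Nat.card V = 4) (sq : ∀ x ∈ V, x * x = 1)
    (cm : ∀ x ∈ V, ∀ y ∈ V, x * y = y * x) (top : V ⊔ W ⊔ D = ⊤) (cD : Nat.card D ≤ 2) (Dc : D ≤ center X)
    (dj : D ⊓ D' = ⊥) (dj' : D ⊓ (V ⊔ W) = ⊥) (le : D' ≤ (V ⊓ W) ⊔ D) (hY : ⁅V, W⁆ = V ⊓ W)
    (cY : Nat.card (V ⊓ W : Subgroup X) = 2) :
    ∃ v ∈ V, ∃ w ∈ W, ∃ z ∈ V, z ≠ 1 ∧ v ≠ 1 ∧ v ≠ z ∧ δ w = v ∧ ⁅v, w⁆ = z ∧ (∀ t, z * t = t * z) ∧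
      (∀ x ∈ V, x = 1 ∨ x = z ∨ x = v ∨ x = v * z) ∧ (∀ x ∈ W, x = 1 ∨ x = z ∨ x = w ∨ x = w * z) ∧
      ∀ d ∈ D, d ≠ 1 → δ (d * z) = d := by
  obtain ⟨⟨z, hz⟩, z1, -⟩ := (Nat.card_eq_two_iff' (1 : (V ⊓ W : Subgroup X))).1 cY
  replace z1 : z ≠ 1 := fun e => z1 (Subtype.ext e)
  have hy : ∀ y ∈ V ⊓ W, y = 1 ∨ y = z := fun y k => or_iff_not_imp_left.2 fun y1 => two cY.le k hz y1 z1
  have Dc' : ∀ H : Subgroup X, D ≤ 𝒞(H) := fun H d hd => mem_centralizer_iff.2 fun g _ => mem_center_iff.1 (Dc hd) g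
  have nV : ⊤ ≤ 𝒩(V) := top ▸ sup_le (sup_le le_normalizer (le_norm_of_commutator_le (hY ▸ inf_le_left)))
    ((Dc' V).trans (cent_le_norm V))
  have dz : δ z = z := (hy _ ⟨(hW z).1 hz.2, (hW _).2 (hc z ▸ conj_mem' (nV (mem_top c)) hz.1)⟩).resolve_left
    (by simpa using z1)
  obtain ⟨v, hv, vW⟩ : ∃ v ∈ V, v ∉ W := SetLike.not_le_iff_exists.1 fun k => by
    rw [inf_eq_left.2 k] at cY; omega
  have v1 : v ≠ 1 := fun e => vW (e ▸ one_mem _)
  have vz : v ≠ z := fun e => vW (e ▸ hz.2)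
  have h4 := four c4 hz.1 hv z1 v1 vz (sq z hz.1)
  obtain ⟨w, hw⟩ := δ.surjective v
  have wW : w ∈ W := (hW w).2 (hw ▸ hv)
  have h4' : ∀ x ∈ W, x = 1 ∨ x = z ∨ x = w ∨ x = w * z := fun x hx => by
    have := h4 _ ((hW x).1 hx)
    rwa [← hw, ← dz, ← map_mul, ← map_one δ, δ.apply_eq_iff_eq, δ.apply_eq_iff_eq, δ.apply_eq_iff_eq,
      δ.apply_eq_iff_eq] at this
  have zc : ∀ t, z * t = t * z := fun t => by
    have : ⊤ ≤ centralizer ({z} : Set X) := top ▸ sup_le (sup_le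
      (fun x hx => mem_centralizer_singleton_iff.2 (cm x hx z hz.1))
      fun x hx => mem_centralizer_singleton_iff.2 (δ.injective (by
        rw [map_mul, map_mul, dz]; exact cm _ ((hW x).1 hx) z hz.1)))
      fun x hx => mem_centralizer_singleton_iff.2 (mem_center_iff.1 (Dc hx) z).symm
    exact (mem_centralizer_singleton_iff.1 (this (mem_top t))).symm
  refine ⟨v, hv, w, wW, z, hz.1, z1, v1, vz, hw, (hy _ (hY ▸ commutator_mem_commutator hv wW)).resolve_left fun e => ?_,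
    zc, h4, h4', fun d hd d1 => ?_⟩
  · have k : Commute v w := commutatorElement_eq_one_iff_commute.1 e
    have kz : ∀ t, Commute z t := zc
    have : ⁅V, W⁆ ≤ ⊥ := commutator_le.2 fun a ha b hb => by
      rw [mem_bot, commutatorElement_eq_one_iff_commute]
      have kb : Commute v b := by
        rcases h4' b hb with rfl | rfl | rfl | rfl
        exacts [Commute.one_right _, (kz _).symm, k, k.mul_right (kz _).symm]
      rcases h4 a ha with rfl | rfl | rfl | rfl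
      exacts [Commute.one_left _, kz _, kb, kb.mul_left (kz _)]
    exact z1 (mem_bot.1 (this (hY ▸ hz)))
  · obtain ⟨d', e⟩ := δ.surjective d
    have h1 : d' ∈ D' := (hD d').2 (e ▸ hd)
    obtain ⟨y, hy', b, hb, rfl⟩ := (mem_sup_nr ((le_centralizer_iff.1 (Dc' _)).trans (cent_le_norm D))).1 (le h1)
    rcases hy y hy' with rfl | rfl
    · rw [one_mul] at h1 e
      rw [show b = 1 from mem_bot.1 (dj.le ⟨hb, h1⟩), map_one] at e
      exact absurd e.symm d1
    · have b1 : b ≠ 1 := by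
        rintro rfl
        rw [mul_one, dz] at e
        exact z1 (mem_bot.1 (dj'.le ⟨e ▸ hd, mem_sup_left hz.1⟩))
      rw [← zc, two cD hd hb d1 b1] at *
      exact e

end TR2x

open TR2x in
theorem tr2 : TR2.{u} := by
  intro Ω _ S _ F T U M _ _ ι H L δ s h sS sT sN ss hδ bk a3 f3 o
  have := Fact.mk Nat.prime_two
  have : Finite T := Finite.of_injective _ h.inj
  have cT : pCore 2 M ≤ ι.range := core_top (G := M) (p := 2) ▸ core_le_syl h.syl
  have c4 : Nat.card (Vv ι L) = 4 := by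
    rw [← card_map_of_injective h.inj, map_comap_eq_self (bk.core.trans cT)]; exact a3.1
  have sq : ∀ x ∈ Vv ι L, x * x = 1 := fun x hx => h.inj (by rw [map_mul, map_one, ← pow_two]; exact bk.ea.2 _ hx)
  have cm : ∀ x ∈ Vv ι L, ∀ y ∈ Vv ι L, x * y = y * x := fun x hx y hy => h.inj (by
    rw [map_mul, map_mul]
    exact congrArg Subtype.val (bk.ea.1.is_comm.comm ⟨ι x, hx⟩ ⟨ι y, hy⟩))
  obtain ⟨v, hv, w, hw, z, hz, z1, v1, vz, dw, com, zc, h4, h4', hd⟩ := key (V := Vv ι L) (W := Vv (em ι δ) L)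
    (D := Dd ι L) (D' := Dd (em ι δ) L) δ ⟨s * s, ss⟩ (fun _ => Iff.rfl) (fun _ => Iff.rfl)
    (fun x => Subtype.ext (by rw [hδ, hδ]; simp [mul_assoc])) c4 sq cm o.top o.cardD o.Dc o.disj o.disj' o.le o.Y o.cardY
  have com' : ⁅(v : Ω), (w : Ω)⁆ = z := congrArg Subtype.val com
  have inv : ∀ x : T, s * δ x * s⁻¹ = x := fun x => by rw [hδ]; group
  have leV : ∀ K : Subgroup Ω, (v : Ω) ∈ K → (z : Ω) ∈ K → Vv ι L ≤ K.comap T.subtype := fun K k1 k2 x hx => by
    rcases h4 x hx with rfl | rfl | rfl | rfl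
    exacts [one_mem _, k2, k1, mul_mem (s := K) k1 k2]
  have eU : closure {(v : Ω), (z : Ω)} ⊔ (Dd ι L).map T.subtype = U := by
    have k : ∀ x : T, x ∈ Vv ι L ⊔ Dd ι L ↔ (x : Ω) ∈ U := fun x => by
      rw [h.imU x x.2, ext_coe, ← o.U]; rfl
    refine le_antisymm (sup_le ((closure_le _).2 ?_) ?_) fun x hx => ?_
    · rintro _ (rfl | rfl)
      exacts [(k v).1 (mem_sup_left hv), (k z).1 (mem_sup_left hz)]
    · rintro _ ⟨d, k', rfl⟩
      exact (k d).1 (mem_sup_right k')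
    · exact sup_le (leV _ (mem_sup_left (subset_closure (by simp))) (mem_sup_left (subset_closure (by simp))))
        (fun d k' => mem_sup_right (mem_map_of_mem T.subtype k')) ((k ⟨x, h.leU hx⟩).2 hx)
  refine ⟨(Dd ι L).map T.subtype, v, w, z, h.le, ?_, congrArg Subtype.val (sq v hv), ?_, com',
    fun e => z1 (Subtype.ext e), fun t ht => congrArg Subtype.val (zc ⟨t, ht⟩), ?_, ?_, ?_, sS, sT, sN, ss, dw ▸ inv w,
    ?_, eU ▸ h.nU, ?_⟩
  · refine le_antisymm (fun t ht => ?_) (sup_le ((closure_le _).2 ?_) (map_subtype_le _))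
    · have k1 : (v : Ω) ∈ closure {(v : Ω), (w : Ω)} ⊔ (Dd ι L).map T.subtype := mem_sup_left (subset_closure (by simp))
      have k2 : (w : Ω) ∈ closure {(v : Ω), (w : Ω)} ⊔ (Dd ι L).map T.subtype := mem_sup_left (subset_closure (by simp))
      have k3 : (z : Ω) ∈ closure {(v : Ω), (w : Ω)} ⊔ (Dd ι L).map T.subtype :=
        com' ▸ mul_mem (mul_mem (mul_mem k1 k2) (inv_mem k1)) (inv_mem k2)
      refine (show ⊤ ≤ (closure {(v : Ω), (w : Ω)} ⊔ (Dd ι L).map T.subtype).comap T.subtype from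
        o.top ▸ sup_le (sup_le (leV _ k1 k3) fun x hx => ?_) fun d k' => mem_sup_right ⟨d, k', rfl⟩) (mem_top ⟨t, ht⟩)
      rcases h4' x hx with rfl | rfl | rfl | rfl
      exacts [one_mem _, k3, k2, mul_mem (s := _ ⊔ _) k2 k3]
    · rintro _ (rfl | rfl)
      exacts [v.2, w.2]
  · exact congrArg Subtype.val (δ.injective (a₁ := w * w) (a₂ := 1) (by rw [map_mul, map_one, dw, sq v hv]))
  · rintro _ ⟨d, k, rfl⟩ t ht
    exact congrArg Subtype.val (mem_center_iff.1 (o.Dc k) ⟨t, ht⟩).symm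
  · rw [card_map_of_injective T.subtype_injective]; exact o.cardD
  · rw [eq_bot_iff]
    rintro _ ⟨⟨d, k, rfl⟩, k'⟩
    have : closure {(v : Ω), (w : Ω)} ≤ (Vv ι L ⊔ Vv (em ι δ) L).map T.subtype := (closure_le _).2 (by
      rintro _ (rfl | rfl)
      exacts [⟨v, mem_sup_left hv, rfl⟩, ⟨w, mem_sup_right hw, rfl⟩])
    have k2 := (mem_map_iff_mem T.subtype_injective).1 (this k')
    rw [show d = 1 from mem_bot.1 (o.disj'.le ⟨k, k2⟩), map_one]
    exact one_mem _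
  · rintro _ ⟨d, k, rfl⟩ d1
    have := inv (d * z)
    rwa [hd d k fun e => d1 (by rw [e, map_one])] at this
  · classical
    obtain ⟨g, hg, g1, g2⟩ := f3.tr _ hv _ hz (by simpa [map_eq_one_iff _ h.inj] using v1)
      (by simpa [map_eq_one_iff _ h.inj] using z1) fun e => vz (h.inj e)
    let f : Ω → Ω := fun x => if k : ∃ y : T, ι y = g * ext ι x * g⁻¹ then (k.choose : T) else 1
    have hf : ∀ (x : Ω) (y : T), ι y = g * ext ι x * g⁻¹ → f x = y := fun x y e => by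
      have k : ∃ y : T, ι y = g * ext ι x * g⁻¹ := ⟨y, e⟩
      simp only [f, dif_pos k]
      exact congrArg Subtype.val (h.inj (k.choose_spec.trans e.symm))
    have hU : ∀ x ∈ U, ∃ y : T, ι y = g * ext ι x * g⁻¹ := fun x hx =>
      cT ((inferInstance : (pCore 2 M).Normal).conj_mem _ ((h.imU x (h.leU hx)).1 hx) g)
    refine ⟨f, eU ▸ h.mor0 U f g h.leU (fun x hx => ?_) fun x hx => ?_, hf _ z (by rw [ext_coe, g1]),
      hf _ (v * z) (by rw [ext_coe, g2, map_mul]), ?_⟩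
    · obtain ⟨y, e⟩ := hU x hx
      exact hf x y e ▸ y.2
    · obtain ⟨y, e⟩ := hU x hx
      rw [hf x y e, ext_coe, e]
    · rintro _ ⟨d, k, rfl⟩
      exact hf _ d (by rw [coe_subtype, ext_coe, comm_of_mem k hg]; group)

end CL.HK
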