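/-
Project HK: transport of the linear case to the fusion system.
-/
import Cfsg.Agent.HK.Core

set_option autoImplicit false

open Cfsg Subgroup
open scoped commutatorElement

namespace CL.HK

open CL.Fus CL.Loc CL.Grp CL.Even

universe u

theorem trq_tr {M : Type u} [Group M] {K : Type} [Field K] {L A B : Subgroup M} (e : A = B)
    (N : NatSec K L A (A ⊓ 𝒞(L))) :
    ∃ N' : NatSec K L B (B ⊓ 𝒞(L)), N'.ker = N.ker ∧ N'.up = N.up ∧ N'.line = N.line := by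
  subst e
  exact ⟨N, rfl, rfl, rfl⟩

theorem trq_cj {Ω M : Type u} [Group Ω] [Group M] {T : Subgroup Ω} (ι : T →* M) {δ : MulAut T} {s : Ω}
    (sN : s ∈ 𝒩(T)) (hδ : ∀ x : T, (δ x : Ω) = s⁻¹ * x * s) (X : Subgroup M) :
    cj s ((X.comap ι).map T.subtype) = (X.comap (em ι δ)).map T.subtype := by
  ext x
  rw [mem_cj]
  constructor
  · rintro ⟨a, ha, e⟩
    have hx : x ∈ T := by
      have := conj_mem sN a.2
      rw [show (a : Ω) = s⁻¹ * x * s from e] at this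
      simpa [mul_assoc] using this
    refine ⟨⟨x, hx⟩, ?_, rfl⟩
    change ι (δ ⟨x, hx⟩) ∈ X
    rwa [show δ ⟨x, hx⟩ = a from Subtype.ext ((hδ _).trans e.symm)]
  · rintro ⟨b, hb, rfl⟩
    exact ⟨δ b, hb, hδ b⟩

theorem trq : TRQ.{u} := by
  intro Ω _ S _ F T U M _ _ ι H L δ s K _ _ N su sS sT sN ss hδ lp lq tor DV cD top
  have : Fact (Nat.Prime 2) := ⟨Nat.prime_two⟩
  have cT : pCore 2 M ≤ ι.range := core_top (p := 2) (G := M) ▸ core_le_syl su.syl
  have e : pCoreOf 2 L = pCore 2 M := le_antisymm lp.ln.core fun x hx => by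
    obtain ⟨a, rfl⟩ := cT hx
    exact (lq.U.le.trans (sup_le le_rfl DV)) hx
  obtain ⟨N', k1, k2, k3⟩ := trq_tr e N
  have eU : U = (Vv ι L).map T.subtype := by
    ext x
    refine ⟨fun hx => ⟨⟨x, su.leU hx⟩, ?_, rfl⟩, ?_⟩
    · have := (su.imU x (su.leU hx)).1 hx
      rwa [ext_apply ι (su.leU hx), ← e] at this
    · rintro ⟨a, ha, rfl⟩
      exact (su.imU a a.2).2 (by rw [ext_coe, ← e]; exact ha)
  have eW : cj s U = (Vv (em ι δ) L).map T.subtype := eU ▸ trq_cj ι sN hδ _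
  have eZ : cj s ((Dd ι L).map T.subtype) = (Dd (em ι δ) L).map T.subtype := trq_cj ι sN hδ _
  have rL : ι.range ≤ L := by
    have : Vv ι L ⊔ Vv (em ι δ) L ≤ L.comap ι := sup_le (comap_mono (core_le L)) fun w hw => by
      obtain ⟨_, ⟨⟨a, rfl⟩, aL⟩, k⟩ := (lp.act w hw).2
      have : w * a⁻¹ ∈ Vv ι L := (lq.cV.le.trans (sup_le le_rfl DV)) fun v hv => lp.inj (by
        rw [map_mul ι v, map_mul ι _ v, map_mul, map_inv]; exact k _ hv)
      have := core_le L this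
      rw [map_mul, map_inv] at this
      exact (L.mul_mem_cancel_right (inv_mem aL)).1 this
    rintro _ ⟨a, rfl⟩
    exact this (top.ge (mem_top a))
  refine ⟨(Dd ι L).map T.subtype, N', lp.ln.chr, lp.ln.four, su.le, su.leU, sS, sT, sN, ss, ?_, su.nU, su.inj, su.syl,
    fun P f h1 h2 h3 h4 => ⟨fun m => su.mor P f h1 h2 m h3 h4, fun ⟨g, k⟩ => su.mor0 P f g h2 h3 k⟩, lq.normal, su.imU,
    cT, ?_, e ▸ lp.ln.comm, k1.trans (lp.ln.ker.trans e), k2.trans (lp.ln.up.trans (inf_eq_left.2 rL)), ?_,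
    fun x hx => ?_, fun x => ?_, ?_, ?_, fun k hk kn x hx => ?_⟩
  · rw [eW, eU, ← Subgroup.map_sup, top, ← MonoidHom.range_eq_map, range_subtype]
  · exact eU ▸ ea_map (ea_comap lp.ln.ea lp.inj) _
  · rw [eW, eU, ← map_inf _ _ _ T.subtype_injective, lp.Y, map_commutator]
  · rw [eW, k3]
    obtain ⟨a, ha, rfl⟩ := eU.le hx
    rw [mem_map_iff_mem T.subtype_injective, lp.line a ha]
    exact (ext_coe ι a).symm ▸ Iff.rfl
  · refine ⟨?_, fun ⟨h1, h2⟩ => ⟨⟨x, su.leU h1⟩, ?_, rfl⟩⟩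
    · rintro ⟨a, ha, rfl⟩
      exact ⟨eU.ge ⟨a, DV ha, rfl⟩, (ext_coe ι a).symm ▸ ha⟩
    · rwa [ext_apply ι (su.leU h1)] at h2
  · exact cD.imp (fun k => by rw [k, Subgroup.map_bot]) fun k => (card_map_of_injective T.subtype_injective).trans k
  · rw [eZ, ← map_inf _ _ _ T.subtype_injective, lq.disj, Subgroup.map_bot]
  · rw [eZ] at hx ⊢
    obtain ⟨a, ha, rfl⟩ := hx
    obtain ⟨b, hb, k⟩ := tor k hk (by rwa [lp.rng, inf_eq_left.2 rL]) a ha
    exact ⟨b, ⟨b, hb, rfl⟩, (ext_coe ι b).trans (k.trans (by rw [coe_subtype, ext_coe]))⟩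

end CL.HK
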