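/-
Project HK: an element of `S` interchanges the two elementary abelian subgroups.
-/
import Cfsg.Agent.HK.Core

set_option autoImplicit false

open Cfsg Subgroup

namespace CL.HK

open CL.Fus CL.Loc CL.Grp CL.Even

universe u

namespace TSx

variable {T : Type u} [Group T] {A B X : Subgroup T}

/-- the preimage under an automorphism -/
abbrev pre (α : MulAut T) (X : Subgroup T) : Subgroup T := X.comap α.toMonoidHom

theorem pre_mul (α β : MulAut T) (X : Subgroup T) : pre (α * β) X = pre β (pre α X) := rfl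

theorem pre_inj (α : MulAut T) (h : pre α A = pre α B) : A = B := comap_injective α.surjective h

theorem card_pre (α : MulAut T) (X : Subgroup T) : Nat.card (pre α X) = Nat.card X :=
  Nat.card_congr (α.toEquiv.subtypeEquiv fun _ => Iff.rfl)

theorem two_pre [Finite T] (h : Two A B) (α : MulAut T) (e : IsElementaryAbelian 2 X) (c : Nat.card X = Nat.card A) :
    pre α X = A ∨ pre α X = B := by
  have : (pre α X : Set T) ⊆ A ∪ B := fun x hx => h.inv x (α.injective (by
    rw [map_mul, map_one, ← pow_two]; exact e.2 _ hx))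
  exact (SubgroupClass.subset_union.1 this).imp (fun k => eq_of_le_of_card_ge k (by rw [card_pre, c]))
    fun k => eq_of_le_of_card_ge k (by rw [card_pre, c, h.card])

theorem swap [Finite T] (h : Two A B) {α : MulAut T} (e : pre α A = B) : pre α B = A :=
  (two_pre h α h.ea' h.card.symm).resolve_right fun k => h.ne (pre_inj α (e.trans k.symm))

theorem odd_pow [Finite T] (h : Two A B) {α : MulAut T} (e : pre α A = B) (k : ℕ) : pre (α ^ (2 * k + 1)) A = B := by
  induction k with
  | zero => simpa using e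
  | succ k ih => rw [show 2 * (k + 1) + 1 = 2 * k + 1 + 1 + 1 by ring, pow_succ, pow_succ, pre_mul, pre_mul, ih, swap h e, e]

end TSx

open TSx in
theorem ts : TS.{u} := fun Ω _ S _ F T U M _ _ ι H γ hS hF h hγ t => by
  have : Fact (Nat.Prime 2) := ⟨Nat.prime_two⟩
  have : Finite T := finite_of_le h.le
  have eγ : pre γ (Uu ι) = Uu (em ι γ) := rfl
  have mA : ∀ x : T, x ∈ Uu ι ↔ (x : Ω) ∈ U := fun x => by rw [h.imU x x.2, ext_coe]; rfl
  have lt : T < S := lt_of_le_of_ne h.le (by
    rintro rfl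
    have := finite_autGroup F T
    obtain ⟨k, hk⟩ := Nat.odd_iff.2 (Nat.two_dvd_ne_zero.1 (sylIn_Inn_top hS hF).not_dvd_relIndex)
    have m : (⟨γ, hγ⟩ : F.autGroup T) ^ (2 * k + 1) ∈ (Inn T).subgroupOf (F.autGroup T) :=
      hk ▸ ((Inn T).subgroupOf (F.autGroup T)).pow_index_mem _
    obtain ⟨z, hz⟩ : γ ^ (2 * k + 1) ∈ Inn T := m
    have e := odd_pow t eγ k
    rw [← hz] at e
    exact t.ne (Eq.trans (Subgroup.ext fun x => (t.n.mem_comm_iff.trans (by simp)).symm) e))
  obtain ⟨s, hs, hsT⟩ := SetLike.exists_of_lt (lt_normalizerIn hS lt)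
  have dδ : ∀ x : T, (conjAut T (inv_mem hs.2) x : Ω) = s⁻¹ * x * s := fun x => by
    rw [← autFun_coe, autFun_conjAut _ x.2, inv_inv]
  have nU : ∀ a ∈ S, ∀ α : MulAut T, (∀ x : T, (α x : Ω) = a⁻¹ * x * a) → pre α (Uu ι) = Uu ι → a ∈ T :=
    fun a ha α e k => h.nU ▸ (⟨ha, mem_normalizer_iff''.2 fun x => ⟨fun hx => by
      have : (⟨x, h.leU hx⟩ : T) ∈ pre α (Uu ι) := by rw [k, mA]; exact hx
      rw [← e ⟨x, h.leU hx⟩]
      exact (mA _).1 this, fun hx => by
      obtain ⟨y, hy⟩ := α.surjective ⟨_, h.leU hx⟩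
      have e1 : (y : Ω) = x := by simpa using (e y).symm.trans (congrArg Subtype.val hy)
      have : y ∈ pre α (Uu ι) := (mA (α y)).2 (hy ▸ hx)
      rw [k, mA, e1] at this
      exact this⟩⟩ : a ∈ S ⊓ 𝒩(U))
  have e : pre (conjAut T (inv_mem hs.2)) (Uu ι) = Uu (em ι γ) :=
    (two_pre t _ t.ea rfl).resolve_left fun k => hsT (nU s hs.1 _ dδ k)
  refine ⟨s, hs.1, hsT, hs.2, nU _ (mul_mem hs.1 hs.1) (conjAut T (inv_mem hs.2) * conjAut T (inv_mem hs.2))
    (fun x => by rw [MulAut.mul_apply, dδ, dδ]; group) (by rw [pre_mul, e, swap t e]), _,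
    conjAut_mem_autGroup F h.le (inv_mem hs.2) (inv_mem hs.1), dδ, e⟩

end CL.HK
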