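/-
Project HK (S5175): the two elementary abelian subgroups of a pair of blocks.
-/
import Cfsg.Agent.HK.Core

set_option autoImplicit false

open Cfsg Subgroup
open scoped commutatorElement

namespace CL.HK

open CL.Fus CL.Loc CL.Grp CL.Even

universe u

section
variable {T M : Type u} [Group T] [Group M]

theorem tw_ea {i : T →* M} (hi : Function.Injective i) {A : Subgroup M} (h : IsElementaryAbelian 2 A) :
    IsElementaryAbelian 2 (A.comap i) := by
  refine ⟨⟨⟨fun a b => Subtype.ext (hi ?_)⟩⟩, fun a ha => hi ?_⟩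
  · have := h.1.is_comm.comm ⟨i a, a.2⟩ ⟨i b, b.2⟩
    simpa using congrArg Subtype.val this
  · simpa using h.2 (i a) ha

theorem tw_comm {A : Subgroup T} (h : IsElementaryAbelian 2 A) {a b : T} (ha : a ∈ A) (hb : b ∈ A) :
    a * b = b * a :=
  congrArg Subtype.val (h.1.is_comm.comm ⟨a, ha⟩ ⟨b, hb⟩)

theorem tw_card {i : T →* M} (hi : Function.Injective i) {A : Subgroup M} (h : A ≤ i.range) :
    Nat.card (A.comap i) = Nat.card A := by
  rw [← Subgroup.card_map_of_injective hi, Subgroup.map_comap_eq_self h]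

theorem tw_le [Finite M] {R L : Subgroup M} (h : Bk R L) : pCoreOf 2 L ≤ R :=
  haveI : Fact (Nat.Prime 2) := ⟨Nat.prime_two⟩
  h.core.trans (h.syl.le_of_normalized (pCore_isPGroup 2 M) le_top (by rw [Subgroup.normalizer_eq_top]))

theorem tw_rng (i : T →* M) (γ : MulAut T) : (em i γ).range = i.range := by
  ext x
  constructor
  · rintro ⟨y, rfl⟩
    exact ⟨γ y, rfl⟩
  · rintro ⟨y, rfl⟩
    exact ⟨γ.symm y, by simp [em]⟩

theorem tw_inj {i : T →* M} (hi : Function.Injective i) (γ : MulAut T) : Function.Injective (em i γ) :=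
  hi.comp γ.injective

end

theorem tw : TW.{u} := by
  intro T M _ _ _ K _ _ i j L N hp hq hD hD' htop
  have hU : Uu i = Vv i L := by rw [hq.U, sup_eq_left.2 hD]
  have hU' : Uu j = Vv j L := by rw [hq.U', sup_eq_left.2 hD']
  have hb : Bk i.range L := hp.ln.toBk
  have hle : pCoreOf 2 L ≤ i.range := tw_le hb
  have eV : IsElementaryAbelian 2 (Vv i L) := tw_ea hp.inj hb.ea
  have eW : IsElementaryAbelian 2 (Vv j L) := tw_ea hp.inj' hb.ea
  have nV : (Vv i L).Normal := hU ▸ (inferInstance : (Uu i).Normal)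
  have nW : (Vv j L).Normal := hU' ▸ (inferInstance : (Uu j).Normal)
  refine ⟨?_, hU, hU'⟩
  rw [hU, hU']
  refine ⟨eV, eW, nV, nW, ?_, ?_, ?_⟩
  · rw [tw_card hp.inj hle, tw_card hp.inj' (hp.rng ▸ hle)]
  · intro h
    have hY := hp.Y
    rw [← h, inf_idem] at hY
    have h0 : ⁅Vv i L, Vv i L⁆ = ⊥ := by
      rw [Subgroup.commutator_eq_bot_iff_le_centralizer]
      intro a ha
      rw [Subgroup.mem_centralizer_iff]
      intro b hb'
      exact tw_comm eV hb' ha
    rw [h0] at hY
    apply hb.ne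
    rw [← Subgroup.map_comap_eq_self hle]
    change (Vv i L).map i = ⊥
    rw [hY, Subgroup.map_bot]
  · intro x hx
    have hx' : x ∈ (Vv i L ⊔ Vv j L : Subgroup T) := htop ▸ Subgroup.mem_top x
    rw [← SetLike.mem_coe, Subgroup.normal_mul] at hx'
    obtain ⟨v, hv, w, hw, rfl⟩ := hx'
    have hv2 : v * v = 1 := by simpa [pow_two] using eV.2 v hv
    have hw2 : w * w = 1 := by simpa [pow_two] using eW.2 w hw
    have hc : ⁅v, w⁆ = 1 := by
      rw [commutatorElement_def, inv_eq_of_mul_eq_one_right hv2, inv_eq_of_mul_eq_one_right hw2]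
      simpa [mul_assoc] using hx
    rcases hp.nd v hv w hw (hc ▸ one_mem _) with h | h
    · exact Or.inr (mul_mem h hw)
    · exact Or.inl (mul_mem hv h)

theorem tw2 : TW2.{u} := by
  intro T M _ _ _ i L γ δ hi hb ha ho hU h0
  haveI : Finite T := Finite.of_injective i hi
  have hle : pCoreOf 2 L ≤ i.range := tw_le hb
  have eV : IsElementaryAbelian 2 (Vv i L) := tw_ea hi hb.ea
  have eW : IsElementaryAbelian 2 (Vv (em i γ) L) := tw_ea (tw_inj hi γ) hb.ea
  have cW : Nat.card (Vv (em i γ) L) = 4 := by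
    rw [tw_card (tw_inj hi γ) ((tw_rng i γ).symm ▸ hle), ha.1]
  have hne : ⁅Vv i L, Vv (em i γ) L⁆ ≠ ⊥ := by
    intro h
    have := ho.cardY
    rw [← ho.Y, h, Subgroup.card_bot] at this
    omega
  -- the centralizer of `V` in `W` is `Y`
  have hC : Vv (em i γ) L ⊓ centralizer (Vv i L : Set T) = Vv i L ⊓ Vv (em i γ) L := by
    have h1 : Vv i L ⊓ Vv (em i γ) L ≤ Vv (em i γ) L ⊓ centralizer (Vv i L : Set T) := by
      rintro x ⟨hx, hx'⟩
      refine ⟨hx', ?_⟩
      change x ∈ centralizer (Vv i L : Set T)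
      rw [Subgroup.mem_centralizer_iff]
      intro b hb'
      exact tw_comm eV hb' hx
    symm
    apply Subgroup.eq_of_le_of_card_ge h1
    rw [ho.cardY]
    have h2 : Nat.card (Vv (em i γ) L ⊓ centralizer (Vv i L : Set T) : Subgroup T) ∣ 4 :=
      cW ▸ Subgroup.card_dvd_of_le inf_le_left
    have h3 : Nat.card (Vv (em i γ) L ⊓ centralizer (Vv i L : Set T) : Subgroup T) ≠ 4 := by
      intro h
      have : Vv (em i γ) L ⊓ centralizer (Vv i L : Set T) = Vv (em i γ) L :=
        Subgroup.eq_of_le_of_card_ge inf_le_left (by rw [h, cW])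
      apply hne
      rw [Subgroup.commutator_comm, Subgroup.commutator_eq_bot_iff_le_centralizer]
      exact inf_eq_left.1 this
    have h4 := Nat.le_of_dvd (by norm_num) h2
    generalize Nat.card (Vv (em i γ) L ⊓ centralizer (Vv i L : Set T) : Subgroup T) = n at h2 h3 h4
    interval_cases n <;> omega
  -- `Y` is central
  have hY : Vv i L ⊓ Vv (em i γ) L ≤ center T := by
    rintro y ⟨hy, hy'⟩
    have : (⊤ : Subgroup T) ≤ centralizer ({y} : Set T) := by
      rw [← ho.top]
      refine sup_le (sup_le ?_ ?_) ?_ <;> intro a ha' <;> rw [Subgroup.mem_centralizer_singleton_iff]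
      · exact tw_comm eV ha' hy
      · exact tw_comm eW ha' hy'
      · exact (Subgroup.mem_center_iff.1 (ho.Dc ha') y).symm
    rw [Subgroup.mem_center_iff]
    intro g
    exact Subgroup.mem_centralizer_singleton_iff.1 (this (Subgroup.mem_top g))
  haveI nD : (Dd i L).Normal := ⟨fun d hd g => by
    rw [Subgroup.mem_center_iff.1 (ho.Dc hd) g, mul_inv_cancel_right]
    exact hd⟩
  have hV' : Vv (em i δ) L ≤ center T := by
    intro x hx
    have hx1 : x ∈ Uu (em i δ) := hb.core hx
    rw [hU, ho.U', ← SetLike.mem_coe, Subgroup.mul_normal] at hx1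
    obtain ⟨w, hw, d, hd, rfl⟩ := hx1
    have hxc : w * d ∈ centralizer (Vv i L : Set T) := by
      rw [Subgroup.commutator_comm, Subgroup.commutator_eq_bot_iff_le_centralizer] at h0
      exact h0 hx
    have hdc : d ∈ centralizer (Vv i L : Set T) := Subgroup.center_le_centralizer _ (ho.Dc hd)
    have hwc : w ∈ centralizer (Vv i L : Set T) := by
      have := mul_mem hxc (inv_mem hdc)
      simpa using this
    have hwY : w ∈ Vv i L ⊓ Vv (em i γ) L := hC ▸ ⟨hw, hwc⟩
    exact mul_mem (hY hwY) (ho.Dc hd)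
  apply hne
  rw [Subgroup.commutator_eq_bot_iff_le_centralizer]
  intro v hv
  apply Subgroup.center_le_centralizer
  have h1 : δ.symm v ∈ Vv (em i δ) L := by
    change em i δ (δ.symm v) ∈ pCoreOf 2 L
    have : em i δ (δ.symm v) = i v := by simp [em]
    rw [this]
    exact hv
  have h2 := hV' h1
  rw [Subgroup.mem_center_iff] at h2 ⊢
  intro g
  have := congrArg δ (h2 (δ.symm g))
  simpa using this

end CL.HK
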