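/-
Project HK (S5175): an `A₅`-block has no central part.
-/
import Cfsg.Agent.HK.Core

set_option autoImplicit false

open Cfsg Subgroup
open scoped commutatorElement

namespace CL.HK

open CL.Fus CL.Loc CL.Grp CL.Even Matrix

universe u

/-- the vector `e₀ + e₄` -/
def z05x : Fin 5 → ZMod 2 := ![1, 0, 0, 0, 1]

theorem z05_count : ∀ k i : Fin 5, ∑ g : alternatingGroup (Fin 5),
    (if (g : Equiv.Perm (Fin 5)) 4 = k then z05x ((g : Equiv.Perm (Fin 5))⁻¹ i) else 0) =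
      if i = k then 0 else 1 := by decide +kernel

theorem z05_sum (x : Fin 5 → ZMod 2) (hx : ∑ k, x k = 0) (i : Fin 5) :
    ∑ g : alternatingGroup (Fin 5), x ((g : Equiv.Perm (Fin 5)) 4) * z05x ((g : Equiv.Perm (Fin 5))⁻¹ i) = x i := by
  have h1 : ∀ g : alternatingGroup (Fin 5), x ((g : Equiv.Perm (Fin 5)) 4) * z05x ((g : Equiv.Perm (Fin 5))⁻¹ i) =
      ∑ k, x k * (if (g : Equiv.Perm (Fin 5)) 4 = k then z05x ((g : Equiv.Perm (Fin 5))⁻¹ i) else 0) := by
    intro g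
    simp only [mul_ite, mul_zero, Finset.sum_ite_eq, Finset.mem_univ, if_true]
  rw [Finset.sum_congr rfl fun g _ => h1 g, Finset.sum_comm]
  simp only [← Finset.mul_sum, z05_count]
  have h2 : ∀ k, x k * (if i = k then 0 else 1) = x k + if i = k then x k else 0 := by
    intro k
    split_ifs
    · rw [mul_zero, CharTwo.add_self_eq_zero]
    · rw [mul_one, add_zero]
  rw [Finset.sum_congr rfl fun k _ => h2 k, Finset.sum_add_distrib, hx, zero_add, Finset.sum_ite_eq]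
  simp

theorem z05_pow {V : Type*} [Group V] {v : V} (h : v ^ 2 = 1) (a b : ZMod 2) :
    v ^ (a + b).val = v ^ a.val * v ^ b.val := by
  rw [← pow_add, ZMod.val_add]
  exact (pow_eq_pow_mod _ h).symm

theorem z05_proj {L V : Type*} [Group L] [CommGroup V] (α : L →* MulAut V) (ρ : L →* alternatingGroup (Fin 5))
    (hρ : Function.Surjective ρ) (hker : ∀ l, ρ l = 1 → α l = 1) (ψ : V →* Multiplicative (Fin 5 → ZMod 2))
    (heq : ∀ l v i, (ψ (α l v)).toAdd i = (ψ v).toAdd ((ρ l : Equiv.Perm (Fin 5))⁻¹ i))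
    (hev : ∀ v, ∑ i, (ψ v).toAdd i = 0) {v₀ : V} (h0 : (ψ v₀).toAdd = z05x) (hsq : ∀ v : V, v ^ 2 = 1)
    (hfix : ∀ z, ψ z = 1 → ∀ l, α l z = z) :
    ∃ p : V →* V, (∀ l v, p (α l v) = p v) ∧ ∀ z, ψ z = 1 → p z = z := by
  choose s hs using hρ
  have hα : ∀ l g, α l * α (s g) = α (s (ρ l * g)) := by
    intro l g
    have := hker ((s (ρ l * g))⁻¹ * (l * s g)) (by simp [hs])
    rw [map_mul, map_inv, inv_mul_eq_one, map_mul] at this
    exact this.symm
  let θ : Multiplicative (Fin 5 → ZMod 2) →* V :=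
    { toFun := fun x => ∏ g : alternatingGroup (Fin 5), α (s g) v₀ ^ (x.toAdd ((g : Equiv.Perm (Fin 5)) 4)).val
      map_one' := by simp
      map_mul' := fun x y => by
        rw [← Finset.prod_mul_distrib]
        exact Finset.prod_congr rfl fun g _ => z05_pow (hsq _) _ _ }
  have hθ : ∀ x, θ x = ∏ g : alternatingGroup (Fin 5),
      α (s g) v₀ ^ (x.toAdd ((g : Equiv.Perm (Fin 5)) 4)).val := fun _ => rfl
  have h1 : ∀ l v, θ (ψ (α l v)) = α l (θ (ψ v)) := by
    intro l v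
    rw [hθ, hθ, map_prod]
    refine (Fintype.prod_equiv (Equiv.mulLeft (ρ l)) _ _ fun g => ?_).symm
    rw [map_pow, ← MulAut.mul_apply, hα, heq]
    simp
  have h2 : ∀ v, ψ (θ (ψ v)) = ψ v := by
    intro v
    refine Multiplicative.toAdd.injective (funext fun i => ?_)
    rw [hθ, map_prod, toAdd_prod, Finset.sum_apply, ← z05_sum _ (hev v) i]
    refine Finset.sum_congr rfl fun g _ => ?_
    rw [map_pow, toAdd_pow, Pi.smul_apply, heq, hs, h0, nsmul_eq_mul, ZMod.natCast_zmod_val]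
  refine ⟨MonoidHom.id V / θ.comp ψ, fun l v => ?_, fun z hz => ?_⟩
  · change α l v / θ (ψ (α l v)) = v / θ (ψ v)
    rw [h1, ← map_div, hfix _ (by rw [map_div, h2, div_self'])]
  · change z / θ (ψ z) = z
    rw [hz, map_one, div_one]

theorem z05 : Z05.{u} := by
  intro M _ _ T L hB ⟨⟨hN, _, ρ, ψ, hr, hev, hsu, hk, heq⟩, ⟨e⟩⟩
  haveI : Fact (Nat.Prime 2) := ⟨Nat.prime_two⟩
  haveI := hB.ea.1
  letI : CommGroup (pCoreOf 2 L) := { (inferInstance : Group (pCoreOf 2 L)) with mul_comm := hB.ea.1.1.1 }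
  let ρ' : L →* alternatingGroup (Fin 5) := ρ.codRestrict _ fun l => hr ▸ ⟨l, rfl⟩
  have hρ : Function.Surjective ρ' := fun g => by
    obtain ⟨l, hl⟩ : (g : Equiv.Perm (Fin 5)) ∈ ρ.range := by rw [hr]; exact g.2
    exact ⟨l, Subtype.ext hl⟩
  have h60 : Nat.card (alternatingGroup (Fin 5)) = 60 := by
    rw [nat_card_alternatingGroup]; simp [Nat.factorial]
  have h1 : pCore 2 L ≤ ρ'.ker := by
    rw [← Subgroup.map_eq_bot_iff]
    refine (Normal.map inferInstance ρ' hρ).eq_bot_or_eq_top.resolve_right fun h => ?_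
    obtain ⟨k, hk⟩ := IsPGroup.iff_card.1 ((pCore_isPGroup 2 L).map ρ')
    rw [h, card_top, h60] at hk
    have : 3 ∣ 2 ^ k := hk ▸ by norm_num
    exact absurd (Nat.prime_three.dvd_of_dvd_pow this) (by norm_num)
  have h2 : pCore 2 L = ρ'.ker := by
    refine eq_of_le_of_card_ge h1 ?_
    have h3 := (pCore 2 L).card_mul_index
    have h4 := ρ'.ker.card_mul_index
    rw [index_ker, MonoidHom.range_eq_top.2 hρ, card_top, h60] at h4
    rw [index_eq_card, Nat.card_congr e.toEquiv, h60] at h3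
    omega
  let α : L →* MulAut (pCoreOf 2 L) := (pCoreOf 2 L).normalizerMonoidHom.comp (inclusion hN)
  have hα : ∀ (l : L) (v : pCoreOf 2 L), (α l v : M) = l * v * (l : M)⁻¹ := fun _ _ => rfl
  obtain ⟨v₀, h0⟩ := hsu z05x (by decide)
  obtain ⟨p, hp1, hp2⟩ := z05_proj α ρ' hρ
    (fun l hl => by
      have hl' : (l : M) ∈ pCoreOf 2 L := mem_map_of_mem L.subtype (h2 ▸ hl : l ∈ pCore 2 L)
      refine MulEquiv.ext fun v => Subtype.ext ?_
      have := congrArg Subtype.val (mul_comm (⟨l, hl'⟩ : pCoreOf 2 L) v)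
      rw [hα, mul_inv_eq_iff_eq_mul]
      exact this)
    ψ (fun l v i => by
      obtain ⟨w, hw, hi⟩ := heq l v
      rw [show α l v = w from Subtype.ext hw.symm]
      exact hi i)
    hev h0 (fun v => Subtype.ext (hB.ea.2 v v.2))
    (fun z hz l => Subtype.ext (by
      rw [hα, mul_inv_eq_iff_eq_mul]
      exact ((hk z).1 hz).2 l l.2))
  have h5 : pCoreOf 2 L ≤ p.ker.map (pCoreOf 2 L).subtype := by
    refine hB.comm.ge.trans (commutator_le.2 fun v hv l hl => ?_)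
    refine ⟨⟨v, hv⟩ * α ⟨l, hl⟩ ⟨v, hv⟩⁻¹, ?_, ?_⟩
    · change p _ = 1
      rw [map_mul, hp1, ← map_mul, mul_inv_cancel, map_one]
    · change v * (l * v⁻¹ * l⁻¹) = _
      rw [commutatorElement_def]; group
  refine eq_bot_iff.2 fun z hz => ?_
  obtain ⟨w, hw, rfl⟩ := h5 hz.1
  rw [← hp2 w ((hk w).2 hz), show p w = 1 from hw]
  exact one_mem _

end CL.HK
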